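import Cfsg.Agent.H4.BmO0
import Cfsg.Agent.H8.Parity
import Cfsg.Agent.H8.Transfer
import Cfsg.Agent.H9.FAdapt

/-!
A model of `Ω₈⁺(2)`, its Sylow 2-subgroup and the classes of 2-elements.
-/

set_option autoImplicit false
set_option maxRecDepth 100000

namespace Cfsg.Agent.H4.Bm.O

open Matrix Module BP T8 H8 QuadraticMap
open H7.Bit (toV)

/-- the index set -/
abbrev ι : Type := Fin 4 ⊕ Fin 4

/-- the natural module -/
abbrev W : Type := ι → ZMod 2

/-- the full orthogonal group -/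
abbrev O8 : Type := isometryGroup (ZMod 2) (quadFormPlus 4 (ZMod 2))

/-- the simple group -/
abbrev Om8 : Type := Omega (ZMod 2) (quadFormPlus 4 (ZMod 2))

/-- coding of the indices -/
abbrev en : ι ≃ Fin 8 := finSumFinEquiv

/-- the quadratic form -/
noncomputable def Q8 : QuadraticForm (ZMod 2) W := (exists_quadraticForm (Form.isNondeg_quadFormPlus 4 (ZMod 2))).choose

theorem coe_Q8 : ⇑Q8 = quadFormPlus 4 (ZMod 2) := (exists_quadraticForm (Form.isNondeg_quadFormPlus 4 (ZMod 2))).choose_spec.1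

theorem nd : ND Q8 := (exists_quadraticForm (Form.isNondeg_quadFormPlus 4 (ZMod 2))).choose_spec.2

theorem five : 5 ≤ finrank (ZMod 2) W := by simp

/-- the matrix of an element -/
def mat : Om8 →* Matrix ι ι (ZMod 2) := (Units.coeHom _).comp ((Subgroup.subtype _).comp (Subgroup.subtype _))

theorem mat_inj : Function.Injective mat := fun _ _ h => Subtype.ext (Subtype.ext (Units.ext h))

theorem mem_O {g : GL ι (ZMod 2)} : g ∈ isometryGroup (ZMod 2) (quadFormPlus 4 (ZMod 2)) ↔ toLE g ∈ OG Q8 := by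
  rw [← coe_Q8, isometryGroup_eq, mem_pull]

theorem mem_Om {g : O8} : g ∈ Omega (ZMod 2) (quadFormPlus 4 (ZMod 2)) ↔ toLE g.1 ∈ Om Q8 := by
  rw [← mem_pull, ← omegaGL_eq, coe_Q8, Geo.omegaGL]
  exact (Subgroup.mem_map_iff_mem Subtype.val_injective).symm

/-- an element as a linear automorphism -/
noncomputable def lin : Om8 →* W ≃ₗ[ZMod 2] W := toLE.toMonoidHom.comp ((Subgroup.subtype _).comp (Subgroup.subtype _))

theorem lin_apply (g : Om8) (v : W) : lin g v = mat g *ᵥ v := rfl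

theorem lin_inj : Function.Injective lin := fun _ _ h => Subtype.ext (Subtype.ext (toLE.injective h))

theorem lin_range : lin.range = Om Q8 := by
  ext g
  obtain ⟨g, rfl⟩ := toLE.surjective g
  exact ⟨fun ⟨a, h⟩ => h ▸ mem_Om.1 a.2, fun h => ⟨⟨⟨g, mem_O.2 (Om_le_OG h)⟩, mem_Om.2 h⟩, rfl⟩⟩

theorem split {a : W} (ha : Q8 a ≠ 0) {g : W ≃ₗ[ZMod 2] W} (hg : g ∈ OG Q8) : g ∈ Om Q8 ∨ refl Q8 a * g ∈ Om Q8 := by
  have h1 := refl_mul_self (Q := Q8) a
  have h2 := refl_mem_OG (Q := Q8) a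
  have h3 := fun b hb => refl_mul_refl_mem_Om nd five (a := a) (b := b)
    ((by decide : ∀ x y : ZMod 2, x ≠ 0 → y ≠ 0 → x = y) _ _ ha hb)
  generalize refl Q8 a = r at h1 h2 h3
  have h4 : r⁻¹ = r := inv_eq_of_mul_eq_one_right h1
  refine OG_gen_top nd ⟨⟨⟨{g | g ∈ Om Q8 ∨ r * g ∈ Om Q8}, ?_⟩, .inl (one_mem _)⟩, ?_⟩ (fun b hb => .inr (h3 b hb))
    (fun u v _ _ _ => .inl (siegel_mem_Om nd five u v)) hg
  · rintro x y (hx | hx) (hy | hy)
    · exact .inl (mul_mem hx hy)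
    · exact .inr (by simpa [h4, mul_assoc, ← mul_assoc r r, h1] using mul_mem (Om_conj h2 hx) hy)
    · exact .inr (mul_assoc r x y ▸ mul_mem hx hy)
    · exact .inl (by simpa [h4, mul_assoc, ← mul_assoc r r, h1] using mul_mem (Om_conj h2 hx) hy)
  · rintro x (hx | hx)
    · exact .inl (inv_mem hx)
    · exact .inr (by simpa [h4, mul_assoc, h1] using Om_conj h2 (inv_mem hx))

/-- the standard maximal totally singular subspace -/
def U0 : Submodule (ZMod 2) W := LinearMap.ker (LinearMap.funLeft (ZMod 2) (ZMod 2) Sum.inr)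

theorem mem_U0 {v : W} : v ∈ U0 ↔ ∀ i, v (.inr i) = 0 := funext_iff

theorem max_U0 : MaxTS Q8 U0 := ⟨fun x hx => by simp [coe_Q8, quadFormPlus, mem_U0.1 hx], by
  have := (LinearMap.funLeft (ZMod 2) (ZMod 2) (Sum.inr : Fin 4 → ι)).finrank_range_add_finrank_ker
  rw [LinearMap.range_eq_top.2 (LinearMap.funLeft_surjective_of_injective _ _ _ Sum.inr_injective)] at this
  simp only [finrank_top, finrank_fintype_fun_eq_card, Fintype.card_sum, Fintype.card_fin] at this ⊢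
  exact congrArg (2 * ·) (add_left_cancel this)⟩

/-- membership in `Ω` is decided by a parity -/
theorem mem_Om_iff {g : W ≃ₗ[ZMod 2] W} (hg : g ∈ OG Q8) {U : Submodule (ZMod 2) W} (hU : MaxTS Q8 U) :
    g ∈ Om Q8 ↔ Even (finrank (ZMod 2) ↥(U ⊓ U.map (g : W →ₗ[ZMod 2] W))) := by
  have h1 : finrank (ZMod 2) ↥(U ⊓ U) = 4 := by
    have := hU.2
    simp only [finrank_fintype_fun_eq_card, Fintype.card_sum, Fintype.card_fin] at this
    rw [inf_idem]; omega
  refine ⟨fun h => by have := Om_parity nd five h hU hU; rw [h1] at this; grind, fun h => ?_⟩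
  have ha : Q8 (Pi.single (.inl 0) 1 + Pi.single (.inr 0) 1) ≠ 0 := by rw [coe_Q8]; decide
  refine (split ha hg).elim id fun h2 => absurd (refl_parity nd hU (hU.map hg) ha) ?_
  have := Om_parity nd five h2 hU hU
  rw [h1, LinearEquiv.coe_toLinearMap_mul, End.mul_eq_comp, Submodule.map_comp] at this
  grind

theorem card : Nat.card Om8 = 174182400 := by
  have h1 := H9.FOrd.card_isom_orth_plus (ZMod.card 2) 4 (Form.quadPQ_nondeg (Form.isNondeg_quadFormPlus 4 (ZMod 2)))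
    (H9.FAdapt.finrank_sum 4) (mul_left_cancel₀ two_ne_zero ((H9.FAdapt.plus_oP (F := ZMod 2) 4).trans (by simp)))
  rw [← Form.isometryGroup_map, Subgroup.card_map_of_injective Form.glEquiv.injective,
    show 2 * 2 ^ (4 * (4 - 1)) * H9.Count.P (2 ^ 2) 4 = 174182400 * 2 * (2 ^ 4 + 1) by decide] at h1
  have ha : Q8 (Pi.single (.inl 0) 1 + Pi.single (.inr 0) 1) ≠ 0 := by rw [coe_Q8]; decide
  have h2 : (Omega (ZMod 2) (quadFormPlus 4 (ZMod 2))).index = 2 := Subgroup.index_eq_two_iff'.2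
    ⟨⟨toLE.symm (refl Q8 (Pi.single (.inl 0) 1 + Pi.single (.inr 0) 1)), mem_O.2 (by simpa using refl_mem_OG _)⟩, fun b => by
      simp only [mem_Om, Subgroup.coe_mul, map_mul, MulEquiv.apply_symm_apply]
      refine (split ha (mem_O.1 b.2)).elim (fun h => .inr ⟨h, fun h' => ?_⟩) fun h => .inl ⟨h, fun h' => ?_⟩ <;>
      · have h1 := Om_parity nd five ((mul_mem_cancel_right ‹toLE b.1 ∈ _›).1 ‹_ * _ ∈ _›) max_U0 max_U0
        have := refl_parity nd max_U0 max_U0 ha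
        grind⟩
  exact mul_right_cancel₀ two_ne_zero ((h2 ▸ Subgroup.card_mul_index _).trans (mul_right_cancel₀ (by decide) h1))

theorem Q_toV : ∀ v < 256, quadFormPlus 4 (ZMod 2) (toV (ZMod 2) en v) = if qb v then 1 else 0 := by decide +kernel

theorem toV_U0 : ∀ v < 256, (∀ i, toV (ZMod 2) en v (.inr i) = 0) ↔ v < 16 := by decide +kernel

theorem T_app (a v : ℕ) : T en a *ᵥ toV (ZMod 2) en v = toV (ZMod 2) en (H7.Bit.app 8 8 a v) := (H7.Bit.toV_app ..).symm

theorem iso_spec {a : ℕ} (h : iso a = true) : ∃ g : O8, g.1.1 = T en a := by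
  have h1 : ∀ j, T en a *ᵥ Pi.single j 1 = toV (ZMod 2) en (H7.Bit.col 8 a (en j)) := fun j => funext fun i => by
    rw [mulVec_single_one, H7.Bit.toV_col]; rfl
  have h2 := fun j : ι => allLt_spec h _ (en j).2
  simp only [force_eq, Bool.and_eq_true] at h2
  have h3 : ∀ j, Q8 (T en a *ᵥ Pi.single j 1) = Q8 (Pi.single j 1) := fun j => by
    rw [h1, coe_Q8, Q_toV _ (col_lt ..), if_neg (by simpa using (h2 j).1)]
    revert j; decide
  have h4 : ∀ j k, en k < en j → Q8 (T en a *ᵥ Pi.single j 1 + T en a *ᵥ Pi.single k 1) =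
      Q8 (Pi.single j 1 + Pi.single k 1) := fun j k hk => by
    have := allLt_spec (h2 j).2 _ hk
    rw [h1, h1, ← H7.Bit.toV_xor, coe_Q8, Q_toV _ (Nat.xor_lt_two_pow (col_lt ..) (col_lt ..))]
    generalize qb _ = b at this
    revert j k b; decide
  have h5 : ∀ v w, polar Q8 (T en a *ᵥ v) (T en a *ᵥ w) = polar Q8 v w := fun v w => LinearMap.congr_fun₂
    (LinearMap.ext_basis (B := Q8.polarBilin.compl₁₂ (T en a).mulVecLin (T en a).mulVecLin) (B' := Q8.polarBilin)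
      (Pi.basisFun _ _) (Pi.basisFun _ _) fun j k => by
        simp only [Pi.basisFun_apply, LinearMap.compl₁₂_apply, mulVecLin_apply, polarBilin_apply_apply]
        rcases lt_trichotomy (en k) (en j) with h | h | h
        · rw [polar, polar, h3, h3, h4 _ _ h]
        · rw [en.injective h, pol_self, pol_self, h3]
        · rw [polar, polar, h3, h3, add_comm, h4 _ _ h, add_comm]) v w
  have h6 : IsUnit (T en a) := mulVec_injective_iff_isUnit.1 ((injective_iff_map_eq_zero (T en a).mulVecLin).2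
    fun v hv => nd v fun w => by rw [← h5, show T en a *ᵥ v = 0 from hv, polar_zero_left])
  refine ⟨⟨h6.unit, mem_O.2 fun v => ?_⟩, rfl⟩
  change Q8 (T en a *ᵥ v) = _
  induction v using Pi.single_induction with
  | zero => simp
  | add v w hv hw => rw [mulVec_add, Q_add, Q_add, hv, hw, h5]
  | single j c => rw [← mul_one c, ← smul_eq_mul, Pi.single_smul, mulVec_smul, Q_smul, Q_smul, h3]

theorem vb_spec (a : ℕ) (h : vb a = true) : PV mat (T en) a := by
  simp only [vb, force_eq, Bool.and_eq_true, Bool.or_eq_true, Nat.beq_eq] at h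
  obtain ⟨g, hg⟩ := iso_spec h.1
  refine ⟨⟨g, mem_Om.2 ((mem_Om_iff (mem_O.1 g.2) max_U0).2 ?_)⟩, hg⟩
  have h1 : ∀ m, cntK a m = Nat.count (fun x => H7.Bit.app 8 8 a x < 16) m := fun m => by
    induction m with
    | zero => rfl
    | succ m ih =>
      rw [Nat.count_succ, ← ih]
      change Bool.rec (motive := fun _ => ℕ) (cntK a m) (cntK a m + 1) (Nat.blt (H7.Bit.app 8 8 a m) 16) = _
      by_cases h : H7.Bit.app 8 8 a m < 16
      · rw [Nat.blt_eq.mpr h, if_pos h]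
      · rw [Bool.eq_false_iff.2 (mt Nat.blt_eq.mp h), if_neg h]; rfl
  have h2 : ∀ x, toLE g.1 (toV (ZMod 2) en x) = toV (ZMod 2) en (H7.Bit.app 8 8 a x) := fun x => by rw [toLE_apply, hg, T_app]
  have h3 : cntK a 16 = Nat.card ↥(U0 ⊓ U0.map (toLE g.1 : W →ₗ[ZMod 2] W)) := by
    rw [h1, Nat.count_eq_card_fintype, ← @Nat.card_eq_fintype_card _ (_)]
    refine Nat.card_congr (Equiv.ofBijective (fun x => ⟨toLE g.1 (toV (ZMod 2) en x), h2 _ ▸ mem_U0.2 ((toV_U0 _ (app_lt ..)).2 x.2.2),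
      _, mem_U0.2 ((toV_U0 _ (by have := x.2.1; omega)).2 x.2.1), rfl⟩) ⟨fun x y e => Subtype.ext (toV_inj en
        (by have := x.2.1; omega) (by have := y.2.1; omega) ((toLE g.1).injective (congrArg Subtype.val e))), ?_⟩)
    rintro ⟨_, h4, u, h5, rfl⟩
    obtain ⟨x, hx, rfl⟩ := exists_vec en u
    exact ⟨⟨x, (toV_U0 _ hx).1 (mem_U0.1 h5), (toV_U0 _ (app_lt ..)).1 (mem_U0.1 (h2 x ▸ h4))⟩, rfl⟩
  rw [h3, natCard_eq_pow_finrank (K := ZMod 2), Nat.card_zmod] at h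
  generalize finrank (ZMod 2) ↥(U0 ⊓ U0.map (toLE g.1 : W →ₗ[ZMod 2] W)) = d at h
  rcases h.2 with (h | h) | h
  · simp_all
  · rw [Nat.pow_right_injective le_rfl (h.trans (show 4 = 2 ^ 2 from rfl))]; decide
  · rw [Nat.pow_right_injective le_rfl (h.trans (show 16 = 2 ^ 4 from rfl))]; decide

/-- valid codes -/
abbrev Val : ℕ → Prop := PV mat (T en)

/-- the coded element -/
noncomputable abbrev φ : ℕ → Om8 := Pφ mat (MonoidHom.id _) (T en)

theorem T_I : T en I = 1 := by decide +kernel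

theorem M : Mdl mu I vb Val φ := mdl en mat_inj (by decide) T_I vb_spec

theorem mat_φ {a : ℕ} (h : Val a) : mat (φ a) = T en a := j_φ en mat_inj h

theorem T_mu (a b : ℕ) : T en (mu a b) = T en a * T en b := (fm_spec en (by decide) a b).1

theorem mu_lt (a b : ℕ) : mu a b < 2 ^ 64 := (fm_spec en (by decide) a b).2

theorem surj (g : Om8) : ∃ a < 2 ^ 64, Val a ∧ φ a = g := φ_surj en mat_inj g

theorem inj {a b : ℕ} (ha : a < 2 ^ 64) (hb : b < 2 ^ 64) (ha' : Val a) (hb' : Val b) (h : φ a = φ b) : a = b :=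
  φ_inj en mat_inj ha hb ha' hb' h

theorem val_rep (j : ℕ) : Val (rep j) :=
  (gt_mem _ _ j).elim (fun h => (show rep j = I from h) ▸ M.val_e) fun h =>
    vb_spec _ (List.all_eq_true.1 (by decide +kernel) _ h)

/-- the Sylow 2-subgroup -/
def B : Subgroup Om8 := Tri mat (Sum.elim Fin.val fun i => 7 - i.1)

/-- codes of elements of the Sylow 2-subgroup -/
def InB (a : ℕ) : Prop := Val a ∧ φ a ∈ B ∧ a < 2 ^ 64

theorem ib_spec (a : ℕ) (h : ib a = true) : InB a := by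
  simp only [ib, Bool.and_eq_true, Nat.beq_eq] at h
  refine ⟨vb_spec a h.1, mem_Tri en mat_inj T_I (by decide +kernel) (vb_spec a h.1) h.2, ?_⟩
  have h1 : Nat.xor a I < 2 ^ 64 := h.2 ▸ Nat.and_lt_two_pow _ (by decide)
  simpa using Nat.xor_lt_two_pow h1 (show I < 2 ^ 64 by decide)

theorem syl0 : (∀ a ∈ LB, InB a) ∧ (∀ g ∈ B, ∃ a ∈ LB, φ a = g) ∧ Nat.card B = 2 ^ 12 ∧
    ∀ P : Subgroup Om8, IsPGroup 2 P → ∃ g, ∀ x ∈ P, g * x * g⁻¹ ∈ B :=
  syl en mat_inj (by decide) T_I (by decide) (by decide) (fun z hz => ib_spec z (by revert z; decide +kernel)) c_keys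
    (by rw [card]; decide)

theorem InB.one : InB I := ⟨M.val_e, M.φ_e ▸ one_mem _, by decide⟩

theorem InB.mul (a b : ℕ) (ha : InB a) (hb : InB b) : InB (mu a b) :=
  ⟨M.val_mu _ _ ha.1 hb.1, M.φ_mu _ _ ha.1 hb.1 ▸ mul_mem ha.2.1 hb.2.1, mu_lt a b⟩

theorem InB.mem {a : ℕ} (h : InB a) : a ∈ LB := by
  obtain ⟨b, h1, h2⟩ := syl0.2.1 _ h.2.1
  rwa [← inj (syl0.1 b h1).2.2 h.2.2 (syl0.1 b h1).1 h.1 h2]

theorem InB.conj {a : ℕ} (h : InB a) : cl a < 14 ∧ IsConj (φ a) (φ (rep (cl a))) :=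
  ⟨by simpa [forceL_eq] using List.all_eq_true.1 ((forceL_eq ..).symm.trans c_cl) a h.mem,
    clsB_spec M val_rep (fun a ha => (syl0.1 a ha).1) c_cls a h.mem⟩

theorem cls {x : Om8} {k : ℕ} (h : x ^ 2 ^ k = 1) : ∃ j < 14, IsConj x (φ (rep j)) := by
  obtain ⟨g, hg⟩ := syl0.2.2.2 (Subgroup.zpowers x) (IsPGroup.of_card_dvd_pow (by
    rw [Nat.card_zpowers]; exact orderOf_dvd_of_pow_eq_one h))
  obtain ⟨a, h1, h2⟩ := syl0.2.1 _ (hg x (Subgroup.mem_zpowers x))
  exact ⟨_, (syl0.1 a h1).conj.1, (isConj_iff.2 ⟨g, h2.symm⟩).trans (syl0.1 a h1).conj.2⟩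

end Cfsg.Agent.H4.Bm.O
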