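import Cfsg.Agent.H1.Basic
import Cfsg.Agent.H8.Core

/-!
From a vector fixed by a normal subgroup of index dividing six to a large abelian subgroup.
-/

set_option autoImplicit false

namespace Cfsg.Agent.H4.Asm

open Module

theorem line {H V : Type*} [Group H] [Finite H] [AddCommGroup V] [Module (ZMod 3) V] (ρ : H →* End (ZMod 3) V)
    (S : Subgroup H) [hS : S.Normal] (hi : S.index ∣ 6) {w : V} (h0 : w ≠ 0) (hw : ∀ a ∈ S, ρ a w = w) :
    ∃ x ≠ 0, ∀ a : H, ∃ c : ZMod 3, c * c = 1 ∧ ρ a x = c • x := by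
  obtain ⟨P⟩ : Nonempty (Sylow 3 H) := inferInstance
  obtain ⟨v, h3, h1, h4⟩ := H1.Basic.exists_fixed_vector P.2 (ρ.comp P.1.subtype) (⨅ a ∈ S, (ρ a).eigenspace 1)
    (fun g v hv => by
      simp only [Submodule.mem_iInf, End.mem_eigenspace_iff, one_smul] at hv ⊢
      exact fun a ha => (by simp [← End.mul_apply, ← map_mul, mul_assoc] : _ = ρ g (ρ (g⁻¹ * a * g) v)).trans
        (congrArg _ (hv _ (hS.conj_mem' a ha g))))
    ((Submodule.ne_bot_iff _).2 ⟨w, by simpa using hw, h0⟩)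
  let K : Subgroup H := ⟨⟨⟨{a | ρ a v = v}, fun {a b} ha hb => by simp_all⟩, by simp⟩, fun {a} ha => by
    have := congrArg (ρ a⁻¹) ha
    rw [← End.mul_apply, ← map_mul, inv_mul_cancel, map_one] at this
    exact this.symm⟩
  have h5 : K.index ∣ 6 := (Subgroup.index_dvd_of_le (H := S) (by simpa using h3 : ∀ i ∈ S, ρ i v = v)).trans hi
  have h6 : ¬ 3 ∣ K.index := fun h => P.not_dvd_index (h.trans (Subgroup.index_dvd_of_le fun a ha => h4 ⟨a, ha⟩))
  have h2 : ∀ a ∈ K, ρ a v = v := fun _ h => h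
  generalize K = S at h2 h5 h6
  by_cases h : ∀ a, a ∈ S
  · exact ⟨v, h1, fun a => ⟨1, rfl, by rw [h2 a (h a), one_smul]⟩⟩
  obtain ⟨b, hb⟩ := not_forall.1 h
  have h4 : S.index = 2 := by
    have := S.index_eq_one.not.2 fun e => hb (e ▸ Subgroup.mem_top b)
    have := Nat.le_of_dvd (by decide) h5
    generalize S.index = n at *
    interval_cases n <;> simp_all
  have h5 : ∀ a ∉ S, ρ a v = ρ b v := fun a ha => by
    rw [← mul_inv_cancel_left b a, map_mul, End.mul_apply, h2 _ ((Subgroup.mul_mem_iff_of_index_two h4).2 (by simp [ha, hb]))]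
  by_cases h6 : v + ρ b v = 0
  · refine ⟨v, h1, fun a => ?_⟩
    by_cases ha : a ∈ S
    · exact ⟨1, rfl, by rw [h2 a ha, one_smul]⟩
    · exact ⟨-1, rfl, by rw [h5 a ha, neg_one_smul, eq_neg_of_add_eq_zero_right h6]⟩
  refine ⟨_, h6, fun a => ⟨1, rfl, ?_⟩⟩
  rw [one_smul, map_add, ← End.mul_apply, ← map_mul]
  by_cases ha : a ∈ S
  · rw [h2 a ha, h5 _ ((Subgroup.mul_mem_iff_of_index_two h4).not.2 (by simp [ha, hb]))]
  · rw [h5 a ha, h2 _ ((Subgroup.mul_mem_iff_of_index_two h4).2 (by simp [ha, hb])), add_comm]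

theorem ab {H X : Type*} [Group H] [Finite H] [Group X] {S : Subgroup H} [S.Normal] (e : S ≃* X) (A : Subgroup H)
    (hA : IsMulCommutative A) : ∃ (A' : Subgroup X) (n : ℕ), IsMulCommutative A' ∧ n ∣ S.index ∧ Nat.card A = Nat.card A' * n := by
  refine ⟨(A.subgroupOf S).map e.toMonoidHom, S.relIndex A, inferInstance, S.relIndex_dvd_index_of_normal A, ?_⟩
  rw [Subgroup.card_map_of_injective e.injective, ← (S.subgroupOf A).card_mul_index, ← A.inf_subgroupOf_right,
    ← S.inf_subgroupOf_right, Nat.card_congr (Subgroup.subgroupOfEquivOfLe inf_le_right).toEquiv,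
    Nat.card_congr (Subgroup.subgroupOfEquivOfLe inf_le_right).toEquiv, inf_comm S, S.inf_subgroupOf_left]
  rfl

theorem fin {H : Subgroup (Lie.chevE8.group (ZMod 3))} (hc : IsCoatom H) (S : Subgroup H) [S.Normal] (hi : S.index ∣ 6)
    {X : Type*} [Group X] (e : S ≃* X)
    (h : ∃ v ≠ 0, ∀ g, T8.rho.comp (H.subtype.comp (S.subtype.comp e.symm.toMonoidHom)) g v = v) :
    ∃ A : Subgroup H, IsMulCommutative A ∧ ¬ 3 ∣ Nat.card A ∧ 256 ≤ Nat.card A := by
  obtain ⟨v, h1, h2⟩ := h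
  obtain ⟨x, h4, h5⟩ := line (T8.rho.comp H.subtype) S hi h1 fun a ha => by simpa using h2 (e ⟨a, ha⟩)
  exact H8.Core.core' hc (x := algebraMap (ZMod 3) T8.KK ∘ x)
    (fun e => h4 (funext fun i => (map_eq_zero _).1 (congrFun e i)))
    (funext fun i => RingHom.congr_fun (Subsingleton.elim ((frobenius _ 3).comp (algebraMap (ZMod 3) T8.KK))
      (algebraMap (ZMod 3) T8.KK)) _) fun a ha => by
      obtain ⟨c, h6, h7⟩ := h5 ⟨a, ha⟩
      refine ⟨algebraMap _ _ c, by rw [← map_mul, h6, map_one], funext fun i => ?_⟩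
      rw [Fx.FF_val, ← RingHom.map_mulVec]
      exact (congrArg _ (congrFun h7 i)).trans (map_mul _ _ _)

end Cfsg.Agent.H4.Asm
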