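import Cfsg.Agent.H4.LpB
import Cfsg.Agent.H4.LpS0

/-!
`Sp₆(2)` fixes a vector in the adjoint module of `E₈(3)`.
-/

set_option autoImplicit false
set_option maxRecDepth 100000

namespace Cfsg.Agent.H4.Bm.S

open Module BP T8

variable {V : Type*} [AddCommGroup V] [Module (ZMod 3) V] [FiniteDimensional (ZMod 3) V] {ρ : Sp6 →* End (ZMod 3) V}

theorem grp {zs : List ℕ} {cs : List ℤ} (h : grpC mu I ib cl zs cs = true) :
    ∑ j ∈ Finset.range 16, cs.getD j 0 * tau ⊤ (ρ (φ (rep j))) = 2 ^ zs.length * (finrank (ZMod 3) (fx (zs.map (op ρ φ))) : ℤ) :=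
  grpC_spec M ρ (by decide) (fun _ => Nat.mod_lt _ (by decide)) InB.one InB.mul (fun _ h => ⟨h.1, h.conj.2⟩) ib_spec h

theorem lp (h : Fac ρ) : (∃ v ≠ 0, (∀ g ∈ B, ρ g v = v) ∧ ∀ i < 3, ρ (φ (ys i)) v = v) ∧
    tau ⊤ (ρ (φ (rep 1))) ≠ tau ⊤ (ρ (φ (rep 4))) := by
  have h0 : tau ⊤ (ρ (φ (rep 0))) = 248 := (congrArg (fun x => tau ⊤ (ρ x)) M.φ_e).trans h.tau_one
  have h1 := fun j (hj : j < 12) (e : rep j < 2 ^ 36 ∧ rep j ≠ I) => mem_poss_rep M h val_rep rfl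
    (sq := gt [0, 0, 0, 0, 0, 2, 3, 3, 2, 3, 8, 5] 0) (by decide +kernel) hj
    fun e' => e.2 (inj e.1 (by decide) (val_rep j) M.val_e (e'.trans M.φ_e.symm))
  have s0 := grp (ρ := ρ) c_s0
  have s1 := grp (ρ := ρ) c_s1
  have s2 := grp (ρ := ρ) c_s2
  have s3 := grp (ρ := ρ) c_s3
  have b := grp (ρ := ρ) c_B
  have z0 := grp (ρ := ρ) c_z0
  have z1 := grp (ρ := ρ) c_z1
  have z2 := grp (ρ := ρ) c_z2
  have hU : ∀ v ∈ fx ((zs.map (2 * ·)).map (op ρ φ)), ∀ g ∈ B, ρ g v = v := fun v hv g hg => by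
    obtain ⟨a, h2, rfl⟩ := syl0.2.1 g hg
    exact fix_prods M ρ (fun z hz => (ib_spec z (by revert z; decide +kernel)).1) hv a h2
  obtain ⟨t, ht⟩ : ∃ t : ℕ → ℤ, ∀ j, tau ⊤ (ρ (φ (rep j))) = t j := ⟨_, fun _ => rfl⟩
  simp only [ht] at h0 h1 ⊢
  simp only [Finset.sum_range_succ, Finset.sum_range_zero, List.getD_cons_succ, List.getD_cons_zero, ht, h0, List.length_cons,
    List.length_nil, show ∀ i, (zl i).length = 9 from fun _ => rfl, show (zs.map (2 * ·)).length = 9 from rfl]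
    at s0 s1 s2 s3 b z0 z1 z2
  have h2 := c_enum (t 1) (h0 ▸ h1 1 (by decide) (by decide)) (t 2) (h0 ▸ h1 2 (by decide) (by decide))
    (t 3) (h0 ▸ h1 3 (by decide) (by decide)) (t 4) (h0 ▸ h1 4 (by decide) (by decide))
    (t 5) (h0 ▸ h1 5 (by decide) (by decide)) (ok s0) (t 6) (h0 ▸ h1 6 (by decide) (by decide))
    (t 7) (h0 ▸ h1 7 (by decide) (by decide)) (ok s1) (t 8) (h0 ▸ h1 8 (by decide) (by decide))
    (t 9) (h0 ▸ h1 9 (by decide) (by decide)) (t 10) (h1 10 (by decide) (by decide)) (ok s2) (ok s3)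
    (t 11) (h1 11 (by decide) (by decide)) (ok b) (ok z0) (ok z2)
  refine ⟨?_, h2.2⟩
  obtain ⟨v, h3, h4⟩ := chain_fix M (fun a h => ⟨(ib_spec a h).1, (ib_spec a h).2.1⟩) (allLt_spec c_step) _ hU (by
    simp only [Finset.sum_range_succ, Finset.sum_range_zero]; zify; linarith [h2.1])
  exact ⟨v, h4.1, hU v h3, h4.2⟩

end Cfsg.Agent.H4.Bm.S
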