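import Cfsg.Agent.H4.Asm
import Cfsg.Agent.H4.LpO
import Cfsg.Agent.H4.LpS
import Cfsg.Agent.H8.Gen
import Cfsg.Agent.H3.HOe
import Cfsg.Agent.H1.ABc
import Cfsg.Agent.H2.E8H

/-!
`Sp₆(2)` and `Ω₈⁺(2)` in `E₈(3)`.
-/

set_option autoImplicit false

namespace Cfsg.Agent.H4.Asm

open Module T8

/-- the stabilizer of a vector -/
def stab {G V : Type*} [Group G] [AddCommGroup V] [Module (ZMod 3) V] (ρ : G →* End (ZMod 3) V) (v : V) : Subgroup G :=
  ⟨⟨⟨{a | ρ a v = v}, fun {a b} ha hb => by simp_all⟩, by simp⟩, fun {a} ha => by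
    have := congrArg (ρ a⁻¹) ha
    rw [← End.mul_apply, ← map_mul, inv_mul_cancel, map_one] at this
    exact this.symm⟩

variable {H : Subgroup (Lie.chevE8.group (ZMod 3))}

theorem tau_conj (a b : H) : tau ⊤ (rho (a * b * a⁻¹ : H).1) = tau ⊤ (rho b.1) := by
  simp only [tau, dm_conj rho (show (a * b * a⁻¹ : H).1 * a = a * b by simp)]

theorem fac' {S : Subgroup H} {X : Type*} [Group X] (e : S ≃* X) :
    Fac (rho.comp (H.subtype.comp (S.subtype.comp e.symm.toMonoidHom))) :=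
  fac.comp _ (Subtype.val_injective.comp (Subtype.val_injective.comp e.symm.injective))

theorem sp (e : generalizedFittingSubgroup H ≃* Bm.S.Sp6) : ¬ IsCoatom H := fun hc => by
  have := H2.E8H.gfit_normal (H := H)
  obtain ⟨⟨v, h1, h2, h3⟩, h4⟩ := Bm.S.lp (fac' e)
  have h5 := Subgroup.index_eq_one.2 (H3.HO.sp e (fun a => tau ⊤ (rho a.1)) tau_conj h4)
  obtain ⟨A, h6, h7, h8⟩ := fin hc _ (h5 ▸ one_dvd _) e
    ⟨v, h1, fun g => (H8.Gen.sp (stab _ v) h2 h3).ge (Subgroup.mem_top g)⟩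
  obtain ⟨A', n, h9, h10, h11⟩ := ab e A h6
  rw [h11, Nat.dvd_one.1 (h10.trans h5.dvd), mul_one] at h7 h8
  exact (H1.AB.sp A' h7).not_ge h8

theorem om (e : generalizedFittingSubgroup H ≃* Bm.O.Om8) : ¬ IsCoatom H := fun hc => by
  have := H2.E8H.gfit_normal (H := H)
  obtain ⟨⟨v, h1, h2, h3⟩, h4⟩ := Bm.O.lp (fac' e)
  have h5 := H3.HO.om e (fun a => tau ⊤ (rho a.1)) tau_conj h4.1 h4.2.1 h4.2.2
  obtain ⟨A, h6, h7, h8⟩ := fin hc _ h5 e ⟨v, h1, fun g => (H8.Gen.om (stab _ v) h2 h3).ge (Subgroup.mem_top g)⟩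
  obtain ⟨A', n, h9, h10, h11⟩ := ab e A h6
  rw [h11] at h7 h8
  have h12 : Nat.card A' < 128 := H1.AB.om A' fun h => h7 (h.mul_right _)
  generalize Nat.card A' = m at h7 h8 h12
  replace h10 := h10.trans h5
  have := Nat.le_of_dvd (by decide) h10
  interval_cases n <;> omega

end Cfsg.Agent.H4.Asm
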