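import Cfsg.Agent.H4.BPTC

/-!
Tables for the action on an initial segment.
-/

set_option autoImplicit false

namespace Cfsg.Agent.H4.BP

open Equiv
open scoped commutatorElement

/-- the permutations mapping the numbers below `m` to themselves -/
def Pres (m : ℕ) : Subgroup (Perm ℕ) where
  carrier := {g | ∀ i < m, g i < m}
  one_mem' := fun _ h => h
  mul_mem' := fun {a b} ha hb i hi => ha _ (hb i hi)
  inv_mem' := fun {a} ha i hi => by
    have h1 : Function.Injective fun x : Fin m => (⟨a x, ha x x.2⟩ : Fin m) := fun x y e =>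
      Fin.ext (a.injective (congrArg Fin.val e))
    obtain ⟨x, hx⟩ := Finite.surjective_of_injective h1 ⟨i, hi⟩
    rw [show a⁻¹ i = x from Perm.inv_eq_iff_eq.2 (congrArg Fin.val hx).symm]
    exact x.2

/-- the table describes the permutation below `m` -/
def Rep (m : ℕ) (g : Perm ℕ) (T : ℕ) : Prop := ∀ i < m, g i = lk T i

/-- evaluation of a word of tables -/
noncomputable def evT (L : ℕ → ℕ) (w : List ℕ) (i : ℕ) : ℕ :=
  List.rec (motive := fun _ => ℕ) i (fun s _ ih => lk (L s) ih) w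

/-- tables of conjugates along a tree -/
noncomputable def ftree (L M : ℕ → ℕ) (m : ℕ) (l : List (ℕ × ℕ)) : ℕ → ℕ :=
  List.rec (motive := fun _ => ℕ → ℕ) (fun X => X) (fun a _ ih X =>
    force (L a.2) fun li => force (lk li a.1) fun x => force (M x) fun rx => force (M a.1) fun ry =>
      Bool.rec X (force (Nat.lor X (Nat.pow 2 x)) ih)
        (tb X a.1 && allLt (fun t => Nat.beq (lk rx (lk li t)) (lk li (lk ry t))) m)) l

/-- a chain of commutators -/
noncomputable def slp (L : ℕ → ℕ) (m : ℕ) (l : List (List ℕ × ℕ × ℕ)) (k : ℕ → Bool) : ℕ → Bool :=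
  List.rec (motive := fun _ => ℕ → Bool) k (fun a _ ih X =>
    allLt (fun i => Nat.beq (lk a.2.1 (evT L a.1 i)) (evT L a.1 (lk X i)) &&
      Nat.beq (lk a.2.2 (lk a.2.1 (lk X i))) (lk X (lk a.2.1 i))) m && ih a.2.2) l

variable {m : ℕ} {H : Subgroup (Perm ℕ)} (hH : H ≤ Pres m) {h : ℕ → Perm ℕ} {L : ℕ → ℕ}
  (hL : ∀ i, h i ∈ H ∧ Rep m (h i) (L i))

include hL in
theorem prod_mem (w : List ℕ) : (w.map h).prod ∈ H :=
  Subgroup.list_prod_mem _ fun x hx => by
    obtain ⟨a, -, rfl⟩ := List.mem_map.1 hx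
    exact (hL a).1

include hH hL in
theorem evT_spec (w : List ℕ) : ∀ i < m, (w.map h).prod i = evT L w i := by
  intro i hi
  induction w with
  | nil => rfl
  | cons s w ih =>
    change _ = lk (L s) (evT L w i)
    rw [List.map_cons, List.prod_cons, Perm.mul_apply, ← ih, (hL s).2 _ (hH (prod_mem hL w) i hi)]

include hH hL in
theorem ftree_spec {τ : ℕ → Perm ℕ} (hτ : ∀ g ∈ H, ∀ y < m, g * τ y * g⁻¹ = τ (g y)) {M : ℕ → ℕ}
    (l : List (ℕ × ℕ)) (X : ℕ) (hX : ∀ x, X.testBit x → x < m ∧ τ x ∈ H ∧ Rep m (τ x) (M x)) :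
    ∀ x, (ftree L M m l X).testBit x → x < m ∧ τ x ∈ H ∧ Rep m (τ x) (M x) := by
  induction l generalizing X with
  | nil => exact hX
  | cons a l ih =>
    change ∀ x, (force (L a.2) fun li => force (lk li a.1) fun x => force (M x) fun rx => force (M a.1) fun ry =>
      Bool.rec X (force (X ||| 2 ^ x) (ftree L M m l))
        (tb X a.1 && allLt (fun t => Nat.beq (lk rx (lk li t)) (lk li (lk ry t))) m) : ℕ).testBit x → _
    simp only [force_eq]
    cases hc : (tb X a.1 && allLt (fun t => Nat.beq (lk (M (lk (L a.2) a.1)) (lk (L a.2) t))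
      (lk (L a.2) (lk (M a.1) t))) m)
    · exact hX
    · rw [Bool.and_eq_true, tb_eq] at hc
      refine ih _ fun x hx => ?_
      rw [Nat.testBit_or, Bool.or_eq_true, Nat.testBit_two_pow, decide_eq_true_eq] at hx
      rcases hx with hx | rfl
      · exact hX x hx
      · obtain ⟨h1, h2, h3⟩ := hX _ hc.1
        obtain ⟨h4, h5⟩ := hL a.2
        have h6 := hτ _ h4 _ h1
        rw [← h5 _ h1, ← h6]
        refine ⟨hH h4 _ h1, H.mul_mem (H.mul_mem h4 h2) (H.inv_mem h4), fun t ht => ?_⟩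
        have h7 := hH (H.inv_mem h4) t ht
        have h8 := Nat.eq_of_beq_eq_true (allLt_spec hc.2 _ h7)
        rw [← h5 _ h7, ← h3 _ h7, ← h5 _ (hH h2 _ h7), ← h5 _ h1, show h a.2 ((h a.2)⁻¹ t) = t by simp] at h8
        rw [h8]; rfl

include hH hL in
theorem slp_spec {k : ℕ → Bool} (l : List (List ℕ × ℕ × ℕ)) (j X : ℕ) (x : H) (hx : x ∈ derivedSeries H j)
    (hX : Rep m x X) (hc : slp L m l k X = true) :
    ∃ (y : H) (Y : ℕ), y ∈ derivedSeries H (j + l.length) ∧ Rep m y Y ∧ k Y = true := by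
  induction l generalizing j X x with
  | nil => exact ⟨x, X, hx, hX, hc⟩
  | cons a l ih =>
    change (allLt (fun i => Nat.beq (lk a.2.1 (evT L a.1 i)) (evT L a.1 (lk X i)) &&
      Nat.beq (lk a.2.2 (lk a.2.1 (lk X i))) (lk X (lk a.2.1 i))) m && slp L m l k a.2.2) = true at hc
    rw [Bool.and_eq_true] at hc
    have h1 := fun i hi => Bool.and_eq_true_iff.1 (allLt_spec hc.1 i hi)
    let c : H := ⟨_, prod_mem hL a.1⟩
    have hc1 : ∀ i < m, c.1 i = evT L a.1 i := evT_spec hH hL a.1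
    have hy : Rep m (c * x * c⁻¹ : H) a.2.1 := fun t ht => by
      have h7 := hH (c⁻¹).2 t ht
      have h8 := Nat.eq_of_beq_eq_true (h1 _ h7).1
      rw [← hX _ h7, ← hc1 _ h7, ← hc1 _ (hH x.2 _ h7)] at h8
      rw [show t = c.1 ((c⁻¹).1 t) by simp, h8]
      simp
    have hz : Rep m (⁅x, c * x * c⁻¹⁆ : H) a.2.2 := by
      generalize c * x * c⁻¹ = y at hy
      intro t ht
      have h7 := hH (y * x)⁻¹.2 t ht
      have h8 := Nat.eq_of_beq_eq_true (h1 _ h7).2
      rw [← hX _ h7, ← hy _ h7, ← hy _ (hH x.2 _ h7), ← hX _ (hH y.2 _ h7)] at h8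
      rw [show t = y.1 (x.1 ((y * x)⁻¹.1 t)) by simp, h8]
      simp [commutatorElement_def]
    have := ih (j + 1) _ _ (Subgroup.commutator_mem_commutator hx
      ((derivedSeries_normal H j).conj_mem _ hx c)) hz hc.2
    rwa [List.length_cons, ← Nat.add_assoc, Nat.add_right_comm]

/-- the points moved by one of the conjugates -/
noncomputable def mvs (S : Nets) (k : ℕ) (l : List (ℕ × List ℕ)) : ℕ :=
  List.rec (motive := fun _ => ℕ) 0 (fun a _ ih => Nat.lor (apW S a.2.reverse (mv S k [a.1] k)) ih) l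

theorem WF.mvs {S : Nets} {k : ℕ} (hW : WF S k) (hs : ∀ s, gen S s * gen S s = 1) (l : List (ℕ × List ℕ)) (p : ℕ) :
    (mvs S k l).testBit p = false ↔ ∀ a ∈ l, (ev S a.2 * gen S a.1 * (ev S a.2)⁻¹) p = p := by
  induction l with
  | nil => simp [BP.mvs]
  | cons a l ih =>
    change (BP.apW S a.2.reverse (BP.mv S k [a.1] k) ||| BP.mvs S k l).testBit p = false ↔ _
    rw [Nat.testBit_or, Bool.or_eq_false_iff, ih, hW.apW, hW.mv, List.forall_mem_cons,
      show ev S a.2.reverse = (ev S a.2)⁻¹ from prod_reverse hs _, Perm.eq_inv_iff_eq]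
    simp

end Cfsg.Agent.H4.BP
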