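import Cfsg.Agent.H4.T8G
import Cfsg.Agent.H7.Bit

/-!
Coded matrix groups over the field with two elements and their Sylow 2-subgroups.
-/

set_option autoImplicit false
set_option linter.unusedSectionVars false

namespace Cfsg.Agent.H4.Bm

open Matrix Module BP T8
open H7.Bit (bit bt toV bit_col bit_xor sum_enc toM_xor)

/-- the mask of the first row -/
def msk (n : ℕ) : ℕ → ℕ
  | 0 => 0
  | p + 1 => 2 ^ n * msk n p + 1

/-- fast matrix product -/
noncomputable def fm (n M a b : ℕ) : ℕ := force a fun a => force b fun b =>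
  Nat.rec (motive := fun _ => ℕ) 0 (fun k acc => Nat.xor acc (Nat.mul (Nat.land (Nat.shiftRight b k) M) (H7.Bit.col n a k))) n

theorem and_msk {n : ℕ} (hn : 0 < n) (p x : ℕ) : x &&& msk n (p + 1) = 2 ^ n * (x >>> n &&& msk n p) + x % 2 := by
  have h1 : 1 < 2 ^ n := Nat.one_lt_two_pow hn.ne'
  refine Nat.eq_of_testBit_eq fun i => ?_
  rw [Nat.testBit_and, msk, Nat.testBit_two_pow_mul_add _ h1, Nat.testBit_two_pow_mul_add _ (by omega : x % 2 < _)]
  split_ifs with h
  · rw [← Nat.testBit_and, Nat.and_one_is_mod]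
  · rw [Nat.testBit_and, Nat.testBit_shiftRight, Nat.add_sub_cancel' (not_lt.1 h)]

theorem spread {n c i : ℕ} (hc : c < 2 ^ n) (hi : i < n) (p j x : ℕ) :
    ((x &&& msk n p) * c).testBit (n * j + i) = (decide (j < p) && x.testBit (n * j) && c.testBit i) ∧
      (x &&& msk n p) * c < 2 ^ (n * p) := by
  induction p generalizing j x with
  | zero => simp [msk]
  | succ p ih =>
    have h1 : x % 2 * c < 2 ^ n := by rcases Nat.mod_two_eq_zero_or_one x with h | h <;> simp [h, hc]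
    rw [and_msk (by omega), add_mul, mul_assoc, Nat.testBit_two_pow_mul_add _ h1]
    refine ⟨?_, by rw [mul_add_one, pow_add, mul_comm (2 ^ (n * p))]; nlinarith [(ih 0 (x >>> n)).2]⟩
    cases j with
    | zero => rcases Nat.mod_two_eq_zero_or_one x with h | h <;> simp [h, hi]
    | succ j =>
      rw [if_neg (by nlinarith), show n * (j + 1) + i - n = n * j + i by rw [mul_add_one]; omega, (ih j _).1,
        Nat.testBit_shiftRight, mul_add_one, add_comm n]
      simp

theorem col_lt (n a k : ℕ) : H7.Bit.col n a k < 2 ^ n := Nat.mod_lt _ (Nat.two_pow_pos n)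

variable {ι : Type} [Fintype ι] [DecidableEq ι] {n : ℕ} (e : ι ≃ Fin n)

/-- the coded matrix: bit `n * j + i` is the entry `(i, j)` -/
def T (a : ℕ) : Matrix ι ι (ZMod 2) := H7.Bit.toM (ZMod 2) e e a

theorem fm_spec (hn : 0 < n) (a b : ℕ) : T e (fm n (msk n n) a b) = T e a * T e b ∧ fm n (msk n n) a b < 2 ^ (n * n) := by
  have h1 : ∀ m, (∀ i < n, ∀ j < n, bit (ZMod 2) (Nat.rec (motive := fun _ => ℕ) 0 (fun k acc => Nat.xor acc
      (Nat.mul (Nat.land (Nat.shiftRight b k) (msk n n)) (H7.Bit.col n a k))) m) (n * j + i) =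
      ∑ k ∈ Finset.range m, bit (ZMod 2) a (n * k + i) * bit (ZMod 2) b (n * j + k)) ∧ Nat.rec (motive := fun _ => ℕ) 0
      (fun k acc => Nat.xor acc (Nat.mul (Nat.land (Nat.shiftRight b k) (msk n n)) (H7.Bit.col n a k))) m < 2 ^ (n * n) := fun m => by
    induction m with
    | zero => simp
    | succ m ih =>
      refine ⟨fun i hi j hj => ?_, Nat.xor_lt_two_pow ih.2 (spread (col_lt ..) hn n 0 _).2⟩
      rw [Finset.sum_range_succ, ← ih.1 i hi j hj, ← bit_col hi a]
      refine (bit_xor (K := ZMod 2) ..).trans (congrArg _ ?_)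
      rw [bit, bit, bit]
      change (if ((b >>> m &&& msk n n) * H7.Bit.col n a m).testBit _ then _ else _) = _
      rw [(spread (col_lt ..) hi n j _).1, Nat.testBit_shiftRight, add_comm m]
      cases b.testBit (n * j + m) <;> simp [hj]
  simp only [fm, force_eq]
  refine ⟨?_, (h1 n).2⟩
  ext i j
  exact ((h1 n).1 _ (e i).2 _ (e j).2).trans (sum_enc e fun k => bit (ZMod 2) a (n * k + e i) * bit _ b (n * e j + k)).symm

theorem bit_inj {a b i j : ℕ} (h : bit (ZMod 2) a i = bit (ZMod 2) b j) : a.testBit i = b.testBit j := by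
  simp only [bit] at h
  cases h1 : a.testBit i <;> cases h2 : b.testBit j <;> simp_all

theorem T_inj {a b : ℕ} (ha : a < 2 ^ (n * n)) (hb : b < 2 ^ (n * n)) (h : T e a = T e b) : a = b :=
  eq_of_bits ha hb fun k hk => by
    have hn : 0 < n := Nat.pos_of_ne_zero (by rintro rfl; simp at hk)
    have := congrFun (congrFun h (e.symm ⟨k % n, Nat.mod_lt _ hn⟩)) (e.symm ⟨k / n, Nat.div_lt_of_lt_mul hk⟩)
    simp only [T, H7.Bit.toM, of_apply, Equiv.apply_symm_apply, Nat.div_add_mod] at this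
    exact bit_inj this

theorem exists_code (A : Matrix ι ι (ZMod 2)) : ∃ a < 2 ^ (n * n), T e a = A := by
  have : Function.Bijective fun a : Fin (2 ^ (n * n)) => T e a := (Fintype.bijective_iff_injective_and_card _).2
    ⟨fun a b h => Fin.ext (T_inj e a.2 b.2 h), by
      rw [Fintype.card_congr (Matrix.of (m := ι) (n := ι) (α := ZMod 2)).symm]; simp [Fintype.card_congr e, ← pow_mul]⟩
  obtain ⟨a, h⟩ := this.2 A
  exact ⟨a, a.2, h⟩

theorem toV_inj {a b : ℕ} (ha : a < 2 ^ n) (hb : b < 2 ^ n) (h : toV (ZMod 2) e a = toV (ZMod 2) e b) : a = b :=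
  eq_of_bits ha hb fun k hk => bit_inj (by simpa [toV] using congrFun h (e.symm ⟨k, hk⟩))

theorem exists_vec (v : ι → ZMod 2) : ∃ a < 2 ^ n, toV (ZMod 2) e a = v := by
  have : Function.Bijective fun a : Fin (2 ^ n) => toV (ZMod 2) e a := (Fintype.bijective_iff_injective_and_card _).2
    ⟨fun a b h => Fin.ext (toV_inj e a.2 b.2 h), by simp [Fintype.card_congr e]⟩
  obtain ⟨a, h⟩ := this.2 v
  exact ⟨a, a.2, h⟩

theorem app_lt (m a v : ℕ) : H7.Bit.app n m a v < 2 ^ n := by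
  rw [H7.Bit.app]
  cases Nat.beq v 0
  · induction m with
    | zero => exact Nat.two_pow_pos n
    | succ m ih =>
      dsimp only at ih ⊢
      cases bt v m
      exacts [ih, Nat.xor_lt_two_pow ih (col_lt ..)]
  · exact Nat.two_pow_pos n

variable {S : Type*} [Group S] {j : S →* Matrix ι ι (ZMod 2)} (hj : Function.Injective j)

/-- unitriangular elements -/
def Tri [Finite S] (j : S →* Matrix ι ι (ZMod 2)) (pos : ι → ℕ) : Subgroup S where
  carrier := {g | ∀ a b, (j g - 1) a b ≠ 0 → pos a < pos b}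
  one_mem' a b h := by simp at h
  mul_mem' {g h} hg hh a b e := by
    rw [show j (g * h) - 1 = (j g - 1) * (j h - 1) + (j g - 1) + (j h - 1) by rw [map_mul]; noncomm_ring] at e
    by_contra h1
    rw [Matrix.add_apply, Matrix.add_apply, of_not_not (mt (hg a b) h1), of_not_not (mt (hh a b) h1), add_zero, add_zero] at e
    obtain ⟨c, -, hc⟩ := Finset.exists_ne_zero_of_sum_ne_zero e
    exact h1 ((hg _ _ (left_ne_zero_of_mul hc)).trans (hh _ _ (right_ne_zero_of_mul hc)))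
  inv_mem' {g} hg := by
    have : ∀ k, ∀ a b, (j (g ^ k) - 1) a b ≠ 0 → pos a < pos b := fun k => by
      induction k with
      | zero => simp
      | succ k ih =>
        intro a b e
        rw [show j (g ^ (k + 1)) - 1 = (j (g ^ k) - 1) * (j g - 1) + (j (g ^ k) - 1) + (j g - 1) by
          rw [pow_succ, map_mul]; noncomm_ring] at e
        by_contra h1
        rw [Matrix.add_apply, Matrix.add_apply, of_not_not (mt (hg a b) h1), of_not_not (mt (ih a b) h1), add_zero, add_zero] at e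
        obtain ⟨c, -, hc⟩ := Finset.exists_ne_zero_of_sum_ne_zero e
        exact h1 ((ih _ _ (left_ne_zero_of_mul hc)).trans (hg _ _ (right_ne_zero_of_mul hc)))
    rw [show g⁻¹ = g ^ (orderOf g - 1) from inv_eq_of_mul_eq_one_left (by
      rw [← pow_succ, Nat.sub_add_cancel (orderOf_pos g), pow_orderOf_eq_one])]
    exact this _

include hj

theorem Tri_pow [Finite S] {pos : ι → ℕ} (hp : ∀ a, pos a < 8) {g : S} (hg : g ∈ Tri j pos) : g ^ 8 = 1 := by
  have h1 : ∀ k a b, ((j g - 1) ^ k) a b ≠ 0 → pos a + k ≤ pos b := fun k => by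
    induction k with
    | zero => intro a b e; rw [of_not_not fun h => e (one_apply_ne h)]; rfl
    | succ k ih =>
      intro a b e
      rw [pow_succ] at e
      obtain ⟨c, -, hc⟩ := Finset.exists_ne_zero_of_sum_ne_zero e
      have := ih _ _ (left_ne_zero_of_mul hc)
      have := hg _ _ (right_ne_zero_of_mul hc)
      omega
  cases isEmpty_or_nonempty ι
  · exact hj (Subsingleton.elim _ _)
  refine hj (sub_eq_zero.1 ?_)
  rw [map_pow, map_one, ← one_pow 8, show 8 = 2 ^ 3 from rfl, ← sub_pow_char_pow_of_commute _ _ (Commute.one_right _)]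
  ext a b
  exact of_not_not fun e => absurd (h1 _ _ _ e) (by have := hp b; omega)

theorem mdl (hn : 0 < n) {I : ℕ} (hI : T e I = 1) {vb : ℕ → Bool} (hv : ∀ a, vb a = true → PV j (T e) a) :
    Mdl (fm n (msk n n)) I vb (PV j (T e)) (Pφ j (MonoidHom.id S) (T e)) := by
  have key : ∀ a b, PV j (T e) a → PV j (T e) b → ∃ s, j s = T e (fm n (msk n n) a b) ∧
      s = Pφ j (MonoidHom.id S) (T e) a * Pφ j (MonoidHom.id S) (T e) b := by
    rintro a b ⟨x, hx⟩ ⟨y, hy⟩
    exact ⟨x * y, by rw [map_mul, hx, hy, (fm_spec e hn a b).1], by rw [Pφ_eq hj hx, Pφ_eq hj hy]; rfl⟩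
  exact ⟨hv, ⟨1, by rw [map_one, hI]⟩, Pφ_eq hj ((map_one j).trans hI.symm), fun a b ha hb => (key a b ha hb).imp fun _ h => h.1,
    fun a b ha hb => let ⟨_, h1, h2⟩ := key a b ha hb; (Pφ_eq hj h1).trans h2⟩

theorem j_φ {a : ℕ} (ha : PV j (T e) a) : j (Pφ j (MonoidHom.id S) (T e) a) = T e a := by
  obtain ⟨x, hx⟩ := ha
  rw [Pφ_eq hj hx, ← hx]; rfl

theorem φ_surj (g : S) : ∃ a < 2 ^ (n * n), PV j (T e) a ∧ Pφ j (MonoidHom.id S) (T e) a = g := by
  obtain ⟨a, h1, h2⟩ := exists_code e (j g)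
  exact ⟨a, h1, ⟨g, h2.symm⟩, Pφ_eq hj h2.symm⟩

theorem φ_inj {a b : ℕ} (ha : a < 2 ^ (n * n)) (hb : b < 2 ^ (n * n)) (ha' : PV j (T e) a) (hb' : PV j (T e) b)
    (h : Pφ j (MonoidHom.id S) (T e) a = Pφ j (MonoidHom.id S) (T e) b) : a = b :=
  T_inj e ha hb (by rw [← j_φ e hj ha', h, j_φ e hj hb'])

theorem mem_Tri [Finite S] {pos : ι → ℕ} {I m a : ℕ} (hI : T e I = 1) (hm : ∀ x y, m.testBit (n * e y + e x) → pos x < pos y)
    (ha : PV j (T e) a) (h : Nat.land (Nat.xor a I) m = Nat.xor a I) : Pφ j (MonoidHom.id S) (T e) a ∈ Tri j pos :=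
  fun x y h1 => hm x y (by
    rw [j_φ e hj ha, ← hI, Matrix.sub_apply, CharTwo.sub_eq_add, ← Matrix.add_apply, T, T, ← toM_xor, ← h] at h1
    have : (Nat.xor a I &&& m).testBit (n * e y + e x) := by
      by_contra h2
      exact h1 (if_neg h2)
    rw [Nat.testBit_and, Bool.and_eq_true] at this
    exact this.2)

omit hj

section
variable (mu : ℕ → ℕ → ℕ) (I : ℕ) (vb : ℕ → Bool)

/-- all products of unsigned codes -/
noncomputable def prods (zs : List ℕ) : List ℕ :=
  List.rec (motive := fun _ => List ℕ) [I] (fun z _ ih => forceL ih fun l => l ++ l.map (mu z)) zs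

/-- the set of keys -/
noncomputable def keys (κ : ℕ → ℕ) (l : List ℕ) : ℕ :=
  List.rec (motive := fun _ => ℕ → ℕ) id (fun a _ ih m => force (Nat.lor m (Nat.pow 2 (κ a))) ih) l 0

/-- check of the classes -/
noncomputable def clsB (w : ℕ) (rep cl : ℕ → ℕ) (l : List ℕ) : ℕ → Bool :=
  List.rec (motive := fun _ => ℕ → Bool) (fun _ => true) (fun a _ ih C => force (Nat.mod C w) fun g =>
    vb g && Nat.beq (mu a g) (mu g (rep (cl a))) && force (Nat.div C w) ih) l

/-- signed numbers of elements in the classes -/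
noncomputable def cnts (cl : ℕ → ℕ) (l : List ℕ) : ℕ → ℕ :=
  List.rec (motive := fun _ => ℕ → ℕ) id (fun a _ ih m =>
    force (Nat.add m (Nat.pow 8192 (Nat.add (Nat.mul 2 (cl (Nat.div a 2))) (Nat.mod a 2)))) ih) l

/-- all checks for a subgroup with a sign character -/
noncomputable def grpC (ib : ℕ → Bool) (cl : ℕ → ℕ) (zs : List ℕ) (cs : List ℤ) : Bool :=
  zs.all (fun z => ib (z / 2)) && Nat.blt zs.length 13 && chainB mu zs [Nat.mul 2 I] && forceL (elsC mu I zs) fun l =>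
    force (cnts cl l 0) fun C => decide ((List.range 16).map (fun j =>
      ((C / 8192 ^ (2 * j) % 8192 : ℕ) : ℤ) - (C / 8192 ^ (2 * j + 1) % 8192 : ℕ)) = cs)

end

theorem keys_spec {κ : ℕ → ℕ} {l : List ℕ} {N i : ℕ} (h : keys κ l = 2 ^ N - 1) (hi : i < N) : ∃ a ∈ l, κ a = i := by
  have h1 : ∀ m, (List.rec (motive := fun _ => ℕ → ℕ) id (fun a _ ih m => force (Nat.lor m (Nat.pow 2 (κ a))) ih) l m).testBit i →
      m.testBit i ∨ ∃ a ∈ l, κ a = i := by
    clear h
    induction l with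
    | nil => exact fun m => .inl
    | cons a l ih =>
      intro m hm
      simp only [force_eq] at hm ih
      rcases ih _ hm with h | ⟨b, h1, h2⟩
      · rw [tbLor, tbPow, Bool.or_eq_true, decide_eq_true_eq] at h
        exact h.imp_right fun h => ⟨a, by simp, h⟩
      · exact .inr ⟨b, List.mem_cons_of_mem _ h1, h2⟩
  simpa using h1 0 ((congrArg (·.testBit i) h).trans (by simp [hi]))

theorem cnts_eq (cl : ℕ → ℕ) (l : List ℕ) (m : ℕ) :
    cnts cl l m = m + (l.map fun a => 8192 ^ (2 * cl (a / 2) + a % 2)).sum := by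
  induction l generalizing m with
  | nil => rfl
  | cons a l ih => exact (force_eq ..).trans ((ih _).trans (add_assoc ..))

theorem digit {b : ℕ} (k N : ℕ) (hk : k < N) (c : ℕ → ℕ) (hc : ∀ i, c i < b) :
    (∑ i ∈ Finset.range N, c i * b ^ i) / b ^ k % b = c k := by
  induction k generalizing N c with
  | zero =>
    obtain ⟨N, rfl⟩ := Nat.exists_eq_succ_of_ne_zero hk.ne'
    simp [Finset.sum_range_succ', pow_succ, ← mul_assoc, ← Finset.sum_mul, Nat.mod_eq_of_lt (hc 0)]
  | succ k ih =>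
    obtain ⟨N, rfl⟩ := Nat.exists_eq_succ_of_ne_zero (hk.trans' k.succ_pos).ne'
    rw [← ih N (by omega) (fun i => c (i + 1)) fun i => hc _, pow_succ', ← Nat.div_div_eq_div_mul, Finset.sum_range_succ']
    simp only [pow_succ, ← mul_assoc, ← Finset.sum_mul, pow_zero, mul_one]
    rw [add_comm, Nat.add_mul_div_right _ _ ((hc 0).trans_le' (Nat.zero_le _)), Nat.div_eq_of_lt (hc 0), zero_add]

theorem sum_two {A : Type*} [AddCommMonoid A] (f : ℕ → A) (N : ℕ) :
    ∑ i ∈ Finset.range (2 * N), f i = ∑ j ∈ Finset.range N, (f (2 * j) + f (2 * j + 1)) := by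
  induction N with
  | zero => simp
  | succ N ih => rw [mul_add_one, Finset.sum_range_succ, Finset.sum_range_succ, ih, Finset.sum_range_succ, add_assoc]

theorem sum_count {A : Type*} [Semiring A] {N : ℕ} (f : ℕ → A) (l : List ℕ) (h : ∀ a ∈ l, a < N) :
    (l.map f).sum = ∑ i ∈ Finset.range N, l.count i * f i := by
  induction l with
  | nil => simp
  | cons a l ih =>
    simp [ih fun b hb => h b (List.mem_cons_of_mem _ hb), List.count_cons, add_mul, Finset.sum_add_distrib, h a, add_comm]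

variable {G : Type*} [Group G] {mu : ℕ → ℕ → ℕ} {I : ℕ} {vb : ℕ → Bool} {Val : ℕ → Prop} {φ : ℕ → G} (M : Mdl mu I vb Val φ)
include M

theorem prods_ind {P : ℕ → Prop} (h1 : P I) (hm : ∀ a b, P a → P b → P (mu a b)) {zs : List ℕ} (h : ∀ z ∈ zs, P z) :
    ∀ a ∈ prods mu I zs, P a := by
  induction zs with
  | nil => simpa [prods] using h1
  | cons z zs ih =>
    have ih := ih fun y hy => h y (List.mem_cons_of_mem _ hy)
    rw [show prods mu I (z :: zs) = _ from forceL_eq ..]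
    simp only [List.mem_append, List.mem_map]
    rintro g (hg | ⟨g, hg, rfl⟩)
    exacts [ih g hg, hm _ _ (h z (by simp)) (ih g hg)]

theorem clsB_spec {w : ℕ} {rep cl : ℕ → ℕ} (hr : ∀ j, Val (rep j)) {l : List ℕ} (hl : ∀ a ∈ l, Val a) {C : ℕ}
    (h : clsB mu vb w rep cl l C = true) : ∀ a ∈ l, IsConj (φ a) (φ (rep (cl a))) := by
  induction l generalizing C with
  | nil => simp
  | cons a l ih =>
    replace h : force (C % w) (fun g => vb g && Nat.beq (mu a g) (mu g (rep (cl a))) &&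
      force (Nat.div C w) (clsB mu vb w rep cl l)) = true := h
    simp only [force_eq, Bool.and_eq_true, Nat.beq_eq] at h
    refine List.forall_mem_cons.2 ⟨?_, ih (fun b hb => hl b (List.mem_cons_of_mem _ hb)) h.2⟩
    have h1 := congrArg φ h.1.2
    rw [M.φ_mu _ _ (hl a (by simp)) (M.vb _ h.1.1), M.φ_mu _ _ (M.vb _ h.1.1) (hr _)] at h1
    exact isConj_iff.2 ⟨(φ (C % w))⁻¹, by rw [inv_inv, mul_assoc, h1, inv_mul_cancel_left]⟩

theorem grpC_spec {k V : Type*} [Field k] [AddCommGroup V] [Module k V] [FiniteDimensional k V] (ρ : G →* End k V)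
    (h2 : (2 : k) ≠ 0) {rep cl : ℕ → ℕ} (hcl : ∀ a, cl a < 16) {P : ℕ → Prop} (h1 : P I) (hm : ∀ a b, P a → P b → P (mu a b))
    (hP : ∀ a, P a → Val a ∧ IsConj (φ a) (φ (rep (cl a)))) {ib : ℕ → Bool} (hi : ∀ a, ib a = true → P a)
    {zs : List ℕ} {cs : List ℤ} (h : grpC mu I ib cl zs cs = true) :
    ∑ j ∈ Finset.range 16, cs.getD j 0 * tau ⊤ (ρ (φ (rep j))) = 2 ^ zs.length * (finrank k (fx (zs.map (op ρ φ))) : ℤ) := by
  simp only [grpC, forceL_eq, force_eq, Bool.and_eq_true, List.all_eq_true, Nat.blt_eq, decide_eq_true_eq] at h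
  obtain ⟨⟨⟨c1, c3⟩, c2⟩, rfl⟩ := h
  have M' : Mdl mu I ib P φ := ⟨hi, h1, M.φ_e, hm, fun a b ha hb => M.φ_mu _ _ (hP a ha).1 (hP b hb).1⟩
  have h3 := fun z hz => hi _ (c1 z hz)
  obtain ⟨h4, h5⟩ := elsC_spec M' ρ h3
  have h6 := chain_sum h2 _ _ ⊤ (fun _ _ _ _ => trivial) (by simp [op, M.φ_e]) (chainB_spec M' ρ h3 (by simpa using h1) c2)
  have h7 : ∀ l : List (End k V), (els l).length = 2 ^ l.length := fun l => by
    induction l with
    | nil => rfl
    | cons z l ih => simp [els, ih, pow_succ, mul_two]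
  have h8 : (elsC mu I zs).length < 8192 := by
    rw [← List.length_map (op ρ φ), h5, h7, List.length_map]
    exact Nat.pow_lt_pow_right one_lt_two c3
  rw [top_inf_eq, List.length_map, ← h5, List.map_map] at h6
  generalize elsC mu I zs = l at h4 h6 h8
  have h9 : ∀ a ∈ l.map fun a => 2 * cl (a / 2) + a % 2, a < 2 * 16 := List.forall_mem_map.2 fun a _ => by
    have := hcl (a / 2); omega
  have h10 := sum_count (8192 ^ ·) _ h9
  have h11 := sum_count (fun i => (-1) ^ i * tau ⊤ (ρ (φ (rep (i / 2))))) _ h9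
  rw [List.map_map] at h10 h11
  rw [← h6, List.map_congr_left (l := l) (g := (fun i => (-1) ^ i * tau ⊤ (ρ (φ (rep (i / 2))))) ∘ fun a => 2 * cl (a / 2) + a % 2)
    fun a ha => ?_, h11, sum_two]
  · refine Finset.sum_congr rfl fun j hj => ?_
    have hj := Finset.mem_range.1 hj
    have h12 := fun k hk => digit k (2 * 16) hk (fun i => (l.map fun a => 2 * cl (a / 2) + a % 2).count i) (b := 8192)
      fun i => List.count_le_length.trans_lt (by simpa using h8)
    rw [List.getD_eq_getElem _ _ (by simpa using hj), List.getElem_map, List.getElem_range, cnts_eq, zero_add]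
    erw [h10, h12 _ (by omega), h12 _ (by omega)]
    simp [pow_add, show (2 * j + 1) / 2 = j by omega]
    ring
  obtain ⟨g, hg⟩ := isConj_iff.1 (hP _ (h4 a ha)).2
  have h12 : φ (rep (cl (a / 2))) * g = g * φ (a / 2) := by rw [← hg]; simp
  have h13 : tau ⊤ (ρ (φ (a / 2))) = tau ⊤ (ρ (φ (rep (cl (a / 2))))) := by rw [tau, tau, dm_conj ρ h12, dm_conj ρ h12]
  have h14 : (2 * cl (a / 2) + a % 2) / 2 = cl (a / 2) := by omega
  simp only [Function.comp, h14, ← h13, pow_add, ← neg_one_pow_eq_pow_mod_two]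
  rcases Nat.even_or_odd a with h | h <;> simp [op, h.neg_one_pow, tau_neg]

omit M
include hj

theorem syl [Finite S] (hn : 0 < n) {I : ℕ} (hI : T e I = 1) (hI' : I < 2 ^ (n * n)) {pos : ι → ℕ} (hp : ∀ a, pos a < 8)
    {zs : List ℕ} (hz : ∀ z ∈ zs, PV j (T e) z ∧ Pφ j (MonoidHom.id S) (T e) z ∈ Tri j pos ∧ z < 2 ^ (n * n)) {κ : ℕ → ℕ} {k : ℕ}
    (hk : keys κ (prods (fm n (msk n n)) I zs) = 2 ^ 2 ^ k - 1) (hc : ¬ 2 ^ (k + 1) ∣ Nat.card S) :
    (∀ a ∈ prods (fm n (msk n n)) I zs, PV j (T e) a ∧ Pφ j (MonoidHom.id S) (T e) a ∈ Tri j pos ∧ a < 2 ^ (n * n)) ∧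
    (∀ g ∈ Tri j pos, ∃ a ∈ prods (fm n (msk n n)) I zs, Pφ j (MonoidHom.id S) (T e) a = g) ∧ Nat.card (Tri j pos) = 2 ^ k ∧
      ∀ P : Subgroup S, IsPGroup 2 P → ∃ g, ∀ x ∈ P, g * x * g⁻¹ ∈ Tri j pos := by
  have M := mdl e hj hn hI (vb := fun _ => false) (by simp)
  have h1 := prods_ind M (P := fun z => PV j (T e) z ∧ Pφ j (MonoidHom.id S) (T e) z ∈ Tri j pos ∧ z < 2 ^ (n * n))
    ⟨M.val_e, M.φ_e ▸ one_mem _, hI'⟩ (fun a b ha hb => ⟨M.val_mu _ _ ha.1 hb.1, M.φ_mu _ _ ha.1 hb.1 ▸ mul_mem ha.2.1 hb.2.1,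
      (fm_spec e hn a b).2⟩) hz
  choose a ha h2 using fun i : Fin (2 ^ k) => keys_spec hk i.2
  let f : Fin (2 ^ k) → Tri j pos := fun i => ⟨_, (h1 _ (ha i)).2.1⟩
  have h3 : Function.Injective f := fun i i' h => Fin.ext (by
    rw [← h2, ← h2, φ_inj e hj (h1 _ (ha i)).2.2 (h1 _ (ha i')).2.2 (h1 _ (ha i)).1 (h1 _ (ha i')).1 (congrArg Subtype.val h)])
  have h4 : IsPGroup 2 (Tri j pos) := fun g => ⟨3, Subtype.ext (Tri_pow hj hp g.2)⟩
  obtain ⟨m, hm⟩ := h4.exists_card_eq
  have h5 := Nat.card_le_card_of_injective f h3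
  have h6 : m ≤ k := not_lt.1 fun h => hc ((pow_dvd_pow 2 h).trans (hm ▸ (Tri j pos).card_subgroup_dvd_card))
  rw [Nat.card_fin, hm] at h5
  obtain rfl := le_antisymm h6 ((Nat.pow_le_pow_iff_right one_lt_two).1 h5)
  refine ⟨h1, fun g hg => ?_, hm, fun P hP => ?_⟩
  · obtain ⟨i, hi⟩ := ((Nat.bijective_iff_injective_and_card f).2 ⟨h3, by rw [hm, Nat.card_fin]⟩).2 ⟨g, hg⟩
    exact ⟨_, ha i, congrArg Subtype.val hi⟩
  obtain ⟨Q, hQ⟩ := hP.exists_le_sylow
  obtain ⟨g, hg⟩ := MulAction.exists_smul_eq S Q (h4.toSylow fun h => hc (by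
    rw [← (Tri j pos).card_mul_index, hm, pow_succ]; exact mul_dvd_mul_left _ h))
  exact ⟨g, fun x hx => (congrArg Sylow.toSubgroup hg).le (Subgroup.smul_mem_pointwise_smul _ _ _ (hQ hx))⟩

end Cfsg.Agent.H4.Bm
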