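import Cfsg.Agent.H4.CA2
import Cfsg.Agent.H4.BinPSL

/-! Suzuki's theorem: no non-abelian simple group of odd order has abelian centralisers. -/

set_option autoImplicit false
set_option linter.unusedSectionVars false

namespace Cfsg.Agent.H4.CAG

open Cfsg MulAction Subgroup Finset Cfsg.Agent.H5.Zas1 Cfsg.Agent.H5.Odd Cfsg.Agent.H5.Char
  Cfsg.Agent.H5.TI Cfsg.Agent.H4.Util
open scoped ComplexConjugate

attribute [local instance] ftSub

variable {G : Type*} [Group G] [Fintype G] {X : Subgroup G}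

open Classical in
theorem fib (hC : ∀ y : G, y ≠ 1 → CA (centralizer {y})) (S : Finset G) (h1 : ∀ y ∈ S, y ≠ 1)
    (hS : ∀ y ∈ S, ∀ z ∈ centralizer {y}, z ≠ 1 → z ∈ S) (f : G → ℝ)
    (hf : ∀ y ∈ S, f 1 ≤ ∑ x : centralizer {y}, f x) : 0 ≤ ∑ y ∈ S, f y := by
  rw [← sum_fiberwise_of_maps_to (g := fun y => centralizer {y})
    (t := S.image fun y => centralizer {y}) fun y hy => mem_image_of_mem _ hy]
  refine sum_nonneg fun A hA => ?_
  obtain ⟨y, hy, rfl⟩ := mem_image.1 hA
  have h2 := hf y hy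
  rw [← sum_subtype (insert 1 (S.filter fun z => centralizer {z} = centralizer {y})) (fun z => by
    simp only [mem_insert, mem_filter]
    refine ⟨?_, fun hz => ?_⟩
    · rintro (rfl | ⟨-, e⟩)
      exacts [one_mem _, e ▸ mem_cent.2 rfl]
    · by_cases e : z = 1
      exacts [Or.inl e, Or.inr ⟨hS y hy z hz e, hC y (h1 y hy) z hz e⟩]) f,
    sum_insert fun e => h1 1 (mem_filter.1 e).1 rfl] at h2
  linarith

open Classical in
theorem card_Cl (h : CA X) : (Nat.card X : ℝ) * wt X * (univ.filter (· ∈ Cl X)).card =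
    Nat.card G * (Nat.card X - 1) := by
  have := sum_Cl h (fun _ => 1) fun _ _ => rfl
  simpa [card_Nm, ← Nat.card_eq_fintype_card] using this

open Classical in
theorem sum_weight (ho : Odd (Nat.card G)) (hC : ∀ y : G, y ≠ 1 → CA (centralizer {y})) {w : ℕ}
    (hw : ∀ y : G, y ≠ 1 → w ≤ wt (centralizer {y})) (S : Finset G) (h1 : ∀ y ∈ S, y ≠ 1) (ψ : Irr G) :
    ∑ y ∈ S, ((univ.filter fun μ : Irr (centralizer ({y} : Set G)) => μ ≠ triv _ ∧ Exc μ ψ).card : ℝ) /
      (Nat.card (centralizer ({y} : Set G)) - 1) ≤ Nat.card G / (2 * w + 1) := by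
  by_cases h : ∀ y ∈ S, ∀ μ : Irr (centralizer ({y} : Set G)), ¬ Exc μ ψ
  · rw [sum_eq_zero fun y hy => by rw [filter_eq_empty_iff.2 fun μ _ e => h y hy μ e.2]; simp]
    positivity
  push Not at h
  obtain ⟨y₀, hy₀, μ₀, h0⟩ := h
  set T := univ.filter (· ∈ Cl (centralizer ({y₀} : Set G))) with hT
  have hT0 : (0 : ℝ) < T.card := by
    exact_mod_cast card_pos.2 ⟨y₀, mem_filter.2 ⟨mem_univ _, self_mem_Cl (h1 y₀ hy₀)⟩⟩
  calc _ ≤ ∑ y ∈ S, if y ∈ T then (Nat.card G : ℝ) / (2 * w + 1) / T.card else 0 := by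
        refine sum_le_sum fun y hy => ?_
        have hy1 := h1 y hy
        have hA := hC y hy1
        rcases eq_empty_or_nonempty (univ.filter fun μ : Irr (centralizer ({y} : Set G)) =>
          μ ≠ triv _ ∧ Exc μ ψ) with e | ⟨μ, hμ⟩
        · rw [e]; split_ifs <;> simp; positivity
        obtain ⟨-, μ1, μ2⟩ := mem_filter.1 hμ
        have e : Cl (centralizer ({y} : Set G)) = Cl (centralizer {y₀}) := by
          by_contra e
          exact μ2.not_disj hA (hC y₀ (h1 y₀ hy₀)) h0 (disj_of hA (hC y₀ (h1 y₀ hy₀)) e)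
        rw [if_pos (mem_filter.2 ⟨mem_univ _, e ▸ self_mem_Cl hy1⟩)]
        have h2 := card_Cl hA
        have h3 := two_wt_lt ho hA (mem_cent.2 rfl) hy1
        have h4 := hw y hy1
        have h5 : (univ.filter fun μ : Irr (centralizer ({y} : Set G)) => μ ≠ triv _ ∧ Exc μ ψ).card ≤
            wt (centralizer {y}) := by
          rw [← card_rel hA μ1]
          exact card_le_card fun ν hν => mem_filter.2 ⟨mem_univ _, (mem_filter.1 hν).2.2.rel hA μ2 μ1⟩
        have h6 := wt_pos (centralizer ({y} : Set G))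
        rw [e, ← hT] at h2
        generalize Nat.card (centralizer ({y} : Set G)) = n at *
        generalize wt (centralizer ({y} : Set G)) = v at *
        have h3' : (2 * w + 1 : ℝ) ≤ n := by exact_mod_cast (by omega : 2 * w + 1 ≤ n)
        have h7 : (1 : ℝ) < n := by exact_mod_cast (by omega : 1 < n)
        rw [div_div, div_le_div_iff₀ (by linarith) (by positivity), ← h2]
        calc _ ≤ (v : ℝ) * (n * T.card) := by gcongr
          _ = _ := by ring
    _ ≤ ∑ y ∈ T, (Nat.card G : ℝ) / (2 * w + 1) / T.card := by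
        rw [← sum_filter]
        exact sum_le_sum_of_subset_of_nonneg (fun y hy => (mem_filter.1 hy).2) fun _ _ _ => by positivity
    _ = _ := by rw [sum_const, nsmul_eq_mul]; field_simp

theorem final {g n w d cl r s a b c : ℝ} (hw : 2 ≤ w) (hn : 2 * w + 1 ≤ n) (hd : 1 < d) (hg : 0 ≤ g)
    (h1 : g = 1 + cl + r + s) (h2 : n * w * cl = g * (n - 1)) (h3 : g = d + a + b + c) (h4 : 0 ≤ c)
    (h5 : r ≤ b) (h6 : g * (w * (n - w)) ≤ n * w * a) (h7 : s ≤ (w - 1) * (g / (2 * w + 1))) : False := by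
  have h8 : s * (2 * w + 1) ≤ g * (w - 1) := by
    rw [← mul_div_assoc, le_div_iff₀ (by linarith)] at h7; linarith
  have h9 : 0 < n * w := mul_pos (by linarith) (by linarith)
  have h10 : a < cl + s := by linarith
  have h11 := mul_lt_mul_of_pos_left h10 (mul_pos h9 (show 0 < 2 * w + 1 by linarith))
  have h12 := mul_le_mul_of_nonneg_left h8 h9.le
  have h13 := mul_le_mul_of_nonneg_left h6 (show 0 ≤ 2 * w + 1 by linarith)
  have h14 : 0 ≤ g * ((w * w - 1) * (n - (2 * w + 1))) :=
    mul_nonneg hg (mul_nonneg (by nlinarith) (by linarith))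
  have h15 : n * w * (2 * w + 1) * cl = (2 * w + 1) * (g * (n - 1)) := by rw [← h2]; ring
  nlinarith

theorem odd_case [IsSimpleGroup G] (hG : ¬ IsMulCommutative G) (ho : Odd (Nat.card G))
    (hC : ∀ y : G, y ≠ 1 → CA (centralizer {y})) : False := by
  classical
  obtain ⟨x, x1, hw⟩ := Set.exists_min_image {y : G | y ≠ 1} (fun y => wt (centralizer {y}))
    (Set.toFinite _) (exists_ne 1)
  have h := hC x x1
  have hx : x ∈ centralizer ({x} : Set G) := mem_cent.2 rfl
  generalize centralizer ({x} : Set G) = X at h hx hw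
  obtain ⟨l, hl⟩ := exists_ne_triv h hx x1
  obtain ⟨χ, hχ⟩ := exists_exc ho h hl
  have w2 : 2 ≤ wt X := by have := wt_ne_one h hG hx x1; have := wt_pos X; omega
  let F : G → ℝ := fun g => Complex.normSq (χ.1 g)
  let P : Subgroup G → Prop := fun A => ∀ μ : Irr A, mult χ μ = mult χ (triv A)
  let C := univ.filter (· ∈ Cl X)
  let R := univ.filter fun y : G => y ≠ 1 ∧ y ∉ Cl X ∧ ¬ P (centralizer {y})
  let S := univ.filter fun y : G => y ≠ 1 ∧ y ∉ Cl X ∧ P (centralizer {y})
  have hsum : ∀ f : G → ℝ, ∑ g, f g = f 1 + ∑ g ∈ C, f g + ∑ g ∈ R, f g + ∑ g ∈ S, f g := fun f => by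
    rw [show f 1 = ∑ g, if g = 1 then f g else 0 by simp, sum_filter, sum_filter, sum_filter,
      ← sum_add_distrib, ← sum_add_distrib, ← sum_add_distrib]
    refine sum_congr rfl fun g _ => ?_
    by_cases e : g = 1
    · simp [e, Cl]
    by_cases e' : g ∈ Cl X <;> by_cases e'' : P (centralizer {g}) <;> simp [e, e', e'']
  have m1 : mult χ l = mult χ (bar l) + 1 := by
    have := hχ.2 χ
    rw [if_pos rfl, if_neg hχ.1] at this
    omega
  refine final (g := Nat.card G) (n := Nat.card X) (w := wt X) (d := F 1) (cl := C.card) (r := R.card)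
    (s := S.card) (a := ∑ g ∈ C, F g) (b := ∑ g ∈ R, F g) (c := ∑ g ∈ S, F g) (by exact_mod_cast w2)
    (by exact_mod_cast two_wt_lt ho h hx x1) ?_ (by positivity)
    (by simpa [← Nat.card_eq_fintype_card] using hsum fun _ => 1) (card_Cl h)
    ((sum_normSq χ).symm.trans (hsum F)) (sum_nonneg fun _ _ => Complex.normSq_nonneg _) ?_ ?_ ?_
  · have h1 := res_expand (X := X) χ 1
    simp only [h.deg_one, mul_one, OneMemClass.coe_one] at h1
    have h2 : wt X ≤ ∑ μ : Irr X, mult χ μ := by
      rw [← card_rel h hl, card_eq_sum_ones]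
      exact (sum_le_sum fun μ hμ => by rw [(mem_filter.1 hμ).2.mult_eq, m1]; omega).trans
        (sum_le_sum_of_subset (subset_univ _))
    simp only [F]
    rw [h1, ← Nat.cast_sum, Complex.normSq_natCast]
    exact_mod_cast (by nlinarith : 1 < (∑ μ : Irr X, mult χ μ) * ∑ μ : Irr X, mult χ μ)
  · have := fib hC R (fun y hy => (mem_filter.1 hy).2.1) (fun y hy z hz z1 => by
      obtain ⟨-, y1, y2, y3⟩ := mem_filter.1 hy
      have e := hC y y1 z hz z1
      refine mem_filter.2 ⟨mem_univ _, z1, fun e' => y2 ?_, e ▸ y3⟩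
      rw [← Cl_eq h e', e]
      exact self_mem_Cl y1) (fun g => F g - 1) fun y hy => by
        obtain ⟨-, y1, -, y3⟩ := mem_filter.1 hy
        obtain ⟨μ, hμ⟩ := not_forall.1 y3
        have := sum_ge (hC y y1) χ (k := 1) (O := {triv _}) (O' := {μ}) (by simp) (by simp)
          (fun i hi => by rw [mem_singleton.1 hi]) fun i hi => by rwa [mem_singleton.1 hi]
        rw [sum_sub_distrib, sum_const, card_univ, ← Nat.card_eq_fintype_card]
        simp only [F]
        simp only [Nat.cast_one, one_mul, nsmul_eq_mul, mul_one] at this ⊢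
        linarith
    rw [sum_sub_distrib] at this
    simpa using this
  · have h1 := sum_Cl h F fun g y => by simp only [F, cl χ y g]
    have h2 := sum_ge h χ (card_rel h hl).ge (card_rel h (bar_ne_triv hl)).ge
      (fun i hi => (mem_filter.1 hi).2.mult_eq χ) fun i hi => by
        rw [(mem_filter.1 hi).2.mult_eq χ, m1]; omega
    rw [card_Nm, Nat.cast_mul] at h1
    rw [h1]
    exact mul_le_mul_of_nonneg_left (le_sub_iff_add_le.2 h2) (by positivity)
  · let a : Irr G → ℤ := fun φ => (mult φ (triv X) : ℤ) - mult φ l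
    let T := univ.filter fun φ : Irr G => a φ ≠ 0 ∧ φ ≠ triv G ∧ φ ≠ χ ∧ φ ≠ bar χ
    have hT : T.card + 1 ≤ wt X := by
      have h1 := h.sum_sq hl
      rw [card_Nm, Nat.cast_mul, ← mul_add_one, mul_comm] at h1
      have h2 : ∑ φ, a φ * a φ = wt X + 1 :=
        mul_left_cancel₀ (by exact_mod_cast Nat.card_pos.ne') h1
      have n1 : χ ≠ triv G := fun e => hχ.1 (by rw [e, bar_triv])
      have h3 := sum_le_sum_of_subset_of_nonneg (f := fun φ => a φ * a φ)
        (subset_univ (insert (triv G) (insert χ (insert (bar χ) T)))) fun _ _ _ => mul_self_nonneg _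
      rw [sum_insert (by simp [T, n1.symm, (bar_ne_triv n1).symm]), sum_insert (by simp [T, hχ.1]),
        sum_insert (by simp [T]), h2] at h3
      have h4 : (T.card : ℤ) ≤ ∑ φ ∈ T, a φ * a φ := by
        rw [card_eq_sum_ones]
        push_cast
        exact sum_le_sum fun φ hφ => mul_self_pos.2 (mem_filter.1 hφ).2.1
      have h5 : a (triv G) = 1 := by simp [a, mult_triv, hl.symm]
      have h6 : a (bar χ) = a χ + 1 := by simp only [a, mult_bar, bar_triv, m1]; push_cast; ring
      rw [h5, h6] at h3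
      have h7 : 0 ≤ a χ * (a χ + 1) := by
        rcases le_or_gt 0 (a χ) with e | e
        · positivity
        · exact mul_nonneg_of_nonpos_of_nonpos e.le (by omega)
      have : (T.card : ℤ) + 1 ≤ wt X := by nlinarith
      exact_mod_cast this
    have h1 : ∀ y ∈ S, y ≠ 1 := fun y hy => (mem_filter.1 hy).2.1
    calc (S.card : ℝ) ≤ ∑ y ∈ S, ∑ ψ ∈ T, ((univ.filter fun μ : Irr (centralizer ({y} : Set G)) =>
          μ ≠ triv _ ∧ Exc μ ψ).card : ℝ) / (Nat.card (centralizer ({y} : Set G)) - 1) := by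
          rw [card_eq_sum_ones]
          push_cast
          refine sum_le_sum fun y hy => ?_
          obtain ⟨-, y1, y2, y3⟩ := mem_filter.1 hy
          have hA := hC y y1
          have hd := disj_of h hA fun e => y2 (e ▸ self_mem_Cl y1)
          have h2 := two_wt_lt ho hA (mem_cent.2 rfl) y1
          have h3 := wt_pos (centralizer ({y} : Set G))
          have h4 : (1 : ℝ) < Nat.card (centralizer ({y} : Set G)) := by exact_mod_cast (by omega : 1 < _)
          have h5 : Nat.card (centralizer ({y} : Set G)) ≤ ∑ ψ ∈ T, (univ.filter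
              fun μ : Irr (centralizer ({y} : Set G)) => μ ≠ triv _ ∧ Exc μ ψ).card + 1 := by
            rw [← card_irr_comm hA.comm', ← card_univ, ← card_erase_add_one (mem_univ (triv _))]
            refine Nat.succ_le_succ ((card_le_card fun μ hμ => ?_).trans card_biUnion_le)
            have μ1 := (mem_erase.1 hμ).1
            obtain ⟨ψ, hψ⟩ := exists_exc ho hA μ1
            refine mem_biUnion.2 ⟨ψ, mem_filter.2 ⟨mem_univ _, fun e => parity ho h hA hd hl μ1 hχ hψ y3
              (by simp only [a] at e; omega), fun e => hψ.1 (by rw [e, bar_triv]),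
              fun e => hχ.not_disj h hA (e ▸ hψ) hd, fun e => hχ.conj.not_disj h hA (e ▸ hψ) hd⟩,
              mem_filter.2 ⟨mem_univ _, μ1, hψ⟩⟩
          rw [← sum_div, le_div_iff₀ (by linarith), one_mul, sub_le_iff_le_add]
          exact_mod_cast h5
      _ ≤ ∑ _ψ ∈ T, (Nat.card G : ℝ) / (2 * wt X + 1) := by
          rw [sum_comm]
          exact sum_le_sum fun ψ _ => sum_weight ho hC hw S h1 ψ
      _ ≤ _ := by
          rw [sum_const, nsmul_eq_mul]
          refine mul_le_mul_of_nonneg_right (le_sub_iff_add_le.2 ?_) (by positivity)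
          exact_mod_cast hT

open Mob Bar Pair in
theorem pg_ct {F : Type*} [Field F] [Finite F] (h2 : (2 : F) = 0) {a b c : PG F} (hb : b ≠ 1)
    (h1 : a * b = b * a) (h3 : c * b = b * c) : a * c = c * a := by
  rcases fixed_cases hb with ⟨x, hx⟩ | ⟨x, y, hxy, hx, hy⟩
  · obtain ⟨k, β, hβ, -, rfl⟩ := exists_conj_tr hx
    have key : ∀ a : PG F, a * (k * tr β * k⁻¹) = k * tr β * k⁻¹ * a → ∃ α, a = k * tr α * k⁻¹ := by
      intro a e
      have e1 : k⁻¹ * a * k * tr β * (k⁻¹ * a * k)⁻¹ = tr β := by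
        calc _ = k⁻¹ * (a * (k * tr β * k⁻¹)) * a⁻¹ * k := by group
          _ = _ := by rw [e]; group
      have e2 : (k⁻¹ * a * k) • (inf : P1 (Kb F)) ∈ fixedBy (P1 (Kb F)) (tr β) := by
        rw [← e1, mem_fixedBy, mul_smul, mul_smul, inv_smul_smul, tr_inf]
      rw [tr_fixed hβ] at e2
      obtain ⟨u, v, hu, e3⟩ := exists_aff_of_fix (fix_inf_iff.1 e2)
      rw [e3, aff_conj_tr, tr_inj] at e1
      obtain rfl : u = 1 := mul_right_cancel₀ hβ (e1.trans (one_mul β).symm)
      exact ⟨v, by rw [show tr v = k⁻¹ * a * k from e3.symm]; group⟩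
    obtain ⟨α, rfl⟩ := key a h1
    obtain ⟨γ, rfl⟩ := key c h3
    rw [conj_mul, conj_mul, tr_mul, tr_mul, add_comm]
  · have key : ∀ a : PG F, a * b = b * a → a ∈ Tor x y := by
      intro a e
      have e1 : a⁻¹ * b * a = b := by rw [mul_assoc, ← e, inv_mul_cancel_left]
      by_contra h4
      have h5 := conj_eq_inv hxy (mem_Nor_of_conj hxy ⟨hx, hy⟩ hb (e1.symm ▸ ⟨hx, hy⟩)) h4 ⟨hx, hy⟩
      rw [e, mul_inv_cancel_right] at h5
      refine hb (BinPSL.eq_one_of_odd (H := Tor x y) ?_ ⟨hx, hy⟩ (mul_eq_one_iff_eq_inv.2 h5))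
      have := BinPSL.even_of_two h2
      have := Finite.one_lt_card (α := F)
      rcases IsPair.card ⟨hxy, b, hb, hx, hy⟩ with e | e <;> rw [e, Nat.odd_iff] <;>
        rw [Nat.even_iff] at * <;> omega
    exact Tor_comm hxy (key a h1) (key c h3)

end Cfsg.Agent.H4.CAG
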