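import Cfsg.Agent.H9.DG0

set_option autoImplicit false

/-! The subgroup generated by derangements: basic counts. -/

namespace Cfsg.Agent.H4.DG
open MulAction Cfsg.Agent.H9.DG
open scoped Pointwise

universe u v

variable {G : Type*} {X : Type*} [Group G] [Finite G] [MulAction G X] [Finite X] {D : Subgroup G}

omit [Finite G] in
theorem cos [Nonempty X] (hD : IsPretransitive D X) (g : G) [Fintype D] : ∑ h : D, Nat.card {x : X // (g * h) • x = x} = Nat.card D := by
  classical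
  have := Fintype.ofFinite X
  have e : ∀ x : X, Nat.card {h : D // (g * h) • x = x} * Nat.card X = Nat.card D := fun x => by
    obtain ⟨k, hk⟩ := hD.exists_smul_eq x (g⁻¹ • x)
    have : Nat.card {h : D // (g * h) • x = x} = Nat.card (stabilizer D x) := Nat.card_congr
      ((Equiv.mulLeft k⁻¹).subtypeEquiv fun h => by
        rw [mem_stabilizer_iff, Equiv.coe_mulLeft, mul_smul k⁻¹, inv_smul_eq_iff, hk, eq_inv_smul_iff, mul_smul]; rfl)
    rw [this, ← index_stabilizer_of_transitive D x, Subgroup.card_mul_index]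
  refine Nat.eq_of_mul_eq_mul_right (Nat.card_pos (α := X)) ?_
  have : ∑ h : D, Nat.card {x : X // (g * h) • x = x} = ∑ x : X, Nat.card {h : D // (g * h) • x = x} := by
    simp only [Nat.card_eq_fintype_card, Fintype.card_subtype, Finset.card_filter]
    exact Finset.sum_comm
  rw [this, Finset.sum_mul, Finset.sum_congr rfl fun x _ => e x]
  simp [mul_comm]

theorem uniq (hD : IsPretransitive D X) {g : G} (h : ∀ d ∈ D, ∃ x : X, (g * d) • x = x) : ∃! x : X, g • x = x := by
  have := Fintype.ofFinite D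
  obtain ⟨x, hx⟩ := h 1 (one_mem _)
  have : Nonempty X := ⟨x⟩
  have h1 : ∀ d ∈ (Finset.univ : Finset D), 1 ≤ Nat.card {x : X // (g * d) • x = x} := fun d _ => by
    have : Nonempty {x : X // (g * d) • x = x} := (h d d.2).elim fun x hx => ⟨⟨x, hx⟩⟩
    exact Nat.card_pos
  have h2 := (Finset.sum_eq_sum_iff_of_le h1).1 (by rw [cos hD g]; simp) 1 (Finset.mem_univ _)
  rw [mul_one] at hx
  have := (Nat.card_eq_one_iff_unique.1 h2.symm).1
  exact ⟨x, hx, fun y hy => congrArg Subtype.val (this.elim ⟨y, by simpa using hy⟩ ⟨x, by simpa using hx⟩)⟩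

omit [Finite X] in
theorem sup_top (n : D.Normal) (t : IsPretransitive G X) (h : ∀ g ∉ D, ∃ x : X, g • x = x) (a : X) : D ⊔ stabilizer G a = ⊤ := by
  have t' : IsPretransitive (⊤ : Subgroup G) (G ⧸ (D ⊔ stabilizer G a)) :=
    ⟨fun x y => (exists_smul_eq G x y).elim fun g hg => ⟨⟨g, trivial⟩, hg⟩⟩
  obtain ⟨x, -, hx⟩ := uniq t' (g := 1) fun g _ => by
    rw [one_mul]
    by_cases c : g ∈ D
    · exact ⟨(1 : G), QuotientGroup.eq.2 (by simpa using Subgroup.mem_sup_left c)⟩
    obtain ⟨x, hx⟩ := h g c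
    obtain ⟨k, rfl⟩ := t.exists_smul_eq a x
    refine ⟨k, (QuotientGroup.eq.2 (Subgroup.mem_sup_right ?_)).symm⟩
    change (k⁻¹ * (g * k)) • a = a
    rw [mul_smul, mul_smul, hx, inv_smul_smul]
  refine eq_top_iff.2 fun g _ => ?_
  simpa using QuotientGroup.eq.1 ((hx (1 : G) (one_smul _ _)).trans (hx g (one_smul _ _)).symm)

omit [Finite X] in
theorem trans_of (n : D.Normal) (t : IsPretransitive G X) (h : ∀ g ∉ D, ∃ x : X, g • x = x) : IsPretransitive D X := ⟨fun a b => by
  obtain ⟨k, rfl⟩ := t.exists_smul_eq a b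
  have : k ∈ ((D ⊔ stabilizer G a : Subgroup G) : Set G) := by rw [sup_top n t h a]; trivial
  rw [Subgroup.normal_mul] at this
  obtain ⟨d, hd, s, hs, rfl⟩ := this
  exact ⟨⟨d, hd⟩, by rw [mul_smul, show s • a = a from hs]; rfl⟩⟩

theorem ex_of (n : D.Normal) (t : IsPretransitive G X) (h : ∀ g ∉ D, ∃ x : X, g • x = x) : Ex G X D :=
  ⟨n, fun g hg => uniq (trans_of n t h) fun d hd => h _ fun c => hg ((D.mul_mem_cancel_right hd).1 c)⟩

theorem dvd_card {L Y : Type*} [Group L] [MulAction L Y] [Finite Y] (K : Subgroup L) (h : ∀ y : Y, stabilizer L y ≤ K) :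
    K.index ∣ Nat.card Y := by
  classical
  have := Fintype.ofFinite (orbitRel.Quotient L Y)
  rw [Nat.card_congr (selfEquivSigmaOrbits' L Y), Nat.card_sigma]
  refine Finset.dvd_sum fun q _ => ?_
  induction q using Quotient.inductionOn' with
  | h y =>
    rw [orbitRel.Quotient.orbit_mk, Nat.card_coe_set_eq, ← index_stabilizer]
    exact Subgroup.index_dvd_of_le (h y)

theorem le_card (t : IsPretransitive G X) (e : Ex G X D) {a : X} {Y : Set X} (ha : a ∈ Y) (h1 : 1 < Y.ncard)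
    (hY : ∀ g : G, g • a = a → ∀ y ∈ Y, g • y ∈ Y) : D.index + 1 ≤ Y.ncard := by
  have n := e.1
  let S : SubMulAction (stabilizer G a) X := ⟨Y \ {a}, fun g y hy => ⟨hY g g.2 y hy.1, fun c => hy.2
    ((smul_left_cancel_iff g).1 ((show g • y = a from c).trans (show g • a = a from g.2).symm))⟩⟩
  have h2 := dvd_card (Y := S) (D.subgroupOf (stabilizer G a)) fun y g hg => by_contra fun c =>
    y.2.2 ((e.2 g c).unique (congrArg Subtype.val hg) g.2)
  have h3 : (D.subgroupOf (stabilizer G a)).index = D.index := by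
    rw [← Subgroup.relIndex, ← Subgroup.relIndex_sup_left, sup_top n t (fun g hg => (e.2 g hg).exists) a, Subgroup.relIndex_top_right]
  have h4 : Nat.card S = Y.ncard - 1 := (Nat.card_coe_set_eq (Y \ {a})).trans (Set.ncard_sdiff_singleton_of_mem ha)
  rw [h3, h4] at h2
  have := Nat.le_of_dvd (by omega) h2
  omega

theorem p0 : P0.{u, v} := fun G Ω _ _ _ _ t _ => ex_of
  ⟨fun x hx g => Subgroup.closure_induction (p := fun x _ => g * x * g⁻¹ ∈ Subgroup.closure {g : G | ∀ ω : Ω, g • ω ≠ ω})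
    (fun x (hx : ∀ ω : Ω, x • ω ≠ ω) => Subgroup.subset_closure fun ω c => hx (g⁻¹ • ω) (by rw [eq_inv_smul_iff, ← mul_smul, ← mul_smul, c]))
    (by simp) (fun x y _ _ a b => by simpa [mul_assoc] using mul_mem a b) (fun x _ a => by simpa [mul_assoc] using inv_mem a) hx⟩
  t fun g hg => by_contra fun c => hg (Subgroup.subset_closure fun ω e => c ⟨ω, e⟩)

theorem tr : Tr.{u, v} := fun _ _ _ _ _ _ _ t e => trans_of e.1 t fun g hg => (e.2 g hg).exists

theorem pb : PB.{u, v} := fun G Ω _ _ _ _ D t e h => by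
  obtain ⟨B, hB, nt⟩ : ∃ B : Set Ω, IsBlock G B ∧ ¬ IsTrivialBlock B := by
    by_contra c
    exact h ⟨fun {B} hB => by_contra fun n => c ⟨B, hB, n⟩⟩
  obtain ⟨h1, h2⟩ := not_or.1 nt
  have h3 : 1 < B.ncard := (Set.one_lt_ncard_iff_nontrivial_and_finite ..).2 ⟨Set.not_subsingleton_iff.1 h1, Set.toFinite _⟩
  obtain ⟨a, ha⟩ := (Set.not_subsingleton_iff.1 h1).nonempty
  have h4 := hB.ncard_block_mul_ncard_orbit_eq ⟨a, ha⟩
  have e' : Ex G (orbit G B) D := ex_of e.1 inferInstance fun g hg => by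
    obtain ⟨x, hx⟩ := (e.2 g hg).exists
    obtain ⟨k, rfl⟩ := t.exists_smul_eq a x
    exact ⟨⟨k • B, mem_orbit _ _⟩, Subtype.ext ((hB.translate k).smul_eq_of_mem (Set.smul_mem_smul_set ha)
      (hx.symm ▸ Set.smul_mem_smul_set ha))⟩
  have h5 := le_card t e ha h3 fun g hg y hy => hB.smul_eq_of_mem ha (hg.symm ▸ ha) ▸ Set.smul_mem_smul_set hy
  have h6 := le_card inferInstance e' (a := ⟨B, mem_orbit_self _⟩) (Set.mem_univ _) (by
    rw [Set.ncard_univ, Nat.card_coe_set_eq]
    by_contra c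
    have : Nat.card Ω ≤ B.ncard := h4 ▸ (Nat.mul_le_mul_left _ (not_lt.1 c)).trans (mul_one _).le
    exact h2 (Set.eq_of_subset_of_ncard_le (Set.subset_univ _) (by rwa [Set.ncard_univ]))) fun _ _ _ _ => trivial
  rw [Set.ncard_univ, Nat.card_coe_set_eq] at h6
  rw [← h4, pow_two]
  exact Nat.mul_le_mul h5 h6

end Cfsg.Agent.H4.DG
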