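import Cfsg.Agent.H9.DG0

set_option autoImplicit false

/-! The subgroup generated by derangements: linear counts. -/

namespace Cfsg.Agent.H4.DL
open MulAction Cfsg.Agent.H9.DG

universe u

theorem ind : Ind.{u} := fun p _ M ι _ _ U h => by
  classical
  have k : ∀ (s : Finset ι) (v : ι → M), (∀ i ∈ s, v i ∈ U i) → ∑ i ∈ s, v i = 0 → ∀ i ∈ s, v i = 0 := fun s => by
    induction s using Finset.strongInduction with
    | H s ih =>
      intro v hv e j hj
      by_cases c : ∃ i ∈ s, i ≠ j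
      · obtain ⟨i, hi, ij⟩ := c
        obtain ⟨T, t1, t2, t3⟩ := h i j ij
        refine t3 _ (hv j hj) (ih _ (Finset.erase_ssubset hi) (fun l => T (v l)) (fun l hl => t1 l _ (hv l (Finset.mem_of_mem_erase hl)))
          ?_ j (Finset.mem_erase.2 ⟨ij.symm, hj⟩))
        rw [Finset.sum_erase (f := fun l => T (v l)) _ (t2 _ (hv i hi)), ← map_sum, e, map_zero]
      · rwa [Finset.sum_eq_single_of_mem j hj fun i hi ij => (c ⟨i, hi, ij⟩).elim] at e
  refine ⟨(iSupIndep_iff_finsetSum_eq_zero_imp_eq_zero U).2 k, fun i j l ij il jl _ => ?_⟩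
  rw [← Nat.card_prod, ← Nat.card_prod]
  refine Nat.card_le_card_of_injective (fun x => x.1.1.1 + x.1.2.1 + x.2.1) ?_
  rintro ⟨⟨a, b⟩, c⟩ ⟨⟨a', b'⟩, c'⟩ e
  have := k {i, j, l} (fun m => if m = i then (a - a').1 else if m = j then (b - b').1 else (c - c').1)
    (by simp [ij.symm, il.symm, jl.symm, sub_mem]) (by
      rw [Finset.sum_insert (by simp [ij, il]), Finset.sum_pair jl]
      simp only [ij.symm, il.symm, jl.symm, ↓reduceIte, Submodule.coe_sub]
      rw [← sub_eq_zero.2 (show a.1 + b.1 + c.1 = a'.1 + b'.1 + c'.1 from e)]; abel)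
  simpa [ij.symm, il.symm, jl.symm, sub_eq_zero, and_assoc] using this

section
variable {p : ℕ} {H V : Type*} [Group H] [Finite H] [AddCommGroup V] [Module (ZMod p) V] [Finite V]
  {ρ : Representation (ZMod p) H V} {K L : Subgroup H} {U : Submodule (ZMod p) V} {v : V}

omit [Finite V] [Finite H] in
theorem orb_eq (M : Subgroup H) (v : V) : letI := MulAction.compHom V ρ
    Set.ncard {w : V | ∃ g ∈ M, ρ g v = w} = (stabilizer H v).relIndex M := by
  letI := MulAction.compHom V ρ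
  rw [Subgroup.relIndex, show (stabilizer H v).subgroupOf M = stabilizer M v from rfl, index_stabilizer]
  exact congrArg _ (Set.ext fun w => ⟨fun ⟨g, a, b⟩ => ⟨⟨g, a⟩, b⟩, fun ⟨g, b⟩ => ⟨g, g.2, b⟩⟩)

omit [Finite H] in
theorem orb (f : ∀ h ∈ L, h ∉ K → ρ h v ≠ v) (hU : ∀ g ∈ L, ρ g v ∈ U) (v0 : v ≠ 0) :
    K.relIndex L * Set.ncard {w : V | ∃ g ∈ L ⊓ K, ρ g v = w} + 1 ≤ Nat.card U := by
  letI := MulAction.compHom V ρ
  have h1 : Set.ncard {w : V | ∃ g ∈ L, ρ g v = w} + 1 ≤ Nat.card U := by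
    rw [← Set.ncard_insert_of_notMem (a := 0) (by
      rintro ⟨g, -, e⟩
      exact v0 (by simpa using congrArg (ρ g⁻¹) e))]
    refine Set.ncard_le_ncard (t := (U : Set V)) ?_
    rintro _ (rfl | ⟨g, a, rfl⟩)
    exacts [zero_mem _, hU g a]
  rwa [orb_eq, ← Subgroup.inf_relIndex_right, ← Subgroup.relIndex_mul_relIndex (stabilizer H v ⊓ L) (L ⊓ K) L
    (fun g hg => ⟨hg.2, by_contra fun c => f g hg.2 c hg.1⟩) inf_le_left, Subgroup.inf_relIndex_left, mul_comm,
    ← Subgroup.inf_relIndex_right (stabilizer H v ⊓ L), inf_assoc, ← inf_assoc L, inf_idem, Subgroup.inf_relIndex_right, ← orb_eq] at h1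

omit [Finite H] in
theorem idx (n : K.Normal) (L : Subgroup H) : K.index = K.relIndex L * (L ⊔ K).index := by
  rw [← Subgroup.relIndex_sup_right, Subgroup.relIndex_mul_index le_sup_right]

omit [Finite H] in
theorem orb_z {Z : Subgroup H} (hZ : Z ≤ L) (s : ∀ z ∈ Z, ρ z v = v → z = 1) : Nat.card Z ≤ Set.ncard {w : V | ∃ g ∈ L, ρ g v = w} :=
  Nat.card_le_card_of_injective (β := {w : V | ∃ g ∈ L, ρ g v = w}) (fun z => ⟨ρ z v, z, hZ z.2, rfl⟩) fun a b e => by
    have e : ρ a v = ρ b v := congrArg Subtype.val e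
    exact Subtype.ext (inv_mul_eq_one.1 (s _ (mul_mem (inv_mem b.2) a.2) (by simp [e]))).symm

omit [Finite H] in
theorem fq {g : H} (f : ∀ v, ρ g v = v → v = 0) (hU : ∀ v ∈ U, ρ g v ∈ U) (e : ρ g v - v ∈ U) : v ∈ U := by
  obtain ⟨w, hw⟩ := Finite.surjective_of_injective (f := fun x : U => (⟨ρ g x - x, sub_mem (hU x x.2) x.2⟩ : U)) (fun a b e =>
    Subtype.ext (sub_eq_zero.1 (f _ (by rw [map_sub]; exact sub_eq_sub_iff_sub_eq_sub.1 (congrArg Subtype.val e))))) ⟨_, e⟩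
  rw [sub_eq_zero.1 (f (v - w) (by rw [map_sub]; exact sub_eq_sub_iff_sub_eq_sub.1 (congrArg Subtype.val hw).symm))]
  exact w.2

end

theorem l2 : L2.{u} := fun p _ H V _ _ _ _ _ ρ K L U U' j h i1 i2 n1 n2 d hj ho => by
  have k : ∀ W : Submodule (ZMod p) V, Inv ρ L W → W ≠ ⊥ → (∀ v ∈ W, v ∈ U ∨ v ∈ U') → K.index + 1 ≤ Nat.card W := fun W a b c => by
    obtain ⟨v, hv, v0⟩ := W.ne_bot_iff.1 b
    refine le_trans ?_ (orb (K := K) (fun g _ n e => v0 (h.fpf g n v e)) (fun g hg => a g hg v hv) v0)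
    rw [idx h.nrm L]
    exact Nat.succ_le_succ (Nat.mul_le_mul_left _ (hj.trans (ho v v0 (c v hv))))
  refine ((pow_two _).trans_le (Nat.mul_le_mul (k U i1 n1 fun _ => .inl) (k U' i2 n2 fun _ => .inr))).trans ?_
  rw [← Nat.card_prod]
  refine Nat.card_le_card_of_injective (fun x => x.1.1 + x.2.1) fun a b e => ?_
  have e1 : a.1.1 - b.1.1 = b.2.1 - a.2.1 := sub_eq_sub_iff_add_eq_add.2 (e.trans (add_comm _ _))
  have e2 : a.1.1 - b.1.1 = 0 := Submodule.disjoint_def.1 d _ (sub_mem a.1.2 b.1.2) (e1 ▸ sub_mem b.2.2 a.2.2)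
  exact Prod.ext (Subtype.ext (sub_eq_zero.1 e2)) (Subtype.ext (sub_eq_zero.1 (e1 ▸ e2)).symm)

theorem l2z : L2z.{u} := fun p _ H V _ _ _ _ _ ρ K L Z U h i1 n1 n2 hZ s hj => by
  obtain ⟨v, hv, v0⟩ := U.ne_bot_iff.1 n1
  have h1 := orb (K := K) (fun g _ n e => v0 (h.fpf g n v e)) (fun g hg => i1 g hg v hv) v0
  have h2 := orb_z (ρ := ρ) hZ fun z hz e => by_contra fun c => v0 (s z hz c v e)
  obtain ⟨w, hw⟩ : ∃ w, w ∉ U := not_forall.1 fun c => n2 (eq_top_iff.2 fun w _ => c w)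
  let σ := Representation.quotient (ρ.comp L.subtype) U fun g v hv => i1 g g.2 v hv
  have : Finite (V ⧸ U) := Quotient.finite _
  have q : ∀ g : L, (∀ v, ρ g v = v → v = 0) → σ g (U.mkQ w) ≠ U.mkQ w := fun g f e =>
    hw (fq f (i1 g g.2) ((Submodule.Quotient.eq U).1 e))
  have h3 := orb (ρ := σ) (K := K.subgroupOf L) (L := ⊤) (U := ⊤) (v := U.mkQ w) (fun g _ n => q g (h.fpf g n)) (fun _ _ => trivial)
    fun e => hw ((Submodule.Quotient.mk_eq_zero U).1 e)
  have h4 := orb_z (ρ := σ) (L := ⊤ ⊓ K.subgroupOf L) (Z := Z.subgroupOf L) (v := U.mkQ w) (fun z hz => ⟨trivial, (hZ hz).2⟩)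
    fun z hz e => by_contra fun c => q z (s z hz fun e => c (Subtype.ext e)) e
  rw [Nat.card_congr (Subgroup.subgroupOfEquivOfLe (hZ.trans inf_le_left)).toEquiv] at h4
  rw [Subgroup.relIndex_top_right, Nat.card_congr Submodule.topEquiv.toEquiv] at h3
  rw [Gd, idx h.nrm L, Submodule.card_eq_card_quotient_mul_card U, pow_two]
  exact Nat.mul_le_mul ((Nat.succ_le_succ (Nat.mul_le_mul_left _ (hj.trans h2))).trans h1)
    ((Nat.succ_le_succ (Nat.mul_le_mul_left _ (hj.trans h4))).trans h3)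

theorem big (D : ℕ) (h : 256 ≤ D) : 4096 * D ^ 24 ≤ 2 ^ D := by
  induction D, h using Nat.le_induction with
  | base => decide +kernel
  | succ D h ih =>
    have h1 : ((D + 1) * 256) ^ 24 ≤ (D * 257) ^ 24 := Nat.pow_le_pow_left (by omega) _
    have h2 : D ^ 24 * 257 ^ 24 ≤ D ^ 24 * (2 * 256 ^ 24) := Nat.mul_le_mul_left _ (by decide +kernel)
    rw [mul_pow, mul_pow] at h1
    have h3 : (D + 1) ^ 24 ≤ D ^ 24 * 2 := Nat.le_of_mul_le_mul_right (by rw [mul_assoc]; exact h1.trans h2) (by positivity)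
    rw [pow_succ 2]
    omega

theorem l3 : L3.{u} := fun p hp H V _ _ _ _ _ ρ K L U hV h i1 n1 h3 hL => by
  obtain ⟨v, hv, v0⟩ := U.ne_bot_iff.1 n1
  have h1 := orb (K := K) (fun g _ n e => v0 (h.fpf g n v e)) (fun g hg => i1 g hg v hv) v0
  have h2 : 0 < Set.ncard {w : V | ∃ g ∈ L ⊓ K, ρ g v = w} := (Set.ncard_pos (Set.toFinite _)).2 ⟨_, 1, one_mem _, rfl⟩
  have h4 : (L ⊔ K).index ≤ L.index := Subgroup.index_antitone le_sup_left
  have h5 : 0 < L.index := Nat.pos_of_ne_zero Subgroup.index_ne_zero_of_finite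
  have h6 : K.index + 1 ≤ Nat.card U * (4 * Module.finrank (ZMod p) V ^ 4) := by
    rw [idx h.nrm L]
    have := Nat.mul_le_mul_left (K.relIndex L) h2
    nlinarith [Nat.mul_le_mul_left (K.relIndex L) h4, Nat.mul_le_mul (show K.relIndex L + 1 ≤ Nat.card U by omega) hL]
  have h7 : 4096 * Module.finrank (ZMod p) V ^ 24 ≤ Nat.card V := by
    rcases le_total 256 (Module.finrank (ZMod p) V) with c | c
    · refine (big _ c).trans ?_
      rw [Module.natCard_eq_pow_finrank (K := ZMod p), Nat.card_zmod]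
      exact Nat.pow_le_pow_left hp.out.two_le _
    · exact (Nat.mul_le_mul_left _ (Nat.pow_le_pow_left c _)).trans (le_trans (by decide +kernel) hV)
  refine (Nat.pow_le_pow_iff_left (n := 3) (by decide)).1 ?_
  calc _ ≤ ((Nat.card U * (4 * Module.finrank (ZMod p) V ^ 4)) ^ 2) ^ 3 := by gcongr
    _ = (Nat.card U ^ 3) ^ 2 * (4096 * Module.finrank (ZMod p) V ^ 24) := by ring
    _ ≤ Nat.card V ^ 2 * Nat.card V := by gcongr
    _ = _ := by ring

end Cfsg.Agent.H4.DL
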