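import Cfsg.Agent.H4.DRm1

set_option autoImplicit false

namespace Cfsg.Agent.H4.DRm
open MulAction Finset Cfsg.Agent.H3.DR Cfsg.Agent.H4.DRm1

universe u v

theorem arith (X τ B α β : ℝ) (hτ : 0 ≤ τ) (hB : 0 ≤ B) (hα : 0 ≤ α) (hβ : 0 ≤ β) (h1 : α + β < 1)
    (h : X ^ 2 ≤ (τ * B) ^ 2 * α + τ * B * β * X) : X ≤ τ * B := by
  by_contra hc
  push Not at hc
  have h0 : 0 ≤ τ * B := mul_nonneg hτ hB
  have hX : 0 < X := lt_of_le_of_lt h0 hc
  have e1 : (τ * B) ^ 2 * α ≤ X ^ 2 * α := mul_le_mul_of_nonneg_right (by nlinarith) hα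
  have e2 : τ * B * β * X ≤ X ^ 2 * β := by
    have : τ * B * (β * X) ≤ X * (β * X) := mul_le_mul_of_nonneg_right hc.le (by positivity)
    nlinarith
  have e3 : 0 < X ^ 2 * (1 - (α + β)) := mul_pos (by positivity) (by linarith)
  nlinarith

section
variable {G : Type u} {Ω : Type v} [Group G] [Fintype G] [MulAction G Ω] [Fintype Ω]

theorem orb (hT : IsPretransitive G Ω) (w : Ω → ℝ) (m : ℕ) (hS : Sub G Ω m) (c d : Ω) (hcd : c ≠ d) :
    (Fintype.card Ω : ℝ) * m * QQ G w c d ^ 2 ≤ ∑ c, ∑ d, QQ G w c d ^ 2 := by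
  classical
  have key : ∀ c' : Ω, (m : ℝ) * QQ G w c d ^ 2 ≤ ∑ d', QQ G w c' d' ^ 2 := by
    intro c'
    obtain ⟨g, hg⟩ := hT.exists_smul_eq c c'
    have hne : c' ≠ g • d := by
      rw [← hg]; exact fun e => hcd (smul_left_cancel g e)
    have hm := hS c' (g • d) hne
    have hcard : Nat.card (orbit (stabilizer G c') (g • d)) =
        #(univ.filter fun e => e ∈ orbit (stabilizer G c') (g • d)) := by
      rw [Nat.card_eq_fintype_card, Fintype.card_subtype]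
    rw [hcard] at hm
    calc (m : ℝ) * QQ G w c d ^ 2
        ≤ (#(univ.filter fun e => e ∈ orbit (stabilizer G c') (g • d)) : ℝ) * QQ G w c d ^ 2 :=
          mul_le_mul_of_nonneg_right (by exact_mod_cast hm) (sq_nonneg _)
      _ = ∑ e ∈ univ.filter (fun e => e ∈ orbit (stabilizer G c') (g • d)), QQ G w c' e ^ 2 := by
          rw [← nsmul_eq_mul, ← Finset.sum_const]
          refine Finset.sum_congr rfl fun e he => ?_
          obtain ⟨h, rfl⟩ := (Finset.mem_filter.1 he).2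
          have : QQ G w c' ((h : G) • g • d) = QQ G w c d := by
            have e1 := QQ_smul w (h : G) c' (g • d)
            have e2 := QQ_smul w g c d
            rw [mem_stabilizer_iff.1 h.2] at e1
            rw [hg] at e2
            exact e1.trans e2
          exact congrArg (· ^ 2) this.symm
      _ ≤ _ := Finset.sum_le_sum_of_subset_of_nonneg (Finset.filter_subset _ _) fun _ _ _ => sq_nonneg _
  calc (Fintype.card Ω : ℝ) * m * QQ G w c d ^ 2 = ∑ _c' : Ω, (m : ℝ) * QQ G w c d ^ 2 := by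
        rw [Finset.sum_const, nsmul_eq_mul, Finset.card_univ, mul_assoc]
    _ ≤ _ := Finset.sum_le_sum fun c' _ => key c'

theorem rk_nonneg : 0 ≤ rk G Ω := by
  unfold rk
  refine div_nonneg (Finset.sum_nonneg fun g _ => ?_) (Nat.cast_nonneg _)
  rcases Nat.eq_zero_or_pos (fx Ω g) with h | h
  · simp [h]
  · have : (1 : ℝ) ≤ fx Ω g := by exact_mod_cast h
    exact mul_nonneg (by linarith) (by linarith)

theorem dl_nonneg : 0 ≤ dl G Ω := by
  unfold dl; positivity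

end

theorem pm (h1 : PM1.{u, v}) (h2 : PM2.{u, v}) : PM.{u, v} := by
  intro G Ω _ _ _ _ _ m s hT hm hS hs hlt F φ hφ c d hcd
  classical
  have hN : (0 : ℝ) < Fintype.card G := by exact_mod_cast Fintype.card_pos
  have hn : (0 : ℝ) < Fintype.card Ω := by exact_mod_cast Fintype.card_pos
  have hm' : (0 : ℝ) < m := by exact_mod_cast hm
  obtain ⟨n, hn'⟩ : ∃ n : ℝ, n = Fintype.card Ω := ⟨_, rfl⟩
  let w : Ω → ℝ := fun e => (if e ∈ F then 1 else 0) - φ
  have hF : (#F : ℝ) = n * φ := by rw [hφ, hn']; field_simp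
  have hI : ∑ e : Ω, (if e ∈ F then (1 : ℝ) else 0) = n * φ := by
    rw [← hF, Finset.sum_boole]; simp
  have hw0 : ∑ e, w e = 0 := by
    simp only [w, Finset.sum_sub_distrib, hI, Finset.sum_const, nsmul_eq_mul, Finset.card_univ, ← hn']
    ring
  have hτ : ∑ e, w e ^ 2 = n * φ * (1 - φ) := by
    have : ∀ e, w e ^ 2 = (1 - 2 * φ) * (if e ∈ F then (1 : ℝ) else 0) + φ ^ 2 := by
      intro e; simp only [w]; split_ifs <;> ring
    simp only [this, Finset.sum_add_distrib, ← Finset.mul_sum, hI, Finset.sum_const, nsmul_eq_mul,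
      Finset.card_univ, ← hn']
    ring
  have hτ0 : 0 ≤ n * φ * (1 - φ) := hτ ▸ Finset.sum_nonneg fun e _ => sq_nonneg _
  have a1 := h1 G Ω w hT
  have a2 := h2 G Ω w m hT hw0 hm hS
  have a3 := orb hT w m hS c d hcd
  have hY0 : 0 ≤ ∑ c, ∑ d, QQ G w c d ^ 2 :=
    Finset.sum_nonneg fun _ _ => Finset.sum_nonneg fun _ _ => sq_nonneg _
  obtain ⟨X, hX⟩ : ∃ X : ℝ, X = √(∑ c, ∑ d, QQ G w c d ^ 2) := ⟨_, rfl⟩
  have hX2 : X ^ 2 = ∑ c, ∑ d, QQ G w c d ^ 2 := by rw [hX, Real.sq_sqrt hY0]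
  have hX0 : 0 ≤ X := hX ▸ Real.sqrt_nonneg _
  rw [← hX, hτ, ← hn'] at a2
  rw [← hX2, hτ] at a1
  rw [← hX2, ← hn'] at a3
  rw [← hn'] at hlt hn
  rw [← hn']
  obtain ⟨τ, hτ'⟩ : ∃ τ : ℝ, τ = n * φ * (1 - φ) := ⟨_, rfl⟩
  rw [← hτ'] at a1 a2 hτ0
  obtain ⟨a, ha⟩ : ∃ a : ℝ, a = √n := ⟨_, rfl⟩
  obtain ⟨b, hb⟩ : ∃ b : ℝ, b = √s := ⟨_, rfl⟩
  obtain ⟨r, hr⟩ : ∃ r : ℝ, r = √(m : ℝ) := ⟨_, rfl⟩
  have ha0 : 0 < a := ha ▸ Real.sqrt_pos.2 hn
  have hb0 : 0 < b := hb ▸ Real.sqrt_pos.2 hs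
  have hr0 : 0 < r := hr ▸ Real.sqrt_pos.2 hm'
  have ha2 : n = a ^ 2 := by rw [ha, Real.sq_sqrt hn.le]
  have hb2 : s = b ^ 2 := by rw [hb, Real.sq_sqrt hs.le]
  have hr2 : (m : ℝ) = r ^ 2 := by rw [hr, Real.sq_sqrt hm'.le]
  rw [Real.sqrt_div hn.le, ← ha, ← hr] at a2
  rw [← ha, ← hb] at hlt ⊢
  have hR := rk_nonneg (G := G) (Ω := Ω)
  have hδ := dl_nonneg (G := G) (Ω := Ω)
  have hXle : X ≤ τ * (1 / (b * r)) := by
    refine arith X τ (1 / (b * r)) _ _ hτ0 (by positivity) (by positivity) (by positivity) hlt ?_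
    refine a1.trans ((mul_le_mul_of_nonneg_left a2 hτ0).trans (le_of_eq ?_))
    rw [hb2, hr2]
    field_simp
  have hQ : QQ G w c d ≤ φ * (1 - φ) * (a / (b * m)) := by
    have e1 : (a * r * QQ G w c d) ^ 2 ≤ X ^ 2 := by
      calc (a * r * QQ G w c d) ^ 2 = n * m * QQ G w c d ^ 2 := by rw [ha2, hr2]; ring
        _ ≤ _ := a3
    have e2 : a * r * QQ G w c d ≤ X := (abs_le_of_sq_le_sq' e1 hX0).2
    have e3 : τ * (1 / (b * r)) = a * r * (φ * (1 - φ) * (a / (b * m))) := by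
      rw [hτ', ha2, hr2]; field_simp
    exact le_of_mul_le_mul_left (e2.trans (hXle.trans e3.le)) (by positivity)
  have hcnt : (#{t : G | t • c ∈ F ∧ t • d ∈ F} : ℝ) = qq G w c d + φ ^ 2 * Fintype.card G := by
    have s1 : ∑ t : G, w (t • c) = 0 := by rw [sum_smul_eq hT c w, hw0, mul_zero]
    have s2 : ∑ t : G, w (t • d) = 0 := by rw [sum_smul_eq hT d w, hw0, mul_zero]
    have : ∀ t : G, (if t • c ∈ F ∧ t • d ∈ F then (1 : ℝ) else 0) =
        w (t • c) * w (t • d) + φ * w (t • c) + φ * w (t • d) + φ ^ 2 := by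
      intro t
      by_cases p : t • c ∈ F <;> by_cases q : t • d ∈ F <;> simp [w, p, q] <;> ring
    rw [← Finset.sum_boole]
    simp only [this, Finset.sum_add_distrib, ← Finset.mul_sum, s1, s2, Finset.sum_const, nsmul_eq_mul,
      Finset.card_univ]
    unfold qq
    ring
  rw [QQ_eq, div_le_iff₀ hN] at hQ
  have fin : (#{t : G | t • c ∈ F ∧ t • d ∈ F} : ℝ) ≤ (φ ^ 2 + φ * (1 - φ) * (a / (b * m))) * Fintype.card G := by
    rw [hcnt]; linarith
  convert fin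

end Cfsg.Agent.H4.DRm
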