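import Cfsg.Agent.H3.DR0

set_option autoImplicit false

namespace Cfsg.Agent.H4.DRm1
open MulAction Finset Cfsg.Agent.H3.DR

universe u v

section
variable {G : Type u} {Ω : Type v} [Group G] [Fintype G] [MulAction G Ω]

/-- unnormalised correlation -/
noncomputable def qq (G : Type u) {Ω : Type v} [Group G] [Fintype G] [MulAction G Ω] (w : Ω → ℝ) (c d : Ω) : ℝ :=
  ∑ t : G, w (t • c) * w (t • d)

theorem QQ_eq (w : Ω → ℝ) (c d : Ω) : QQ G w c d = qq G w c d / Fintype.card G := rfl

theorem qq_smul (w : Ω → ℝ) (g : G) (c d : Ω) : qq G w (g • c) (g • d) = qq G w c d := by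
  unfold qq
  simp only [smul_smul]
  exact Equiv.sum_comp (Equiv.mulRight g) (fun t : G => w (t • c) * w (t • d))

theorem QQ_smul (w : Ω → ℝ) (g : G) (c d : Ω) : QQ G w (g • c) (g • d) = QQ G w c d := by
  rw [QQ_eq, QQ_eq, qq_smul]

open Classical in
theorem sum_smul_eq [Fintype Ω] (hT : IsPretransitive G Ω) (a : Ω) (F : Ω → ℝ) :
    ∑ t : G, F (t • a) = (Fintype.card (stabilizer G a) : ℝ) * ∑ c, F c := by
  rw [← Finset.sum_fiberwise (s := univ) (g := fun t : G => t • a), Finset.mul_sum]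
  refine Finset.sum_congr rfl fun c _ => ?_
  obtain ⟨g, hg⟩ := hT.exists_smul_eq a c
  have h1 : ∑ t ∈ univ.filter (fun t : G => t • a = c), F (t • a) =
      ∑ _t ∈ univ.filter (fun t : G => t • a = c), F c :=
    Finset.sum_congr rfl fun t ht => by rw [(Finset.mem_filter.1 ht).2]
  rw [h1, Finset.sum_const, nsmul_eq_mul]
  congr 1
  norm_cast
  rw [← Finset.card_univ]
  symm
  refine Finset.card_bij (fun h _ => g * (h : G)) ?_ ?_ ?_
  · intro h _
    simp only [Finset.mem_filter, Finset.mem_univ, true_and]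
    rw [mul_smul, mem_stabilizer_iff.1 h.2, hg]
  · intro h _ h' _ e
    exact Subtype.ext (mul_left_cancel e)
  · intro t ht
    have ht' : t • a = c := (Finset.mem_filter.1 ht).2
    refine ⟨⟨g⁻¹ * t, ?_⟩, Finset.mem_univ _, by simp⟩
    rw [mem_stabilizer_iff, mul_smul, ht', ← hg, inv_smul_smul]

open Classical in
theorem row [Fintype Ω] (hT : IsPretransitive G Ω) (w : Ω → ℝ) (a : Ω) :
    ∑ c, qq G w a c ^ 2 ≤ (∑ c, w c ^ 2) * ∑ z : stabilizer G a, ∑ c, qq G w c ((z : G) • c) := by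
  set k : ℝ := ((Fintype.card (stabilizer G a) : ℕ) : ℝ) with hk
  have hk0 : 0 < k := by rw [hk]; exact_mod_cast Fintype.card_pos
  have h1 : ∀ c, k * qq G w a c = ∑ t : G, w (t • a) * ∑ h : stabilizer G a, w (t • (h : G) • c) := by
    intro c
    have : ∀ h : stabilizer G a, qq G w a c = ∑ t : G, w (t • a) * w (t • (h : G) • c) := by
      intro h
      rw [← qq_smul w (h : G) a c, mem_stabilizer_iff.1 h.2]; rfl
    calc k * qq G w a c = ∑ _h : stabilizer G a, qq G w a c := by
          rw [Finset.sum_const, nsmul_eq_mul, Finset.card_univ]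
      _ = ∑ h : stabilizer G a, ∑ t : G, w (t • a) * w (t • (h : G) • c) :=
          Finset.sum_congr rfl fun h _ => this h
      _ = _ := by rw [Finset.sum_comm]; simp only [Finset.mul_sum]
  have h2 : ∑ t : G, w (t • a) ^ 2 = k * ∑ c, w c ^ 2 := sum_smul_eq hT a (fun c => w c ^ 2)
  have h3 : ∀ c, ∑ t : G, (∑ h : stabilizer G a, w (t • (h : G) • c)) ^ 2 =
      k * ∑ z : stabilizer G a, qq G w c ((z : G) • c) := by
    intro c
    calc ∑ t : G, (∑ h : stabilizer G a, w (t • (h : G) • c)) ^ 2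
        = ∑ t : G, ∑ h : stabilizer G a, ∑ h' : stabilizer G a,
            w (t • (h : G) • c) * w (t • (h' : G) • c) := by
          refine Finset.sum_congr rfl fun t _ => ?_
          rw [sq, Finset.sum_mul_sum]
      _ = ∑ h : stabilizer G a, ∑ h' : stabilizer G a, qq G w ((h : G) • c) ((h' : G) • c) := by
          rw [Finset.sum_comm]
          refine Finset.sum_congr rfl fun h _ => ?_
          rw [Finset.sum_comm]; rfl
      _ = ∑ _h : stabilizer G a, ∑ z : stabilizer G a, qq G w c ((z : G) • c) := by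
          refine Finset.sum_congr rfl fun h _ => ?_
          rw [← Equiv.sum_comp (Equiv.mulLeft h)]
          refine Finset.sum_congr rfl fun z _ => ?_
          simp only [Equiv.coe_mulLeft, Subgroup.coe_mul, mul_smul]
          exact qq_smul w (h : G) c ((z : G) • c)
      _ = _ := by rw [Finset.sum_const, nsmul_eq_mul, Finset.card_univ]
  have h4 : ∀ c, qq G w a c ^ 2 ≤ (∑ c, w c ^ 2) * ∑ z : stabilizer G a, qq G w c ((z : G) • c) := by
    intro c
    have := Finset.sum_mul_sq_le_sq_mul_sq univ (fun t : G => w (t • a))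
      (fun t : G => ∑ h : stabilizer G a, w (t • (h : G) • c))
    rw [← h1, h2, h3] at this
    have hk2 : 0 < k ^ 2 := by positivity
    refine le_of_mul_le_mul_left ?_ hk2
    calc k ^ 2 * qq G w a c ^ 2 = (k * qq G w a c) ^ 2 := by ring
      _ ≤ _ := this
      _ = _ := by ring
  calc ∑ c, qq G w a c ^ 2 ≤ ∑ c, (∑ c, w c ^ 2) * ∑ z : stabilizer G a, qq G w c ((z : G) • c) :=
        Finset.sum_le_sum fun c _ => h4 c
    _ = _ := by rw [← Finset.mul_sum, Finset.sum_comm]

open Classical in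
theorem sum_stab [Fintype Ω] (Ψ : G → ℝ) :
    ∑ a : Ω, ∑ z : stabilizer G a, Ψ z = ∑ z : G, (fx Ω z : ℝ) * Ψ z := by
  have : ∀ a : Ω, ∑ z : stabilizer G a, Ψ z = ∑ z : G, if z • a = a then Ψ z else 0 := by
    intro a
    rw [← Finset.sum_filter]
    exact (Finset.sum_subtype (univ.filter fun z : G => z • a = a) (by simp [mem_stabilizer_iff]) Ψ).symm
  simp only [this]
  rw [Finset.sum_comm]
  refine Finset.sum_congr rfl fun z _ => ?_
  rw [← Finset.sum_filter, Finset.sum_const, nsmul_eq_mul]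
  unfold fx
  congr

end

theorem pm1 : PM1.{u, v} := by
  intro G Ω _ _ _ _ w hT
  classical
  have hN : (0 : ℝ) < Fintype.card G := by exact_mod_cast Fintype.card_pos
  have h1 : ∑ a, ∑ c, qq G w a c ^ 2 ≤ (∑ c, w c ^ 2) * ∑ z : G, (fx Ω z : ℝ) * ∑ c, qq G w c (z • c) := by
    rw [← sum_stab (Ω := Ω) (fun z : G => ∑ c, qq G w c (z • c)), Finset.mul_sum]
    exact Finset.sum_le_sum fun a _ => by convert row hT w a
  have h2 : ∑ c, ∑ d, QQ G w c d ^ 2 = (∑ a, ∑ c, qq G w a c ^ 2) / (Fintype.card G : ℝ) ^ 2 := by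
    simp only [QQ_eq, div_pow, Finset.sum_div]
  have h3 : UU G w = (∑ z : G, (fx Ω z : ℝ) * ∑ c, qq G w c (z • c)) / (Fintype.card G : ℝ) ^ 2 := by
    unfold UU
    simp only [QQ_eq, ← Finset.sum_div, ← mul_div_assoc]
    rw [div_div, sq]
  rw [h2, h3, ← mul_div_assoc]
  exact div_le_div_of_nonneg_right h1 (by positivity)

end Cfsg.Agent.H4.DRm1
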