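import Cfsg.Agent.H4.FxH

/-!
Fixed points of elements of order seven and thirteen on the adjoint module.
-/

set_option autoImplicit false
set_option maxRecDepth 100000

namespace Cfsg.Agent.H4.Fx

open Module Cfsg.Lie Cfsg.Agent.H6.Gs Cfsg.Agent.H4.T8

theorem c13 : enum 13 (fun _ V => Nat.ble 12 (T8.cnt 13 1 0 V)) = true := by decide +kernel

theorem e13 (x : chevE8.group (ZMod 3)) (hx : x ^ 13 = 1) : 20 ≤ dm ⊤ (rho x) 1 := by
  obtain ⟨⟨ζ, hζ⟩, c, -, hc⟩ := tor_odd (by norm_num) (by decide) hx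
  obtain ⟨q, V, h1, -, -, h3⟩ := kac (by decide) hζ hx hc c13
  have h4 := h3 1 0 1 (by decide) (by simp)
  rw [pow_one, show ind 0 0 = 1 from rfl] at h4
  have := Nat.le_of_ble_eq_true h1
  omega

theorem card_mod7 {V : Type*} [AddCommGroup V] [Module (ZMod 3) V] [FiniteDimensional (ZMod 3) V]
    (f : End (ZMod 3) V) (h : f ^ 7 = 1) : 3 ^ finrank (ZMod 3) V ≡ 3 ^ dm ⊤ f 1 [MOD 7] := by
  classical
  have := Module.finite_of_finite (ZMod 3) (M := V)
  have := Fintype.ofFinite V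
  have := Fact.mk (by norm_num : Nat.Prime 7)
  have h1 := Equiv.Perm.card_fixedPoints_modEq (α := V) (f := ⇑f) (p := 7) (n := 1) (funext fun v => LinearMap.congr_fun h v)
  rw [Fintype.card_congr (α := Function.fixedPoints _) (β := ↥(⊤ ⊓ f.eigenspace 1)) ⟨fun v => ⟨v.1, trivial,
    End.mem_eigenspace_iff.2 (v.2.trans (one_smul _ _).symm)⟩,
    fun v => ⟨v.1, (End.mem_eigenspace_iff.1 v.2.2).trans (one_smul _ _)⟩, fun _ => rfl, fun _ => rfl⟩,
    Module.card_eq_pow_finrank (K := ZMod 3) (V := V), Module.card_eq_pow_finrank (K := ZMod 3) (V := ↥(⊤ ⊓ f.eigenspace 1)),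
    ZMod.card] at h1
  exact h1

theorem e7' (x : chevE8.group (ZMod 3)) (hx : x ^ 7 = 1) : 38 ≤ dm ⊤ (rho x) 1 := by
  have h1 := card_mod7 (rho x) (by rw [← map_pow, hx, map_one])
  have h2 := e7 x hx
  rw [rho_dim] at h1
  generalize dm ⊤ (rho x) 1 = d at h1 h2
  by_contra h
  interval_cases d <;> exact absurd h1 (by decide)

end Cfsg.Agent.H4.Fx
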