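import Cfsg.Agent.H4.F23C2
import Cfsg.Agent.H4.F23C4

/-!
The permutation group of degree 31671 is simple.
-/

set_option autoImplicit false

namespace Cfsg.Agent.H4.F23

open BP Equiv

/-- the generators -/
noncomputable abbrev σ (s : ℕ) : Perm ℕ := gen S s

theorem σ_big {s : ℕ} (h : 11 ≤ s) : σ s = 1 := gen_of_le S s h

theorem σ_sq (s : ℕ) : σ s * σ s = 1 := by
  by_cases h : s < 11
  · simpa using wf.eq_one (allLt_spec c_sq s h)
  · rw [σ_big (by omega), one_mul]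

theorem σ_inv (s : ℕ) : (σ s)⁻¹ = σ s := inv_eq_of_mul_eq_one_right (σ_sq s)

/-- the group -/
def G : Subgroup (Perm ℕ) := Subgroup.closure (Set.range σ)

theorem σ_mem (s : ℕ) : σ s ∈ G := Subgroup.subset_closure ⟨s, rfl⟩

theorem ev_mem (w : List ℕ) : ev S w ∈ G :=
  Subgroup.list_prod_mem _ fun x hx => by
    obtain ⟨a, -, rfl⟩ := List.mem_map.1 hx
    exact σ_mem a

theorem G_le : G ≤ Fx 31671 := (Subgroup.closure_le _).2 <| by
  rintro _ ⟨s, rfl⟩
  by_cases h : s < 11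
  · simpa using wf.agree (allLt_spec c_tail s h)
  · rw [σ_big (by omega)]; exact one_mem _

instance finite_G : Finite G := Finite.of_injective _ (Subgroup.inclusion_injective G_le)

theorem G_lt {g : Perm ℕ} (hg : g ∈ G) {p : ℕ} (hp : p < 31671) : g p < 31671 := Fx.lt (G_le hg) hp

theorem comm {s t : ℕ} (h : [s, t, s, t] ∈ rels ∨ [t, s, t, s] ∈ rels) : σ s * σ t * (σ s * σ t) = 1 := by
  rcases h with h | h
  · simpa [mul_assoc] using rels_one _ h
  · have := rels_one _ h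
    rw [ev_cons, mul_eq_one_comm] at this
    simpa [mul_assoc] using this

theorem braid {s t : ℕ} (h : [s, t, s, t, s, t] ∈ rels ∨ [t, s, t, s, t, s] ∈ rels) :
    σ s * σ t * (σ s * σ t * (σ s * σ t)) = 1 := by
  rcases h with h | h
  · simpa [mul_assoc] using rels_one _ h
  · have := rels_one _ h
    rw [ev_cons, mul_eq_one_comm] at this
    simpa [mul_assoc] using this

theorem σ_zero : ∀ s ∈ [0, 1, 2, 3, 4, 5, 6, 7, 8, 10], σ s * σ 10 * (σ s)⁻¹ = σ 10 ∧ σ s 0 = 0 := by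
  intro s hs
  refine ⟨?_, by simpa using wf.pt (List.all_eq_true.1 c_zero s hs)⟩
  by_cases h : s = 10
  · simp [h]
  · have h1 : ∀ s ∈ [0, 1, 2, 3, 4, 5, 6, 7, 8, 10], s ≠ 10 → [s, 10, s, 10] ∈ rels := by decide
    rw [σ_inv, ← σ_inv 10, eq_inv_iff_mul_eq_one, σ_inv, mul_assoc]
    exact comm (Or.inl (h1 s hs h))

theorem exists_tau : ∃ τ : ℕ → Perm ℕ, τ 0 = σ 10 ∧ ∀ s < 11, ∀ p < 31671, σ s * τ p * (σ s)⁻¹ = τ (σ s p) := by
  let g : ℕ → ConjAct (Perm ℕ) := fun s => ConjAct.toConjAct (σ s)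
  have hg : ∀ s, g s * g s = 1 := σ_sq
  have h1 : ∀ w ∈ rels, IsRel g S w := fun w hw => ⟨rels_one w hw, rels_one w hw⟩
  have hR : ∀ w ∈ RR, IsRel g S w := fun w hw => by
    rcases List.mem_append.1 hw with h | h
    · exact h1 w h
    · obtain ⟨v, hv, rfl⟩ := List.mem_map.1 h
      exact (h1 v (List.mem_of_mem_drop hv)).reverse hg σ_sq
  have hf : ∀ s ∈ [0, 1, 2, 3, 4, 5, 6, 7, 8, 10], g s • σ 10 = σ 10 ∧ gen S s 0 = 0 := fun s hs =>
    ⟨by rw [ConjAct.smul_def, ConjAct.ofConjAct_toConjAct]; exact (σ_zero s hs).1, (σ_zero s hs).2⟩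
  obtain ⟨c, hc, h0⟩ := tree_start wf hg σ_sq hf _
  rw [Nat.eq_of_beq_eq_true c_tree] at h0
  have h1 := run_spec wf hg σ_sq hR P0 h0
  rw [Nat.eq_of_beq_eq_true c_P0] at h1
  have h2 := run_spec wf hg σ_sq hR P1 h1
  rw [Nat.eq_of_beq_eq_true c_P1] at h2
  have h3 := run_spec wf hg σ_sq hR P2 h2
  rw [Nat.eq_of_beq_eq_true c_P2] at h3
  exact ⟨c, hc, (run_spec wf hg σ_sq hR P3 h3).full c_P3⟩

/-- the transposition attached to a point -/
noncomputable def τ : ℕ → Perm ℕ := exists_tau.choose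

theorem τ_zero : τ 0 = σ 10 := exists_tau.choose_spec.1

theorem τ_conj {g : Perm ℕ} (hg : g ∈ G) : ∀ p < 31671, g * τ p * g⁻¹ = τ (g p) := by
  induction hg using Subgroup.closure_induction with
  | mem x hx =>
    obtain ⟨s, rfl⟩ := hx
    by_cases h : s < 11
    · exact exists_tau.choose_spec.2 s h
    · rw [σ_big (by omega)]; simp
  | one => simp
  | mul x y hx hy h1 h2 =>
    intro p hp
    rw [Perm.mul_apply, ← h1 _ (G_lt hy hp), ← h2 p hp]; group
  | inv x hx h1 =>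
    intro p hp
    have := h1 _ (G_lt (G.inv_mem hx) hp)
    rw [show x (x⁻¹ p) = p by simp] at this
    rw [← this]; group

/-- the point belongs to the generator -/
def IsPt (s : ℕ) : Prop := τ (pt s) = σ s ∧ pt s < 31671 ∧ ∃ g ∈ G, g 0 = pt s

theorem IsPt.edge {s t : ℕ} (h : IsPt s) (h1 : (s, t) ∈ edges) : IsPt t := by
  have h2 : ev S [s, t] (pt s) = pt t := wf.pt (List.all_eq_true.1 c_pts _ h1)
  have h3 : ∀ a ∈ edges, [a.1, a.2, a.1, a.2, a.1, a.2] ∈ rels ∨ [a.2, a.1, a.2, a.1, a.2, a.1] ∈ rels := by decide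
  obtain ⟨h4, h5, g, hg, h6⟩ := h
  refine ⟨?_, h2 ▸ G_lt (ev_mem _) h5, ev S [s, t] * g, G.mul_mem (ev_mem _) hg, by rw [Perm.mul_apply, h6, h2]⟩
  rw [← h2, ← τ_conj (ev_mem _) _ h5, h4, ← σ_inv t, eq_inv_iff_mul_eq_one, ← braid (h3 _ h1)]
  simp [σ_inv, mul_assoc]

theorem isPt : ∀ s < 11, IsPt s := by
  have h10 : IsPt 10 := ⟨τ_zero, by decide, 1, one_mem _, rfl⟩
  have h9 := h10.edge (t := 9) (by decide)
  have h6 := h9.edge (t := 6) (by decide)
  have h5 := h6.edge (t := 5) (by decide)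
  have h4 := h5.edge (t := 4) (by decide)
  have h3 := h4.edge (t := 3) (by decide)
  have h2 := h3.edge (t := 2) (by decide)
  have h1 := h2.edge (t := 1) (by decide)
  have h0 := h1.edge (t := 0) (by decide)
  have h7 := h3.edge (t := 7) (by decide)
  have h8 := h7.edge (t := 8) (by decide)
  intro s hs
  interval_cases s <;> assumption

theorem orbits : ∀ p < 31671, ∃ c ∈ G, c * σ 10 * c⁻¹ = σ 10 ∧ c 0 = 0 ∧ (c p = 0 ∨ c p = 6 ∨ c p = 15) := by
  intro p hp
  refine wf.reach (P := fun p => ∃ c ∈ G, c * σ 10 * c⁻¹ = σ 10 ∧ c 0 = 0 ∧ (c p = 0 ∨ c p = 6 ∨ c p = 15))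
    ?_ _ _ ?_ p (covers_spec c_r1 p hp)
  · rintro w hw p ⟨c, hc, h1, h2, h3⟩
    have h4 : ∀ w ∈ [[0], [1], [2], [3], [4], [5], [6], [7], [8]], ∃ s ∈ [0, 1, 2, 3, 4, 5, 6, 7, 8, 10], w = [s] := by
      decide
    obtain ⟨s, hs, rfl⟩ := h4 w hw
    refine ⟨c * σ s, G.mul_mem hc (σ_mem s), ?_, by rw [Perm.mul_apply, (σ_zero s hs).2, h2], by simpa using h3⟩
    conv_rhs => rw [← h1, ← (σ_zero s hs).1]
    group
  · intro p hp
    refine ⟨1, one_mem _, by simp, rfl, ?_⟩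
    change (2 ^ 0 ||| (2 ^ 6 ||| 2 ^ 15)).testBit p = true at hp
    simp only [Nat.testBit_or, Nat.testBit_two_pow, Bool.or_eq_true, decide_eq_true_eq] at hp
    simp only [Perm.one_apply]
    omega

theorem trans : ∀ p < 31671, ∃ g ∈ G, g 0 = p := by
  intro p hp
  obtain ⟨c, hc, -, -, h | h | h⟩ := orbits p hp
  · exact ⟨c⁻¹, G.inv_mem hc, by rw [← h]; simp⟩
  · obtain ⟨g, hg, h1⟩ := (isPt 9 (by norm_num)).2.2
    exact ⟨c⁻¹ * g, G.mul_mem (G.inv_mem hc) hg, by rw [Perm.mul_apply, h1, show pt 9 = 6 from rfl, ← h]; simp⟩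
  · obtain ⟨g, hg, h1⟩ := (isPt 0 (by norm_num)).2.2
    exact ⟨c⁻¹ * g, G.mul_mem (G.inv_mem hc) hg, by rw [Perm.mul_apply, h1, show pt 0 = 15 from rfl, ← h]; simp⟩

theorem τ_mem {p : ℕ} (hp : p < 31671) : τ p ∈ G := by
  obtain ⟨g, hg, rfl⟩ := trans p hp
  rw [← τ_conj hg 0 (by norm_num), τ_zero]
  exact G.mul_mem (G.mul_mem hg (σ_mem _)) (G.inv_mem hg)

theorem base {g : Perm ℕ} (hg : g ∈ G) (h : ∀ s < 11, g (pt s) = pt s) : g = 1 := by
  have h1 : G ≤ Subgroup.centralizer {g} := (Subgroup.closure_le _).2 <| by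
    rintro _ ⟨s, rfl⟩
    by_cases hs : s < 11
    · have := τ_conj hg _ (isPt s hs).2.1
      rw [h s hs, (isPt s hs).1, mul_inv_eq_iff_eq_mul] at this
      exact Subgroup.mem_centralizer_singleton_iff.2 this.symm
    · rw [σ_big (by omega)]; exact one_mem _
  ext p
  by_cases hp : p < 31671
  · obtain ⟨x, hx, rfl⟩ := trans p hp
    have h2 := Subgroup.mem_centralizer_singleton_iff.1 (h1 hx)
    have h3 : g 0 = 0 := h 10 (by norm_num)
    rw [← Perm.mul_apply, ← h2, Perm.mul_apply, h3, Perm.one_apply]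
  · exact G_le hg p (by omega)

theorem eq_of_rel {Q : Type*} [Group Q] {x y : Q} (hx : x * x = 1) (h1 : x * y * (x * y) = 1)
    (h2 : x * y * (x * y * (x * y)) = 1) : y = x := by
  rw [h1, mul_one] at h2
  exact mul_left_cancel (h2.trans hx.symm)

theorem σ_ne : σ 9 ≠ σ 10 := fun h => by
  have h1 := c_nine
  rw [tb_eq, wf.apW, ev_cons, ev_nil, mul_one, show gen S 9 0 = σ 10 0 from congrArg (· 0) h,
    (σ_zero 10 (by simp)).2] at h1
  exact absurd h1 (by decide)

theorem not_comm : ¬ ∀ a b : G, a * b = b * a := fun h => by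
  have h1 : σ 9 * σ 10 = σ 10 * σ 9 := congrArg Subtype.val (h ⟨_, σ_mem 9⟩ ⟨_, σ_mem 10⟩)
  refine σ_ne (eq_of_rel (σ_sq 9) ?_ (braid (by decide))).symm
  conv_lhs => rw [mul_assoc, ← mul_assoc (σ 10), ← h1, mul_assoc, σ_sq, mul_one, σ_sq]

theorem top_of_normal (N : Subgroup G) [N.Normal] (hN : N ≠ ⊥) : N = ⊤ := by
  let x : ℕ → G := fun s => ⟨σ s, σ_mem s⟩
  let a : ℕ → G ⧸ N := fun s => QuotientGroup.mk' N (x s)
  have ha : ∀ s, a s * a s = 1 := fun s => by
    rw [← map_mul, show x s * x s = 1 from Subtype.ext (σ_sq s), map_one]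
  have st : ∀ s t u, a u = a s → ([s, t, s, t, s, t] ∈ rels ∨ [t, s, t, s, t, s] ∈ rels) →
      ([u, t, u, t] ∈ rels ∨ [t, u, t, u] ∈ rels) → a t = a s := fun s t u h h1 h2 => by
    refine eq_of_rel (ha s) ?_ ?_
    · rw [← h]
      simp only [a, ← map_mul]
      rw [show x u * x t * (x u * x t) = 1 from Subtype.ext (comm h2), map_one]
    · simp only [a, ← map_mul]
      rw [show x s * x t * (x s * x t * (x s * x t)) = 1 from Subtype.ext (braid h1), map_one]
  have h0 : a 0 = a 10 := by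
    obtain ⟨⟨y, hy⟩, hy1⟩ := Subgroup.ne_bot_iff_exists_ne_one.1 hN
    obtain ⟨p, hp⟩ : ∃ p, y.1 p ≠ p := by
      by_contra h
      push Not at h
      exact hy1 (Subtype.ext (Subtype.ext (Equiv.ext h)))
    have hp1 : p < 31671 := by
      by_contra h
      exact hp (G_le y.2 p (by omega))
    obtain ⟨g, hg, rfl⟩ := trans p hp1
    have hz := ‹N.Normal›.conj_mem' y hy ⟨g, hg⟩
    set z := (⟨g, hg⟩ : G)⁻¹ * y * ⟨g, hg⟩
    have hz0 : z.1 0 ≠ 0 := fun e => hp (Perm.inv_eq_iff_eq.1 e)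
    have hq := G_lt z.2 (show 0 < 31671 by norm_num)
    obtain ⟨c, hc, h1, h2, h3⟩ := orbits _ hq
    have h4 : ∀ s < 11, c (z.1 0) = pt s → a s = a 10 := fun s hs e => by
      have h5 : x s = ⟨c, hc⟩ * (z * x 10 * z⁻¹) * (⟨c, hc⟩ : G)⁻¹ := Subtype.ext (by
        change σ s = c * (z.1 * σ 10 * z.1⁻¹) * c⁻¹
        rw [← τ_zero, τ_conj z.2 0 (by norm_num), τ_conj hc _ hq, e, (isPt s hs).1])
      have h6 : x 10 = ⟨c, hc⟩ * x 10 * (⟨c, hc⟩ : G)⁻¹ := Subtype.ext h1.symm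
      have h7 : QuotientGroup.mk' N z = 1 := (QuotientGroup.eq_one_iff z).2 hz
      simp only [a]
      rw [h5, h6.symm.symm]
      simp only [map_mul, map_inv, h7]
      conv_rhs => rw [← h6.symm, map_mul, map_mul, map_inv]
      group
    rcases h3 with h3 | h3 | h3
    · exact absurd (c.injective (h3.trans h2.symm)) hz0
    · have h9 := h4 9 (by norm_num) h3
      have h6 := st 9 6 10 h9.symm (by decide) (by decide)
      have h5 := st 6 5 9 h6.symm (by decide) (by decide)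
      have h4 := st 5 4 6 h5.symm (by decide) (by decide)
      have h3 := st 4 3 5 h4.symm (by decide) (by decide)
      have h2 := st 3 2 4 h3.symm (by decide) (by decide)
      have h1 := st 2 1 3 h2.symm (by decide) (by decide)
      have h0 := st 1 0 2 h1.symm (by decide) (by decide)
      rw [h0, h1, h2, h3, h4, h5, h6, h9]
    · exact h4 0 (by norm_num) h3
  have h1 := st 0 1 10 h0.symm (by decide) (by decide)
  have h2 := st 1 2 0 h1.symm (by decide) (by decide)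
  have h3 := st 2 3 1 h2.symm (by decide) (by decide)
  have h4 := st 3 4 2 h3.symm (by decide) (by decide)
  have h5 := st 4 5 3 h4.symm (by decide) (by decide)
  have h6 := st 5 6 4 h5.symm (by decide) (by decide)
  have h9 := st 6 9 5 h6.symm (by decide) (by decide)
  have h7 := st 3 7 2 h3.symm (by decide) (by decide)
  have h8 := st 7 8 3 h7.symm (by decide) (by decide)
  have h10 : a 10 = 1 := by
    have e1 : (odd.map x).prod = 1 := Subtype.ext (by
      rw [Subgroup.coe_one, ← wf.eq_one c_odd, ← Subgroup.coe_subtype, map_list_prod, List.map_map]; rfl)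
    have e2 : (odd.map a).prod = 1 := by
      rw [← map_one (QuotientGroup.mk' N), ← e1, map_list_prod, List.map_map]; rfl
    have e3 : ∀ y, a 10 * (a 10 * y) = y := fun y => by rw [← mul_assoc, ha, one_mul]
    simpa only [odd, List.map_cons, List.map_nil, List.prod_cons, List.prod_nil, h7, h5, h4, h3, h2, h1, h0,
      e3, mul_one] using e2
  have hall : ∀ s, x s ∈ N := fun s => by
    by_cases hs : s < 11
    · refine (QuotientGroup.eq_one_iff _).1 (show a s = 1 from ?_)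
      interval_cases s <;> simp only [h9, h8, h7, h6, h5, h4, h3, h2, h1, h0, h10]
    · rw [show x s = 1 from Subtype.ext (σ_big (by omega))]; exact one_mem _
  have : G ≤ N.map G.subtype := (Subgroup.closure_le _).2 <| by
    rintro _ ⟨s, rfl⟩
    exact ⟨x s, hall s, rfl⟩
  rw [eq_top_iff]
  intro g _
  obtain ⟨y, hy, e⟩ := this g.2
  rwa [← show y = g from Subtype.ext e]

instance simple_G : IsSimpleGroup G where
  exists_pair_ne := ⟨⟨_, σ_mem 9⟩, ⟨_, σ_mem 10⟩, fun e => σ_ne (congrArg Subtype.val e)⟩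
  eq_bot_or_eq_top_of_normal N _ := by
    by_cases h : N = ⊥
    · exact Or.inl h
    · exact Or.inr (top_of_normal N h)

end Cfsg.Agent.H4.F23
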