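import Cfsg.Agent.H3.Wreath

/-!
Solvability from actions on small labelled sets.
-/

set_option autoImplicit false

namespace Cfsg.Agent.H4.Solv

open Equiv

theorem solv_pi {ι P : Type*} [Group P] [h : Group.IsSolvable P] : Group.IsSolvable (ι → P) := by
  obtain ⟨n, hn⟩ := h
  refine ⟨n, (Subgroup.eq_bot_iff_forall _).2 fun x hx => funext fun i => ?_⟩
  have := map_derivedSeries_le_derivedSeries (Pi.evalMonoidHom (fun _ : ι => P) i) n ⟨x, hx, rfl⟩
  rwa [hn] at this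

theorem solv_step {Γ Y V ι : Type*} [Group Γ] [MulAction Γ Y] (Q : Subgroup (Perm V)) [Group.IsSolvable Q]
    (A K : Subgroup Γ) [Group.IsSolvable K] (B : ι → Set Y) (φ : ι → Y → V)
    (hB : ∀ i, ∀ g ∈ A, ∀ y ∈ B i, g • y ∈ B i) (hs : ∀ i v, ∃ y ∈ B i, φ i y = v)
    (hc : ∀ i, ∀ g ∈ A, ∀ x ∈ B i, ∀ y ∈ B i, φ i x = φ i y → φ i (g • x) = φ i (g • y))
    (hQ : ∀ i, ∀ g ∈ A, ∀ π : Perm V, (∀ y ∈ B i, π (φ i y) = φ i (g • y)) → π ∈ Q)
    (hK : ∀ g ∈ A, (∀ i, ∀ y ∈ B i, φ i (g • y) = φ i y) → g ∈ K) : Group.IsSolvable A := by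
  choose s hs1 hs2 using hs
  have key : ∀ i (g : A), ∀ y ∈ B i, φ i (g.1 • s i (φ i y)) = φ i (g.1 • y) := fun i g y hy =>
    hc i g g.2 _ (hs1 _ _) _ hy (hs2 _ _)
  let f : ι → A →* Function.End V := fun i =>
    { toFun := fun g v => φ i (g.1 • s i v)
      map_one' := funext fun v => by simp [hs2]; rfl
      map_mul' := fun g h => funext fun v => by
        change φ i ((g.1 * h.1) • s i v) = φ i (g.1 • s i (φ i (h.1 • s i v)))
        rw [key i g _ (hB i _ h.2 _ (hs1 _ _)), mul_smul] }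
  let θ : ι → A →* Q := fun i => (MonoidHom.toHomPerm (f i)).codRestrict Q fun g =>
    hQ i g g.2 _ fun y hy => key i g y hy
  haveI : Group.IsSolvable (ι → Q) := solv_pi
  haveI : Group.IsSolvable (K.subgroupOf A) :=
    Group.isSolvable_of_isSolvable_injective (f := (A.subtype.subgroupComap K))
      (fun a b e => Subtype.ext (Subtype.ext (congrArg (fun x : K => x.1) e)))
  refine Group.isSolvable_of_ker_le_range (K.subgroupOf A).subtype (MonoidHom.pi θ) fun g hg => ?_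
  rw [Subgroup.range_subtype]
  refine hK g g.2 fun i y hy => ?_
  have h1 : θ i g = 1 := congrFun hg i
  rw [← key i g y hy]
  exact congrArg (fun π : Q => π.1 (φ i y)) h1

instance solv_four : Group.IsSolvable (⊤ : Subgroup (Perm (Fin 4))) :=
  haveI := H3.Wreath.isSolvable_perm_four (α := Fin 4) (by simp)
  inferInstance

instance solv_three : Group.IsSolvable (⊤ : Subgroup (Perm (Fin 3))) :=
  haveI := H3.Wreath.isSolvable_perm_four (α := Fin 4) (by simp)
  haveI := Group.isSolvable_of_isSolvable_injective (Perm.viaEmbeddingHom_injective (Fin.castSuccEmb (n := 3)))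
  inferInstance

/-- the affine plane of order three -/
abbrev V := ZMod 3 × ZMod 3

/-- the collineations of the affine plane of order three -/
def AG : Subgroup (Perm V) where
  carrier := {π | ∀ u v, π (-u - v) = -π u - π v}
  one_mem' := fun _ _ => rfl
  mul_mem' := fun {a b} ha hb u v => by rw [Perm.mul_apply, hb, ha]; rfl
  inv_mem' := fun {a} ha u v => by rw [Perm.inv_eq_iff_eq, ha]; simp

/-- direction of a pair of points -/
def dir (a : V × V) : Fin 4 :=
  if (a.1 - a.2).1 = 0 then 0 else if (a.1 - a.2).2 = 0 then 1 else if (a.1 - a.2).1 = (a.1 - a.2).2 then 2 else 3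

theorem dir_eq : ∀ x y : V, x ≠ 0 → y ≠ 0 → (dir (x, 0) = dir (y, 0) ↔ x = y ∨ x = -y) := by decide

theorem dir_sub (a b : V) : dir (a, b) = dir (a - b, 0) := by simp [dir]

theorem AG.sub {π : Perm V} (h : π ∈ AG) (u v : V) : π (u - v) - π 0 = π u - π v := by
  have h3 : ∀ x : V, x + x + x = 0 := by decide
  have h1 := h (-u - 0) v
  rw [h u 0] at h1
  rw [show u - v = -(-u - 0) - v by simp, h1]
  abel

/-- the dilatations -/
def DL : Subgroup (Perm V) where
  carrier := {π | ∃ c, (∀ u, π u = u + c) ∨ ∀ u, π u = -u + c}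
  one_mem' := ⟨0, Or.inl fun _ => by simp⟩
  mul_mem' := fun {a b} ⟨c, ha⟩ ⟨d, hb⟩ => by
    rcases ha with ha | ha <;> rcases hb with hb | hb
    · exact ⟨d + c, Or.inl fun u => by rw [Perm.mul_apply, hb, ha, add_assoc]⟩
    · exact ⟨d + c, Or.inr fun u => by rw [Perm.mul_apply, hb, ha, add_assoc]⟩
    · exact ⟨-d + c, Or.inr fun u => by rw [Perm.mul_apply, hb, ha]; abel⟩
    · exact ⟨-d + c, Or.inl fun u => by rw [Perm.mul_apply, hb, ha]; abel⟩
  inv_mem' := fun {a} ⟨c, ha⟩ => by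
    rcases ha with ha | ha
    · exact ⟨-c, Or.inl fun u => by rw [Perm.inv_eq_iff_eq, ha]; abel⟩
    · exact ⟨c, Or.inr fun u => by rw [Perm.inv_eq_iff_eq, ha]; abel⟩

theorem comm_solv {G : Type*} [Group G] (K L : Subgroup G) (h1 : ∀ a ∈ K, ∀ b ∈ K, a * b * a⁻¹ * b⁻¹ ∈ L)
    [Group.IsSolvable L] : Group.IsSolvable K := by
  haveI : Group.IsSolvable (L.subgroupOf K) :=
    Group.isSolvable_of_isSolvable_injective (f := (K.subtype.subgroupComap L))
      (fun a b e => Subtype.ext (Subtype.ext (congrArg (fun x : L => x.1) e)))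
  refine Group.isSolvable_of_ker_le_range (L.subgroupOf K).subtype Abelianization.of ?_
  rw [Subgroup.range_subtype, Abelianization.ker_of, commutator_def, Subgroup.commutator_le]
  exact fun a _ b _ => h1 a a.2 b b.2

/-- the translations -/
def TL : Subgroup (Perm V) where
  carrier := {π | ∃ c, ∀ u, π u = u + c}
  one_mem' := ⟨0, fun _ => by simp⟩
  mul_mem' := fun {a b} ⟨c, ha⟩ ⟨d, hb⟩ => ⟨d + c, fun u => by rw [Perm.mul_apply, hb, ha, add_assoc]⟩
  inv_mem' := fun {a} ⟨c, ha⟩ => ⟨-c, fun u => by rw [Perm.inv_eq_iff_eq, ha]; abel⟩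

instance solv_TL : Group.IsSolvable TL := Group.isSolvable_of_comm fun ⟨a, c, ha⟩ ⟨b, d, hb⟩ => Subtype.ext (Equiv.ext fun u => by
  simp only [Subgroup.coe_mul, Perm.mul_apply, ha, hb]; abel)

instance solv_DL : Group.IsSolvable DL := comm_solv DL TL fun a ⟨c, ha⟩ b ⟨d, hb⟩ => by
  refine ⟨(a * b * a⁻¹ * b⁻¹) 0, fun u => ?_⟩
  obtain ⟨x, rfl⟩ := (b * a).surjective u
  obtain ⟨y, hy⟩ := (b * a).surjective 0
  have e : ∀ z, (a * b * a⁻¹ * b⁻¹) ((b * a) z) = a (b z) := fun z => by simp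
  rw [e, ← hy, e, ← sub_eq_iff_eq_add, ← sub_zero ((b * a) x), ← hy]
  rcases ha with ha | ha <;> rcases hb with hb | hb <;> simp only [Perm.mul_apply, ha, hb] <;> abel

theorem pm : ∀ a b c : V, (a = (1, 0) ∨ a = -(1, 0)) → (b = (0, 1) ∨ b = -(0, 1)) → (c = (1, 1) ∨ c = -(1, 1)) →
    c = a + b → (a = (1, 0) ∧ b = (0, 1)) ∨ (a = -(1, 0) ∧ b = -(0, 1)) := by decide

theorem span : ∀ u : V, u = 0 ∨ u = (1, 0) ∨ u = (0, 1) ∨ u = 0 - (1, 0) ∨ u = 0 - (0, 1) ∨ u = (1, 0) - (0, 1) ∨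
    u = (0, 1) - (1, 0) ∨ u = (1, 0) - (0 - (0, 1)) ∨ u = (0 - (1, 0)) - (0, 1) := by decide

instance solv_AG : Group.IsSolvable AG := by
  refine solv_step (Y := V × V) (ι := Unit) ⊤ AG DL (fun _ => {a | a.1 ≠ a.2}) (fun _ => dir) ?_ ?_ ?_
    (fun _ _ _ _ _ => trivial) ?_
  · intro _ g _ y hy e
    exact hy (g.injective e)
  · intro _
    change ∀ v, ∃ y : V × V, y.1 ≠ y.2 ∧ dir y = v
    decide
  · rintro _ g hg ⟨a, b⟩ h1 ⟨c, d⟩ h2 h3
    change dir (g a, g b) = dir (g c, g d)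
    change a ≠ b at h1
    change c ≠ d at h2
    rw [dir_sub, dir_sub c, dir_eq _ _ (sub_ne_zero.2 h1) (sub_ne_zero.2 h2)] at h3
    rw [dir_sub, dir_sub (g c), dir_eq _ _ (sub_ne_zero.2 fun e => h1 (g.injective e))
      (sub_ne_zero.2 fun e => h2 (g.injective e)), neg_sub, ← AG.sub hg a, ← AG.sub hg c, ← AG.sub hg d]
    rcases h3 with h3 | h3
    · left; rw [h3]
    · right; rw [h3, neg_sub]
  · intro g hg h
    have h1 : ∀ u : V, u ≠ 0 → g u - g 0 = u ∨ g u - g 0 = -u := fun u hu => by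
      have := h () (u, 0) hu
      change dir (g u, g 0) = _ at this
      rwa [dir_sub, dir_eq _ _ (sub_ne_zero.2 fun e => hu (g.injective e)) hu] at this
    have h2 : ∀ u v, g (u - v) = g u - g v + g 0 := fun u v => by rw [← AG.sub hg]; abel
    have h3 := pm _ _ _ (h1 (1, 0) (by decide)) (h1 (0, 1) (by decide)) (h1 (1, 1) (by decide)) (by
      rw [show ((1, 1) : V) = (1, 0) - (0 - (0, 1)) by decide, h2, h2]; abel)
    refine ⟨g 0, h3.imp (fun h4 u => ?_) (fun h4 u => ?_)⟩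
    all_goals
      obtain ⟨h5, h6⟩ := h4
      rw [sub_eq_iff_eq_add] at h5 h6
      rcases span u with h | h | h | h | h | h | h | h | h <;> rw [h] <;> (try simp only [h2, h5, h6]) <;> abel

end Cfsg.Agent.H4.Solv
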