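import Cfsg.Agent.H4.F23M
import Cfsg.Agent.H4.Solv

/-!
A solvable maximal subgroup of derived length ten.
-/

set_option autoImplicit false

namespace Cfsg.Agent.H4.F23

open BP Equiv Solv
open scoped commutatorElement

theorem tb_lor (a b i : ℕ) : (Nat.lor a b).testBit i = (a.testBit i || b.testBit i) := Nat.testBit_or a b i

theorem tb_pow (r i : ℕ) : (Nat.pow 2 r).testBit i = decide (r = i) := Nat.testBit_two_pow

theorem tb_mask (m i : ℕ) : (Nat.sub (Nat.pow 2 m) 1).testBit i = decide (i < m) := Nat.testBit_two_pow_sub_one m i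

/-- the stabiliser of the first 324 points -/
def H : Subgroup (Perm ℕ) := G ⊓ Pres 324

theorem H_le : H ≤ Pres 324 := inf_le_right

theorem okT_spec {a : List ℕ × ℕ} (h : okT a = true) : ev S a.1 ∈ H ∧ Rep 324 (ev S a.1) a.2 := by
  rw [okT, Bool.and_eq_true] at h
  have h1 := wf.low (by norm_num) (by norm_num) h.1
  refine ⟨⟨ev_mem _, fun i hi => ?_⟩, h1⟩
  rw [h1 i hi]
  exact Nat.lt_succ_of_le (Nat.le_of_ble_eq_true (allLt_spec h.2 i hi))

theorem HL_spec : ∀ a ∈ HL, ev S a.1 ∈ H ∧ Rep 324 (ev S a.1) a.2 := fun a ha => by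
  rw [← List.take_append_drop 12 HL, List.mem_append] at ha
  exact okT_spec (ha.elim (List.all_eq_true.1 c_low1 a) (List.all_eq_true.1 c_low2 a))

/-- generators of the subgroup -/
noncomputable def hh (i : ℕ) : Perm ℕ := ev S (hl i).1

theorem hL (i : ℕ) : hh i ∈ H ∧ Rep 324 (hh i) (LL i) := by
  refine HL_spec (hl i) ?_
  rcases gt_mem HL _ i with h | h
  · rw [hl, h]; exact List.mem_cons_self ..
  · exact h

theorem ev_hw (l : List ℕ) : ev S (hw l) = (l.map hh).prod := by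
  induction l with
  | nil => rfl
  | cons a l ih => rw [List.map_cons, List.prod_cons, ← ih, hh, ← ev_append]; rfl

theorem τ_H {g : Perm ℕ} (hg : g ∈ H) (y : ℕ) (hy : y < 324) : g * τ y * g⁻¹ = τ (g y) := τ_conj hg.1 y (by omega)

theorem rows : ∀ x < 324, τ x ∈ H ∧ Rep 324 (τ x) (Mf x) := by
  have h0 : ∀ x, (0x221108841 : ℕ).testBit x → x < 324 ∧ τ x ∈ H ∧ Rep 324 (τ x) (Mf x) := by
    intro x hx
    have h1 : x < 34 := by
      by_contra h
      rw [Nat.testBit_lt_two_pow (lt_of_lt_of_le (by norm_num) (Nat.pow_le_pow_right (by norm_num) (not_lt.1 h)))] at hx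
      exact absurd hx (by simp)
    have h2 : ∀ x < 34, (0x221108841 : ℕ).testBit x → ∃ i < 8, x = pt (gt [9, 10, 0, 1, 7, 8, 4, 5] 0 i) ∧
        gt [9, 10, 0, 1, 7, 8, 4, 5] 0 i < 11 := by decide
    obtain ⟨i, hi, rfl, h3⟩ := h2 x h1 hx
    have h4 := allLt_spec c_root i hi
    rw [Bool.and_eq_true, beq_iff_eq] at h4
    have h5 := hL i
    rw [hh, h4.2, ← Nat.eq_of_beq_eq_true h4.1, ev_cons, ev_nil, mul_one] at h5
    exact ⟨by omega, by rw [(isPt _ h3).1]; exact h5⟩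
  have k : ∀ {l X X'}, Nat.beq (ftree LL Mf 324 l X) X' = true →
      (∀ x, X.testBit x → x < 324 ∧ τ x ∈ H ∧ Rep 324 (τ x) (Mf x)) →
      ∀ x, X'.testBit x → x < 324 ∧ τ x ∈ H ∧ Rep 324 (τ x) (Mf x) := fun hc hX => by
    rw [← Nat.eq_of_beq_eq_true hc]
    exact ftree_spec H_le hL (fun _ => τ_H) _ _ hX
  exact fun x hx => (k c_ft3 (k c_ft2 (k c_ft1 (k c_ft0 h0))) x (covers_spec (by decide +kernel) x hx)).2

theorem le_of_lt {K : Subgroup (Perm ℕ)} (hK : K ≤ G) (h : H < K) : G ≤ K := by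
  have hA : ∀ r < 31671, ∀ l p, (reach S (HL.map Prod.fst) l (Nat.pow 2 r)).testBit p →
      p < 31671 ∧ (τ p ∈ K ↔ τ r ∈ K) := fun r hr l => by
    refine wf.reach (P := fun p => p < 31671 ∧ (τ p ∈ K ↔ τ r ∈ K)) ?_ _ _ ?_
    · rintro w hw p ⟨h1, h2⟩
      obtain ⟨a, ha, rfl⟩ := List.mem_map.1 hw
      have h3 := (HL_spec a ha).1
      have h4 : p < 31671 := by simpa using G_lt (G.inv_mem h3.1) h1
      refine ⟨h4, ?_⟩
      rw [← h2, ← τ_conj h3.1 p h4, K.mul_mem_cancel_right (K.inv_mem (h.le h3)), K.mul_mem_cancel_left (h.le h3)]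
    · intro p hp
      rw [tb_pow, decide_eq_true_eq] at hp
      exact ⟨hp ▸ hr, by rw [hp]⟩
  have hA1 : ∀ p, XA.testBit p → p < 31671 ∧ (τ p ∈ K ↔ τ 8224 ∈ K) := by
    unfold XA; exact hA 8224 (by norm_num) _
  have hB1 : ∀ p, XB.testBit p → p < 31671 ∧ (τ p ∈ K ↔ τ 2026 ∈ K) := by
    unfold XB; exact hA 2026 (by norm_num) _
  have c := c_AB
  simp only [Bool.and_eq_true, tb_eq, wf.apW] at c
  obtain ⟨⟨⟨⟨c1, c2⟩, c3⟩, c4⟩, c5⟩ := c
  have h1 : τ 8224 ∈ K := by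
    obtain ⟨g, hg, hg1⟩ := SetLike.exists_of_lt h
    obtain ⟨x, hx, h2⟩ : ∃ x < 324, ¬ g x < 324 := by
      by_contra h3
      push Not at h3
      exact hg1 ⟨hK hg, h3⟩
    have h3 := G_lt (hK hg) (show x < 31671 by omega)
    have h4 : τ (g x) ∈ K := by
      rw [← τ_conj (hK hg) x (by omega)]
      exact K.mul_mem (K.mul_mem hg (h.le (rows x hx).1)) (K.inv_mem hg)
    have h5 := covers_spec c1 _ h3
    rw [tb_lor, tb_lor, tb_mask, Bool.or_eq_true, Bool.or_eq_true, decide_eq_true_eq] at h5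
    rcases h5 with h5 | h5 | h5
    · exact (hA1 _ h5).2.1 h4
    · have h6 := (hB1 _ h5).2.1 h4
      have h7 : ev S ([3, 7, 6, 5, 4, 3] ++ [2] ++ [3, 7, 6, 5, 4, 3].reverse) = τ 2026 := by
        rw [← wf.pt c_r2, ← τ_conj (ev_mem _) _ (by decide), (isPt 2 (by norm_num)).1, ev_append, ev_append,
          show ev S [3, 7, 6, 5, 4, 3].reverse = _ from prod_reverse σ_sq _, ev_cons S 2, ev_nil, mul_one]
        rfl
      rw [h7] at c5
      refine (hA1 _ c5).2.1 ?_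
      rw [← τ_conj (τ_mem (by norm_num)) _ (by norm_num)]
      exact K.mul_mem (K.mul_mem h6 ((hB1 _ c4).2.2 h6)) (K.inv_mem h6)
    · exact absurd h5 h2
  refine (Subgroup.closure_le _).2 ?_
  rintro _ ⟨s, rfl⟩
  by_cases hs : s < 11
  · rw [← (isPt s hs).1]
    have h2 : ∀ s < 11, pt s < 324 ∨ pt s = 8225 ∨ pt s = 8224 ∨ pt s = 8223 := by decide
    rcases h2 s hs with h3 | h3 | h3 | h3
    · exact h.le (rows _ h3).1
    · rw [h3]; exact (hA1 _ c2).2.2 h1
    · rw [h3]; exact h1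
    · rw [h3]; exact (hA1 _ c3).2.2 h1
  · rw [σ_big (by omega)]; exact K.one_mem

theorem coatom : IsCoatom (H.subgroupOf G) := by
  constructor
  · obtain ⟨g, hg, h1⟩ := trans 8224 (by norm_num)
    intro h
    have h2 : (⟨g, hg⟩ : G) ∈ H.subgroupOf G := h ▸ Subgroup.mem_top _
    have := h2.2 0 (by norm_num)
    change g 0 < 324 at this
    omega
  · intro K hK
    have h1 : H < K.map G.subtype := by
      rw [← Subgroup.map_subgroupOf_eq_of_le (show H ≤ G from inf_le_left)]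
      exact (Subgroup.map_subtype_lt_map_subtype).2 hK
    have h2 := le_of_lt (Subgroup.map_subtype_le K) h1
    rw [eq_top_iff]
    intro g _
    obtain ⟨y, hy, e⟩ := h2 g.2
    rwa [← show y = g from Subtype.ext e]

/-- coordinates in the affine plane -/
def enc (a : ℕ) : V := (((a / 3 : ℕ) : ZMod 3), (a : ZMod 3))

theorem op_spec : ∀ a < 9, ∀ b < 9, opT a b < 9 ∧ (opT a b = b ↔ a = b) ∧ enc (opT a b) = -enc a - enc b ∧
    (enc a = enc b → a = b) := by decide +kernel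

theorem enc_surj : ∀ v : V, ∃ a < 9, enc a = v := by decide

theorem labs {x y : ℕ} (hx : x < 324) (hy : y < 324) :
    (x / 36 ≠ y / 36 → τ x y / 36 = opT (x / 36) (y / 36)) ∧ (x / 36 = y / 36 → x / 9 ≠ y / 9 → τ x y = y) ∧
      (x / 9 = y / 9 → τ x y = 9 * (x / 9) + opT (x % 9) (y % 9)) := by
  have h1 : lab x = true := by
    by_cases h1 : x < 108
    · simpa using allLt_spec c_lab0 x h1
    · by_cases h2 : x < 216
      · have := allLt_spec c_lab1 (x - 108) (by omega)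
        rwa [show Nat.add 108 (x - 108) = x from Nat.add_sub_cancel' (by omega)] at this
      · have := allLt_spec c_lab2 (x - 216) (by omega)
        rwa [show Nat.add 216 (x - 216) = x from Nat.add_sub_cancel' (by omega)] at this
  simp only [lab, force_eq] at h1
  have h2 := allLt_spec h1 y hy
  rw [← (rows x hx).2 y hy] at h2
  change Bool.rec (Nat.beq (τ x y / 36) (opT (x / 36) (y / 36))) (Bool.rec (Nat.beq (τ x y) y)
    (Nat.beq (τ x y) (9 * (x / 9) + opT (x % 9) (y % 9))) (Nat.beq (x / 9) (y / 9)))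
    (Nat.beq (x / 36) (y / 36)) = true at h2
  refine ⟨fun h => ?_, fun h h' => ?_, fun h => ?_⟩
  · rw [show Nat.beq (x / 36) (y / 36) = false by rw [Bool.eq_false_iff]; simpa using h] at h2
    exact Nat.eq_of_beq_eq_true h2
  · rw [h, Nat.beq_refl, show Nat.beq (x / 9) (y / 9) = false by rw [Bool.eq_false_iff]; simpa using h'] at h2
    exact Nat.eq_of_beq_eq_true h2
  · rw [show x / 36 = y / 36 by omega, Nat.beq_refl, h, Nat.beq_refl] at h2
    rw [h]; exact Nat.eq_of_beq_eq_true h2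

theorem lab_a {x y : ℕ} (hx : x < 324) (hy : y < 324) : τ x y / 36 = opT (x / 36) (y / 36) := by
  obtain ⟨h1, h2, h3⟩ := labs hx hy
  by_cases h : x / 36 = y / 36
  · rw [h, ((op_spec (y / 36) (by omega) (y / 36) (by omega)).2.1).2 rfl]
    by_cases h' : x / 9 = y / 9
    · have := (op_spec (x % 9) (by omega) (y % 9) (by omega)).1
      rw [h3 h']; omega
    · rw [h2 h h']
  · exact h1 h

theorem fix_iff {x y : ℕ} (hx : x < 324) (hy : y < 324) : τ x y = y ↔ x = y ∨ (x / 36 = y / 36 ∧ x / 9 ≠ y / 9) := by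
  obtain ⟨h1, h2, h3⟩ := labs hx hy
  have h4 := (op_spec (x % 9) (by omega) (y % 9) (by omega))
  have h5 := (op_spec (x / 36) (by omega) (y / 36) (by omega)).2.1
  constructor
  · intro h
    rw [h] at h1 h3
    by_cases h' : x / 9 = y / 9
    · have := h3 h'
      have := h4.2.1.1 (by omega)
      omega
    · by_cases h'' : x / 36 = y / 36
      · exact Or.inr ⟨h'', h'⟩
      · exact absurd (h5.1 (h1 h'').symm) h''
  · rintro (rfl | h)
    · rw [h3 rfl, h4.2.1.2 rfl]; omega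
    · exact h2 h.1 h.2

theorem star {g : Perm ℕ} (hg : g ∈ H) {x : ℕ} (hx : x < 324) (y : ℕ) : τ (g x) (g y) = g (τ x y) := by
  rw [← τ_H hg x hx]; simp

theorem adj {g : Perm ℕ} (hg : g ∈ H) {x y : ℕ} (hx : x < 324) (hy : y < 324) :
    (g x / 36 = g y / 36 ∧ g x / 9 ≠ g y / 9) ↔ (x / 36 = y / 36 ∧ x / 9 ≠ y / 9) := by
  have h1 := fix_iff (hg.2 x hx) (hg.2 y hy)
  rw [star hg hx, g.injective.eq_iff, g.injective.eq_iff, fix_iff hx hy] at h1
  by_cases h : x = y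
  · simp [h]
  · simpa [h] using h1.symm

theorem sup {g : Perm ℕ} (hg : g ∈ H) {x y : ℕ} (hx : x < 324) (hy : y < 324) (h : x / 36 = y / 36) :
    g x / 36 = g y / 36 := by
  by_cases h' : x / 9 = y / 9
  · obtain ⟨w, hw, h1, h2⟩ : ∃ w < 324, x / 36 = w / 36 ∧ x / 9 ≠ w / 9 :=
      ⟨36 * (x / 36) + (x + 9) % 36, by omega, by omega, by omega⟩
    rw [((adj hg hx hw).2 ⟨h1, h2⟩).1, ((adj hg hy hw).2 ⟨by omega, by omega⟩).1]
  · exact ((adj hg hx hy).2 ⟨h, h'⟩).1

theorem blk {g : Perm ℕ} (hg : g ∈ H) {x y : ℕ} (hx : x < 324) (hy : y < 324) (h : x / 9 = y / 9) :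
    g x / 9 = g y / 9 := by
  by_contra h1
  exact ((adj hg hx hy).1 ⟨sup hg hx hy (by omega), h1⟩).2 h

/-- the elements preserving a labelling -/
def Lab (d : ℕ) : Subgroup (Perm ℕ) where
  carrier := {g | g ∈ H ∧ ∀ x < 324, g x / d = x / d}
  one_mem' := ⟨one_mem _, fun _ _ => rfl⟩
  mul_mem' := fun {a b} ha hb => ⟨H.mul_mem ha.1 hb.1, fun x hx => by
    rw [Perm.mul_apply, ha.2 _ (hb.1.2 x hx), hb.2 x hx]⟩
  inv_mem' := fun {a} ha => ⟨H.inv_mem ha.1, fun x hx => by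
    rw [← ha.2 _ ((H.inv_mem ha.1).2 x hx)]; simp⟩

theorem okF_spec {l : List (ℕ × List ℕ)} {a b c : ℕ} (h : okF l a b c = true) {g : Perm ℕ} (hg : g ∈ Lab 1) {y : ℕ}
    (hy1 : y < 31671) (hy : y = a ∨ y = b ∨ y = c) : g y = a ∨ g y = b ∨ g y = c := by
  simp only [okF, force_eq, Bool.and_eq_true, tb_eq, Bool.not_eq_true', List.all_eq_true, Nat.ble_eq] at h
  obtain ⟨h1, ⟨⟨h2, h3⟩, h4⟩, h5⟩ := h
  have h6 : (mvs S 15 (l.map fun x => (x.1, hw x.2))).testBit y = false := by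
    rcases hy with rfl | rfl | rfl <;> assumption
  have h7 : (mvs S 15 (l.map fun x => (x.1, hw x.2))).testBit (g y) = false := by
    rw [wf.mvs σ_sq] at h6 ⊢
    intro x hx
    have h8 := h6 x hx
    obtain ⟨z, hz, rfl⟩ := List.mem_map.1 hx
    obtain ⟨h9, h10⟩ := h1 z hz
    have h11 : ev S (hw z.2) ∈ H := ev_hw _ ▸ prod_mem hL _
    have h12 := τ_H h11 (pt z.1) (by omega)
    rw [(isPt z.1 (by omega)).1] at h12
    have h13 := h11.2 (pt z.1) (by omega)
    dsimp only at h8 ⊢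
    rw [h12] at h8 ⊢
    have h14 := hg.2 _ h13
    rw [Nat.div_one, Nat.div_one] at h14
    conv_lhs => rw [← h14, star hg.1 h13, h8]
  have h8 := covers_spec h2 _ (G_lt hg.1.1 hy1)
  simp only [tb_lor, h7, tb_pow, Bool.false_or, Bool.or_eq_true, decide_eq_true_eq] at h8
  omega

instance solv_one : Group.IsSolvable (Lab 1) := by
  let t : Fin 3 → ℕ × ℕ × ℕ := ![(8225, 821, 1033), (8224, 2840, 3637), (8223, 5570, 6789)]
  have ht : ∀ i, (t i).1 < 31671 ∧ (t i).2.1 < 31671 ∧ (t i).2.2 < 31671 ∧ (t i).1 ≠ (t i).2.1 ∧ (t i).1 ≠ (t i).2.2 ∧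
    (t i).2.1 ≠ (t i).2.2 := by decide
  have hB : ∀ i, ∀ g ∈ Lab 1, ∀ y, (y = (t i).1 ∨ y = (t i).2.1 ∨ y = (t i).2.2) →
      (g y = (t i).1 ∨ g y = (t i).2.1 ∨ g y = (t i).2.2) := fun i g hg y hy => by
    have h1 : y < 31671 := by have := ht i; omega
    fin_cases i
    · exact okF_spec c_F0 hg h1 hy
    · exact okF_spec c_F1 hg h1 hy
    · exact okF_spec c_F2 hg h1 hy
  refine solv_step (Y := ℕ) (ι := Fin 3) (V := Fin 3) ⊤ (Lab 1) ⊥
    (fun i => {y | y = (t i).1 ∨ y = (t i).2.1 ∨ y = (t i).2.2})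
    (fun i y => if y = (t i).1 then 0 else if y = (t i).2.1 then 1 else 2) hB ?_ ?_ (fun _ _ _ _ _ => trivial) ?_
  · intro i v
    obtain ⟨-, -, -, h1, h2, h3⟩ := ht i
    fin_cases v
    · exact ⟨_, Or.inl rfl, by simp⟩
    · exact ⟨_, Or.inr (Or.inl rfl), by simp [h1.symm]⟩
    · exact ⟨_, Or.inr (Or.inr rfl), by simp [h2.symm, h3.symm]⟩
  · intro i g _ x hx y hy h
    obtain ⟨-, -, -, h1, h2, h3⟩ := ht i
    have : x = y := by
      rcases hx with rfl | rfl | rfl <;> rcases hy with rfl | rfl | rfl <;>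
        first | rfl | simp [h1.symm, h2.symm, h3.symm] at h
    rw [this]
  · intro g hg h
    have h1 : ∀ i, g (t i).1 = (t i).1 := fun i => by
      have := h i _ (Or.inl rfl)
      by_contra h2
      simp only [Perm.smul_def, h2, if_false, if_true] at this
      split_ifs at this <;> exact absurd this (by decide)
    refine base hg.1.1 fun s hs => ?_
    have h2 : ∀ s < 11, pt s < 324 ∨ ∃ i, pt s = (t i).1 := by decide
    rcases h2 s hs with h3 | ⟨i, h3⟩
    · simpa using hg.2 _ h3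
    · rw [h3, h1]

instance solv_nine : Group.IsSolvable (Lab 9) := by
  refine solv_step (Y := ℕ) (ι := Fin 36) AG (Lab 9) (Lab 1) (fun i => {x | x < 324 ∧ x / 9 = i})
    (fun _ x => enc (x % 9)) ?_ ?_ ?_ ?_ ?_
  · exact fun i g hg y hy => ⟨hg.1.2 y hy.1, (hg.2 y hy.1).trans hy.2⟩
  · intro i v
    obtain ⟨a, ha, rfl⟩ := enc_surj v
    exact ⟨9 * i + a, ⟨by omega, by omega⟩, by rw [show (9 * i + a) % 9 = a by omega]⟩
  · intro i g _ x hx y hy h
    have := (op_spec _ (by omega) _ (by omega)).2.2.2 h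
    rw [show x = y by have := hx.2; have := hy.2; omega]
  · intro i g hg π h u v
    obtain ⟨a, ha, rfl⟩ := enc_surj u
    obtain ⟨b, hb, rfl⟩ := enc_surj v
    have k : ∀ x y : ℕ, x < 324 → y < 324 → x / 9 = i → y / 9 = i →
        τ x y < 324 ∧ τ x y / 9 = i ∧ enc (τ x y % 9) = -enc (x % 9) - enc (y % 9) := fun x y hx hy h1 h2 => by
      have h3 := op_spec (x % 9) (by omega) (y % 9) (by omega)
      rw [(labs hx hy).2.2 (by omega), ← h3.2.2.1]
      exact ⟨by omega, by omega, by congr 1; omega⟩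
    have hx : 9 * i + a < 324 ∧ (9 * i + a) / 9 = i := ⟨by omega, by omega⟩
    have hy : 9 * i + b < 324 ∧ (9 * i + b) / 9 = i := ⟨by omega, by omega⟩
    obtain ⟨k1, k2, k3⟩ := k _ _ hx.1 hy.1 hx.2 hy.2
    have k4 := (k _ _ (hg.1.2 _ hx.1) (hg.1.2 _ hy.1) ((hg.2 _ hx.1).trans hx.2) ((hg.2 _ hy.1).trans hy.2)).2.2
    have e1 := h _ hx
    have e2 := h _ hy
    have e3 := h _ ⟨k1, k2⟩
    rw [star hg.1 hx.1] at k4
    simp only [Perm.smul_def] at e1 e2 e3
    rw [k3, k4, ← e1, ← e2, show (9 * i + a) % 9 = a by omega, show (9 * i + b) % 9 = b by omega] at e3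
    exact e3
  · refine fun g hg h => ⟨hg.1, fun x hx => ?_⟩
    have h1 := (op_spec _ (by omega) _ (by omega)).2.2.2 (h ⟨x / 9, by omega⟩ x ⟨hx, rfl⟩)
    have h2 := hg.2 x hx
    rw [Perm.smul_def] at h1
    omega

instance solv_36 : Group.IsSolvable (Lab 36) := by
  refine solv_step (Y := ℕ) (ι := Fin 9) (V := Fin 4) ⊤ (Lab 36) (Lab 9) (fun i => {x | x < 324 ∧ x / 36 = i})
    (fun _ x => ⟨x / 9 % 4, by omega⟩) ?_ ?_ ?_ (fun _ _ _ _ _ => trivial) ?_
  · exact fun i g hg y hy => ⟨hg.1.2 y hy.1, (hg.2 y hy.1).trans hy.2⟩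
  · intro i v
    exact ⟨36 * i + 9 * v, ⟨by omega, by omega⟩, Fin.ext (by simp only; omega)⟩
  · intro i g hg x hx y hy h
    have h1 := congrArg Fin.val h
    have h2 := blk hg.1 hx.1 hy.1 (by have := hx.2; have := hy.2; simp only at h1; omega)
    exact Fin.ext (by simp only [Perm.smul_def, h2])
  · refine fun g hg h => ⟨hg.1, fun x hx => ?_⟩
    have h1 := congrArg Fin.val (h ⟨x / 36, by omega⟩ x ⟨hx, rfl⟩)
    have h2 := hg.2 x hx
    simp only [Perm.smul_def] at h1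
    omega

instance solv_H : Group.IsSolvable H := by
  refine solv_step (Y := ℕ) (ι := Unit) AG H (Lab 36) (fun _ => {x | x < 324})
    (fun _ x => enc (x / 36)) ?_ ?_ ?_ ?_ ?_
  · exact fun _ g hg y hy => hg.2 y hy
  · intro i v
    obtain ⟨a, ha, rfl⟩ := enc_surj v
    exact ⟨36 * a, show 36 * a < 324 by omega, by rw [show 36 * a / 36 = a by omega]⟩
  · intro i g hg x hx y hy h
    change x < 324 at hx
    change y < 324 at hy
    rw [Perm.smul_def, Perm.smul_def, sup hg hx hy ((op_spec _ (by omega) _ (by omega)).2.2.2 h)]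
  · intro i g hg π h u v
    obtain ⟨a, ha, rfl⟩ := enc_surj u
    obtain ⟨b, hb, rfl⟩ := enc_surj v
    have k : ∀ x y, x < 324 → y < 324 → enc (τ x y / 36) = -enc (x / 36) - enc (y / 36) := fun x y hx hy => by
      rw [lab_a hx hy, (op_spec (x / 36) (by omega) (y / 36) (by omega)).2.2.1]
    have hx : 36 * a < 324 := by omega
    have hy : 36 * b < 324 := by omega
    have k4 := k _ _ (hg.2 _ hx) (hg.2 _ hy)
    have e1 := h _ hx
    have e2 := h _ hy
    have e3 := h _ ((rows _ hx).1.2 _ hy)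
    rw [star hg hx] at k4
    simp only [Perm.smul_def] at e1 e2 e3
    rw [k _ _ hx hy, k4, ← e1, ← e2, show 36 * a / 36 = a by omega, show 36 * b / 36 = b by omega] at e3
    exact e3
  · refine fun g hg h => ⟨hg, fun x hx => ?_⟩
    have := hg.2 x hx
    exact (op_spec _ (by omega) _ (by omega)).2.2.2 (h () x hx)

theorem ne_one_of {w : List ℕ} {p : ℕ} (h : tb (apW S w (Nat.pow 2 p)) p = false) : ev S w ≠ 1 := fun e => by
  rw [tb_eq, wf.apW, tb_pow, e, Perm.one_apply] at h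
  exact of_decide_eq_false h rfl

theorem com_ne : σ 1 * σ 0 * ((List.map hh [10]).prod * (σ 1 * σ 0) * (List.map hh [10]).prod⁻¹) * (σ 1 * σ 0)⁻¹ *
    ((List.map hh [10]).prod * (σ 1 * σ 0)⁻¹ * (List.map hh [10]).prod⁻¹) ≠ 1 := by
  have h9 := ne_one_of c_com
  have h12 : ev S (hw [10]).reverse = (ev S (hw [10]))⁻¹ := by rw [ev, prod_reverse σ_sq, ev]
  rw [← ev_hw]
  generalize hw [10] = w at h9 h12
  simpa only [ev_append, h12, ev_cons, ev_nil, mul_one, mul_inv_rev, σ_inv] using h9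

theorem rep_X0 : BP.Rep 324 (List.map hh [9, 2]).prod X0 :=
  fun i hi => (evT_spec H_le hL _ i hi).trans (Nat.eq_of_beq_eq_true (allLt_spec c_X0 i hi))

theorem eight_of {j : ℕ} {w : List ℕ} {x a b : ℕ} (hx : x < 324) (h : ∃ (y : H) (Y : ℕ), y ∈ derivedSeries H j ∧
    BP.Rep 324 y Y ∧ (fun X => Nat.beq (evT LL w x) a && Nat.beq (evT LL w (lk X x)) b) Y = true) :
    ∃ z : H, z ∈ derivedSeries H j ∧ z.1 a = b := by
  obtain ⟨y, Y, hy, hY, hk⟩ := h
  rw [Bool.and_eq_true, ← hY x hx] at hk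
  have h1 := (evT_spec H_le hL w x hx).trans (Nat.eq_of_beq_eq_true hk.1)
  have h2 := (evT_spec H_le hL w (y.1 x) (H_le y.2 x hx)).trans (Nat.eq_of_beq_eq_true hk.2)
  exact ⟨_, (derivedSeries_normal H j).conj_mem _ hy ⟨_, prod_mem hL w⟩, by rw [← h1, ← h2]; simp⟩

theorem exists_eight : ∃ z : H, z ∈ derivedSeries H 8 ∧ z.1 15 = 11 :=
  eight_of (by norm_num)
    (slp_spec H_le hL CH 0 X0 ⟨_, prod_mem hL [9, 2]⟩ (Subgroup.mem_top _) rep_X0 c_slp)

theorem derived_nine : derivedSeries H 9 ≠ ⊥ := by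
  obtain ⟨z, h3, h4⟩ := exists_eight
  have hN := derivedSeries_normal H 8
  have ht := (rows 15 (by norm_num)).1
  have h5 := mul_mem h3 (hN.conj_mem _ (inv_mem h3) ⟨_, ht⟩)
  have h6 : (z * (⟨_, ht⟩ * z⁻¹ * (⟨_, ht⟩ : H)⁻¹)).1 = σ 1 * σ 0 := by
    have e1 : τ 11 = σ 1 := (isPt 1 (by norm_num)).1
    have e2 : τ 15 = σ 0 := (isPt 0 (by norm_num)).1
    simp only [Subgroup.coe_mul, Subgroup.coe_inv]
    rw [← mul_assoc, ← mul_assoc, τ_H z.2 15 (by norm_num), h4, e1, e2, σ_inv]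
  generalize z * (⟨_, ht⟩ * z⁻¹ * (⟨_, ht⟩ : H)⁻¹) = u at h5 h6
  have h0 := prod_mem hL [10]
  have h9 := com_ne
  generalize (List.map hh [10]).prod = d at h0 h9
  have h7 : ⁅u, ⟨d, h0⟩ * u * (⟨d, h0⟩ : H)⁻¹⁆ ∈ derivedSeries H 9 :=
    Subgroup.commutator_mem_commutator h5 (hN.conj_mem _ h5 _)
  intro h
  rw [h, Subgroup.mem_bot] at h7
  refine h9 ?_
  rw [← h6, ← Subgroup.coe_one, ← h7]
  simp [commutatorElement_def, mul_assoc]

theorem derived : derivedSeries (H.subgroupOf G) 10 ≠ derivedSeries (H.subgroupOf G) 9 := by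
  let e := Subgroup.subgroupOfEquivOfLe (show H ≤ G from inf_le_left)
  intro h
  have h1 : derivedSeries H 10 = derivedSeries H 9 := by
    rw [← map_derivedSeries_eq (f := e.toMonoidHom) e.surjective, h, map_derivedSeries_eq e.surjective]
  have h2 := Group.IsSolvable.commutator_lt_of_ne_bot derived_nine
  rw [← derivedSeries_succ, h1] at h2
  exact lt_irrefl _ h2

end Cfsg.Agent.H4.F23
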