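import Cfsg.Agent.H4.FxA0

set_option autoImplicit false
set_option maxRecDepth 100000

namespace Cfsg.Agent.H4.Fx

open Cfsg.Agent.Chv

theorem cA4 : allLt 248 (okA 4) = true := by decide +kernel
theorem cA5 : allLt 248 (okA 5) = true := by decide +kernel
theorem cA6 : allLt 248 (okA 6) = true := by decide +kernel
theorem cA7 : allLt 248 (okA 7) = true := by decide +kernel

end Cfsg.Agent.H4.Fx
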