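import Cfsg.Agent.H6.Gf
import Cfsg.Agent.H4.FxA1
import Cfsg.Agent.H4.FxA2

/-!
The Lie algebra structure of the adjoint module of type `E₈` in characteristic three.
-/

set_option autoImplicit false
set_option linter.unusedSectionVars false
set_option maxRecDepth 100000

namespace Cfsg.Agent.H4.Fx

open Matrix Cfsg.Agent.Chv Cfsg.Lie Cfsg.Agent.Chv.E8 Cfsg.Agent.H1.E8 Cfsg.Agent.H6.Gs

/-- the index set -/
abbrev I : Type := chevE8.Idx

/-- indices of coroots -/
def hI (i : Fin 8) : I := Sum.inl i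

theorem cases_I (b : I) : (∃ i, b = hI i) ∨ ∃ r, b = R.ei r := by
  rcases b with i | r
  exacts [.inl ⟨i, rfl⟩, .inr ⟨r, rfl⟩]

theorem sum_I {M : Type*} [AddCommMonoid M] (f : I → M) : ∑ a, f a = ∑ i, f (hI i) + ∑ r, f (R.ei r) :=
  Fintype.sum_sum_type f

theorem hI_inj {i j : Fin 8} : hI i = hI j ↔ i = j := ⟨fun e => Sum.inl.inj e, congrArg _⟩

theorem ei_inj {r s : Fin 240} : R.ei r = R.ei s ↔ r = s := ⟨fun e => Sum.inr.inj e, congrArg _⟩

theorem wt_inl (i : Fin 8) : R.wt (hI i) = 0 := wtF_inl (D := chevE8) i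

theorem hI_ne (i : Fin 8) (r : Fin 240) : hI i ≠ R.ei r := fun e => R.rt_ne r (e ▸ wt_inl i)

/-- adjoint of a basis vector -/
noncomputable def adB (K : Type*) [Field K] (b : I) : Matrix I I K := mat e8 K (cB (e8.enc b))

/-- the adjoint map -/
noncomputable def ad (K : Type*) [Field K] : (I → K) →ₗ[K] Matrix I I K := Fintype.linearCombination K (adB K)

variable {K : Type*} [Field K]

/-- the value of a weight on the torus part -/
def rh (v : I → K) (u : L) : K := ∑ i : Fin 8, v (hI i) * (B (al i) u : K)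

theorem rh_add (v : I → K) (u w : L) : rh v (u + w) = rh v u + rh v w := by
  simp [rh, mul_add, Finset.sum_add_distrib]

theorem rh_zero (v : I → K) : rh v 0 = 0 := by simp [rh]

theorem rh_sub (v : I → K) (u w : L) : rh v (u - w) = rh v u - rh v w := by
  simp [rh, mul_sub, Finset.sum_sub_distrib]

theorem rh_single (i : Fin 8) (u : L) : rh (Pi.single (hI i) (1 : K)) u = B (al i) u := by
  simp [rh, Pi.single_apply, hI_inj]

theorem root_ind {P : Fin 240 → Prop} (h0 : P 162) (hs : ∀ i r, P r → P (R.s i r)) (r : Fin 240) : P r := by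
  induction h : Chv.col 8 tD r using Nat.strong_induction_on generalizing r with
  | _ m ih =>
    have := (allLt_iff _ _).1 cO r r.2
    simp only [Bool.or_eq_true, Bool.and_eq_true, Nat.beq_eq, Nat.blt_eq] at this
    rcases this with h1 | ⟨h1, h2⟩
    · obtain rfl : r = 162 := Fin.ext h1
      exact h0
    · simpa only [R.s_s] using hs ⟨_, h1⟩ _ (ih _ (h ▸ h2) (R.s ⟨_, h1⟩ r) rfl)

theorem alN_eq (i : Fin 8) : alN i = al i := by revert i; decide

theorem wB_eq (b : ℕ) (k : (ℕ → List (ℕ × ℕ)) → Bool) : wB b k = k (cB b) := by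
  rw [wB, force_eq, cB, wA_eq]; cases Nat.blt b 8 <;> rfl

theorem ad_single (b : I) (c : K) : ad K (Pi.single b c) = c • adB K b := Fintype.linearCombination_apply_single ..

theorem wL_spec {l : List (ℕ × ℕ)} {k : (ℕ → List (ℕ × ℕ)) → Bool} (h : wL l k = true) :
    ∃ Z, k Z = true ∧ mat e8 K Z = ad K (sv e8 K l) := by
  induction l generalizing k with
  | nil => exact ⟨_, h, (map_zero _).symm⟩
  | cons x l ih =>
    replace h : (Nat.blt x.1 248 && force x.2 fun c => wB x.1 fun Y => wL l fun Z => k fun j => sc c (Y j) (Z j)) = true := h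
    rw [Bool.and_eq_true, Nat.blt_eq, force_eq, wB_eq] at h
    obtain ⟨Z, h1, h2⟩ := ih h.2
    obtain ⟨b, hb⟩ := e8.surj _ h.1
    refine ⟨_, h1, ?_⟩
    have : sv e8 K (x :: l) = Pi.single b (x.2 : K) + sv e8 K l := by
      ext i; simp [sv, ← hb, e8.inj.eq_iff, Pi.single_apply, eq_comm]
    rw [mat_sc, h2, this, map_add, ad_single, ← hb]; rfl

theorem mat_col (f : ℕ → List (ℕ × ℕ)) (b : I) : mat e8 K f *ᵥ Pi.single b 1 = sv e8 K (f (e8.enc b)) := by
  rw [mulVec_single_one]; rfl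

theorem adB_inr (r : Fin 240) : adB K (R.ei r) = adE K r := by
  have h2 : Nat.blt (e8.enc (R.ei r)) 8 = false :=
    Bool.eq_false_iff.2 fun h => absurd (Nat.blt_eq.mp h) (Nat.not_lt.2 (Nat.le_add_right _ _))
  rw [adB, cB, h2]
  exact congrArg (fun r => mat e8 K (cA' r)) (Nat.add_sub_cancel_left ..)

theorem basis_ext {M : Type*} [AddCommGroup M] [Module K M] {f g : (I → K) →ₗ[K] M}
    (h : ∀ b, f (Pi.single b 1) = g (Pi.single b 1)) (v : I → K) : f v = g v :=
  LinearMap.congr_fun ((Pi.basisFun K I).ext fun b => by simpa using h b) v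

/-- the automorphism group -/
def Au (K : Type*) [Field K] : Subgroup (GL I K) where
  carrier := {g | ∀ v, g.1 * ad K v = ad K (g.1 *ᵥ v) * g.1}
  one_mem' v := by simp
  mul_mem' {a b} ha hb v := by rw [Units.val_mul, mul_assoc, hb, ← mul_assoc, ha, mulVec_mulVec, mul_assoc]
  inv_mem' {a} ha v := by
    have := ha ((a⁻¹).1 *ᵥ v)
    rw [mulVec_mulVec, ← Units.val_mul, mul_inv_cancel, Units.val_one, one_mulVec] at this
    rw [Units.inv_mul_eq_iff_eq_mul, ← mul_assoc, this, Units.mul_inv_cancel_right]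

theorem mem_Au {g : GL I K} (h : ∀ b, g.1 * adB K b = ad K (g.1 *ᵥ Pi.single b 1) * g.1) : g ∈ Au K :=
  basis_ext (f := (LinearMap.mulLeft K g.1).comp (ad K))
    (g := (LinearMap.mulRight K g.1).comp ((ad K).comp g.1.mulVecLin)) fun b => by simpa [ad_single] using h b

/-- derivations -/
def Der (K : Type*) [Field K] : Submodule K (Matrix I I K) where
  carrier := {X | ∀ v, X * ad K v - ad K v * X = ad K (X *ᵥ v)}
  zero_mem' v := by simp
  add_mem' {a b} ha hb v := by rw [add_mulVec, map_add, ← ha, ← hb]; noncomm_ring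
  smul_mem' c a ha v := by rw [smul_mulVec, map_smul, ← ha, smul_sub, smul_mul_assoc, mul_smul_comm]

theorem mem_Der {X : Matrix I I K} (h : ∀ b, X * adB K b - adB K b * X = ad K (X *ᵥ Pi.single b 1)) : X ∈ Der K :=
  basis_ext (f := (LinearMap.mulLeft K X - LinearMap.mulRight K X).comp (ad K))
    (g := (ad K).comp X.mulVecLin) fun b => by simpa [ad_single] using h b

theorem ex_au {M : Type*} [Ring M] (h3 : (3 : M) = 0) {X Y : M} (h : X * X * X = 0) (h' : X * (X * (Y * X)) = X * (Y * (X * X))) :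
    ex X * Y = (Y + (X * Y - Y * X) - (X * (X * Y - Y * X) - (X * Y - Y * X) * X)) * ex X := by
  have : ex X * Y - (Y + (X * Y - Y * X) - (X * (X * Y - Y * X) - (X * Y - Y * X) * X)) * ex X =
      3 * (Y * X * X - X * Y * X) + (X * (X * (Y * X)) - X * (Y * (X * X))) * (1 - X) +
        (X * Y - Y * X) * (X * X * X) := by
    unfold ex; noncomm_ring
  rw [h3, h, h'] at this
  exact sub_eq_zero.1 (this.trans (by simp))

variable (h3 : (3 : K) = 0)
include h3

theorem dvd_of_cast {z : ℤ} (h : (z : K) = 0) : 3 ∣ z := by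
  rw [← cf_m3 h3, m3] at h
  by_contra h1
  rcases (by omega : z % 3 = 1 ∨ z % 3 = 2) with e | e <;> rw [e] at h
  · simp at h
  · have : (2 : K) = 0 := by simpa using h
    exact one_ne_zero (by linear_combination h3 - this : (1 : K) = 0)

theorem key3 {v : L} (h1 : B v v ≤ 8) (h : ∀ i, (B (al i) v : K) = 0) : v = 0 := by
  have h2 := fun i => dvd_of_cast h3 (h i)
  have h4 : ∀ j, 3 ∣ v j := fun j => by
    have a0 := h2 0; have a1 := h2 1; have a2 := h2 2; have a3 := h2 3
    have a4 := h2 4; have a5 := h2 5; have a6 := h2 6; have a7 := h2 7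
    simp [B, al_apply] at a0 a1 a2 a3 a4 a5 a6 a7
    fin_cases j <;> simp <;> omega
  choose u hu using h4
  obtain rfl : v = (3 : ℤ) • u := funext hu
  have := B_nonneg u
  rw [B_smul_left, B_smul_right] at h1
  rw [eq_zero_of_B (v := u) (by omega), smul_zero]

theorem adB_inl (i : Fin 8) : adB K (hI i) = diagonal fun a => (B (al i) (R.wt a) : K) := by
  have h2 : Nat.blt (e8.enc (hI i)) 8 = true := Nat.blt_eq.mpr i.2
  rw [adB, cB, h2, ← alN_eq]
  ext a b
  by_cases h : a = b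
  · subst h; simp [mat, sv, cH, cf_m3 h3]; rfl
  · simp [mat, sv, cH, h, e8.inj.eq_iff, Ne.symm h]

theorem sh_adB (b : I) : R.Sh (adB K b) (R.wt b) := by
  rcases cases_I b with ⟨i, rfl⟩ | ⟨r, rfl⟩
  · intro a c e
    rw [adB_inl h3] at e
    rw [wt_inl, add_zero, of_not_not fun h => e (diagonal_apply_ne _ h)]
  · rw [adB_inr]; exact sh_adE r

theorem ad_eq (v : I → K) : ad K v = diagonal (fun a => rh v (R.wt a)) + ∑ r, v (R.ei r) • adE K r := by
  rw [ad, Fintype.linearCombination_apply, sum_I]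
  refine congrArg₂ _ ?_ (Finset.sum_congr rfl fun r _ => congrArg _ (adB_inr r))
  ext a b
  rw [Matrix.sum_apply]
  refine (Finset.sum_congr rfl fun i _ => by rw [adB_inl h3 i]).trans ?_
  by_cases h : a = b
  · subst h; simp [rh]
  · simp [h]

theorem two_eq : ((2 : ℕ) : K) = -1 := by push_cast; linear_combination h3

theorem n_Au (i : Fin 8) : (S3 h3).n i ∈ Au K := mem_Au fun b => by
  have : okA i (e8.enc b) = true := by
    refine (allLt_iff _ _).1 ?_ _ (e8.lt b)
    fin_cases i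
    exacts [cA0, cA1, cA2, cA3, cA4, cA5, cA6, cA7]
  rw [okA, wB_eq] at this
  obtain ⟨Z, h1, h2⟩ := wL_spec (K := K) this
  have h4 := mat_eq_zero e8 h3 h1
  rw [mat_ap, mat_sc, mat_ap, mat_nil, add_zero (_ * _), h2] at h4
  rw [show ((S3 h3).n i).1 = _ from nn_eq h3 i, mat_col]
  exact eq_of_two h3 h4

theorem der_sim : adE K 162 ∈ Der K := mem_Der fun b => by
  have := (allLt_iff _ _).1 cJ0 _ (e8.lt b)
  rw [okJ, wA_eq, wB_eq] at this
  obtain ⟨Z, h1, h2⟩ := wL_spec (K := K) this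
  have h4 := mat_eq_zero e8 h3 h1
  rw [mat_ap, mat_sc, mat_ap, mat_sc, mat_nil, h2, two_eq h3] at h4
  rw [adE, mat_col]
  linear_combination (norm := (simp [adB]; abel)) h4

theorem cube (r : Fin 240) : adE K r * adE K r * adE K r = 0 :=
  sh_zero (sh_mul (sh_mul (sh_adE r) (sh_adE r)) (sh_adE r)) (by simp [B_rt])

theorem x_sim (t : K) : xU h3 162 t ∈ Au K := mem_Au fun b => by
  have h4 : adE K 162 * (adE K 162 * (adB K b * adE K 162)) = adE K 162 * (adB K b * (adE K 162 * adE K 162)) := by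
    by_cases hb : b = R.ei 77
    · have := cT0
      rw [okT, wA_eq, wA_eq] at this
      have h1 := mat_eq_zero e8 h3 this
      simp only [mat_ap, mat_sc, mat_nil, add_zero (_ * _)] at h1
      rw [hb, adB_inr]
      exact eq_of_two h3 h1
    have h1 : 8 < 18 + 6 * B (R.rt 162) (R.wt b) + B (R.wt b) (R.wt b) := by
      rcases cases_I b with ⟨i, rfl⟩ | ⟨r, rfl⟩
      · simp [wt_inl]
      · have h1 := le_B (B_rt 162) (B_rt r)
        have h2 : B (R.rt 162) (R.rt r) ≠ -2 := fun e => hb (congrArg _ ((R.ext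
          ((eq_neg_of_B (B_rt _) (B_rt r) e).trans (R.rt_neg _).symm)).trans (Fin.ext (neg_val _))))
        have := B_rt r
        change 8 < 18 + 6 * B _ (R.rt r) + B (R.rt r) (R.rt r)
        omega
    rw [sh_zero (sh_mul (sh_adE _) (sh_mul (sh_adE _) (sh_mul (sh_adB h3 b) (sh_adE _)))) (by
      simp only [B_add_left, B_add_right, B_rt, B_comm (R.wt b) (R.rt _)]; omega),
      sh_zero (sh_mul (sh_adE _) (sh_mul (sh_adB h3 b) (sh_mul (sh_adE _) (sh_adE _)))) (by
      simp only [B_add_left, B_add_right, B_rt, B_comm (R.wt b) (R.rt _)]; omega)]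
  have h5 := (Der K).smul_mem t (der_sim h3)
  have h6 := ex_au (X := t • adE K 162) (Y := adB K b) (by rw [← map_ofNat (algebraMap K _) 3, h3, map_zero])
    (by simp [cube h3]) (by simp [h4])
  change ex _ * _ = ad K (ex _ *ᵥ _) * ex _
  rw [h6, ex, sub_mulVec, add_mulVec, one_mulVec, ← mulVec_mulVec, map_sub, map_add, ← h5 (_ *ᵥ _), ← h5, ad_single, one_smul]

theorem x_Au (r : Fin 240) : ∀ t, xU h3 r t ∈ Au K := root_ind (P := fun r => ∀ t, xU h3 r t ∈ Au K) (x_sim h3)
  (fun i r h t => by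
    obtain ⟨c, h1, h2⟩ := (S3 h3).n_conj i
    have := h2 r (c (R.neg r) * t)
    rw [← mul_assoc (c r), mul_comm (c r), h1, one_mul] at this
    exact (show _ = xU h3 _ _ from this) ▸ mul_mem (mul_mem (n_Au h3 i) (h _)) (inv_mem (n_Au h3 i))) r

theorem h_Au (χ : Chr 8 K) : R.h χ ∈ Au K := mem_Au fun b => by
  rw [← Units.mul_inv_eq_iff_eq_mul, (sh_adB h3 b).tor, R.h_val, diagonal_mulVec_single, ad_single, mul_one]

theorem Γ_Au : (S3 h3).Γ ≤ Au K := by
  refine sup_le ?_ (Sys.XS_le (S := S3 h3) fun r _ => x_Au h3 r)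
  rintro _ ⟨χ, rfl⟩
  exact h_Au h3 χ

theorem jacobi (y : I → K) : ad K y ∈ Der K := by
  rw [ad_eq h3]
  refine add_mem (mem_Der fun b => ?_) (sum_mem fun r _ => (Der K).smul_mem _ (root_ind (P := fun r => adE K r ∈ Der K)
    (der_sim h3) (fun i r h v => ?_) r))
  · rw [diagonal_mulVec_single, ad_single]
    ext a c
    by_cases e : adB K b a c = 0
    · simp [e]
    · simp [sh_adB h3 b a c e, rh_add]; ring
  · obtain ⟨c, h1, h2⟩ := nn_adE h3 i
    have h4 := n_Au h3 i
    have h5 := h2 r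
    change ((S3 h3).n i).1 * _ = _ * ((S3 h3).n i).1 at h5
    generalize (S3 h3).n i = n at h4 h5
    obtain ⟨v, rfl⟩ : ∃ w, v = n.1 *ᵥ w := ⟨(n⁻¹).1 *ᵥ v, by simp⟩
    have h6 : n.1 * (adE K r * ad K v - ad K v * adE K r) = n.1 * ad K (adE K r *ᵥ v) := congrArg (n.1 * ·) (h v)
    rw [mul_sub, ← mul_assoc, ← mul_assoc, h5, h4, h4, mul_assoc, h4, mul_assoc (ad K _), h5, mulVec_mulVec v n.1, h5,
      ← mul_assoc, ← mul_assoc, ← sub_mul, Units.mul_left_inj, ← mulVec_mulVec, smul_mulVec, map_smul, smul_mul_assoc,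
      mul_smul_comm, ← smul_sub] at h6
    exact smul_right_injective _ (right_ne_zero_of_mul_eq_one (h1 r)) h6

theorem adE_inl (r : Fin 240) (i : Fin 8) : adE K r (R.ei r) (hI i) = -(B (al i) (R.rt r) : K) := by
  have := (allLt_iff _ _).1 cF0 r r.2
  simp only [okF, wA_eq, Bool.and_eq_true, allLt_iff] at this
  have h1 := congrFun (isZ_spec e8 h3 _ _ _ (this.2 i i.2)) (R.ei r)
  rw [sub_self, zero_add, alN_eq, ← rt_eq] at h1
  refine eq_neg_of_add_eq_zero_right (Eq.trans ?_ h1)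
  simp only [sv, List.map_cons, List.sum_cons, cf_m3 h3]
  rw [if_pos (show 8 + r.1 = e8.enc (R.ei r) from rfl)]; rfl

theorem adE_top (r : Fin 240) (v : I → K) : (adE K r *ᵥ v) (R.ei r) = -rh v (R.rt r) := by
  rw [mulVec, dotProduct, sum_I, Finset.sum_eq_zero (s := Finset.univ) fun (s : Fin 240) _ => by
    rw [show adE K r (R.ei r) (R.ei s) = 0 from of_not_not fun e =>
      R.rt_ne s (right_eq_add.1 (sh_adE r _ _ e)), zero_mul], add_zero, rh, ← Finset.sum_neg_distrib]
  exact Finset.sum_congr rfl fun i _ => by rw [adE_inl h3 r i]; ring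

theorem exists_B (r : Fin 240) : ∃ i, (B (al i) (R.rt r) : K) ≠ 0 :=
  not_forall.1 fun h => R.rt_ne r (key3 h3 (by rw [B_rt]; omega) h)

theorem adE_mul (r : Fin 240) {v : I → K} (hv : ∀ s, v (R.ei s) = 0) :
    adE K r *ᵥ v = Pi.single (R.ei r) (-rh v (R.rt r)) := by
  ext a
  by_cases h : a = R.ei r
  · rw [h, adE_top h3, Pi.single_eq_same]
  · rw [Pi.single_eq_of_ne h, mulVec, dotProduct]
    refine Finset.sum_eq_zero fun k _ => ?_
    rcases cases_I k with ⟨i, rfl⟩ | ⟨s, rfl⟩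
    · rw [show adE K r a (hI i) = 0 from of_not_not fun e => h (R.eq_ei (by rw [sh_adE r _ _ e, wt_inl, zero_add])), zero_mul]
    · rw [hv, mul_zero]

theorem eq_zero_of_rh {v : I → K} (h : ∀ r, rh v (R.rt r) = 0) (i : Fin 8) : v (hI i) = 0 := by
  have h1 : ∀ u : L, rh v u = 0 := fun u => by
    have : rh v u = ∑ j, (u j : K) * rh v (R.rt (R.sim j)) := by
      simp only [rh, Finset.mul_sum, B_sum _ u, RD.rt, R.rt_sim, Int.cast_sum, Int.cast_mul]
      rw [Finset.sum_comm]
      exact Finset.sum_congr rfl fun _ _ => Finset.sum_congr rfl fun _ _ => mul_left_comm ..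
    simp [this, h]
  have h2 : ∀ i, ∃ u : L, ∀ j, B (al j) u = if j = i then 1 else 0 := fun i =>
    ⟨![![4, 5, 7, 10, 8, 6, 4, 2], ![5, 8, 10, 15, 12, 9, 6, 3], ![7, 10, 14, 20, 16, 12, 8, 4],
      ![10, 15, 20, 30, 24, 18, 12, 6], ![8, 12, 16, 24, 20, 15, 10, 5], ![6, 9, 12, 18, 15, 12, 8, 4],
      ![4, 6, 8, 12, 10, 8, 6, 3], ![2, 3, 4, 6, 5, 4, 3, 2]] i, by revert i; decide⟩
  obtain ⟨u, hu⟩ := h2 i
  simpa [rh, hu] using h1 u

theorem ad_inj : Function.Injective (ad K) := (injective_iff_map_eq_zero _).2 fun v hv => by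
  rw [ad_eq h3] at hv
  ext b
  rcases cases_I b with ⟨i, rfl⟩ | ⟨r, rfl⟩
  · refine eq_zero_of_rh h3 (fun r => ?_) i
    have := congrFun (congrFun hv (R.ei r)) (R.ei r)
    rwa [Matrix.add_apply, diagonal_apply_eq, Matrix.sum_apply, Finset.sum_eq_zero fun s _ => by
      rw [Matrix.smul_apply, show adE K s (R.ei r) (R.ei r) = 0 from of_not_not fun e =>
        R.rt_ne s (left_eq_add.1 (sh_adE s _ _ e)), smul_zero], add_zero] at this
  · obtain ⟨i, hi⟩ := exists_B h3 r
    have := congrFun (congrFun hv (R.ei r)) (hI i)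
    rw [Matrix.add_apply, diagonal_apply_ne _ (hI_ne i r).symm, zero_add, Matrix.sum_apply, Finset.sum_eq_single r (fun s _ hs => by
      rw [Matrix.smul_apply, show adE K s (R.ei r) (hI i) = 0 from of_not_not fun e => hs (R.ext (by
        simpa [wt_inl] using (sh_adE s _ _ e).symm)), smul_zero]) (by simp), Matrix.smul_apply, adE_inl h3] at this
    simpa [hi] using this

omit h3 in
theorem cf_eq (l : List (ℕ × ℕ)) (a : I) : (cf l (e8.enc a) : K) = sv e8 K l a := by
  induction l with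
  | nil => simp [cf, sv]
  | cons x l ih =>
    change (Nat.cast (Bool.rec (cf l _) (x.2 + cf l _) (Nat.beq x.1 (e8.enc a)) : ℕ) : K) = (if _ then _ else _) + sv e8 K l a
    cases h : Nat.beq x.1 (e8.enc a)
    · rw [if_neg (Nat.ne_of_beq_eq_false h), zero_add]; exact ih
    · rw [if_pos (Nat.eq_of_beq_eq_true h), ← ih]; exact Nat.cast_add ..

theorem asym_spec {M : ℕ → List (ℕ × ℕ)} {c : ℕ} (h : asym M c = true) : (mat e8 K M)ᵀ = -((c : K) • mat e8 K M) := by
  simp only [asym, allLt_iff, List.all_eq_true, force_eq, Nat.beq_eq] at h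
  have key : ∀ a b, mat e8 K M a b ≠ 0 → mat e8 K M a b + c * mat e8 K M b a = 0 := fun a b e => by
    obtain ⟨x, hx, h1⟩ := mem_of_mat e8 e
    obtain ⟨k, hk⟩ := Nat.dvd_of_mod_eq_zero (h _ (e8.lt b) x hx)
    have := congrArg (Nat.cast : ℕ → K) hk
    rw [h1] at this
    simpa [cf_eq, h3, mat] using this
  ext a b
  by_cases e : mat e8 K M b a = 0
  · by_cases e' : mat e8 K M a b = 0
    · simp [e, e']
    · exact absurd (by simpa [e] using key a b e') e'
  · exact eq_neg_of_add_eq_zero_left (key b a e)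

omit h3 in
/-- the invariant form -/
noncomputable def Jm (K : Type*) [Field K] : Matrix I I K := mat e8 K cJ

theorem Jm_symm : (Jm K)ᵀ = Jm K := by rw [Jm, asym_spec h3 cS0, two_eq h3]; simp

theorem Jm_inv : mat e8 K cI * Jm K = 1 := by
  have h1 := mat_eq_zero e8 h3 cI0
  rw [mat_ap, show (fun j => [(j, 2)]) = fun j => sc 2 [(j, 1)] [] from rfl, mat_sc, mat_cons, mat_nil, add_zero 1] at h1
  exact eq_of_two h3 h1

theorem Jm_adE (r : Fin 240) : (adE K r)ᵀ * Jm K = -(Jm K * adE K r) := by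
  have := (allLt_iff _ _).1 cF0 r r.2
  simp only [okF, wA_eq, Bool.and_eq_true] at this
  have h1 := asym_spec h3 this.1
  rw [mat_ap, mat_nil, add_zero, Nat.cast_one, one_smul, transpose_mul] at h1
  rw [← Jm_symm h3, Jm, adE, h1, ← Jm, Jm_symm h3]

theorem Jm_G {g : GL I K} (hg : g ∈ (S3 h3).G) : g.1ᵀ * Jm K * g.1 = Jm K := by
  induction hg using Subgroup.closure_induction with
  | mem g h =>
    obtain ⟨r, -, t, rfl⟩ := h
    have h1 := ex_conj (n := Jm K) (X := (-t) • adE K r) (Y := t • (adE K r)ᵀ) (by simp [Jm_adE h3])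
    change (ex (t • adE K r))ᵀ * _ * ex (t • adE K r) = _
    rw [show (ex (t • adE K r))ᵀ = ex (t • (adE K r)ᵀ) by simp [ex, transpose_mul], ← h1, mul_assoc, ← ex_add' h3]
    simp [ex]
  | one => simp
  | mul a b _ _ ha hb => rw [Units.val_mul, transpose_mul, mul_assoc, ← mul_assoc (Jm K), mul_assoc, ← mul_assoc a.1ᵀ,
      ← mul_assoc a.1ᵀ, ha, ← mul_assoc, hb]
  | inv a _ ha =>
    conv_lhs => rw [← ha]
    rw [← mul_assoc, ← mul_assoc, ← transpose_mul, mul_assoc, mul_assoc, ← Units.val_mul]; simp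

omit h3 in
theorem Jm_col (r : Fin 240) : Jm K *ᵥ Pi.single (R.ei r) 1 = Pi.single (R.ei (R.neg r)) 1 := by
  have h2 : Nat.blt (e8.enc (R.ei r)) 8 = false :=
    Bool.eq_false_iff.2 fun h => absurd (Nat.blt_eq.mp h) (Nat.not_lt.2 (Nat.le_add_right _ _))
  have h1 : 255 - e8.enc (R.ei r) = e8.enc (R.ei (R.neg r)) := by
    have := r.2
    change 255 - (8 + r.1) = 8 + (R.neg r).1
    rw [neg_val]; omega
  rw [Jm, mat_col, cJ, h2, h1]
  ext a; simp [sv, e8.inj.eq_iff, Pi.single_apply, eq_comm]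

theorem eq_zero_of_adE {v : I → K} (h : ∀ r, adE K r *ᵥ v = 0) : v = 0 := by
  ext b
  rcases cases_I b with ⟨i, rfl⟩ | ⟨r, rfl⟩
  · exact eq_zero_of_rh h3 (fun r => by simpa [adE_top h3] using congrFun (h r) (R.ei r)) i
  obtain ⟨i, hi⟩ := exists_B h3 (R.neg r)
  have h2 := congrArg (fun M => v ⬝ᵥ M *ᵥ Pi.single (hI i) 1) (Jm_adE h3 (R.neg r))
  simp only [← mulVec_mulVec, neg_mulVec] at h2
  rw [dotProduct_mulVec, vecMul_transpose, h, zero_dotProduct, adE_mul h3 _ fun s => Pi.single_eq_of_ne (hI_ne i s).symm _,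
    rh_single, ← mul_one (-(B (al i) _ : K)), ← smul_eq_mul, Pi.single_smul, mulVec_smul, Jm_col, R.neg_neg'] at h2
  simpa [hi] using h2

end Cfsg.Agent.H4.Fx
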