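import Cfsg.Agent.H6.Gd

/-!
Checks for the Lie algebra structure of the adjoint module of type `E₈` in characteristic three.
-/

set_option autoImplicit false
set_option maxRecDepth 100000

namespace Cfsg.Agent.H4.Fx

open Cfsg.Agent.Chv Cfsg.Lie Cfsg.Agent.Chv.E8 Cfsg.Agent.H1.E8 Cfsg.Agent.H6.Gs

/-- the weight -/
def wv (a : ℕ) : L := fun j => (wn chevE8 T a j : ℤ) - 8

/-- simple roots -/
def alN (b : ℕ) : L := fun k => Bool.rec 0 1 (Nat.beq k.1 b)

/-- columns of the adjoint of a coroot -/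
def cH (b j : ℕ) : List (ℕ × ℕ) := [(j, m3 (B (alN b) (wv j)))]

/-- columns of the adjoint of a basis vector -/
noncomputable def cB (b : ℕ) : ℕ → List (ℕ × ℕ) := Bool.rec (cA' (b - 8)) (cH b) (Nat.blt b 8)

/-- forced version -/
noncomputable def wB (b : ℕ) (k : (ℕ → List (ℕ × ℕ)) → Bool) : Bool :=
  force b fun b => Bool.rec (wA (b - 8) k) (k (cH b)) (Nat.blt b 8)

/-- forced columns of the adjoint of a vector -/
noncomputable def wL (l : List (ℕ × ℕ)) : ((ℕ → List (ℕ × ℕ)) → Bool) → Bool :=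
  List.rec (fun k => k fun _ => []) (fun x _ ih k => Nat.blt x.1 248 && force x.2 fun c => wB x.1 fun Y =>
    ih fun Z => k fun j => sc c (Y j) (Z j)) l

/-- the derivation property -/
noncomputable def okJ (b : ℕ) : Bool := wA 162 fun A => wB b fun Y => wL (A b) fun Z =>
  allLt 248 fun j => isZ (ap 248 A (Y j) (sc 2 (ap 248 Y (A j) []) (sc 2 (Z j) []))) 0 0

/-- the automorphism property -/
noncomputable def okA (i b : ℕ) : Bool := wB b fun Y => wL (cN i b) fun Z =>
  allLt 248 fun j => isZ (ap 248 (cN i) (Y j) (sc 2 (ap 248 Z (cN i j) []) [])) 0 0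

/-- the cubic term -/
noncomputable def okT : Bool := wA 162 fun A => wA 77 fun Y => allLt 248 fun j =>
  isZ (ap 248 A (ap 248 A (ap 248 Y (A j) []) []) (sc 2 (ap 248 A (ap 248 Y (ap 248 A (A j) []) []) []) [])) 0 0

/-- the invariant form -/
noncomputable def cJ (j : ℕ) : List (ℕ × ℕ) :=
  Bool.rec [(255 - j, 1)] ((List.range 8).map fun i => (i, m3 (B (alN i) (alN j)))) (Nat.blt j 8)

/-- its inverse -/
noncomputable def cI (j : ℕ) : List (ℕ × ℕ) :=
  Bool.rec [(255 - j, 1)] ((List.range 8).map fun i => (i, col 2 0x8612092160009212002161a5001a9259 (8 * i + j))) (Nat.blt j 8)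

/-- a coefficient -/
noncomputable def cf (l : List (ℕ × ℕ)) (a : ℕ) : ℕ :=
  List.rec 0 (fun x _ ih => Bool.rec ih (Nat.add x.2 ih) (Nat.beq x.1 a)) l

/-- antisymmetry -/
noncomputable def asym (M : ℕ → List (ℕ × ℕ)) (c : ℕ) : Bool := allLt 248 fun j => (M j).all fun x => force x.1 fun a =>
  Nat.beq (Nat.mod (Nat.add (cf (M j) a) (Nat.mul c (cf (M a) j))) 3) 0

/-- invariance of the form, and the action on the coroots -/
noncomputable def okF (r : ℕ) : Bool := wA r fun A => asym (fun j => ap 248 cJ (A j) []) 1 &&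
  allLt 8 fun i => isZ ((8 + r, m3 (B (alN i) (rv r))) :: A i) 0 0

theorem cJ0 : allLt 248 okJ = true := by decide +kernel
theorem cT0 : okT = true := by decide +kernel
theorem cF0 : allLt 240 okF = true := by decide +kernel
theorem cS0 : asym cJ 2 = true := by decide +kernel
theorem cI0 : allLt 248 (fun j => isZ (ap 248 cI (cJ j) [(j, 2)]) 0 0) = true := by decide +kernel

end Cfsg.Agent.H4.Fx
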