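import Cfsg.Agent.H6.Gl

/-!
Semisimple elements of prime power order are conjugate into the torus.
-/

set_option autoImplicit false
set_option linter.unusedSectionVars false

namespace Cfsg.Agent.H4.T8

open Matrix Subgroup Cfsg.Agent.Chv Cfsg.Agent.H6.Gs Cfsg.Agent.H6.TorS

theorem pg_zpowers {Γ : Type*} [Group Γ] {p k : ℕ} {y : Γ} (hk : y ^ p ^ k = 1) : IsPGroup p (zpowers y) := by
  rintro ⟨_, m, rfl⟩
  exact ⟨k, Subtype.ext (by
    simp only [SubgroupClass.coe_pow]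
    rw [← zpow_natCast, ← _root_.zpow_mul, mul_comm, _root_.zpow_mul, zpow_natCast, hk, _root_.one_zpow]; rfl)⟩

theorem conj_into2 {Γ : Type*} [Group Γ] {p : ℕ} [Fact p.Prime] {C M Q : Subgroup Γ} [Finite C] (hQ : IsPGroup p Q)
    (hQC : Q ≤ C) (hQM : Q ≤ M) (h : ∀ x ∈ C, (∀ t ∈ Q, x * t * x⁻¹ ∈ M ∧ x⁻¹ * t * x ∈ M) → x ∈ M)
    {y : Γ} (hy : y ∈ C) {k : ℕ} (hk : y ^ p ^ k = 1) : ∃ c ∈ C, c * y * c⁻¹ ∈ M := by
  let M' := M.comap C.subtype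
  obtain ⟨P, hP⟩ := ((hQ.comap_subtype (K := C)).comap_subtype (K := M')).exists_le_sylow
  have h1 : ∀ t : C, t ∈ P.1.map M'.subtype → t.1 ∈ M := by
    rintro _ ⟨t, -, rfl⟩
    exact t.2
  obtain ⟨c, -, hc⟩ := conj_into (C := ⊤) (P := P.1.map M'.subtype) le_top (P.2.map _) (fun x _ k hk hx => by
    have h2 : ∀ t (ht : t ∈ Q), (⟨t, hQC ht⟩ : C) ∈ P.1.map M'.subtype := fun t ht =>
      ⟨⟨⟨t, hQC ht⟩, hQM ht⟩, hP ht, rfl⟩
    have h3 : x ∈ M' := h x.1 x.2 fun t ht => ⟨h1 _ (hx _ (h2 t ht)).1, h1 _ (hx _ (h2 t ht)).2⟩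
    have h4 : ∀ t : M', t.1 ∈ P.1.map M'.subtype ↔ t ∈ P.1 := fun t =>
      mem_map_iff_mem (f := M'.subtype) Subtype.val_injective
    have h5 : (⟨x, h3⟩ : M') ∈ normalizer (P : Set M') := mem_normalizer_fintype fun t ht =>
      (h4 _).1 (hx _ ((h4 t).2 ht)).1
    have h6 := (pg_zpowers (y := (⟨x, h3⟩ : M')) (k := k) (Subtype.ext hk)).inf_normalizer_sylow P
    exact (h4 ⟨x, h3⟩).2 (h6.le ⟨mem_zpowers _, h5⟩).2) (Q := zpowers (⟨y, hy⟩ : C)) le_top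
      (pg_zpowers (k := k) (Subtype.ext hk))
  exact ⟨c, c.2, h1 _ (hc _ (mem_zpowers _))⟩

theorem pow_card {Γ : Type*} [Group Γ] [Finite Γ] {p k : ℕ} (hp : p.Prime) {y : Γ} (hk : y ^ p ^ k = 1) :
    y ^ p ^ Nat.card Γ = 1 := by
  obtain ⟨j, -, hj⟩ := (Nat.dvd_prime_pow hp).1 (orderOf_dvd_of_pow_eq_one hk)
  have := (Nat.lt_pow_self hp.one_lt).trans_le (hj ▸ _root_.orderOf_le_card (x := y))
  exact orderOf_dvd_iff_pow_eq_one.1 (hj ▸ pow_dvd_pow p this.le)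

/-- locally finite fields -/
def LF (K : Type*) [Field K] : Prop := ∀ s : Set K, s.Finite → ∃ A : Subring K, Finite A ∧ s ⊆ A

variable {l : ℕ} {K : Type*} [Field K] {ι Φ : Type} [Fintype ι] [DecidableEq ι] [Fintype Φ] {R : RD ι Φ l}
  {S : H6.Gs.Sys R K}

open H6.Gs.Sys

theorem h_comm (χ ψ : Chr l K) : R.h χ * R.h ψ = R.h ψ * R.h χ :=
  (R.h.map_mul ..).symm.trans ((congrArg R.h (mul_comm χ ψ)).trans (R.h.map_mul ..))

theorem h_pow (χ : Chr l K) (n : ℕ) : R.h (χ ^ n) = R.h χ ^ n := R.h.map_pow χ n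

theorem mem_N_of_norm' {p : ℕ} (hsep : Sep R p) {ζ : Kˣ} (hζ : IsPrimitiveRoot ζ p) {g : GL ι K} (hg : g ∈ S.Γ)
    (h : ∀ χ : Chr l K, χ ^ p ^ 1 = 1 → g * R.h χ * g⁻¹ ∈ S.H ∧ g⁻¹ * R.h χ * g ∈ S.H) : g ∈ S.N := by
  have hw : ∀ a, R.wt a = 0 ∨ ∃ r, R.wt a = R.rt r := fun a => (R.idx a).imp_right fun ⟨r, e⟩ => ⟨r, e ▸ rfl⟩
  have key : ∀ χ ψ : Chr l K, R.h ψ * g = g * R.h χ → ∀ a b, (g : Matrix ι ι K) a b ≠ 0 →
      ev ψ (R.wt a) = ev χ (R.wt b) := fun χ ψ e a b hab => by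
    have : ((R.h ψ * g : GL ι K) : Matrix ι ι K) a b = ((g * R.h χ : GL ι K) : Matrix ι ι K) a b := by rw [e]
    rw [Units.val_mul, Units.val_mul, R.h_val, R.h_val, diagonal_mul, mul_diagonal, mul_comm] at this
    exact Units.ext (mul_left_cancel₀ hab this)
  have h1 : ∀ χ : Chr l K, χ ^ p ^ 1 = 1 → ∃ ψ : Chr l K, ∀ a b, (g : Matrix ι ι K) a b ≠ 0 →
      ev ψ (R.wt a) = ev χ (R.wt b) := fun χ hχ => by
    obtain ⟨ψ, e⟩ := (h χ hχ).1
    exact ⟨ψ, key χ ψ (by rw [e, inv_mul_cancel_right])⟩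
  have h2 : ∀ χ : Chr l K, χ ^ p ^ 1 = 1 → ∃ ψ : Chr l K, ∀ a b, (g : Matrix ι ι K) a b ≠ 0 →
      ev χ (R.wt a) = ev ψ (R.wt b) := fun χ hχ => by
    obtain ⟨ψ, e⟩ := (h χ hχ).2
    exact ⟨ψ, key ψ χ (by rw [e, ← mul_assoc, mul_inv_cancel_left])⟩
  refine mem_N hg (fun a b hab => ⟨fun h0 => ?_, fun h0 => ?_⟩) (fun a a' b e e' => ?_) fun a b b' e e' => ?_
  · refine eq_of_sep hsep hζ (hw b) (.inl rfl) fun χ hχ => ?_
    obtain ⟨ψ, e⟩ := h1 χ hχ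
    rw [← e a b hab, h0, ev_zero, ev_zero]
  · refine eq_of_sep hsep hζ (hw a) (.inl rfl) fun χ hχ => ?_
    obtain ⟨ψ, e⟩ := h2 χ hχ
    rw [e a b hab, h0, ev_zero, ev_zero]
  · refine eq_of_sep hsep hζ (hw a) (hw a') fun χ hχ => ?_
    obtain ⟨ψ, e''⟩ := h2 χ hχ
    rw [e'' a b e, e'' a' b e']
  · refine eq_of_sep hsep hζ (hw b) (hw b') fun χ hχ => ?_
    obtain ⟨ψ, e''⟩ := h1 χ hχ
    rw [← e'' a b e, e'' a b' e']

/-- matrices over a subring -/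
def FA (ι : Type) [Fintype ι] [DecidableEq ι] (A : Subring K) : Subgroup (GL ι K) where
  carrier := {g | (∀ i j, (g : Matrix ι ι K) i j ∈ A) ∧ ∀ i j, ((g⁻¹ : GL ι K) : Matrix ι ι K) i j ∈ A}
  mul_mem' := by
    rintro a b ⟨h1, h2⟩ ⟨h3, h4⟩
    refine ⟨fun i j => ?_, fun i j => ?_⟩
    · rw [Units.val_mul, mul_apply]; exact sum_mem fun k _ => mul_mem (h1 _ _) (h3 _ _)
    · rw [_root_.mul_inv_rev, Units.val_mul, mul_apply]; exact sum_mem fun k _ => mul_mem (h4 _ _) (h2 _ _)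
  one_mem' := by
    have : ∀ i j, (1 : Matrix ι ι K) i j ∈ A := fun i j => by
      rw [one_apply]; split_ifs; exacts [one_mem _, zero_mem _]
    exact ⟨this, this⟩
  inv_mem' h := ⟨h.2, by rw [inv_inv]; exact h.1⟩

theorem finite_FA (A : Subring K) [Finite A] : Finite (FA ι A) :=
  Finite.of_injective (fun g : FA ι A => fun i j => (⟨_, g.2.1 i j⟩ : A)) fun _ _ e =>
    Subtype.ext (Units.ext (Matrix.ext fun i j => congrArg Subtype.val (congrFun (congrFun e i) j)))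

theorem pow_mem_H {p k : ℕ} (hp : p.Prime) {n : GL ι K} (hn : n ∈ S.N) (hk : n ^ p ^ k = 1) :
    n ^ p ^ Nat.card (Equiv.Perm Φ) ∈ S.H := by
  obtain ⟨w, π, ha⟩ := exists_act hn
  obtain ⟨w', h3, -⟩ := ha.toMon.pow (p ^ k)
  rw [hk, ← R.h.map_one] at h3
  obtain ⟨w', h4, -⟩ := ha.toMon.pow (p ^ Nat.card (Equiv.Perm Φ))
  rw [pow_card hp (h3.perm_eq (mon_h 1))] at h4
  exact mem_H h4 (pow_mem hn _) R.pos_sim

theorem conj_N [IsAlgClosed K] (hK : LF K) {p : ℕ} (hp : p.Prime) (hsep : Sep R (p ^ 2)) {ζ : Kˣ}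
    (hζ : IsPrimitiveRoot ζ (p ^ 2)) {y x : GL ι K} (hy : y ∈ S.H) (hx : x ∈ S.Γ) (hxy : y * x = x * y) {k : ℕ}
    (hk : x ^ p ^ k = 1) : ∃ c ∈ S.Γ, y * c = c * y ∧ c * x * c⁻¹ ∈ S.N := by
  have := Fact.mk hp
  obtain ⟨M, hM⟩ : ∃ M, M = Nat.card (Equiv.Perm Φ) := ⟨_, rfl⟩
  obtain ⟨A, hA, hs⟩ := hK ((Set.range fun q : ι × ι => (x : Matrix ι ι K) q.1 q.2) ∪
    (Set.range fun q : ι × ι => ((x⁻¹ : GL ι K) : Matrix ι ι K) q.1 q.2) ∪ {a | a ^ p ^ (M + 2) = 1})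
    (((Set.finite_range _).union (Set.finite_range _)).union
      ((Polynomial.nthRootsFinset (p ^ (M + 2)) (1 : K)).finite_toSet.subset fun a ha =>
        (Polynomial.mem_nthRootsFinset (pow_pos hp.pos _) _).2 ha))
  have := finite_FA (ι := ι) A
  have : Finite (S.Γ ⊓ FA ι A ⊓ centralizer {y} : Subgroup _) :=
    Finite.of_injective _ (inclusion_injective (inf_le_left.trans inf_le_right))
  have h1 : ∀ ψ : Chr l K, ψ ^ p ^ (M + 2) = 1 → ∀ i j, (R.h ψ : Matrix ι ι K) i j ∈ A := fun ψ hψ i j => by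
    rw [R.h_val, diagonal_apply]
    split_ifs
    · exact hs (.inr (show (ev ψ (R.wt i) : K) ^ _ = 1 from congrArg (fun χ => (ev χ (R.wt i) : K)) hψ))
    · exact zero_mem _
  obtain ⟨c, hc, h⟩ := conj_into2 (p := p) (C := S.Γ ⊓ FA ι A ⊓ centralizer {y}) (M := S.N)
    (Q := (powMonoidHom (p ^ (M + 2))).ker.map R.h) (y := x) (k := k)
    (IsPGroup.map (fun g => ⟨M + 2, Subtype.ext g.2⟩) _) (by
      rintro _ ⟨ψ, hψ, rfl⟩
      obtain ⟨χ, rfl⟩ := hy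
      exact ⟨⟨H_le_Γ (h_mem ψ), h1 ψ hψ, by rw [← map_inv]; exact h1 _ (inv_mem hψ)⟩,
        mem_centralizer_singleton_iff.2 (h_comm _ _)⟩)
    (by rintro _ ⟨ψ, -, rfl⟩; exact S.H_le_N (h_mem ψ))
    (fun g hg h => mem_N_of_norm' hsep hζ hg.1.1 fun χ hχ => by
      choose η hη using fun j => IsAlgClosed.exists_pow_nat_eq (ev χ (Pi.single j 1) : K) (pow_pos hp.pos M)
      have h2 : mkChr (fun j => Units.mk0 (η j) fun e => (ev χ (Pi.single j 1)).ne_zero (by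
          rw [← hη, e, zero_pow (pow_pos hp.pos M).ne'])) ^ p ^ M = χ :=
        chr_ext fun j => Units.ext (by rw [ev_pow, ev_mkChr_single]; exact hη j)
      obtain ⟨ψ, h2⟩ : ∃ ψ : Chr l K, ψ ^ p ^ M = χ := ⟨_, h2⟩
      have h3 : ψ ^ p ^ (M + 2) = 1 := R.h_inj (K := K) (by
        rw [h_pow, pow_add, pow_mul, ← h_pow, h2, ← h_pow, ← hχ, pow_one])
      have h4 : R.h ψ ^ p ^ (M + 2) = 1 := by rw [← h_pow, h3, map_one]
      obtain ⟨h5, h6⟩ := h _ ⟨ψ, h3, rfl⟩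
      have h7 := pow_mem_H (k := M + 2) hp h5 (by rw [conj_pow, h4]; simp)
      have h8 := pow_mem_H (k := M + 2) hp h6 (by rw [← inv_inv g, inv_inv g⁻¹, conj_pow, h4]; simp)
      rw [← hM, conj_pow, ← h_pow, h2] at h7
      rw [← hM, ← inv_inv g, inv_inv g⁻¹, conj_pow, ← h_pow, h2, inv_inv] at h8
      exact ⟨h7, h8⟩)
    ⟨⟨hx, fun i j => hs (.inl (.inl ⟨(i, j), rfl⟩)), fun i j => hs (.inl (.inr ⟨(i, j), rfl⟩))⟩,
      mem_centralizer_singleton_iff.2 hxy.symm⟩ hk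
  exact ⟨c, hc.1.1, (mem_centralizer_singleton_iff.1 hc.2).symm, h⟩

theorem torus_odd [IsAlgClosed K] (hK : LF K) {p : ℕ} (hp : p.Prime) (hsep : Sep R (p ^ 2)) {ζ : Kˣ}
    (hζ : IsPrimitiveRoot ζ (p ^ 2)) (hl : l + 1 < p) {x : GL ι K} (hx : x ∈ S.Γ) (hk : x ^ p = 1) :
    ∃ c ∈ S.Γ, c * x * c⁻¹ ∈ S.H := by
  obtain ⟨c, hc, -, hn⟩ := conj_N hK hp hsep hζ (one_mem _) hx (by simp) (k := 1) (by rwa [pow_one])
  obtain ⟨w, π, ha⟩ := exists_act hn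
  obtain ⟨w', h1, h2⟩ := ha.toMon.pow p
  rw [conj_pow, hk, mul_one, mul_inv_cancel, ← R.h.map_one] at h1
  have h3 := lattice_eq_refl hp (w := w) (k := 1) (fun v => by
    rw [pow_one, ← h2, h1.w_eq (h1.perm_eq (mon_h 1) ▸ mon_h (1 : Chr l K))]; rfl) (.inl hl)
  refine ⟨c, hc, mem_H ha.toMon hn fun i => ?_⟩
  rw [R.ext (r := π (R.sim i)) (r' := R.sim i) (by rw [ha.rt, h3]; rfl)]
  exact R.pos_sim i

theorem n_x (i : Fin l) (t : K) : S.n i * S.x (R.sim i) t * (S.n i)⁻¹ = S.x (R.neg (R.sim i)) (-t) := by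
  obtain ⟨c, h1, h2⟩ := S.n_conj i
  change ∀ r t, S.n i * _ * (S.n i)⁻¹ = _ at h2
  have h3 := fun t => h2 (R.sim i) t
  have h4 := fun t => h2 (R.neg (R.sim i)) t
  rw [R.s_sim] at h3
  rw [show R.s i (R.neg (R.sim i)) = R.sim i by rw [← R.s_sim, R.s_s]] at h4
  have h5 : S.x (R.neg (R.sim i)) (-c (R.sim i) + -1) = S.x (R.sim i) (c (R.neg (R.sim i)) * -1 + -1) := by
    have h6 := h3 1
    have h7 := h4 (c (R.sim i))
    rw [mul_one] at h6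
    rw [h1, ← h6] at h7
    rw [S.x_add, S.x_add, ← S.x_inv, ← h6, ← h4, ← S.x_inv (R.sim i)]
    have h8 : S.n i = S.x (R.sim i) 1 * S.x (R.neg (R.sim i)) (-1) * S.x (R.sim i) 1 := rfl
    generalize S.x (R.sim i) 1 = a at h7 h8 ⊢
    generalize S.x (R.neg (R.sim i)) (-1) = b at h8 ⊢
    generalize S.n i = n at h7 h8 ⊢
    calc _ = (n * a * n⁻¹)⁻¹ * a⁻¹ * (a * b * a) * a⁻¹ := by group
      _ = (n * a * n⁻¹)⁻¹ * (n * (n * a * n⁻¹) * n⁻¹)⁻¹ * n * a⁻¹ := by rw [h7, ← h8]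
      _ = n * a⁻¹ * (a * b * a) * a⁻¹ * n⁻¹ * a⁻¹ := by rw [← h8]; group
      _ = _ := by group
  have h6 : S.x (R.sim i) (c (R.neg (R.sim i)) * -1 + -1) = 1 := Units.ext (sub_eq_zero.1 (Matrix.ext fun a b =>
    of_not_not fun hne => by
      have e1 := (S.x_mem_Q (R.sim i) _ (μ := fun _ => 1) (by rw [RD.rt, R.rt_sim, pair_single]; exact one_pos)).2 a b hne
      have e2 := (S.x_mem_Q (R.neg (R.sim i)) _ (μ := (-1 : ℝ) • fun _ => 1) (by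
        rw [RD.rt, R.rt_neg, R.rt_sim, pair_neg, pair_single]; simp)).2 a b (h5 ▸ hne)
      rw [pair_smul'] at e2
      linarith))
  have h7 : c (R.neg (R.sim i)) * -1 + -1 = 0 := by
    by_contra h7
    have h8 : ∀ u, S.x (R.sim i) u = 1 := fun u => by
      by_cases hu : u = 0
      · rw [hu, S.x_zero]
      have := S.x_tor (mkChr fun _ => Units.mk0 _ (div_ne_zero hu h7)) (R.sim i) (c (R.neg (R.sim i)) * -1 + -1)
      rwa [h6, RD.rt, R.rt_sim, ev_mkChr_single, Units.val_mk0, div_mul_cancel₀ _ h7, mul_one, mul_inv_cancel,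
        eq_comm] at this
    have h9 : S.n i = R.h 1 := by
      have := h4 (-1)
      rw [h8, mul_inv_eq_one, mul_eq_left] at this
      rw [H6.Gs.Sys.n, nn, h8, this, map_one, mul_one, mul_one]
    have := DFunLike.congr_fun ((S.act_n i).toMon.perm_eq (h9 ▸ mon_h 1)) (R.sim i)
    exact (R.pos_neg_iff _).1 ((R.s_sim i).symm.trans this ▸ R.pos_sim i) (R.pos_sim i)
  rw [h3, show c (R.sim i) = -1 by linear_combination (c (R.sim i)) * h7 * -1 - h1 (R.sim i), neg_one_mul]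

theorem step [IsAlgClosed K] (h2 : (2 : K) ≠ 0) {n : GL ι K} {w π} (ha : S.Act n w π) {i : Fin l}
    (hi : π (R.sim i) = R.neg (R.sim i)) : ∃ g ∈ S.Γ, g * (n * n) = n * n * g ∧
      ∃ t ∈ S.H, g * n * g⁻¹ = t * S.n i * n := by
  obtain ⟨c, h1, h3⟩ := ha.conj
  have h4 := fun t => h3 (R.sim i) t
  have h5 := fun t => h3 (R.neg (R.sim i)) t
  rw [hi] at h4
  rw [ha.neg, hi, R.neg_neg'] at h5
  obtain ⟨b, hb⟩ := IsAlgClosed.exists_pow_nat_eq (c (R.neg (R.sim i))) two_pos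
  have hb0 : b ≠ 0 := fun e => by simpa [← hb, e] using h1 (R.sim i)
  have hc : c (R.sim i) = b⁻¹ * b⁻¹ := by
    have := h1 (R.sim i)
    rw [← hb] at this
    field_simp
    exact (mul_comm ..).trans this
  have h6 : ∀ t, S.x (R.sim i) t * (n * n) = n * n * S.x (R.sim i) t := fun t => by
    have := h5 (c (R.sim i) * t)
    rw [← h4, ← mul_assoc (c _), h1, one_mul] at this
    exact (congrArg (· * (n * n)) this.symm).trans (by group)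
  have h7 : ∀ t, S.x (R.neg (R.sim i)) t * (n * n) = n * n * S.x (R.neg (R.sim i)) t := fun t => by
    have := h4 (c (R.neg (R.sim i)) * t)
    rw [← h5, ← mul_assoc (c _), mul_comm (c (R.sim i)), h1, one_mul] at this
    exact (congrArg (· * (n * n)) this.symm).trans (by group)
  let χ : Chr l K := mkChr fun _ => Units.mk0 b hb0
  refine ⟨S.x (R.neg (R.sim i)) (-(2 * b)⁻¹) * S.x (R.sim i) b, mul_mem (G_le_Γ (x_mem (Set.mem_univ _) _))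
    (G_le_Γ (x_mem (Set.mem_univ _) _)), by rw [mul_assoc, h6, ← mul_assoc, h7, mul_assoc (n * n)],
    R.h χ * (S.n i * (R.h χ)⁻¹ * (S.n i)⁻¹), mul_mem (h_mem _) ((S.act_n i).toMon.conj_H (inv_mem (h_mem _))), ?_⟩
  have e1 := S.tor_n i (Units.mk0 b hb0)
  have e2 : ∀ t, R.h χ * S.n i * (R.h χ)⁻¹ * S.x (R.sim i) t = S.x (R.neg (R.sim i)) (-(b⁻¹ * b⁻¹ * t)) *
      (R.h χ * S.n i * (R.h χ)⁻¹) := fun t => by
    have a1 := S.x_tor χ⁻¹ (R.sim i) t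
    have a2 := S.x_tor χ (R.neg (R.sim i)) (-(b⁻¹ * t))
    rw [RD.rt, R.rt_neg, ev_neg, R.rt_sim, ev_mkChr_single, ← n_x] at a2
    rw [RD.rt, R.rt_sim, show (ev χ⁻¹ (Pi.single i 1) : K) = b⁻¹ by simp [ev, χ, mkChr, Pi.single_apply],
      show R.h χ⁻¹ = (R.h χ)⁻¹ from R.h.map_inv χ] at a1
    simp only [Units.val_inv_eq_inv_val, Units.val_mk0] at a2
    rw [mul_assoc b⁻¹, ← mul_neg, ← a2, ← a1]; group
  have e3 := h4 (-b)
  have e4 := h5 (2 * b)⁻¹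
  simp only [Units.val_inv_eq_inv_val, Units.val_mk0] at e1
  rw [show c (R.sim i) * -b = -b⁻¹ by rw [hc]; field_simp] at e3
  have e5 := e2 (-b + c (R.neg (R.sim i)) * (2 * b)⁻¹)
  rw [show -(b⁻¹ * b⁻¹ * (-b + c (R.neg (R.sim i)) * (2 * b)⁻¹)) = - -(2 * b)⁻¹ by rw [← hb]; field_simp; ring,
    ← S.x_inv, S.x_add, ← e4, ← S.x_inv] at e5
  rw [_root_.mul_inv_rev (S.x _ _), S.x_inv, S.x_inv, neg_neg]
  calc _ = S.x (R.neg (R.sim i)) (-(2 * b)⁻¹) * (S.x (R.sim i) b * (n * S.x (R.sim i) (-b) * n⁻¹) * S.x (R.sim i) b *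
      ((S.x (R.sim i) b)⁻¹ * (n * S.x (R.neg (R.sim i)) (2 * b)⁻¹ * n⁻¹))) * n := by group
    _ = _ := by rw [e3, ← e1, e5]; group

theorem exists_generic (f : Φ → Lam l) : ∃ μ : Fin l → ℝ, ∀ r, pair (f r) μ = 0 → f r = 0 := by
  obtain ⟨μ, h⟩ := Module.Dual.exists_forall_ne_zero_of_forall_exists
    (fun r : {r // f r ≠ 0} => (⟨⟨pair (f r), pair_add' _⟩, pair_smul' _⟩ : Module.Dual ℝ (Fin l → ℝ))) fun r => by
      obtain ⟨j, hj⟩ := Function.ne_iff.1 r.2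
      exact ⟨Pi.single j 1, by simpa [pair, Pi.single_apply] using hj⟩
  exact ⟨μ, fun r e => of_not_not fun hr => h ⟨r, hr⟩ e⟩

theorem w_ind {P : (Lam l ≃+ Lam l) → Prop} (h1 : P (.refl _)) (h2 : ∀ i w, P w → P (w.trans (R.refl i)))
    {n : GL ι K} (hn : n ∈ S.N) {w π} (h : Mon R n w π) : P w := by
  obtain ⟨_, ⟨χ, rfl⟩, L, rfl⟩ := exists_wd hn
  have key : ∃ w π, Mon R (S.wd L) w π ∧ P w := by
    clear h hn
    induction L with
    | nil => exact ⟨_, _, by simpa [wd] using mon_h (R := R) (1 : Chr l K), h1⟩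
    | cons i L ih =>
      obtain ⟨w, π, h3, h4⟩ := ih
      exact ⟨_, _, S.wd_cons i L ▸ (S.act_n i).toMon.mul h3, h2 _ _ h4⟩
  obtain ⟨w', π', h3, h4⟩ := key
  have h5 := (mon_h χ).mul h3
  rw [h.w_eq (h.perm_eq h5 ▸ h5)]
  exact h4

theorem w_of_h {χ : Chr l K} {w π} (h : Mon R (R.h χ) w π) (v : Lam l) : w v = v := by
  obtain rfl := h.perm_eq (mon_h χ)
  rw [h.w_eq (mon_h χ)]; rfl

section E8

open Cfsg.Agent.Chv.E8 Cfsg.Agent.H1.E8 Cfsg.Lie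

variable {S : H6.Gs.Sys E8.R K}

theorem iso_of_mem {n : GL chevE8.Idx K} (hn : n ∈ S.N) {w π} (h : Mon E8.R n w π) : Iso w :=
  w_ind (P := Iso) (fun _ _ => rfl) (fun i w h u v => by
    simp only [AddEquiv.trans_apply, refl_eq, B_rf (B_al i), h u v]) hn h

theorem invol_H [IsAlgClosed K] (h2 : (2 : K) ≠ 0) (m : ℕ) : ∀ n ∈ S.N, n * n ∈ S.H → ∀ w π, S.Act n w π →
    π.support.card = m → ∃ c ∈ S.Γ, c * n * c⁻¹ ∈ S.H := by
  induction m using Nat.strong_induction_on with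
  | _ m ih =>
  intro n hn ⟨χ, hχ⟩ w π ha hm
  have h1 := ha.toMon.mul ha.toMon
  rw [← hχ] at h1
  have h3 : ∀ v, w (w v) = v := w_of_h h1
  obtain ⟨μ, hμ⟩ := exists_generic fun r => E8.R.rt r + w (E8.R.rt r)
  obtain ⟨g, hg, u, σ, hu, hν⟩ := exists_dom (S := S) (μ + act w.symm μ)
  have h4 : ∀ v, pair (u v) (act u (μ + act w.symm μ)) = pair (v + w v) μ := fun v => by
    rw [pair_act, pair_add', pair_act', pair_add]; rfl
  generalize act u (μ + act w.symm μ) = ν at hν h4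
  have h5 := (hu.mul ha).mul hu.inv
  have h6 : g * n * g⁻¹ ∈ S.N := mul_mem (mul_mem hg hn) (inv_mem hg)
  by_cases h7 : ∀ j, 0 < ν j
  · refine ⟨g, N_le_Γ hg, mem_H h5.toMon h6 fun i => ?_⟩
    rw [E8.R.pos_iff_pair h7, h5.rt, AddEquiv.trans_apply, AddEquiv.trans_apply, h4, h3, add_comm, ← h4,
      u.apply_symm_apply, ← E8.R.pos_iff_pair h7]
    exact E8.R.pos_sim i
  push Not at h7
  obtain ⟨i, hi⟩ := h7
  have h8 : (u.symm.trans (w.trans u)) (al i) = -al i := by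
    have := hμ (σ⁻¹ (E8.R.sim i)) (by
      rw [← h4, hu.inv.rt, u.apply_symm_apply, RD.rt, E8.R.rt_sim, pair_single]; exact le_antisymm hi (hν i))
    rw [hu.inv.rt, RD.rt, E8.R.rt_sim, add_eq_zero_iff_neg_eq] at this
    exact (congrArg u this.symm).trans (by rw [map_neg, u.apply_symm_apply]; rfl)
  have h9 : (σ * π * σ⁻¹) (E8.R.sim i) = E8.R.neg (E8.R.sim i) :=
    E8.R.ext (by rw [h5.rt, RD.rt, RD.rt, E8.R.rt_neg, E8.R.rt_sim]; exact h8)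
  obtain ⟨c, hc, e1, _, ⟨ψ, rfl⟩, e2⟩ := step h2 h5 h9
  have h10 := ((S.act_h ψ).mul (S.act_n i)).mul h5
  rw [← e2] at h10
  obtain ⟨d, hd, e3⟩ := ih _ (by
    rw [← hm, ← Equiv.Perm.card_support_conj (σ := σ) (τ := π)]
    refine Finset.card_lt_card ((Finset.ssubset_iff_of_subset fun r => ?_).2 ⟨E8.R.sim i, ?_, ?_⟩)
    · rw [Equiv.Perm.mem_support, Equiv.Perm.mem_support]
      refine mt fun e => ?_
      have a1 := iso_of_mem h6 h5.toMon (al i) (E8.R.rt r)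
      rw [h8, ← h5.rt, e, B_neg_left] at a1
      rw [Equiv.Perm.mul_apply, e, one_mul]
      exact E8.R.ext ((rt_s i r).trans (by rw [rf, show B (al i) (E8.R.rt r) = 0 by omega]; simp))
    · rw [Equiv.Perm.mem_support, h9]
      exact fun e => (E8.R.pos_neg_iff _).1 (e.symm ▸ E8.R.pos_sim i) (E8.R.pos_sim i)
    · rw [Equiv.Perm.notMem_support, Equiv.Perm.mul_apply, h9, one_mul, ← E8.R.s_sim]
      exact E8.R.s_s _ _) _ (e2 ▸ mul_mem (mul_mem (S.H_le_N (h_mem ψ)) (S.n_mem i)) h6) (by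
      rw [show c * (g * n * g⁻¹) * c⁻¹ * (c * (g * n * g⁻¹) * c⁻¹) = c * (g * n * g⁻¹ * (g * n * g⁻¹)) * c⁻¹ by group,
        e1, mul_inv_cancel_right, show g * n * g⁻¹ * (g * n * g⁻¹) = g * (n * n) * g⁻¹ by group, ← hχ]
      exact hu.toMon.conj_H (h_mem χ)) _ _ h10 rfl
  exact ⟨d * c * g, mul_mem (mul_mem hd hc) (N_le_Γ hg), by convert e3 using 1; group⟩

theorem sep {q : ℕ} (hq : 3 ≤ q) : H6.TorS.Sep E8.R q := by
  have key : ∀ v : L, B v v ≤ 8 → (∀ j, (q : ℤ) ∣ v j) → v = 0 := fun v h1 h2 => by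
    choose u hu using h2
    obtain rfl : v = (q : ℤ) • u := funext hu
    obtain ⟨k, hk⟩ := B_even u
    have := B_nonneg u
    rw [B_smul_left, B_smul_right, hk, ← mul_assoc] at h1
    have h3 : (3 : ℤ) * 3 ≤ q * q := by exact_mod_cast Nat.mul_le_mul hq hq
    rw [eq_zero_of_B (v := u) (by by_contra h; nlinarith [show 1 ≤ k by omega]), smul_zero]
  refine ⟨fun r => ?_, fun r s h => ?_⟩ <;> by_contra! h1
  · exact E8.R.rt_ne r (key _ (by rw [B_rt]; omega) h1)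
  · exact h (E8.R.ext (sub_eq_zero.1 (key _ (B_wt _ _) h1)))

theorem torus_two [IsAlgClosed K] (hK : LF K) (h2 : (2 : K) ≠ 0) (k : ℕ) : ∀ x ∈ S.Γ, x ^ 2 ^ k = 1 →
    ∃ c ∈ S.Γ, c * x * c⁻¹ ∈ S.H := by
  have : NeZero ((2 ^ 2 : ℕ) : K) := ⟨by rw [Nat.cast_pow]; exact pow_ne_zero _ h2⟩
  obtain ⟨ζ, hζ⟩ := HasEnoughRootsOfUnity.exists_primitiveRoot K (2 ^ 2)
  induction k with
  | zero => exact fun x _ h => ⟨1, one_mem _, by rw [show x = 1 by simpa using h]; simp⟩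
  | succ k ih =>
    intro x hx hk
    obtain ⟨c, hc, h1⟩ := ih (x * x) (mul_mem hx hx) (by rwa [← sq, ← pow_mul, ← pow_succ'])
    obtain ⟨d, hd, h3, h4⟩ := conj_N hK Nat.prime_two (sep (by decide)) (hζ.isUnit_unit (by decide)) h1
      (mul_mem (mul_mem hc hx) (inv_mem hc)) (by group) (k := k + 1) (by rw [conj_pow, hk]; simp)
    obtain ⟨w, π, ha⟩ := exists_act h4
    obtain ⟨e, he, h5⟩ := invol_H h2 _ _ h4 (by
      rw [show d * (c * x * c⁻¹) * d⁻¹ * (d * (c * x * c⁻¹) * d⁻¹) = d * (c * (x * x) * c⁻¹) * d⁻¹ by group, ← h3,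
        mul_inv_cancel_right]
      exact h1) w π ha rfl
    exact ⟨e * d * c, mul_mem (mul_mem he hd) hc, by convert h5 using 1; group⟩

end E8

end Cfsg.Agent.H4.T8
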