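import Cfsg.Agent.H4.FxA
import Cfsg.Agent.H4.T8T

/-!
Every vector of the adjoint module is conjugate into the Borel subalgebra.
-/

set_option autoImplicit false
set_option linter.unusedSectionVars false
set_option maxRecDepth 100000

namespace Cfsg.Agent.H4.Fx

open Matrix Cfsg.Agent.Chv Cfsg.Lie Cfsg.Agent.Chv.E8 Cfsg.Agent.H1.E8 Cfsg.Agent.H6 Cfsg.Agent.H6.Gs

theorem jac {k σ : Type*} [Field k] [Infinite k] (P : MvPolynomial σ k) (h0 : σ → k)
    (h : ∀ v : σ → k, ∃ w : σ → Polynomial k, MvPolynomial.aeval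
      (fun i => Polynomial.C (h0 i) + Polynomial.X * (Polynomial.C (v i) + Polynomial.X * w i)) P = 0) : P = 0 := by
  by_contra hP
  let ψ : MvPolynomial σ k →ₐ[k] Polynomial (MvPolynomial σ k) := MvPolynomial.aeval fun i =>
    Polynomial.C (MvPolynomial.C (h0 i)) + Polynomial.X * Polynomial.C (MvPolynomial.X i)
  have h1 : ψ P ≠ 0 := fun e => hP (by
    have : ((Polynomial.eval₂RingHom (MvPolynomial.aeval (R := k) fun i => (MvPolynomial.X i - MvPolynomial.C (h0 i) :
        MvPolynomial σ k)).toRingHom 1).comp ψ.toRingHom) = RingHom.id _ :=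
      MvPolynomial.ringHom_ext (fun a => by simp [ψ]) fun i => by simp [ψ]
    rw [← RingHom.id_apply P, ← this, RingHom.comp_apply]
    exact (congrArg _ e).trans (map_zero _))
  obtain ⟨Q, h2, h3⟩ := Polynomial.exists_eq_pow_rootMultiplicity_mul_and_not_dvd (ψ P) h1 0
  refine h3 (Polynomial.dvd_iff_isRoot.2 (MvPolynomial.funext fun v => ?_))
  obtain ⟨w, hw⟩ := h v
  let θ : Polynomial (MvPolynomial σ k) →+* Polynomial k := Polynomial.eval₂RingHom (MvPolynomial.aeval (R := k)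
    fun i => Polynomial.C (v i) + Polynomial.X * w i).toRingHom Polynomial.X
  have h4 : θ.comp ψ.toRingHom = (MvPolynomial.aeval (R := k) fun i =>
      Polynomial.C (h0 i) + Polynomial.X * (Polynomial.C (v i) + Polynomial.X * w i)).toRingHom :=
    MvPolynomial.ringHom_ext (fun a => by simp [ψ, θ]) fun i => by simp [ψ, θ]; exact mul_comm _ _
  have h5 : (Polynomial.evalRingHom 0).comp θ = (MvPolynomial.eval v).comp (Polynomial.evalRingHom 0) :=
    Polynomial.ringHom_ext' (MvPolynomial.ringHom_ext (fun a => by simp [θ]) fun i => by simp [θ]) (by simp [θ])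
  have h6 : θ (ψ P) = 0 := (RingHom.congr_fun h4 P).trans hw
  rw [h2, map_mul, map_pow, mul_eq_zero] at h6
  have h7 : θ Q = 0 := h6.resolve_left (pow_ne_zero _ (by simp [θ]))
  have := RingHom.congr_fun h5 Q
  simpa [h7] using this.symm

section ring

variable {A A' : Type*} [CommRing A] [CommRing A']

/-- products of root elements over a ring -/
noncomputable def pr (c : ZMod 3 →+* A) (l : List (Fin 240 × A)) : Matrix I I A :=
  (l.map fun p => ex (p.2 • (adE (ZMod 3) p.1).map c)).prod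

theorem pr_cons (c : ZMod 3 →+* A) (p : Fin 240 × A) (l : List (Fin 240 × A)) :
    pr c (p :: l) = ex (p.2 • (adE (ZMod 3) p.1).map c) * pr c l := by simp [pr]

theorem pr_map (c : ZMod 3 →+* A) (c' : ZMod 3 →+* A') (φ : A →+* A') (l : List (Fin 240 × A)) :
    (pr c l).map φ = pr c' (l.map fun p => (p.1, φ p.2)) := by
  induction l with
  | nil => simp [pr]
  | cons p l ih =>
    have : (p.2 • (adE (ZMod 3) p.1).map c).map φ = φ p.2 • (adE (ZMod 3) p.1).map c' := by
      ext a b; simp [← Subsingleton.elim (φ.comp c) c']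
    rw [List.map_cons, pr_cons, pr_cons, Matrix.map_mul, ih, ← this]
    simp only [← RingHom.mapMatrix_apply, ex, map_add, map_sub, map_mul, map_one]

theorem pr_mulVec (c : ZMod 3 →+* A) (c' : ZMod 3 →+* A') (φ : A →+* A') (l : List (Fin 240 × A)) (v : I → A) (i : I) :
    φ ((pr c l *ᵥ v) i) = (pr c' (l.map fun p => (p.1, φ p.2)) *ᵥ (φ ∘ v)) i := by
  rw [← pr_map c, RingHom.map_mulVec]

theorem pr_lin (c : ZMod 3 →+* A) (τ : A) (a : Fin 240 → A) (l : List (Fin 240)) : ∃ M : Matrix I I A,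
    pr c (l.map fun r => (r, τ * a r)) = 1 + τ • ((l.map fun r => a r • (adE (ZMod 3) r).map c).sum + τ • M) := by
  induction l with
  | nil => exact ⟨0, by simp [pr]⟩
  | cons r l ih =>
    obtain ⟨M, h⟩ := ih
    rw [List.map_cons, pr_cons, h, List.map_cons, List.sum_cons, mul_smul]
    generalize a r • (adE (ZMod 3) r).map c = Y
    generalize (l.map fun r => a r • (adE (ZMod 3) r).map c).sum = S
    exact ⟨M - Y * Y + (Y - τ • (Y * Y)) * (S + τ • M), by
      simp only [ex, mul_add, add_mul, sub_mul, smul_add, smul_sub, mul_one, one_mul, smul_mul_assoc, mul_smul_comm]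
      abel⟩

end ring

variable {K : Type*} [Field K]

theorem adE_map {K' : Type*} [Field K'] (c : K →+* K') (r : Fin 240) : (adE K r).map c = adE K' r := by
  ext a b
  simp [adE, mat, sv, map_list_sum, Function.comp_def, apply_ite c]

/-- vectors of level at least `m` -/
def Ge (μ : Fin 8 → ℝ) (m : ℝ) (v : I → K) : Prop := ∀ i, v i ≠ 0 → m ≤ pair (R.wt i) μ

theorem Ge.mul {μ : Fin 8 → ℝ} {m m' : ℝ} {v : I → K} {M : Matrix I I K} (h : Ge μ m v) (hM : R.Lev M μ m') :
    Ge μ (m' + m) (M *ᵥ v) := fun i e => by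
  obtain ⟨k, -, hk⟩ := Finset.exists_ne_zero_of_sum_ne_zero (show ∑ k, M i k * v k ≠ 0 from e)
  have h1 := hM _ _ (left_ne_zero_of_mul hk)
  rw [pair_sub] at h1
  linarith [h _ (right_ne_zero_of_mul hk)]

theorem Ge.mul0 {μ : Fin 8 → ℝ} {m : ℝ} {v : I → K} {M : Matrix I I K} (h : Ge μ m v) (hM : R.Lev M μ 0) :
    Ge μ m (M *ᵥ v) := by simpa using h.mul hM

variable (h3 : (3 : K) = 0)

theorem x_val (r : Fin 240) (t : K) : ((S3 h3).x r t).1 = ex (t • adE K r) := rfl

attribute [local irreducible] S3 adE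

theorem x_G (r : Fin 240) (t : K) : (S3 h3).x r t ∈ (S3 h3).G := Gs.Sys.x_mem (A := Set.univ) trivial t

theorem pr_mem (c : ZMod 3 →+* K) (l : List (Fin 240 × K)) : ∃ g ∈ (S3 h3).G, g.1 = pr c l := by
  induction l with
  | nil => exact ⟨1, one_mem _, by simp [pr]⟩
  | cons p l ih =>
    obtain ⟨g, h1, h2⟩ := ih
    exact ⟨_, mul_mem (x_G h3 p.1 p.2) h1, by rw [pr_cons, adE_map, ← h2, Units.val_mul, x_val]⟩

theorem iwasawa (O : ValuationSubring K) (c : ZMod 3 →+* K) {g : GL I K} (hg : g ∈ (S3 h3).Γ) :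
    ∃ b ∈ (S3 h3).B, ∃ l : List (Fin 240 × O), g.1 = b.1 * pr c (l.map fun p => (p.1, p.2.1)) := by
  let Z := fun g : GL I K => ∃ b ∈ (S3 h3).B, ∃ l : List (Fin 240 × O), g.1 = b.1 * pr c (l.map fun p => (p.1, p.2.1))
  have h1 : ∀ b ∈ (S3 h3).B, ∀ g, Z g → Z (b * g) := fun b hb g ⟨b', hb', l, e⟩ =>
    ⟨_, mul_mem hb hb', l, by rw [Units.val_mul, e, Units.val_mul, mul_assoc]⟩
  have h2 : ∀ i g, Z g → Z ((S3 h3).n i * g) := fun i g ⟨b, hb, l, e⟩ => by
    obtain ⟨b', hb', t, e'⟩ := Gs.Sys.n_mul_B i hb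
    rw [show (S3 h3).n i * g = b' * ((S3 h3).n i * (S3 h3).x (R.sim i) t * (b⁻¹ * g)) by
      rw [← mul_assoc b', ← mul_assoc b', ← e']; group]
    refine h1 _ hb' _ ?_
    have e2 : (b⁻¹ * g).1 = pr c (l.map fun p => (p.1, p.2.1)) := by rw [Units.val_mul, e, Units.inv_mul_cancel_left]
    by_cases ht : t ∈ O
    · refine ⟨1, one_mem _, (R.sim i, 1) :: (R.neg (R.sim i), -1) :: (R.sim i, 1) :: (R.sim i, ⟨t, ht⟩) :: l, ?_⟩
      rw [Units.val_mul (_ * _), e2, Gs.Sys.n, nn]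
      simp only [List.map_cons, pr_cons, adE_map, Units.val_mul, x_val, Units.val_one, one_mul, ← mul_assoc]
      rfl
    · have ht0 : t ≠ 0 := fun e => ht (e ▸ zero_mem O)
      have h4 := (S3 h3).tor_n i (-Units.mk0 t ht0)
      generalize R.h (K := K) (mkChr fun _ => -Units.mk0 t ht0) = η, Gs.Sys.h_mem (S := S3 h3) (mkChr fun _ => -Units.mk0 t ht0) = hη at h4
      simp only [Units.val_neg, Units.val_mk0, inv_neg, neg_neg, Units.val_inv_eq_inv_val] at h4
      rw [show (S3 h3).n i * (S3 h3).x (R.sim i) t = (η * ((S3 h3).n i * η⁻¹ * ((S3 h3).n i)⁻¹))⁻¹ *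
        (S3 h3).x (R.sim i) (-t) * (S3 h3).x (R.neg (R.sim i)) t⁻¹ by
          rw [← Gs.Sys.x_inv] at h4 ⊢
          rw [mul_assoc, show ((S3 h3).x (R.sim i) t)⁻¹ * _ = η * (S3 h3).n i * η⁻¹ * (S3 h3).x (R.sim i) t by
            rw [h4]; group]; group, mul_assoc]
      refine h1 _ (mul_mem (inv_mem (Gs.Sys.H_le_B (mul_mem hη (((S3 h3).act_n i).toMon.conj_H (inv_mem hη)))))
        (Gs.Sys.U_le_B (Gs.Sys.x_mem_U (R.pos_sim i) _))) _
        ⟨1, one_mem _, (R.neg (R.sim i), ⟨t⁻¹, (O.mem_or_inv_mem t).resolve_left ht⟩) :: l, ?_⟩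
      rw [Units.val_mul, e2]
      simp only [List.map_cons, pr_cons, adE_map, x_val, Units.val_one, one_mul]
  obtain ⟨b, hb, n, hn, b', hb', rfl⟩ := Gs.Sys.bruhat hg
  obtain ⟨t, ht, L, rfl⟩ := Gs.Sys.exists_wd hn
  rw [mul_assoc, mul_assoc]
  refine h1 _ hb _ (h1 _ (Gs.Sys.H_le_B ht) _ ?_)
  clear hg hn
  induction L with
  | nil => exact ⟨b', hb', [], by simp [Gs.Sys.wd, pr]⟩
  | cons i L ih => rw [Gs.Sys.wd_cons, mul_assoc]; exact h2 i _ ih

/-- the height -/
def ρ1 : Fin 8 → ℝ := fun _ => 1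

theorem ρ1_pos (j : Fin 8) : 0 < ρ1 j := one_pos

include h3

theorem exists_reg [Infinite K] : ∃ h0 : I → K, (∀ r, h0 (R.ei r) = 0) ∧ ∀ r, rh h0 (R.rt r) ≠ 0 := by
  obtain ⟨μ, h⟩ := Module.Dual.exists_forall_ne_zero_of_forall_exists
    (fun r : Fin 240 => (Fintype.linearCombination K fun i => (B (al i) (R.rt r) : K) : Module.Dual K (Fin 8 → K))) fun r => by
      obtain ⟨j, hj⟩ := exists_B h3 r
      exact ⟨Pi.single j 1, by simpa using hj⟩
  exact ⟨Sum.elim μ 0, fun _ => rfl, fun r => h r⟩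

theorem exists_c : Nonempty (ZMod 3 →+* K) :=
  have := (CharP.charP_iff_prime_eq_zero Nat.prime_three).2 (by exact_mod_cast h3)
  ⟨ZMod.castHom (dvd_refl 3) K⟩

open Classical in
theorem dom [Infinite K] (c : ZMod 3 →+* MvPolynomial (Fin 240 ⊕ I) K) : Function.Injective (MvPolynomial.aeval (R := K)
    (pr c ((List.finRange 240).map fun r => (r, MvPolynomial.X (.inl r))) *ᵥ
      fun i => if 0 ≤ pair (R.wt i) ρ1 then MvPolynomial.X (.inr i) else 0)) := by
  obtain ⟨h0, h1, h2⟩ := exists_reg h3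
  obtain ⟨c0⟩ := exists_c h3
  refine (injective_iff_map_eq_zero _).2 fun P hP => jac P h0 fun v => ?_
  let a : Fin 240 → K := fun r => if 0 ≤ pair (R.rt r) ρ1 then 0 else -v (R.ei r) / rh h0 (R.rt r)
  let v' : I → K := fun i => if 0 ≤ pair (R.wt i) ρ1 then v i else 0
  let ε : MvPolynomial (Fin 240 ⊕ I) K →ₐ[K] Polynomial K := MvPolynomial.aeval (Sum.elim
    (fun r => Polynomial.X * Polynomial.C (a r)) fun i => Polynomial.C (h0 i) + Polynomial.X * Polynomial.C (v i))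
  obtain ⟨M, hM⟩ := pr_lin (Polynomial.C.comp c0) Polynomial.X (fun r => Polynomial.C (a r)) (List.finRange 240)
  have h4 : (((List.finRange 240).map fun r => Polynomial.C (a r) • (adE (ZMod 3) r).map (Polynomial.C.comp c0)).sum) *ᵥ
      (Polynomial.C ∘ h0) = Polynomial.C ∘ v - Polynomial.C ∘ v' := by
    ext1 i
    rw [← Fin.sum_univ_def, sum_mulVec, Finset.sum_apply, Finset.sum_congr rfl fun r _ => by
      rw [smul_mulVec, Pi.smul_apply, RingHom.coe_comp, ← Matrix.map_map, adE_map, ← RingHom.map_mulVec, adE_mul h3 r h1,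
        smul_eq_mul, ← map_mul], ← map_sum, Pi.sub_apply, Function.comp, Function.comp, ← map_sub]
    refine congrArg _ ?_
    rcases cases_I i with ⟨j, rfl⟩ | ⟨r, rfl⟩
    · simp [hI_ne, v', wt_inl, pair_zero]
    · by_cases h : 0 ≤ pair (R.rt r) ρ1 <;> simp [Pi.single_apply, ei_inj, v', a, h, h2]
  have h5 : (ε ∘ fun i => if 0 ≤ pair (R.wt i) ρ1 then MvPolynomial.X (.inr i) else 0) =
      Polynomial.C ∘ h0 + (Polynomial.X : Polynomial K) • (Polynomial.C ∘ v') := by
    ext1 i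
    by_cases h : 0 ≤ pair (R.wt i) ρ1
    · simp [h, ε, v']
    · rcases cases_I i with ⟨j, rfl⟩ | ⟨r, rfl⟩
      · simp [wt_inl, pair_zero] at h
      · simp [h, v', h1]
  generalize ((List.finRange 240).map fun r => Polynomial.C (a r) • (adE (ZMod 3) r).map (Polynomial.C.comp c0)).sum = S
    at hM h4
  refine ⟨S *ᵥ (Polynomial.C ∘ v') + M *ᵥ (Polynomial.C ∘ h0 + (Polynomial.X : Polynomial K) • (Polynomial.C ∘ v')), ?_⟩
  have h6 := congrArg ε hP
  rw [MvPolynomial.comp_aeval_apply, map_zero] at h6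
  rw [← h6]
  refine congrArg (fun f => MvPolynomial.aeval f P) (funext fun i => ?_)
  have h7 := pr_mulVec c (Polynomial.C.comp c0) ε.toRingHom ((List.finRange 240).map fun r => (r, MvPolynomial.X (.inl r)))
    (fun i => if 0 ≤ pair (R.wt i) ρ1 then MvPolynomial.X (.inr i) else 0) i
  rw [List.map_map, show ((fun p : Fin 240 × _ => (p.1, ε.toRingHom p.2)) ∘ fun r => (r, MvPolynomial.X (.inl r))) =
    fun r => (r, Polynomial.X * Polynomial.C (a r)) from funext fun r => by simp [ε], hM] at h7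
  refine Eq.trans ?_ h7.symm
  change _ = (_ *ᵥ (ε ∘ _)) i
  rw [h5, add_mulVec, one_mulVec, smul_mulVec, add_mulVec, smul_mulVec, mulVec_add S, h4, mulVec_smul]
  simp only [Pi.add_apply, Pi.sub_apply, Pi.smul_apply, smul_eq_mul, Function.comp]
  ring

theorem descend [IsAlgClosed K] {k : Type*} [Field k] (f : K →+* k) (c : ZMod 3 →+* k) (l : List (Fin 240 × k)) {z : I → K}
    {D : Set I} (h : ∀ i ∈ D, (pr c l *ᵥ (f ∘ z)) i = 0) : ∃ g ∈ (S3 h3).G, ∀ i ∈ D, (g.1 *ᵥ z) i = 0 := by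
  obtain ⟨c0⟩ := exists_c h3
  let ε : MvPolynomial (Fin l.length) K →+* k := MvPolynomial.eval₂Hom f fun j => l[j].2
  obtain ⟨m, hm, h1⟩ := Ideal.exists_le_maximal _ (RingHom.ker_ne_top ε)
  obtain ⟨a, rfl⟩ := MvPolynomial.isMaximal_iff_eq_vanishingIdeal_singleton.1 hm
  obtain ⟨g, hg, e⟩ := pr_mem h3 c0 ((List.ofFn fun j : Fin l.length => (l[j].1, MvPolynomial.X j)).map
    fun p => (p.1, MvPolynomial.eval a p.2))
  refine ⟨g, hg, fun i hi => ?_⟩
  have h2 := pr_mulVec (MvPolynomial.C.comp c0) c ε (List.ofFn fun j : Fin l.length => (l[j].1, MvPolynomial.X j))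
    (MvPolynomial.C ∘ z) i
  rw [List.map_ofFn, show List.ofFn _ = l from (congrArg _ (funext fun j => by simp [ε])).trans (List.ofFn_get l),
    show ε ∘ MvPolynomial.C ∘ z = f ∘ z from funext fun j => by simp [ε], h i hi] at h2
  have h4 := (MvPolynomial.mem_vanishingIdeal_singleton_iff _ _).1 (h1 h2)
  rw [MvPolynomial.aeval_eq_eval, pr_mulVec _ c0, ← e] at h4
  rwa [show MvPolynomial.eval a ∘ MvPolynomial.C ∘ z = z from funext fun j => by simp] at h4

open Classical in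
theorem borel [IsAlgClosed K] (z : I → K) : ∃ g ∈ (S3 h3).G, Ge ρ1 0 (g.1 *ᵥ z) := by
  obtain ⟨c0⟩ := exists_c h3
  have h1 := dom h3 (MvPolynomial.C.comp c0)
  let j := algebraMap (MvPolynomial (Fin 240 ⊕ I) K) (FractionRing (MvPolynomial (Fin 240 ⊕ I) K))
  have hj : Function.Injective j := IsFractionRing.injective _ _
  have h3' : (3 : FractionRing (MvPolynomial (Fin 240 ⊕ I) K)) = 0 := by
    rw [← map_ofNat (j.comp MvPolynomial.C) 3, h3, map_zero]
  obtain ⟨c1⟩ := exists_c h3'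
  have h2 := pr_mulVec (MvPolynomial.C.comp c0) c1 j ((List.finRange 240).map fun r => (r, MvPolynomial.X (.inl r)))
    fun i => if 0 ≤ pair (R.wt i) ρ1 then MvPolynomial.X (.inr i) else 0
  obtain ⟨u, hu, e⟩ := pr_mem h3' c1 (((List.finRange 240).map fun r => (r, MvPolynomial.X (.inl r))).map
    fun p => (p.1, j p.2))
  have h4 : Ge ρ1 0 (j ∘ fun i => if 0 ≤ pair (R.wt i) ρ1 then MvPolynomial.X (.inr i) else 0) := fun i hi =>
    of_not_not fun h => hi (by simp [h])
  rw [← e] at h2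
  generalize (j ∘ fun i => if 0 ≤ pair (R.wt i) ρ1 then MvPolynomial.X (.inr i) else 0) = β at h2 h4
  generalize (pr (MvPolynomial.C.comp c0) _ *ᵥ _ : I → MvPolynomial (Fin 240 ⊕ I) K) = φ at h1 h2
  let Ψ := j.comp (MvPolynomial.aeval (R := K) φ).toRingHom
  have hΨ : Function.Injective Ψ := hj.comp h1
  obtain ⟨O, h5, h6⟩ := Ideal.image_subset_nonunits_valuationSubring
    ((RingHom.ker (MvPolynomial.eval z)).map Ψ.rangeRestrict) fun h => by
      obtain ⟨p, hp, e⟩ := (Ideal.mem_map_iff_of_surjective _ Ψ.rangeRestrict_surjective).1 (h.ge (Submodule.mem_top (x := 1)))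
      obtain rfl : p = 1 := hΨ ((congrArg Subtype.val e).trans (map_one _).symm)
      simp at hp
  let Ψ' : MvPolynomial I K →+* O := Ψ.codRestrict O fun x => h5 ⟨x, rfl⟩
  obtain ⟨b, hb, l, e'⟩ := iwasawa h3' O c1 (Gs.Sys.G_le_Γ (inv_mem hu))
  obtain ⟨g, hg, h7⟩ := descend h3 ((IsLocalRing.residue O).comp (Ψ'.comp MvPolynomial.C))
    ((IsLocalRing.residue O).comp (Ψ'.comp (MvPolynomial.C.comp c0))) (l.map fun p => (p.1, IsLocalRing.residue O p.2))
    (z := z) (D := {i | ¬ 0 ≤ pair (R.wt i) ρ1}) fun i hi => by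
      have h7 : ((IsLocalRing.residue O).comp (Ψ'.comp MvPolynomial.C)) ∘ z =
          IsLocalRing.residue O ∘ fun i => Ψ' (MvPolynomial.X i) := funext fun i => by
        refine (Ideal.Quotient.eq.2 ?_).symm
        exact ValuationSubring.coe_mem_nonunits_iff.1 (h6 ⟨Ψ.rangeRestrict (MvPolynomial.X i - MvPolynomial.C (z i)),
          Ideal.mem_map_of_mem _ (by simp), map_sub Ψ _ _⟩)
      rw [h7, ← pr_mulVec (Ψ'.comp (MvPolynomial.C.comp c0))]
      refine (congrArg _ (O.subtype_injective ?_)).trans (map_zero _)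
      rw [pr_mulVec _ c1, show O.subtype ∘ (fun i => Ψ' (MvPolynomial.X i)) = u.1 *ᵥ β from funext fun i => by
        rw [← h2]; simp [Ψ', Ψ], map_zero]
      change (pr c1 (l.map fun p => (p.1, p.2.1)) *ᵥ _) i = 0
      rw [← (Units.inv_mul_eq_iff_eq_mul b).2 e', mulVec_mulVec, mul_assoc, ← Units.val_mul, inv_mul_cancel, Units.val_one,
        mul_one]
      exact of_not_not fun h => hi (h4.mul0 (Gs.Sys.B_le_P (fun j => (ρ1_pos j).le) hb).2 i h)
  exact ⟨g, hg, fun i hi => of_not_not fun h => hi (h7 i h)⟩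

end Cfsg.Agent.H4.Fx
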