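import Cfsg.Agent.H4.FxB

/-!
Normal forms in the Borel subalgebra; rational points.
-/

set_option autoImplicit false
set_option linter.unusedSectionVars false
set_option maxRecDepth 100000

namespace Cfsg.Agent.H4.Fx

open Matrix Subgroup Cfsg.Agent.Chv Cfsg.Lie Cfsg.Agent.Chv.E8 Cfsg.Agent.H1.E8 Cfsg.Agent.H6 Cfsg.Agent.H6.Gs

/-- upward closed sets of positive roots -/
def Up (D : Finset (Fin 240)) : Prop :=
  (∀ r ∈ D, R.Pos r) ∧ ∀ r ∈ D, ∀ s, pair (R.rt r) ρ1 < pair (R.rt s) ρ1 → s ∈ D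

theorem up_ind {P : Finset (Fin 240) → Prop} (h0 : P ∅)
    (hs : ∀ D α, Up D → α ∈ D → Up (D.erase α) → P (D.erase α) → P D) (D : Finset (Fin 240)) : Up D → P D := by
  induction D using Finset.strongInduction with
  | _ D ih =>
  intro hD
  rcases D.eq_empty_or_nonempty with rfl | h
  · exact h0
  obtain ⟨α, h1, h2⟩ := D.exists_min_image (fun r => pair (R.rt r) ρ1) h
  have h3 : Up (D.erase α) := ⟨fun r hr => hD.1 r (Finset.mem_of_mem_erase hr), fun r hr s hs =>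
    Finset.mem_erase.2 ⟨fun e => (h2 r (Finset.mem_of_mem_erase hr)).not_gt (e ▸ hs),
      hD.2 r (Finset.mem_of_mem_erase hr) s hs⟩⟩
  exact hs D α hD h1 h3 (ih _ (Finset.erase_ssubset h1) h3)

open Classical in
theorem exists_up : ∃ D, Up D ∧ ∀ r, R.Pos r → r ∈ D :=
  ⟨Finset.univ.filter R.Pos, ⟨by simp, fun r hr s hs => by
    simp only [Finset.mem_filter, Finset.mem_univ, true_and, R.pos_iff_pair ρ1_pos] at hr ⊢; exact hr.trans hs⟩, by simp⟩

theorem ht_ne (r : Fin 240) : pair (R.rt r) ρ1 ≠ 0 := fun e => by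
  have h1 := (R.pos_iff_pair ρ1_pos r).not.2 (by simp [e])
  have h2 := (R.pos_iff_pair ρ1_pos _).1 ((R.pos_neg_iff r).2 h1)
  rw [RD.rt, R.rt_neg, pair_neg, e] at h2
  simp at h2

theorem one_le_ht {v : L} (h : 0 < pair v ρ1) : 1 ≤ pair v ρ1 := by
  have : pair v ρ1 = ((∑ j, v j : ℤ) : ℝ) := by simp [pair, ρ1]
  rw [this] at h ⊢
  exact_mod_cast h

variable {K : Type*} [Field K]

theorem sh_lev {M : Matrix I I K} {v : L} (h : R.Sh M v) (μ : Fin 8 → ℝ) : R.Lev M μ (pair v μ) := fun a b e => by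
  rw [h a b e, add_sub_cancel_left]

theorem rh_congr {v w : I → K} (h : ∀ i, v (hI i) = w (hI i)) (u : L) : rh v u = rh w u := by simp [rh, h]

variable (h3 : (3 : K) = 0)

attribute [local irreducible] S3 adE

theorem nf {z : I → K} (hz : Ge ρ1 0 z) : ∃ g ∈ (S3 h3).G, Ge ρ1 0 (g.1 *ᵥ z) ∧
    ∀ r, (g.1 *ᵥ z) (R.ei r) ≠ 0 → rh (g.1 *ᵥ z) (R.rt r) = 0 := by
  obtain ⟨D, hD, h1⟩ := exists_up
  refine up_ind (P := fun D => ∀ z, Ge ρ1 0 z → (∀ r, z (R.ei r) ≠ 0 → rh z (R.rt r) ≠ 0 → r ∈ D) → ∃ g ∈ (S3 h3).G,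
    Ge ρ1 0 (g.1 *ᵥ z) ∧ ∀ r, (g.1 *ᵥ z) (R.ei r) ≠ 0 → rh (g.1 *ᵥ z) (R.rt r) = 0) (fun z hz h => ?_)
    (fun D α hD hα _ ih z hz h => ?_) D hD z hz fun r h _ =>
      h1 r ((R.pos_iff_pair ρ1_pos r).2 ((hz _ h).lt_of_ne' (ht_ne r)))
  · exact ⟨1, one_mem _, by simpa using hz, fun r hr => of_not_not fun e => by simpa using h r (by simpa using hr) (by simpa using e)⟩
  have h2 := (R.pos_iff_pair ρ1_pos α).1 (hD.1 α hα)
  have h4 := hz.mul (sh_lev (sh_adE α) ρ1)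
  have h5 := h4.mul (sh_lev (sh_adE α) ρ1)
  obtain ⟨t, ht⟩ : ∃ t, t = z (R.ei α) / rh z (R.rt α) := ⟨_, rfl⟩
  have h6 : ∀ i, (((S3 h3).x α t).1 *ᵥ z) i = z i + t * (adE K α *ᵥ z) i - t * t * (adE K α *ᵥ adE K α *ᵥ z) i := fun i => by
    simp [x_val, ex, sub_mulVec, add_mulVec, smul_mulVec, mul_assoc]
  have h7 : ∀ i, pair (R.wt i) ρ1 ≤ pair (R.rt α) ρ1 → (adE K α *ᵥ adE K α *ᵥ z) i = 0 := fun i hi =>
    of_not_not fun e => by linarith [h5 i e]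
  have h8 : ∀ u, rh (((S3 h3).x α t).1 *ᵥ z) u = rh z u := rh_congr fun i => by
    rw [h6, h7 _ (by rw [wt_inl, pair_zero]; exact h2.le), show (adE K α *ᵥ z) (hI i) = 0 from of_not_not fun e => by
      have := h4 _ e
      rw [wt_inl, pair_zero] at this; linarith]; simp
  obtain ⟨g, hg, h9⟩ := ih _ (hz.mul0 ((S3 h3).x_mem_P α t h2.le).1) fun r e1 e2 => by
    rw [h8] at e2
    have e3 : r ≠ α := by
      rintro rfl
      exact e1 (by rw [h6, h7 _ le_rfl, adE_top h3, ht]; field_simp; ring)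
    refine Finset.mem_erase.2 ⟨e3, (lt_or_ge _ _).elim (hD.2 α hα r) fun e4 => h r (fun e5 => e1 ?_) e2⟩
    rw [h6, h7 _ e4, e5, show (adE K α *ᵥ z) (R.ei r) = 0 from of_not_not fun e => ?_]; · simp
    obtain ⟨k, -, hk⟩ := Finset.exists_ne_zero_of_sum_ne_zero (show ∑ k, adE K α (R.ei r) k * z k ≠ 0 from e)
    have e6 := sh_adE α _ _ (left_ne_zero_of_mul hk)
    rcases cases_I k with ⟨i, rfl⟩ | ⟨s, rfl⟩
    · exact e3 (R.ext (by simpa [wt_inl] using e6))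
    · have := (hz _ (right_ne_zero_of_mul hk)).lt_of_ne' (ht_ne s)
      rw [RD.rt, e6, pair_add] at e4
      linarith
  exact ⟨g * (S3 h3).x α t, mul_mem hg (x_G h3 α t), by simpa only [Units.val_mul, ← mulVec_mulVec] using h9⟩

omit h3 in
theorem pow_per {M : Type*} [Monoid M] {a : M} {m : ℕ} (h : a ^ 3 ^ m = a) (k : ℕ) : a ^ 3 ^ (m * k) = a := by
  induction k with
  | zero => simp
  | succ k ih => rw [mul_add, mul_one, pow_add, pow_mul, ih, h]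

include h3 in
theorem per (hK : T8.LF K) {ι : Type} [Fintype ι] (a : ι → K) : ∃ m, 0 < m ∧ ∀ i, a i ^ 3 ^ m = a i := by
  have := (CharP.charP_iff_prime_eq_zero Nat.prime_three).2 (by exact_mod_cast h3)
  have h1 : ∀ a : K, ∃ m, 0 < m ∧ a ^ 3 ^ m = a := fun a => by
    obtain ⟨A, hA, h⟩ := hK {a} (Set.finite_singleton a)
    obtain ⟨i, j, h1, h2⟩ := Finite.exists_ne_map_eq_of_infinite fun i : ℕ => (⟨a, h rfl⟩ : A) ^ 3 ^ i
    wlog h4 : j < i generalizing i j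
    · exact this j i h1.symm h2.symm (by omega)
    have h5 : (frobenius K 3)^[i] a = (frobenius K 3)^[j] a := by
      rw [iterate_frobenius, iterate_frobenius]; exact congrArg Subtype.val h2
    exact ⟨i - j, by omega, by rw [← iterate_frobenius, Function.iterate_cancel (frobenius K 3).injective h5]⟩
  choose m h2 h4 using h1
  refine ⟨∏ i, m (a i), Finset.prod_pos fun i _ => h2 _, fun i => ?_⟩
  obtain ⟨k, hk⟩ := Finset.dvd_prod_of_mem (fun i => m (a i)) (Finset.mem_univ i)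
  rw [hk, pow_per (h4 _)]

include h3 in
theorem ad_conj {g : GL I K} (hg : g ∈ Au K) (v : I → K) (n : ℕ) : g.1 * ad K v ^ n = ad K (g.1 *ᵥ v) ^ n * g.1 := by
  induction n with
  | zero => simp
  | succ n ih => rw [pow_succ, ← mul_assoc, ih, mul_assoc, hg, pow_succ, mul_assoc]

theorem jordan [IsAlgClosed K] (hK : T8.LF K) (x : I → K) : ∃ g ∈ (S3 h3).G, ∃ h : I → K, (∀ r, h (R.ei r) = 0) ∧
    Ge ρ1 1 (g.1 *ᵥ x - h) ∧ ∃ m, 0 < m ∧ ∀ k, 0 < k → ad K x ^ 3 ^ (m * k) = ad K ((g⁻¹).1 *ᵥ h) := by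
  have := (CharP.charP_iff_prime_eq_zero Nat.prime_three).2 (by exact_mod_cast h3)
  have : Nonempty I := ⟨hI 0⟩
  have := Fact.mk Nat.prime_three
  obtain ⟨g1, hg1, h1⟩ := borel h3 x
  obtain ⟨g2, hg2, h2, h4⟩ := nf h3 h1
  rw [mulVec_mulVec, ← Units.val_mul] at h2 h4
  have hg := mul_mem hg2 hg1
  generalize g2 * g1 = g at h2 h4 hg
  have h5 := ad_conj h3 (Γ_Au h3 (Gs.Sys.G_le_Γ hg)) x
  generalize hz : g.1 *ᵥ x = z at h2 h4 h5
  have h6 : ∀ r, z (R.ei r) ≠ 0 → 0 < pair (R.rt r) ρ1 := fun r e => (h2 _ e).lt_of_ne' (ht_ne r)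
  obtain ⟨m, hm, h7⟩ := per h3 hK fun a => rh z (R.wt a)
  obtain ⟨n, hn⟩ := RD.SLev.nilpotent (R := R) (μ := ρ1) (M := ∑ r, z (R.ei r) • adE K r) fun a b e => by
    rw [Matrix.sum_apply] at e
    obtain ⟨r, -, hr⟩ := Finset.exists_ne_zero_of_sum_ne_zero e
    exact (h6 r (left_ne_zero_of_mul hr)).trans_le (sh_lev (sh_adE r) ρ1 a b (right_ne_zero_of_mul hr))
  refine ⟨g, hg, Sum.elim (fun i => z (hI i)) 0, fun _ => rfl, fun i e => ?_, m * (n + 1), by positivity, fun k hk => ?_⟩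
  · rw [hz] at e
    rcases cases_I i with ⟨i, rfl⟩ | ⟨r, rfl⟩
    · exact absurd (sub_self (z (hI i))) e
    · exact one_le_ht (h6 r fun h => e ((sub_zero _).trans h))
  have h8 : Commute (diagonal fun a => rh z (R.wt a)) (∑ r, z (R.ei r) • adE K r) := Commute.sum_right _ _ _ fun r _ => by
    ext a b
    by_cases e : z (R.ei r) * adE K r a b = 0
    · simp [e]
    · simp [sh_adE r a b (right_ne_zero_of_mul e), rh_add, h4 r (left_ne_zero_of_mul e), mul_comm]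
  have h9 : n ≤ 3 ^ (m * (n + 1) * k) := ((Nat.lt_pow_self (by omega)).le.trans' (by nlinarith [Nat.mul_le_mul hm hk]))
  rw [← Units.mul_right_inj g, h5, Γ_Au h3 (Gs.Sys.G_le_Γ hg), mulVec_mulVec, ← Units.val_mul, mul_inv_cancel,
    Units.val_one, one_mulVec, ad_eq h3, ad_eq h3, add_pow_char_pow_of_commute 3 _ h8, pow_eq_zero_of_le h9 hn,
    diagonal_pow]
  refine congrArg (· * g.1) (congrArg₂ _ (congrArg diagonal (funext fun a => ?_)) (Finset.sum_eq_zero fun r _ => zero_smul K _).symm)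
  rw [mul_assoc, Pi.pow_apply, pow_per (h7 a)]; rfl

theorem x_comm {r s : Fin 240} (hr : R.Pos r) (hs : R.Pos s) (t u : K) :
    (S3 h3).x r t * (S3 h3).x s u * ((S3 h3).x r t)⁻¹ = (S3 h3).x s u ∨ ∃ γ v, R.rt γ = R.rt r + R.rt s ∧
      (S3 h3).x r t * (S3 h3).x s u * ((S3 h3).x r t)⁻¹ = (S3 h3).x s u * (S3 h3).x γ v := by
  have h1 := le_B (B_rt r) (B_rt s)
  rcases (by omega : 0 ≤ B (R.rt r) (R.rt s) ∨ B (R.rt r) (R.rt s) = -1 ∨ B (R.rt r) (R.rt s) = -2) with h | h | h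
  · have h2 := (rel_all h3 _ _).1 h
    refine .inl (mul_inv_eq_iff_eq_mul.2 (Units.ext ?_))
    simp only [Units.val_mul, x_val]
    exact ex_conj (ex_conj (by simp [h2, smul_smul, mul_comm])).symm
  · obtain ⟨γ, c, h4, h5⟩ := (rel_all h3 _ _).2 h
    have h6 := (rel_all h3 r γ).1 (by simp [h4, B_rt, h])
    have h7 := (rel_all h3 s γ).1 (by simp [h4, B_rt, h, B_comm (R.rt s)])
    have z1 := sh_zero (sh_mul (sh_adE (K := K) γ) (sh_mul (sh_adE r) (sh_adE r)))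
      (by simp [h4, B_rt, h, B_comm (R.rt s)])
    have z2 := sh_zero (sh_mul (sh_mul (sh_adE (K := K) s) (sh_adE s)) (sh_adE γ))
      (by simp [h4, B_rt, h, B_comm (R.rt s)])
    have z3 := sh_zero (sh_mul (sh_adE (K := K) s) (sh_mul (sh_adE γ) (sh_adE γ)))
      (by simp [h4, B_rt, h, B_comm (R.rt s)])
    refine .inr ⟨γ, t * u * c, h4, mul_inv_eq_iff_eq_mul.2 (Units.ext ?_)⟩
    simp only [Units.val_mul, x_val]
    refine (ex_conj (ex_comm h3 (Z := (t * u * c) • adE K γ) ?_ ?_ ?_)).trans (congrArg (· * _) (ex_add h3 ?_ ?_ ?_))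
    · rw [mul_smul (t * u), ← h5]; simp [smul_smul, smul_sub, mul_comm]
    all_goals simp [smul_smul, h6, h7, z1, z2, z3, mul_comm]
  · have h2 : s = R.neg r := R.ext ((eq_neg_of_B (B_rt _) (B_rt s) h).trans (R.rt_neg _).symm)
    exact absurd hr ((R.pos_neg_iff _).1 (h2 ▸ hs))

theorem U_norm {D : Finset (Fin 240)} (hD : Up D) {v w : GL I K} (hv : v ∈ (S3 h3).U) (hw : w ∈ (S3 h3).XS D) :
    v * w * v⁻¹ ∈ (S3 h3).XS D := by
  have h1 : ∀ r, R.Pos r → ∀ t, ∀ w ∈ (S3 h3).XS D, (S3 h3).x r t * w * ((S3 h3).x r t)⁻¹ ∈ (S3 h3).XS D :=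
    fun r hr t w hw => conj_closure (by
      rintro _ ⟨s, hs, u, rfl⟩
      rcases x_comm h3 hr (hD.1 s hs) t u with e | ⟨γ, v, h, e⟩ <;> rw [e]
      · exact Gs.Sys.x_mem hs _
      · exact mul_mem (Gs.Sys.x_mem hs _) (Gs.Sys.x_mem (hD.2 s hs γ (by
          rw [h, pair_add]; linarith [(R.pos_iff_pair ρ1_pos r).1 hr])) _)) hw
  refine (mem_normalizer_iff.1 (Gs.Sys.XS_le (C := normalizer ((S3 h3).XS D : Set _)) (fun r hr t =>
    mem_normalizer_iff.2 fun w => ⟨h1 r hr t w, fun h => ?_⟩) hv) w).1 hw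
  simpa [← Gs.Sys.x_inv, mul_assoc] using h1 r hr (-t) _ h

theorem U_cent {D : Finset (Fin 240)} {α : Fin 240} (hD : Up D) (hα : α ∈ D) (hD' : Up (D.erase α)) {v : GL I K}
    (hv : v ∈ (S3 h3).U) (t : K) : v * (S3 h3).x α t * v⁻¹ * ((S3 h3).x α t)⁻¹ ∈ (S3 h3).XS (D.erase α) := by
  induction hv using closure_induction with
  | mem g h =>
    obtain ⟨r, hr, u, rfl⟩ := h
    rcases x_comm h3 hr (hD.1 α hα) u t with e | ⟨γ, v, h, e⟩ <;> rw [e]
    · simp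
    · have : pair (R.rt α) ρ1 < pair (R.rt γ) ρ1 := by rw [h, pair_add]; linarith [(R.pos_iff_pair ρ1_pos r).1 hr]
      exact U_norm h3 hD' (Gs.Sys.x_mem_U (hD.1 α hα) t) (Gs.Sys.x_mem (Finset.mem_erase.2
        ⟨fun e => this.ne' (congrArg (fun r => pair (R.rt r) ρ1) e), hD.2 α hα γ this⟩) _)
  | one => simp
  | mul a b ha _ iha ihb => convert mul_mem (U_norm h3 hD' ha ihb) iha using 1; group
  | inv a ha iha => convert U_norm h3 hD' (inv_mem ha) (inv_mem iha) using 1; group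

end Cfsg.Agent.H4.Fx
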