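import Cfsg.Agent.H6.Gl

/-!
Enumeration of Kac coordinates.
-/

set_option autoImplicit false
set_option maxRecDepth 100000

namespace Cfsg.Agent.H4.T8

open Cfsg.Agent.Chv Cfsg.Agent.H6.Gs

/-- one loop -/
noncomputable def lp (m n V r : ℕ) (k : ℕ → ℕ → ℕ → Bool) : Bool :=
  all2 (Nat.succ (Nat.div n m)) fun a => force (Nat.sub n (Nat.mul m a)) fun n' => force (Nat.add V (Nat.mul a r)) (k a n')

theorem lp_spec {m n V r : ℕ} {k : ℕ → ℕ → ℕ → Bool} (h : lp m n V r k = true) (hm : 0 < m) {a : ℕ} (ha : m * a ≤ n) :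
    k a (n - m * a) (V + a * r) = true := by
  have := all2_spec h (k := a) (Nat.lt_succ_of_le ((Nat.le_div_iff_mul_le hm).2 (mul_comm m a ▸ ha)))
  rwa [force_eq, force_eq] at this

/-- the quadratic form -/
def qf (a0 a1 a2 a3 a4 a5 a6 a7 : ℕ) : ℕ :=
  Nat.add (Nat.mul a0 (Nat.add (Nat.mul 2 a0) (Nat.add (Nat.mul 5 a1) (Nat.add (Nat.mul 7 a2) (Nat.add (Nat.mul 10 a3) (Nat.add (Nat.mul 8 a4) (Nat.add (Nat.mul 6 a5) (Nat.add (Nat.mul 4 a6) (Nat.mul 2 a7)))))))))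
    (Nat.add (Nat.mul a1 (Nat.add (Nat.mul 4 a1) (Nat.add (Nat.mul 10 a2) (Nat.add (Nat.mul 15 a3) (Nat.add (Nat.mul 12 a4) (Nat.add (Nat.mul 9 a5) (Nat.add (Nat.mul 6 a6) (Nat.mul 3 a7))))))))
    (Nat.add (Nat.mul a2 (Nat.add (Nat.mul 7 a2) (Nat.add (Nat.mul 20 a3) (Nat.add (Nat.mul 16 a4) (Nat.add (Nat.mul 12 a5) (Nat.add (Nat.mul 8 a6) (Nat.mul 4 a7)))))))
    (Nat.add (Nat.mul a3 (Nat.add (Nat.mul 15 a3) (Nat.add (Nat.mul 24 a4) (Nat.add (Nat.mul 18 a5) (Nat.add (Nat.mul 12 a6) (Nat.mul 6 a7))))))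
    (Nat.add (Nat.mul a4 (Nat.add (Nat.mul 10 a4) (Nat.add (Nat.mul 15 a5) (Nat.add (Nat.mul 10 a6) (Nat.mul 5 a7)))))
    (Nat.add (Nat.mul a5 (Nat.add (Nat.mul 6 a5) (Nat.add (Nat.mul 8 a6) (Nat.mul 4 a7))))
    (Nat.add (Nat.mul a6 (Nat.add (Nat.mul 3 a6) (Nat.mul 3 a7)))
    (Nat.mul a7 (Nat.mul 1 a7))))))))

theorem qf_eq (a0 a1 a2 a3 a4 a5 a6 a7 : ℕ) :
    (pos.map fun l => val [a0, a1, a2, a3, a4, a5, a6, a7] l ^ 2).sum = 60 * qf a0 a1 a2 a3 a4 a5 a6 a7 := by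
  simp only [pos, List.map_cons, List.map_nil, List.sum_cons, List.sum_nil, val, List.getD_cons_zero,
    List.getD_cons_succ, qf, Nat.add_eq, Nat.mul_eq, mul_zero, mul_one, add_zero, zero_add]
  ring

/-- all points of the alcove -/
noncomputable def enum (N : ℕ) (t : ℕ → ℕ → Bool) : Bool :=
  force (RR pos 0) fun r0 => force (RR pos 1) fun r1 => force (RR pos 2) fun r2 => force (RR pos 3) fun r3 =>
  force (RR pos 4) fun r4 => force (RR pos 5) fun r5 => force (RR pos 6) fun r6 => force (RR pos 7) fun r7 =>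
  lp 2 N 0 r0 fun a0 n V => lp 3 n V r1 fun a1 n V => lp 4 n V r2 fun a2 n V => lp 6 n V r3 fun a3 n V =>
  lp 5 n V r4 fun a4 n V => lp 4 n V r5 fun a5 n V => lp 3 n V r6 fun a6 n V => lp 2 n V r7 fun a7 _ V =>
    t (qf a0 a1 a2 a3 a4 a5 a6 a7) V

theorem enum_spec {N : ℕ} {t : ℕ → ℕ → Bool} (h : enum N t = true) {a0 a1 a2 a3 a4 a5 a6 a7 : ℕ}
    (ha : 2 * a0 + 3 * a1 + 4 * a2 + 6 * a3 + 5 * a4 + 4 * a5 + 3 * a6 + 2 * a7 ≤ N) :
    t (qf a0 a1 a2 a3 a4 a5 a6 a7) (VV pos [a0, a1, a2, a3, a4, a5, a6, a7]) = true := by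
  simp only [enum, force_eq] at h
  have := lp_spec (lp_spec (lp_spec (lp_spec (lp_spec (lp_spec (lp_spec (lp_spec h (by decide) (a := a0) (by omega))
    (by decide) (a := a1) (by omega)) (by decide) (a := a2) (by omega)) (by decide) (a := a3) (by omega))
    (by decide) (a := a4) (by omega)) (by decide) (a := a5) (by omega)) (by decide) (a := a6) (by omega))
    (by decide) (a := a7) (by omega)
  rwa [zero_add] at this

/-- indicator -/
noncomputable def ind (j v : ℕ) : ℕ := Bool.rec 0 1 (Nat.beq v j)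

/-- the number of roots with a given value -/
noncomputable def cnt (N c j V : ℕ) : ℕ :=
  sumL (fun v => Nat.add (ind j (Nat.mod (Nat.mul c v) N)) (ind j (Nat.mod (Nat.mul (Nat.mul (N - 1) c) v) N))) V

/-- invariance test -/
noncomputable def inv (N V : ℕ) : Bool := Nat.beq (hist N 3 V) (hist N 1 V)

/-- test -/
noncomputable def t8 (L : List (ℤ × ℤ × ℤ)) (_ V : ℕ) : Bool := Bool.rec true
  (force (cnt 8 1 0 V) fun a => force (cnt 8 1 4 V) fun b => force (cnt 8 2 0 V) fun c => force (cnt 8 2 4 V) fun d =>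
    force (cnt 8 4 0 V) fun e => force (cnt 8 4 4 V) fun f =>
      decide ((((8 + a : ℕ) : ℤ) - b, ((8 + c : ℕ) : ℤ) - d, ((8 + e : ℕ) : ℤ) - f) ∈ L)) (inv 8 V)

/-- test -/
noncomputable def t11 (_ V : ℕ) : Bool := Bool.rec true (Nat.ble 20 (cnt 11 1 0 V)) (inv 11 V)

/-- test -/
noncomputable def t31 (q V : ℕ) : Bool := Bool.rec true (Bool.rec true
  (force (cnt 31 1 0 V) fun a => Nat.beq a 0 || Nat.beq a 240) (inv 31 V))
    (Nat.beq (Nat.mod q 31) 0)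

theorem c11 : enum 11 t11 = true := by decide +kernel



theorem c31 : enum 31 t31 = true := by decide +kernel

end Cfsg.Agent.H4.T8
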