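import Cfsg.Agent.H4.T8D
import Cfsg.Agent.H4.T8K

/-!
The adjoint module of `E₈(3)` has the properties `Fac`.
-/

set_option autoImplicit false
set_option linter.unusedSectionVars false
set_option maxRecDepth 100000

namespace Cfsg.Agent.H4.T8

open Matrix Cfsg.Agent.Chv Cfsg.Agent.H6.Gs Cfsg.Agent.Chv.E8 Cfsg.Agent.H1.E8 Cfsg.Lie H6.Gs.Sys

theorem c8 : enum 8 (t8 L8) = true := by decide +kernel

theorem xMat_map (D : ChevalleyDatum) {K K' : Type*} [Field K] [Field K'] (φ : K →+* K') (r : Fin D.nroots) (t : K) :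
    (D.xMat K r t).map φ = D.xMat K' r (φ t) := by
  ext a b
  rcases a with a | a <;> rcases b with b | b <;>
    simp [ChevalleyDatum.xMat, apply_ite φ, map_list_sum, Function.comp_def]

theorem map_G (D : ChevalleyDatum) {K K' : Type*} [Field K] [Field K'] (φ : K →+* K') :
    D.group K ≤ (D.group K').comap (GeneralLinearGroup.map φ) :=
  (Subgroup.closure_le _).2 fun _ ⟨r, t, e⟩ => Subgroup.subset_closure ⟨r, φ t, by
    rw [← xMat_map, ← e]; rfl⟩

theorem map_h {l : ℕ} {ι Φ : Type} [Fintype ι] [DecidableEq ι] (R : RD ι Φ l) {K : Type*} [Field K] (φ : K →+* K)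
    (χ : Chr l K) : GeneralLinearGroup.map φ (R.h χ) = R.h ((Units.map φ.toMonoidHom).comp χ) :=
  Units.ext (diagonal_map (map_zero φ))

theorem sum_idx {M : Type*} [AddCommMonoid M] (f : L → M) :
    ∑ i : chevE8.Idx, f (R.wt i) = 8 • f 0 + ∑ r : Fin 240, f (R.rt r) := by
  rw [Fintype.sum_sum_type]
  congr 1
  rw [Finset.sum_congr rfl fun i _ => congrArg f (show R.wt (Sum.inl i) = 0 from wtF_inl i), Finset.sum_const,
    Finset.card_fin]
  rfl

/-- the algebraic closure -/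
abbrev KK := AlgebraicClosure (ZMod 3)

theorem h3K : (3 : KK) = 0 := by simpa using CharP.cast_eq_zero KK 3

theorem lfK : LF KK := fun s hs => by
  have := Algebra.finite_adjoin_of_finite_of_isIntegral (R := ZMod 3) hs fun x _ => Algebra.IsIntegral.isIntegral x
  exact ⟨(Algebra.adjoin (ZMod 3) s).toSubring, Module.finite_of_finite (ZMod 3) (M := Algebra.adjoin (ZMod 3) s),
    Algebra.subset_adjoin⟩

theorem exists_prim {N : ℕ} (hN : ¬ 3 ∣ N) : ∃ ζ : KKˣ, IsPrimitiveRoot ζ N := by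
  have : NeZero (N : KK) := ⟨fun e => hN ((CharP.cast_eq_zero_iff KK 3 N).1 e)⟩
  obtain ⟨ζ, hζ⟩ := HasEnoughRootsOfUnity.exists_primitiveRoot KK N
  exact ⟨_, hζ.isUnit_unit fun e : N = 0 => hN (e ▸ dvd_zero 3)⟩

/-- the adjoint module -/
noncomputable def rho : chevE8.group (ZMod 3) →* Module.End (ZMod 3) (chevE8.Idx → ZMod 3) :=
  (toLinAlgEquiv' (R := ZMod 3)).toMulEquiv.toMonoidHom.comp ((Units.coeHom _).comp (Subgroup.subtype _))

/-- extension of scalars -/
noncomputable def FF : chevE8.group (ZMod 3) →* GL chevE8.Idx KK :=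
  (GeneralLinearGroup.map (algebraMap (ZMod 3) KK)).comp (Subgroup.subtype _)

theorem FF_mem (x : chevE8.group (ZMod 3)) : FF x ∈ (S3 h3K).Γ := G_le_Γ (by rw [S3_G]; exact map_G _ _ x.2)

theorem FF_inj : Function.Injective FF := fun _ _ e => Subtype.ext (Units.ext
  (Matrix.map_injective (algebraMap (ZMod 3) KK).injective (congrArg Units.val e)))

theorem exists_log {N : ℕ} [NeZero N] {ζ : KKˣ} (hζ : IsPrimitiveRoot ζ N) {x : chevE8.group (ZMod 3)}
    (hx : x ^ N = 1) {c : GL chevE8.Idx KK} {χ : Chr 8 KK} (hc : R.h χ = c * FF x * c⁻¹) :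
    ∃ y : L →+ ZMod N, ∀ v, ev χ v = ζ ^ (y v).val := by
  have h1 : χ ^ N = 1 := R.h_inj (K := KK) (by rw [h_pow, hc, conj_pow, ← map_pow, hx, map_one, map_one]; simp)
  have h2 : ∀ v, ∃ j : ZMod N, ev χ v = ζ ^ j.val := fun v => by
    obtain ⟨j, hj, e⟩ := hζ.eq_pow_of_mem_rootsOfUnity (ξ := ev χ v) (congrArg (ev · v) h1)
    exact ⟨j, by rw [ZMod.val_cast_of_lt hj, e]⟩
  choose y hy using h2
  refine ⟨AddMonoidHom.mk' y fun u v => ZMod.val_injective N (hζ.pow_inj (ZMod.val_lt _) (ZMod.val_lt _) ?_), hy⟩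
  rw [← hy, ev_add, hy, hy, ← pow_add, ZMod.val_add, ← pow_eq_pow_mod _ hζ.pow_eq_one]

theorem kac {N : ℕ} [NeZero N] (hN : N < 400) {ζ : KKˣ} (hζ : IsPrimitiveRoot ζ N) {x : chevE8.group (ZMod 3)}
    (hx : x ^ N = 1) {c : GL chevE8.Idx KK} (hc : c * FF x * c⁻¹ ∈ (S3 h3K).H) {t : ℕ → ℕ → Bool}
    (ht : enum N t = true) : ∃ q V, t q V = true ∧ inv N V = true ∧
      (∀ _ : Fact N.Prime, (16 : ZMod N) ≠ 0 → 60 * q % N = 0) ∧ ∀ (m j : ℕ) (e : ZMod 3), j < N →
        algebraMap _ KK e = ζ ^ j → dm ⊤ (rho (x ^ m)) e = 8 * ind j 0 + cnt N m j V := by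
  classical
  obtain ⟨χ, hc⟩ := hc
  obtain ⟨y, hy⟩ := exists_log hζ hx hc
  have h1 : ∀ m : ℕ, c.1 * ((x ^ m).1.1).map (algebraMap _ KK) * (c⁻¹).1 =
      diagonal fun i => ((ζ ^ (m • y (R.wt i)).val : KKˣ) : KK) := fun m => by
    have := congrArg (fun g => (g ^ m).1) hc
    simp only [conj_pow, ← map_pow, R.h_val, ev_pow] at this
    simp only [← ev_nsmul] at this
    simp only [hy, map_nsmul] at this
    exact this.symm
  have h2 : Inv y := fun M _ f => by
    have h3 := frob_diag _ (frobenius KK 3) (Subsingleton.elim _ _) (h1 1)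
    have h4 : Function.Injective fun j : ZMod N => ((ζ ^ j.val : KKˣ) : KK) := fun i j e =>
      ZMod.val_injective N (hζ.pow_inj (ZMod.val_lt _) (ZMod.val_lt _) (Units.ext e))
    have h5 : Finset.univ.val.map (fun i => 3 • y (R.wt i)) = Finset.univ.val.map fun i => y (R.wt i) :=
      Multiset.map_injective h4 (by
        rw [Multiset.map_map, Multiset.map_map]
        simp only [one_smul] at h3
        refine Eq.trans (Multiset.map_congr rfl fun i _ => ?_) h3
        simp only [Function.comp, frobenius_def, ← map_nsmul, ← hy, ev_nsmul, Units.val_pow_eq_pow_val])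
    have h6 : ∀ {α : Type} [Fintype α] (g : α → ZMod N), Finset.univ.val.map g = ∑ i, {g i} := fun g => by
      rw [← Multiset.sum_map_singleton (Multiset.map g _), Multiset.map_map]; rfl
    rw [h6, h6, sum_idx fun v => ({3 • y v} : Multiset _), sum_idx fun v => ({y v} : Multiset _), map_zero, smul_zero,
      add_right_inj, ← h6, ← h6] at h5
    have := congrArg (fun s => (s.map f).sum) h5
    simp only [Multiset.map_map] at this
    exact this
  obtain ⟨w, hw, a0, a1, a2, a3, a4, a5, a6, a7, h3, h4⟩ := alcove N y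
  have h5 : Has (y.comp w.toAddMonoidHom) [a0, a1, a2, a3, a4, a5, a6, a7] := h4
  have h6 : ∀ j < 8, [a0, a1, a2, a3, a4, a5, a6, a7].getD j 0 < 400 := fun j hj => by
    interval_cases j <;> simp <;> omega
  refine ⟨_, _, enum_spec ht h3, (h2.comp hw).hist h5 h6, fun _ h => ?_, fun m j e hj he => ?_⟩
  · rw [← qf_eq]; exact (h2.comp hw).pow h5 even_two (by norm_num; exact h)
  have h7 : ∀ s : ZMod N, (if ((ζ ^ s.val : KKˣ) : KK) = algebraMap _ KK e then 1 else 0) = ind j s.val := fun s => by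
    rw [he, ← Units.val_pow_eq_pow_val, Units.val_inj]
    by_cases h : s.val = j
    · simp [ind, h]
    · rw [if_neg fun e => h (hζ.pow_inj (ZMod.val_lt _) hj e), ind,
        Bool.eq_false_iff.2 fun e => h (Nat.eq_of_beq_eq_true e)]
  rw [show rho (x ^ m) = toLin' (x ^ m).1.1 from rfl, dm_diag _ (h1 m)]
  simp only [h7]
  rw [sum_idx fun v => ind j (m • y v).val, ← hw.sum fun v => ind j (m • y v).val, cnt, sumL_eq _ h6]
  simp only [map_zero, smul_zero, ZMod.val_zero, smul_eq_mul]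
  exact congrArg _ (h5.sum (ind j) m)

theorem tor_odd {p : ℕ} (hp : p.Prime) (h9 : 9 < p) {x : chevE8.group (ZMod 3)} (hx : x ^ p = 1) :
    (∃ ζ : KKˣ, IsPrimitiveRoot ζ p) ∧ ∃ c ∈ (S3 h3K).Γ, c * FF x * c⁻¹ ∈ (S3 h3K).H := by
  have h3 : ¬ 3 ∣ p := fun h => by have := (Nat.prime_dvd_prime_iff_eq Nat.prime_three hp).1 h; omega
  obtain ⟨ζ, hζ⟩ := exists_prim (N := p ^ 2) fun h => h3 (Nat.prime_three.dvd_of_dvd_pow h)
  exact ⟨exists_prim h3, torus_odd lfK hp (sep (by nlinarith)) hζ h9 (FF_mem x) (by rw [← map_pow, hx, map_one])⟩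

theorem map_Γ (φ : KK →+* KK) : (S3 h3K).Γ ≤ (S3 h3K).Γ.comap (GeneralLinearGroup.map φ) :=
  sup_le (by rintro _ ⟨χ, rfl⟩; exact H_le_Γ (map_h R φ χ ▸ h_mem _))
    fun g hg => G_le_Γ (by rw [S3_G] at hg ⊢; exact map_G _ _ hg)

theorem rho_inj (g : chevE8.group (ZMod 3)) (h : rho g = 1) : g = 1 :=
  Subtype.ext (Units.ext ((toLinAlgEquiv' (R := ZMod 3)).injective (h.trans (map_one _).symm)))

theorem rho_dim : Module.finrank (ZMod 3) (chevE8.Idx → ZMod 3) = 248 := by
  rw [Module.finrank_fintype_fun_eq_card, Fintype.card_sum, Fintype.card_fin, Fintype.card_fin]; rfl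

theorem eq_one_of_dm {k V : Type*} [Field k] [AddCommGroup V] [Module k V] [FiniteDimensional k V]
    {g : Module.End k V} (h : dm ⊤ g 1 = Module.finrank k V) : g = 1 :=
  LinearMap.ext fun v => by
    simpa using Module.End.mem_eigenspace_iff.1 ((Submodule.eq_top_of_finrank_eq h).ge trivial : v ∈ _).2

theorem ne41 : (3 : ZMod 41) ≠ 0 := by decide

theorem ord12 (d : ℕ) (h : (12 : ZMod 41) ^ d = 1) : 40 ∣ d :=
  Nat.dvd_of_mod_eq_zero ((by decide : ∀ r < 40, (12 : ZMod 41) ^ r = 1 → r = 0) _ (Nat.mod_lt _ (by decide))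
    (by rwa [← pow_eq_pow_mod d (by decide)]))

theorem fac : Fac rho where
  dim := rho_dim
  inj := rho_inj
  e2 x hx := by
    obtain ⟨ζ, hζ⟩ := exists_prim (N := 8) (by decide)
    obtain ⟨c, -, hc⟩ := torus_two (S := S3 h3K) lfK (fun e => one_ne_zero (by linear_combination h3K - e : (1 : KK) = 0))
      3 _ (FF_mem x) (by rw [← map_pow]; exact (congrArg FF hx).trans (map_one _))
    obtain ⟨q, V, h1, h2, -, h3⟩ := kac (by decide) hζ hx hc c8
    have h4 : algebraMap (ZMod 3) KK (-1) = ζ ^ 4 := by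
      rw [map_neg, map_one, ← Units.val_pow_eq_pow_val]
      exact ((IsPrimitiveRoot.coe_units_iff.2 (hζ.pow (by decide) (show 8 = 4 * 2 from rfl))).eq_neg_one_of_two_right).symm
    have h5 : ∀ m, tau ⊤ (rho (x ^ m)) = ((8 + cnt 8 m 0 V : ℕ) : ℤ) - cnt 8 m 4 V := fun m => by
      rw [tau, h3 m 0 1 (by decide) (by simp), h3 m 4 (-1) (by decide) h4, show ind 4 0 = 0 from rfl, mul_zero, zero_add]; rfl
    rw [t8, h2] at h1
    simp only [force_eq, decide_eq_true_eq, ← h5, pow_one] at h1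
    exact h1
  e11 x hx := by
    obtain ⟨⟨ζ, hζ⟩, c, -, hc⟩ := tor_odd (by norm_num) (by decide) hx
    obtain ⟨q, V, h1, h2, -, h3⟩ := kac (by decide) hζ hx hc c11
    have h4 := h3 1 0 1 (by decide) (by simp)
    rw [t11, h2] at h1
    rw [pow_one, show ind 0 0 = 1 from rfl] at h4
    have := Nat.le_of_ble_eq_true h1
    omega
  e31 x hx := by
    obtain ⟨⟨ζ, hζ⟩, c, -, hc⟩ := tor_odd (by norm_num) (by decide) hx
    obtain ⟨q, V, h1, h2, h5, h3⟩ := kac (by decide) hζ hx hc c31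
    have h4 := h3 1 0 1 (by decide) (by simp)
    have h6 := h5 ⟨by norm_num⟩ (by decide)
    rw [t31, h2, show Nat.mod q 31 = 0 by change q % 31 = 0; omega] at h1
    rw [pow_one, show ind 0 0 = 1 from rfl] at h4
    change force _ _ = true at h1
    simp only [force_eq, Bool.or_eq_true, Nat.beq_eq] at h1
    exact h1.symm.imp (fun h => rho_inj _ (eq_one_of_dm (by rw [rho_dim]; omega))) (by omega)
  e41 x g hx hg := by
    have : Fact (Nat.Prime 41) := ⟨by norm_num⟩
    obtain ⟨⟨ζ, hζ⟩, c, hc, χ, e⟩ := tor_odd (by norm_num) (by decide) hx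
    obtain ⟨y, hy⟩ := exists_log hζ hx e
    have h1 : c * FF g * c⁻¹ * R.h χ * (c * FF g * c⁻¹)⁻¹ = R.h (χ ^ 36) := by
      rw [h_pow, e, conj_pow, ← map_pow, ← hg, map_mul, map_mul, map_inv]; group
    have h2 : GeneralLinearGroup.map (frobenius KK 3) (FF x) = FF x := Units.ext (by
      change (x.1.1.map _).map _ = x.1.1.map _
      rw [Matrix.map_map, ← RingHom.coe_comp, Subsingleton.elim ((frobenius KK 3).comp _) (algebraMap (ZMod 3) KK)])
    have h3 : GeneralLinearGroup.map (frobenius KK 3) c * (c * FF g * c⁻¹ * c)⁻¹ * R.h (χ ^ 36) *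
        (GeneralLinearGroup.map (frobenius KK 3) c * (c * FF g * c⁻¹ * c)⁻¹)⁻¹ = R.h (χ ^ 3) := by
      rw [show χ ^ 3 = (Units.map (frobenius KK 3).toMonoidHom).comp χ from MonoidHom.ext fun _ => Units.ext rfl,
        ← map_h, ← h1, e, map_mul, map_mul, map_inv, h2]
      group
    obtain ⟨w, ⟨n, hn, h4⟩, h5⟩ := fusion (mul_mem (map_Γ _ hc) (inv_mem (mul_mem (mul_mem (mul_mem hc (FF_mem g))
      (inv_mem hc)) hc))) h3
    have h6 : y = 0 := lattice_zero (e := 40) (t := 12) hn h4 ord12 (by decide) fun v => by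
        have := h5 v
        rw [ev_pow, ev_pow, ← ev_nsmul, ← ev_nsmul, hy, hy] at this
        have := ZMod.val_injective 41 (hζ.pow_inj (ZMod.val_lt _) (ZMod.val_lt _) this)
        rw [map_nsmul, map_nsmul, nsmul_eq_mul, nsmul_eq_mul] at this
        exact mul_left_cancel₀ (a := (3 : ZMod 41)) ne41 (by rw [← mul_assoc]; exact this)
    have h7 : χ = 1 := chr_ext fun j => by rw [hy, h6]; simp [ev]
    rw [h7, map_one, eq_mul_inv_iff_mul_eq, one_mul, left_eq_mul] at e
    exact FF_inj (e.trans (map_one _).symm)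

end Cfsg.Agent.H4.T8
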