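import Cfsg.Agent.H4.FxC
import Cfsg.Agent.H4.T8E

/-!
Rational points: descent from the algebraic closure to the prime field.
-/

set_option autoImplicit false
set_option linter.unusedSectionVars false
set_option maxRecDepth 100000

namespace Cfsg.Agent.H4.Fx

open Matrix Subgroup Cfsg.Agent.Chv Cfsg.Lie Cfsg.Agent.Chv.E8 Cfsg.Agent.H1.E8 Cfsg.Agent.H6 Cfsg.Agent.H6.Gs
open Cfsg.Agent.H4.T8 (KK h3K lfK FF FF_mem FF_inj xMat_map map_h map_Γ)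

attribute [local irreducible] S3 adE

/-- the root subgroup system over the algebraic closure -/
noncomputable abbrev SK : Gs.Sys R KK := S3 h3K

/-- the Frobenius map -/
noncomputable def Fr : GL I KK →* GL I KK := GeneralLinearGroup.map (frobenius KK 3)

theorem h30 : (3 : ZMod 3) = 0 := rfl

theorem Fr_FF (k : chevE8.group (ZMod 3)) : Fr (FF k) = FF k := Units.ext (by
  change (k.1.1.map _).map _ = k.1.1.map _
  rw [Matrix.map_map, ← RingHom.coe_comp, Subsingleton.elim ((frobenius KK 3).comp _) (algebraMap (ZMod 3) KK)])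

theorem map_x {K K' : Type*} [Field K] [Field K'] (h3 : (3 : K) = 0) (h3' : (3 : K') = 0) (φ : K →+* K') (r : Fin 240) (t : K) :
    GeneralLinearGroup.map φ ((S3 h3).x r t) = (S3 h3').x r (φ t) := Units.ext (by
  change (((S3 h3).x r t).1).map φ = _
  rw [x_val, x_val, ← xMat_ex h3, ← xMat_ex h3']; exact xMat_map chevE8 φ r t)

theorem Fr_x (r : Fin 240) (t : KK) : Fr (SK.x r t) = SK.x r (t ^ 3) := map_x _ _ _ r t

theorem Fr_h (χ : Chr 8 KK) : Fr (R.h χ) = R.h (χ ^ 3) := map_h R _ χ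

theorem exists_F3 {t : KK} (ht : t ^ 3 = t) : ∃ s : ZMod 3, algebraMap _ KK s = t := by
  have : t * ((t - 1) * (t + 1)) = 0 := by linear_combination ht
  rcases mul_eq_zero.1 this with h | h
  · exact ⟨0, by simp [h]⟩
  rcases mul_eq_zero.1 h with h | h
  · exact ⟨1, by simp [sub_eq_zero.1 h]⟩
  · exact ⟨-1, by simp [eq_neg_of_add_eq_zero_left h]⟩

theorem x_mem0 (r : Fin 240) {t : KK} (ht : t ^ 3 = t) : SK.x r t ∈ FF.range := by
  obtain ⟨s, rfl⟩ := exists_F3 ht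
  exact ⟨⟨(S3 h30).x r s, S3_G h30 ▸ x_G h30 r s⟩, map_x _ _ _ r s⟩

theorem Fr_val (g : GL I KK) : (Fr g).1 = g.1.map (frobenius KK 3) := rfl

theorem FF_val (k : chevE8.group (ZMod 3)) : (FF k).1 = k.1.1.map (algebraMap _ KK) := rfl

theorem Fr_Γ : SK.Γ ≤ SK.Γ.comap Fr := map_Γ _

attribute [local irreducible] Fr FF

theorem n_mem0 (i : Fin 8) : SK.n i ∈ FF.range :=
  mul_mem (mul_mem (x_mem0 _ (by simp)) (x_mem0 _ (by ring))) (x_mem0 _ (by simp))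

theorem wd_mem0 (L : List (Fin 8)) : SK.wd L ∈ FF.range :=
  list_prod_mem fun _ h => by obtain ⟨i, -, rfl⟩ := List.mem_map.1 h; exact n_mem0 i

theorem Fr_XS {A : Set (Fin 240)} : SK.XS A ≤ (SK.XS A).comap Fr :=
  Gs.Sys.XS_le fun r hr t => mem_comap.2 (Fr_x r t ▸ Gs.Sys.x_mem hr _)

theorem Fr_H : SK.H ≤ SK.H.comap Fr := by
  rintro _ ⟨χ, rfl⟩
  exact mem_comap.2 (Fr_h χ ▸ Gs.Sys.h_mem _)

theorem Fr_B : SK.B ≤ SK.B.comap Fr :=
  sup_le (Fr_H.trans (comap_mono Gs.Sys.H_le_B)) (Fr_XS.trans (comap_mono Gs.Sys.U_le_B))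

theorem exists_chr {α : Fin 240} (hα : R.Pos α) {c : KK} (hc : c ≠ 0) : ∃ χ : Chr 8 KK, (ev χ (R.rt α) : KK) = c := by
  obtain ⟨j, hj⟩ := Function.ne_iff.1 (R.rt_ne α)
  obtain ⟨k, hk⟩ := Int.eq_ofNat_of_zero_le (hα j)
  have h1 : k ≠ 0 := fun e => hj (by rw [RD.rt] at hk; simp [hk, e])
  obtain ⟨d, rfl⟩ := IsAlgClosed.exists_pow_nat_eq c (Nat.pos_of_ne_zero h1)
  have h2 : d ≠ 0 := fun e => hc (by rw [e, zero_pow h1])
  refine ⟨mkChr (Pi.mulSingle j (Units.mk0 d h2)), ?_⟩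
  rw [ev_mkChr, Finset.prod_eq_single j (fun i _ hi => by simp [hi]) (by simp), hk]; simp

theorem XS_erase {K ι Φ : Type} [Field K] [Fintype ι] [DecidableEq ι] [DecidableEq Φ] {R : RD ι Φ 8} (S : Gs.Sys R K)
    (D : Finset Φ) (α : Φ) : S.XS D ≤ S.XS {α} ⊔ S.XS (D.erase α : Finset _) := Gs.Sys.XS_le fun r hr t => by
  by_cases e : r = α
  · exact mem_sup_left (Gs.Sys.x_mem (A := {α}) e t)
  · exact mem_sup_right (Gs.Sys.x_mem (by simpa [e] using hr) t)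

theorem lang {Z : Subgroup (GL I KK)} (hH : SK.H ≤ Z) (hF : Z ≤ Z.comap Fr) {u : GL I KK} (hu : u ∈ SK.U)
    (h : u⁻¹ * Fr u ∈ Z) : ∃ k ∈ FF.range, k⁻¹ * u ∈ Z := by
  obtain ⟨D, hD, h1⟩ := exists_up
  refine up_ind (P := fun D => ∀ u ∈ SK.XS D, u⁻¹ * Fr u ∈ Z → ∃ k ∈ FF.range, k⁻¹ * u ∈ Z) (fun u hu _ => ?_)
    (fun D α hD hα hD' ih u hu h => ?_) D hD u (Gs.Sys.XS_mono h1 hu) h
  · exact ⟨1, one_mem _, by simpa using Gs.Sys.XS_le (C := Z) (by simp) hu⟩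
  have h2 := fun t => Gs.Sys.x_mem_U (S := SK) (hD.1 α hα) t
  obtain ⟨_, h4, u, hu', rfl⟩ := mem_sup_prod (A := SK.XS {α}) (C := SK.XS (D.erase α : Finset _))
    (fun a ha c hc => U_norm h3K hD' (Gs.Sys.XS_mono (by simpa using hD.1 α hα) ha) hc) (XS_erase _ D α hu)
  obtain ⟨t, rfl⟩ := Gs.Sys.mem_X h4
  rw [map_mul, Fr_x] at h
  by_cases ht : t ^ 3 = t
  · obtain ⟨k, hk, h5⟩ := ih u hu' (by simpa [ht, mul_assoc] using h)
    exact ⟨_, mul_mem (x_mem0 α ht) hk, by simpa [mul_assoc] using h5⟩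
  obtain ⟨χ, hχ⟩ := exists_chr (hD.1 α hα) (c := t / (t ^ 3 - t)) (div_ne_zero (fun e => ht (by simp [e])) (sub_ne_zero.2 ht))
  have h5 := SK.x_tor χ α (t ^ 3 - t)
  rw [hχ, div_mul_cancel₀ _ (sub_ne_zero.2 ht), sub_eq_neg_add, SK.x_add, ← Gs.Sys.x_inv] at h5
  have h6 := mul_mem (mul_mem (hH (Gs.Sys.h_mem χ)) h) (inv_mem (hH (Gs.Sys.h_mem χ)))
  obtain ⟨k, hk, h7⟩ := ih (SK.x α t * u * (R.h χ * ((SK.x α t * u)⁻¹ * (SK.x α (t ^ 3) * Fr u)) * (R.h χ)⁻¹)⁻¹) (by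
    have h8 := fun c hc => Gs.Sys.H_conj (S := SK) (A := (D.erase α : Finset _)) _ (Gs.Sys.h_mem χ) c hc
    convert mul_mem (U_norm h3K hD' (h2 t) (mul_mem hu' (h8 _ (inv_mem (Fr_XS hu'))))) (h8 _ hu') using 1
    rw [← congrArg (·⁻¹) h5]
    group) (by
      rw [map_mul, map_inv, map_mul, Fr_x]
      convert mul_mem (mul_mem h6 h) (inv_mem (hF h6)) using 1
      group)
  exact ⟨k, hk, by simpa [mul_assoc] using mul_mem h7 h6⟩

theorem desc {P : Subgroup (GL I KK)} (hB : SK.B ≤ P) (hF : P ≤ P.comap Fr) {g : GL I KK} (hg : g ∈ SK.Γ)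
    (h : g⁻¹ * Fr g ∈ P) : ∃ k ∈ FF.range, k⁻¹ * g ∈ P := by
  obtain ⟨b, hb, n, hn, b', hb', rfl⟩ := Gs.Sys.bruhat hg
  obtain ⟨χ, u, hu, rfl⟩ := Gs.Sys.mem_B hb
  obtain ⟨t, ht, L, rfl⟩ := Gs.Sys.exists_wd hn
  obtain ⟨w, π, ha⟩ := SK.act_wd L
  obtain ⟨m, hm⟩ := wd_mem0 L
  rw [← hm] at h ha ⊢
  have h1 := fun t ht => hB (Gs.Sys.H_le_B (ha.inv.toMon.conj_H (S := SK) (u := t) ht))
  have h2 := mul_mem (h1 _ (mul_mem (Gs.Sys.h_mem χ) ht)) (hB hb')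
  have h4 : R.h χ * u * (t * FF m) * b' = R.h χ * u * (R.h χ)⁻¹ * FF m * ((FF m)⁻¹ * (R.h χ * t) * (FF m)⁻¹⁻¹ * b') := by group
  rw [h4] at h ⊢
  generalize (FF m)⁻¹ * (R.h χ * t) * (FF m)⁻¹⁻¹ * b' = p at h h2
  obtain ⟨k, hk, h5⟩ := lang (Z := P.comap (MulAut.conj (FF m)⁻¹).toMonoidHom) h1 (fun z hz => by
    simpa [Fr_FF] using hF hz) (Gs.Sys.H_conj _ (Gs.Sys.h_mem χ) _ hu) (by
      generalize R.h χ * u * (R.h χ)⁻¹ = v at h
      simpa [Fr_FF, mul_assoc] using mul_mem (mul_mem h2 h) (inv_mem (hF h2)))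
  exact ⟨_, mul_mem hk ⟨m, rfl⟩, by simpa [mul_assoc] using mul_mem (mem_comap.1 h5) h2⟩

theorem exists_ω (i : Fin 8) : ∃ u : L, ∀ j, B (al j) u = if j = i then 1 else 0 :=
  ⟨![![4, 5, 7, 10, 8, 6, 4, 2], ![5, 8, 10, 15, 12, 9, 6, 3], ![7, 10, 14, 20, 16, 12, 8, 4],
    ![10, 15, 20, 30, 24, 18, 12, 6], ![8, 12, 16, 24, 20, 15, 10, 5], ![6, 9, 12, 18, 15, 12, 8, 4],
    ![4, 6, 8, 12, 10, 8, 6, 3], ![2, 3, 4, 6, 5, 4, 3, 2]] i, by revert i; decide⟩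

open Classical in
theorem h_mem0 {χ : Chr 8 KK} (h : χ ^ 3 = χ) : R.h χ ∈ FF.range := by
  let A : AddSubgroup L := AddSubgroup.comap (AddMonoidHom.mk' (fun u => Additive.ofMul (R.h (K := KK)
    (mkChr fun j => (-1) ^ B (al j) u))) fun u v => congrArg Additive.ofMul ((congrArg _ (chr_ext fun j => by
      simp [ev_mul, ev_mkChr_single, _root_.zpow_add])).trans (R.h.map_mul _ _))) FF.range.toAddSubgroup
  have h1 : ∀ i, al i ∈ A := fun i => by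
    have h2 := SK.tor_n i (-1)
    have h4 := (SK.act_n i).toMon.h_conj (mkChr fun _ => (-1 : KKˣ))⁻¹
    have h5 : R.h (mkChr fun _ => (-1 : KKˣ)) * R.h (cmp (mkChr fun _ => (-1 : KKˣ))⁻¹ (R.refl i).symm.toAddMonoidHom) ∈
        FF.range := by
      rw [← h4, R.h.map_inv, ← mul_assoc, ← mul_assoc, h2]
      exact mul_mem (mul_mem (mul_mem (x_mem0 _ (by simp; ring)) (x_mem0 _ (by simp))) (x_mem0 _ (by simp; ring))) (inv_mem (n_mem0 i))
    rw [← R.h.map_mul] at h5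
    refine (congrArg (R.h · ∈ FF.range) (chr_ext fun j => ?_)).mp h5
    have h6 : Pi.single j 1 = (R.refl i).symm.toAddMonoidHom (Pi.single j 1) + B (al j) (al i) • Pi.single i 1 := by
      change _ = R.refl i _ + _
      rw [refl_eq, rf, B_comm]; exact (sub_add_cancel _ _).symm
    rw [ev_mul, ev_cmp, ev_mkChr_single (fun j => _ ^ _) j]
    nth_rewrite 1 [h6]
    rw [ev_add, ev_zsmul, ev_mkChr_single]
    exact mul_inv_cancel_comm _ _
  have h2 : ∀ u, u ∈ A := fun u => by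
    rw [← Finset.univ_sum_single u]
    exact sum_mem fun i _ => by simpa [al, ← Pi.single_smul] using zsmul_mem (h1 i) (u i)
  choose ω hω using exists_ω
  refine (congrArg (R.h · ∈ FF.range) (chr_ext fun j => ?_)).mp (h2 (∑ i, if ev χ (al i) = 1 then 0 else ω i))
  have h4 : B (al j) (∑ i, if ev χ (al i) = 1 then 0 else ω i) = if ev χ (al j) = 1 then 0 else 1 := by
    refine (map_sum (AddMonoidHom.mk' (B (al j)) (B_add_right _)) _ _).trans ?_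
    rw [Finset.sum_eq_single j (fun i _ hi => by split_ifs <;> simp [hω, hi.symm]) (by simp)]
    split_ifs <;> simp [hω]
  rw [ev_mkChr_single, h4]
  split_ifs with e
  · exact e.symm
  have h5 : ev χ (al j) * ev χ (al j) = 1 := mul_left_cancel (a := ev χ (al j)) (by
    rw [mul_one, ← pow_three, ← ev_pow, h])
  rw [zpow_one]
  exact (Units.ext ((mul_self_eq_one_iff.1 (congrArg Units.val h5)).resolve_left fun e' => e (Units.ext e'))).symm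

theorem fixed {g : GL I KK} (hg : g ∈ SK.Γ) (h : Fr g = g) : g ∈ FF.range := by
  obtain ⟨_, ⟨k, rfl⟩, h1⟩ := desc le_rfl Fr_B hg (by simp [h])
  obtain ⟨χ, u, hu, e⟩ := Gs.Sys.mem_B h1
  have h2 : Fr (R.h χ * u) = R.h χ * u := by rw [← e, map_mul, map_inv, h, Fr_FF]
  obtain ⟨_, ⟨k', rfl⟩, ψ, h4⟩ := lang le_rfl Fr_H (Gs.Sys.H_conj _ (Gs.Sys.h_mem χ) _ hu) (by
    rw [map_mul, h2]
    simpa [mul_assoc] using mul_mem (Gs.Sys.h_mem (S := SK) χ) (inv_mem (Fr_H (Gs.Sys.h_mem χ))))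
  have h5 : R.h (ψ * χ) = (FF k')⁻¹ * (R.h χ * u) := by rw [R.h.map_mul, h4]; group
  have h6 := h_mem0 (χ := ψ * χ) (R.h_inj (K := KK) (by rw [← Fr_h, h5, map_mul, h2, map_inv, Fr_FF]))
  rw [h5, ← e] at h6
  simpa using mul_mem (show FF k ∈ FF.range from ⟨_, rfl⟩) (mul_mem (show FF k' ∈ FF.range from ⟨_, rfl⟩) h6)

end Cfsg.Agent.H4.Fx
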