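import Cfsg.Agent.H4.FxD

/-!
Optimal cocharacters, twisted tori.
-/

set_option autoImplicit false
set_option linter.unusedSectionVars false
set_option maxRecDepth 100000

namespace Cfsg.Agent.H4.Fx

open Matrix Subgroup Cfsg.Agent.Chv Cfsg.Lie Cfsg.Agent.Chv.E8 Cfsg.Agent.H1.E8 Cfsg.Agent.H6 Cfsg.Agent.H6.Gs
open Cfsg.Agent.H4.T8 (KK h3K lfK FF FF_mem FF_inj xMat_map map_h map_Γ)

attribute [local irreducible] S3 adE Fr FF

/-- the invariant norm -/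
noncomputable def Nm (μ : Fin 8 → ℝ) : ℝ := ∑ r : Fin 240, pair (R.rt r) μ ^ 2

variable {K : Type*} [Field K]

theorem Nm_act {n : GL I K} {w π} (h : Mon R n w π) (μ : Fin 8 → ℝ) : Nm (act w μ) = Nm μ := by
  rw [Nm, ← Equiv.sum_comp π]
  simp only [h.rt, pair_act, Nm]

theorem Ge.act {n : GL I K} {w π} (h : Mon R n w π) {μ : Fin 8 → ℝ} {m : ℝ} {y : I → K} (hy : Ge μ m y) :
    Ge (act w μ) m (n.1 *ᵥ y) := fun a e => by
  obtain ⟨k, -, hk⟩ := Finset.exists_ne_zero_of_sum_ne_zero (show ∑ k, n.1 a k * y k ≠ 0 from e)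
  rw [h.mono _ _ (left_ne_zero_of_mul hk), pair_act]
  exact hy _ (right_ne_zero_of_mul hk)

theorem cont_pair (u : L) : Continuous (pair u) := by unfold pair; fun_prop

theorem pair_sim (j : Fin 8) (μ : Fin 8 → ℝ) : pair (R.rt (R.sim j)) μ = μ j := by rw [RD.rt, R.rt_sim, pair_single]

theorem kempf (S : Gs.Sys R K) {v : I → K} (hv : ∃ g ∈ S.Γ, Ge ρ1 1 (g.1 *ᵥ v)) : ∃ g ∈ S.Γ, ∃ μ : Fin 8 → ℝ, 0 ≤ μ ∧
    Ge μ 1 (g.1 *ᵥ v) ∧ ∀ g' ∈ S.Γ, Ge μ 1 (g'.1 *ᵥ v) → g' * g⁻¹ ∈ R.P K μ := by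
  obtain ⟨μ0, ⟨g0, hg0, h0⟩, h1⟩ := ContinuousOn.exists_isMinOn' (s := {μ | ∃ g ∈ S.Γ, Ge μ 1 (g.1 *ᵥ v)}) (f := Nm)
    (continuous_finsetSum _ fun r _ => (cont_pair _).pow 2).continuousOn (by
      convert (Set.toFinite {D : Set I | ∃ g ∈ S.Γ, D = {i | (g.1 *ᵥ v) i ≠ 0}}).isClosed_biUnion
        (f := fun D => ⋂ i ∈ D, {μ | 1 ≤ pair (R.wt i) μ}) fun D _ =>
          isClosed_biInter fun i _ => isClosed_le continuous_const (cont_pair _) using 1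
      ext μ
      simp only [Set.mem_iUnion, Set.mem_iInter]
      exact ⟨fun ⟨g, hg, h⟩ => ⟨_, ⟨g, hg, rfl⟩, h⟩, fun ⟨_, ⟨g, hg, e⟩, h⟩ => ⟨g, hg, fun i hi => h i (e ▸ hi)⟩⟩) hv
    (Filter.Eventually.filter_mono inf_le_left (Filter.mem_of_superset
      (isCompact_closedBall 0 (Nm ρ1 + 1)).compl_mem_cocompact fun μ h => le_of_not_gt fun e => h (by
        have h1 : ∀ j, μ j ^ 2 ≤ Nm μ := fun j => pair_sim j μ ▸
          Finset.single_le_sum (f := fun r => pair (R.rt r) μ ^ 2) (fun _ _ => sq_nonneg _) (Finset.mem_univ _)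
        rw [mem_closedBall_zero_iff, pi_norm_le_iff_of_nonneg (by nlinarith [h1 0])]
        exact fun j => abs_le.2 ⟨by nlinarith [h1 j], by nlinarith [h1 j]⟩)))
  obtain ⟨n0, hn0, w0, π0, h2, h4⟩ := Gs.Sys.exists_dom (S := S) μ0
  have h5 := h0.act h2.toMon
  rw [mulVec_mulVec, ← Units.val_mul] at h5
  replace h1 : ∀ ν, (∃ g ∈ S.Γ, Ge ν 1 (g.1 *ᵥ v)) → Nm (act w0 μ0) ≤ Nm ν := fun ν h => (Nm_act h2.toMon _).trans_le (h1 h)
  have h6 := mul_mem (Gs.Sys.N_le_Γ hn0) hg0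
  refine ⟨_, h6, _, h4, h5, fun g' hg' h7 => ?_⟩
  generalize n0 * g0 = g, act w0 μ0 = μ at h1 h4 h5 h6 h7
  obtain ⟨b, hb, n, hn, b', hb', e⟩ := Gs.Sys.bruhat (mul_mem hg' (inv_mem h6))
  obtain ⟨w, π, ha⟩ := Gs.Sys.exists_act hn
  have h8 := (h7.mul0 (Gs.Sys.B_le_P h4 hb).2).act ha.inv.toMon
  have h9 := h5.mul0 (Gs.Sys.B_le_P h4 hb').1
  rw [mulVec_mulVec, ← Units.val_mul] at h9
  rw [mulVec_mulVec, mulVec_mulVec, ← Units.val_mul, ← Units.val_mul, show n⁻¹ * b⁻¹ * g' = b' * g by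
    rw [mul_inv_eq_iff_eq_mul.1 e]; group] at h8
  have h10 := h1 ((1 / 2 : ℝ) • (μ + act w.symm μ)) ⟨_, mul_mem (sup_le_sup_left (Gs.Sys.XS_mono (Set.subset_univ _)) _ hb') h6,
    fun i hi => by rw [pair_smul', pair_add']; linarith [h8 i hi, h9 i hi]⟩
  have h11 := Nm_act ha.inv.toMon μ
  have h12 : ∑ r, (pair (R.rt r) μ - pair (R.rt r) (act w.symm μ)) ^ 2 =
      2 * Nm μ + 2 * Nm (act w.symm μ) - 4 * Nm ((1 / 2 : ℝ) • (μ + act w.symm μ)) := by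
    simp only [Nm, Finset.mul_sum, ← Finset.sum_add_distrib, ← Finset.sum_sub_distrib, pair_smul', pair_add']
    exact Finset.sum_congr rfl fun _ _ => by ring
  have h13 : act w.symm μ = μ := funext fun j => by
    have := (Finset.sum_eq_zero_iff_of_nonneg fun _ _ => sq_nonneg _).1
      (le_antisymm (h12.trans_le (by linarith)) (Finset.sum_nonneg fun _ _ => sq_nonneg _)) (R.sim j) (Finset.mem_univ _)
    rw [pair_sim, pair_sim] at this
    linarith [pow_eq_zero_iff (two_ne_zero) |>.1 this]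
  have h14 : ∀ u, pair (w u) μ = pair u μ := fun u => by rw [← pair_act w.symm, h13, w.symm_apply_apply]
  rw [e]
  refine mul_mem (mul_mem (Gs.Sys.B_le_P h4 hb) ⟨fun a c h => ?_, fun a c h => ?_⟩) (Gs.Sys.B_le_P h4 hb')
  · rw [pair_sub, ha.mono _ _ h, h14, sub_self]
  · rw [pair_sub, ha.mono' _ _ h, ← h14, w.apply_symm_apply, sub_self]

theorem card_tw {w : L ≃+ L} (hw : Iso w) {k : ℕ} (hk : 0 < k) (h : ∀ v, w^[k] v = v) :
    120 ≤ Nat.card {χ : Chr 8 KK // ∀ v, ev χ (3 • w v) = ev χ v} := by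
  let Λ : AddSubgroup L := (3 • w.toAddMonoidHom - AddMonoidHom.id L).range
  have h1 : ∀ v, ((3 • w v : L) : L ⧸ Λ) = v := fun v => (QuotientAddGroup.eq_iff_sub_mem).2 ⟨v, rfl⟩
  have h2 : ∀ j v, (3 ^ j • (w^[j] v : L) : L ⧸ Λ) = v := fun j => by
    induction j with
    | zero => simp
    | succ j ih => intro v; rw [Function.iterate_succ_apply', pow_succ, mul_smul, ← QuotientAddGroup.mk_nsmul _ _ 3, h1, ih]
  have h4 : 1 < 3 ^ k := Nat.one_lt_pow hk.ne' (by decide)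
  have h5 : ∀ a : L ⧸ Λ, (3 ^ k - 1) • a = 0 := fun a => by
    obtain ⟨v, rfl⟩ := QuotientAddGroup.mk_surjective a
    have := h2 k v
    rwa [h, ← Nat.sub_add_cancel h4.le, succ_nsmul, add_eq_right] at this
  have : Finite (L ⧸ Λ) := AddCommGroup.finite_of_fg_isAddTorsion _ fun a => isOfFinAddOrder_iff_nsmul_eq_zero.2 ⟨_, by omega, h5 a⟩
  have : NeZero ((3 ^ k - 1 : ℕ) : KK) := ⟨by rw [Nat.cast_sub h4.le]; simp [h3K, hk.ne']⟩
  have : NeZero (3 ^ k - 1) := ⟨by omega⟩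
  have := HasEnoughRootsOfUnity.of_dvd KK (Monoid.exponent_dvd_of_forall_pow_eq_one (G := Multiplicative (L ⧸ Λ)) h5)
  have h6 := Nat.card_le_card_of_injective (α := Fin 120) (fun r => (R.rt (r.castLE (by decide)) : L ⧸ Λ)) fun r s e => by
    obtain ⟨v, hv⟩ := QuotientAddGroup.eq_iff_sub_mem.1 e
    replace hv : (3 : ℤ) • w v - v = _ := hv
    by_cases h0 : v = 0
    · exact Fin.castLE_injective _ (R.ext (sub_eq_zero.1 (by simpa [h0] using hv.symm)))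
    have h7 := congrArg (fun u => B u u) hv
    have h8 := B_nonneg (w v - v)
    have h9 := le_B (B_rt (r.castLE (by decide))) (B_rt (s.castLE (by decide)))
    simp only [B_sub_left, B_sub_right, B_smul_left, B_smul_right, hw v v, B_rt, B_comm v (w v), B_comm (R.rt (s.castLE _))] at h7 h8
    have := neg_val (r.castLE (by decide))
    rw [← R.ext ((eq_neg_of_B (B_rt _) (B_rt _) (by linarith [two_le_B h0])).trans (R.rt_neg _).symm)] at this
    simp only [Fin.val_castLE] at this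
    omega
  rw [Nat.card_fin] at h6
  refine (h6.trans_eq (CommGroup.card_monoidHom_of_hasEnoughRootsOfUnity (Multiplicative (L ⧸ Λ)) KK).symm).trans_eq
    (Nat.card_congr ⟨fun ψ => ⟨ψ.comp (AddMonoidHom.toMultiplicative (QuotientAddGroup.mk' Λ)), fun v => congrArg ψ (h1 v)⟩,
      fun χ => AddMonoidHom.toMultiplicativeLeft (QuotientAddGroup.lift Λ (MonoidHom.toAdditiveRight χ.1) ?_), fun ψ => ?_, fun χ => rfl⟩)
  · rintro _ ⟨v, rfl⟩
    exact (map_div χ.1 _ _).trans (div_eq_one.2 (χ.2 v))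
  · exact MonoidHom.ext fun a => Quotient.inductionOn a fun _ => rfl

theorem torus_card {g : GL I KK} (hg : g ∈ SK.Γ) (hn : Fr g * g⁻¹ ∈ SK.N) :
    120 ≤ Nat.card (SK.H.comap ((MulAut.conj g).toMonoidHom.comp FF)) := by
  obtain ⟨w, π, ha⟩ := Gs.Sys.exists_act hn
  obtain ⟨w', h1, h2⟩ := ha.toMon.pow (orderOf π)
  rw [pow_orderOf_eq_one] at h1
  have h4 : ∀ χ : {χ : Chr 8 KK // ∀ v, ev χ (3 • w v) = ev χ v}, ∃ k, FF k = g⁻¹ * R.h χ.1 * g := fun χ =>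
    fixed (mul_mem (mul_mem (inv_mem hg) (Gs.Sys.H_le_Γ (Gs.Sys.h_mem _))) hg) (by
      have := ha.inv.toMon.h_conj (χ.1 ^ 3)
      rw [show cmp (χ.1 ^ 3) w.symm.symm.toAddMonoidHom = χ.1 from chr_ext fun j => (ev_nsmul _ _ _).symm.trans (χ.2 _)] at this
      rw [map_mul, map_mul, map_inv, Fr_h]
      rw [← this]
      group)
  choose k hk using h4
  exact (card_tw (T8.iso_of_mem hn ha.toMon) (orderOf_pos π) fun v => by rw [← h2, h1.w_eq (mon_h (1 : Chr 8 KK))]; rfl).trans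
    (Nat.card_le_card_of_injective (fun χ => ⟨k χ, χ.1, by simp [hk, mul_assoc]⟩) fun χ ψ e => Subtype.ext (R.h_inj (K := KK) (by
      simpa [hk] using congrArg (fun a => FF a.1) e)))

end Cfsg.Agent.H4.Fx
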