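import Cfsg.Agent.H4.FxE

/-!
Cartan subalgebras defined over the prime field.
-/

set_option autoImplicit false
set_option linter.unusedSectionVars false
set_option maxRecDepth 100000

namespace Cfsg.Agent.H4.Fx

open Matrix Subgroup Cfsg.Agent.Chv Cfsg.Lie Cfsg.Agent.Chv.E8 Cfsg.Agent.H1.E8 Cfsg.Agent.H6 Cfsg.Agent.H6.Gs
open Cfsg.Agent.H4.T8 (KK h3K lfK FF FF_mem FF_inj xMat_map map_h map_Γ)

attribute [local irreducible] S3 adE Fr FF

attribute [local instance 100] LieRing.ofAssociativeRing in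
theorem engel {K V : Type*} [Field K] [AddCommGroup V] [Module K V] (φ : V →ₗ[K] Module.End K V) (c : Submodule K V)
    (A : AddSubgroup V) (hA : (A : Set V).Finite) (hb : ∀ a ∈ A, ∀ b ∈ A, φ a b ∈ A)
    (hj : ∀ a b, φ (φ a b) = φ a * φ b - φ b * φ a) (hc : ∀ a ∈ A, ∀ z ∈ c, φ a z ∈ c)
    (hn : ∀ a ∈ A, ∃ k, ∀ z ∈ c, (φ a ^ k) z = 0) :
    ∃ k, ∀ y ∈ Submodule.span K (A : Set V), ∀ z ∈ c, (φ y ^ k) z = 0 := by
  let L : LieSubalgebra ℤ (Module.End K V) := ⟨(A.map φ.toAddMonoidHom).toIntSubmodule, by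
    rintro _ _ ⟨a, ha, rfl⟩ ⟨b, hb', rfl⟩
    exact ⟨_, hb a ha b hb', hj a b⟩⟩
  let N : LieSubmodule ℤ L V := ⟨c.toAddSubgroup.toIntSubmodule, by
    rintro ⟨_, a, ha, rfl⟩ z hz
    exact hc a ha z hz⟩
  have : Finite L := (hA.image φ).to_subtype
  obtain ⟨k, hk⟩ := N.isNilpotent_iff_exists_lcs_eq_bot.1 ((LieModule.isNilpotent_iff_forall (R := ℤ)).2 (by
    rintro ⟨_, a, ha, rfl⟩
    obtain ⟨k, hk⟩ := hn a ha
    refine ⟨k, LinearMap.ext fun z => Subtype.ext ?_⟩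
    rw [LieSubmodule.coe_toEnd_pow, Module.End.pow_apply]
    exact (Module.End.pow_apply (φ a) _ _).symm.trans (hk _ z.2)))
  refine ⟨k, fun y hy z hz => ?_⟩
  have : ∀ j, (φ y ^ j) z ∈ Submodule.span K (N.lcs j : Set V) := fun j => by
    induction j with
    | zero => exact Submodule.subset_span hz
    | succ j ih =>
      have := Submodule.apply_mem_map₂ φ hy ih
      rw [Submodule.map₂_span_span] at this
      rw [pow_succ', LieSubmodule.lcs_succ]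
      refine Submodule.span_mono ?_ this
      rintro _ ⟨a, ha, w, hw, rfl⟩
      exact LieSubmodule.lie_mem_lie (I := ⊤) (x := (⟨_, a, ha, rfl⟩ : L)) trivial hw
  simpa [hk] using this k

theorem span_rat {k K ι : Type*} [Field k] [Field K] [Algebra k K] [Fintype ι] (z : ι → K) :
    z ∈ Submodule.span K {y | ∃ ψ : K →ₗ[k] k, y = fun i => algebraMap k K (ψ (z i))} := by
  classical
  let b := Module.Basis.ofVectorSpace k K
  have : z = ∑ j ∈ Finset.univ.biUnion fun i => (b.repr (z i)).support, b j • fun i => algebraMap k K (b.coord j (z i)) := by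
    ext i
    conv_lhs => rw [← b.linearCombination_repr (z i), Finsupp.linearCombination_apply, Finsupp.sum_of_support_subset _
      (Finset.subset_biUnion_of_mem (fun i => (b.repr (z i)).support) (Finset.mem_univ i)) _ (by simp)]
    simp [Algebra.smul_def, mul_comm]
  rw [this]
  exact Submodule.sum_mem _ fun j _ => Submodule.smul_mem _ _ (Submodule.subset_span ⟨_, by rw [← this]⟩)

theorem ad_map {K K' : Type*} [Field K] [Field K'] (φ : K →+* K') (v : I → K) : (ad K v).map φ = ad K' (φ ∘ v) := by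
  ext a b
  simp [ad, Fintype.linearCombination_apply, Matrix.sum_apply, adB, mat, sv, map_list_sum, Function.comp_def, apply_ite φ]

attribute [local irreducible] ad

theorem mul_inv_vec {K : Type*} [Field K] (g : GL I K) (v : I → K) : g.1 *ᵥ (g⁻¹).1 *ᵥ v = v := by simp

theorem inv_mul_vec {K : Type*} [Field K] (g : GL I K) (v : I → K) : (g⁻¹).1 *ᵥ g.1 *ᵥ v = v := by simp

theorem vec_inj {K : Type*} [Field K] (g : GL I K) : Function.Injective (g.1 *ᵥ ·) :=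
  Function.LeftInverse.injective (inv_mul_vec g)

section
variable {K : Type*} [Field K] (h3 : (3 : K) = 0)
include h3

theorem comm_iff {a b : I → K} : Commute (ad K a) (ad K b) ↔ ad K a *ᵥ b = 0 := by
  rw [Commute, SemiconjBy, ← sub_eq_zero, jacobi h3 a b, map_eq_zero_iff _ (ad_inj h3)]

theorem ad_tor {h : I → K} (hh : ∀ r, h (R.ei r) = 0) : ad K h = diagonal fun a => rh h (R.wt a) := by simp [ad_eq h3, hh]

theorem sep3 {a b : I} (h : ∀ z : I → K, (∀ r, z (R.ei r) = 0) → rh z (R.wt a) = rh z (R.wt b)) : R.wt a = R.wt b :=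
  sub_eq_zero.1 (key3 h3 (B_wt a b) fun i => by
    rw [← rh_single, rh_sub, h _ fun r => Pi.single_eq_of_ne (hI_ne i r).symm _, sub_self])

theorem mem_N_of_tor {n : GL I K} (hn : n ∈ (S3 h3).Γ) (h : ∀ z, (∀ r, (n.1 *ᵥ z) (R.ei r) = 0) ↔ ∀ r, z (R.ei r) = 0) :
    n ∈ (S3 h3).N := by
  have h1 : ∀ z : I → K, (∀ r, z (R.ei r) = 0) → ∀ a b, n.1 a b ≠ 0 → rh (n.1 *ᵥ z) (R.wt a) = rh z (R.wt b) := fun z hz a b e => by
    have := congrFun (congrFun (Γ_Au h3 hn z) a) b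
    rw [ad_tor h3 hz, ad_tor h3 ((h z).2 hz), mul_diagonal, diagonal_mul, mul_comm] at this
    exact (mul_right_cancel₀ e this).symm
  have h2 : ∀ z : I → K, (∀ r, z (R.ei r) = 0) → ∀ a b, n.1 a b ≠ 0 → rh z (R.wt a) = rh ((n⁻¹).1 *ᵥ z) (R.wt b) :=
    fun z hz a b e => by simpa using h1 ((n⁻¹).1 *ᵥ z) ((h _).1 (by simpa using hz)) a b e
  refine Gs.Sys.mem_N hn (fun a b e => ⟨fun h0 => ?_, fun h0 => ?_⟩)
    (fun a a' b e e' => sep3 h3 fun z hz => (h2 z hz _ _ e).trans (h2 z hz _ _ e').symm)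
    fun a b b' e e' => sep3 h3 fun z hz => (h1 z hz _ _ e).symm.trans (h1 z hz _ _ e')
  · exact (sep3 h3 fun z hz => by rw [← h1 z hz _ _ e, h0, wt_inl, rh_zero, rh_zero]).trans (wt_inl 0)
  · exact (sep3 h3 fun z hz => by rw [h2 z hz _ _ e, h0, wt_inl, rh_zero, rh_zero]).trans (wt_inl 0)

end

/-- rational vectors -/
def Rt (v : I → KK) : Prop := frobenius KK 3 ∘ v = v

/-- semisimple vectors -/
def SS (v : I → KK) : Prop := ∃ m, 0 < m ∧ ad KK v ^ 3 ^ m = ad KK v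

theorem Rt.mul {t : I → KK} (ht : Rt t) (z : I → KK) : frobenius KK 3 ∘ (ad KK t *ᵥ z) = ad KK t *ᵥ (frobenius KK 3 ∘ z) :=
  funext fun i => by rw [Function.comp, RingHom.map_mulVec, ad_map, ht]

theorem Fr_mul (g : GL I KK) (z : I → KK) : frobenius KK 3 ∘ (g.1 *ᵥ z) = (Fr g).1 *ᵥ (frobenius KK 3 ∘ z) :=
  funext fun i => by rw [Function.comp, RingHom.map_mulVec, Fr_val]

theorem Rt.pow {x s : I → KK} (hx : Rt x) {n : ℕ} (h : ad KK x ^ n = ad KK s) : Rt s := ad_inj h3K (by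
  rw [← ad_map, ← h, ← RingHom.mapMatrix_apply, map_pow, RingHom.mapMatrix_apply, ad_map, hx])

theorem fin_Rt : {v | Rt v}.Finite := (Set.finite_range fun u : I → ZMod 3 => algebraMap _ KK ∘ u).subset fun v hv => by
  choose u hu using fun i => exists_F3 (congrFun hv i)
  exact ⟨u, funext hu⟩

theorem generic {T : Set (I → KK)} (hT : T.Finite) (h1 : ∀ t ∈ T, SS t) (h2 : ∀ t ∈ T, ∀ t' ∈ T, ad KK t *ᵥ t' = 0) :
    ∃ y, SS y ∧ ∀ z, ad KK y *ᵥ z = 0 ↔ ∀ t ∈ T, ad KK t *ᵥ z = 0 := by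
  induction T, hT using Set.Finite.induction_on with
  | empty => exact ⟨0, ⟨1, one_pos, by simp⟩, by simp⟩
  | @insert t T _ _ ih =>
  obtain ⟨y, ⟨m, hm, h4⟩, h5⟩ := ih (fun t h => h1 t (.inr h)) fun t h t' h' => h2 t (.inr h) t' (.inr h')
  obtain ⟨m', hm', h6⟩ := h1 t (.inl rfl)
  have : Nonempty I := ⟨hI 0⟩
  have h7 : ∀ (c : KK) k, ad KK (y + c • t) ^ 3 ^ (m * m' * k) = ad KK y + c ^ 3 ^ (m * m' * k) • ad KK t := fun c k => by
    rw [map_add, map_smul, add_pow_char_pow_of_commute 3 _ (((comm_iff h3K).2 ((h5 t).2 fun t' h =>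
      h2 t' (.inr h) t (.inl rfl))).smul_right c), smul_pow, mul_assoc, pow_per h4, mul_left_comm, pow_per h6]
  have h8 : 1 < 3 ^ (m * m' * 1) := Nat.one_lt_pow (by positivity) (by decide)
  obtain ⟨ζ, hζ⟩ := T8.exists_prim (N := 3 ^ (m * m' * 1) + 1) fun h => by
    simpa using (Nat.dvd_add_right (dvd_pow_self 3 (by positivity))).1 h
  obtain ⟨k, hk, h9⟩ := per h3K lfK fun _ : Unit => (ζ : KK)
  refine ⟨y + (ζ : KK) • t, ⟨m * m' * k, by positivity, by rw [h7, mul_comm _ k, pow_per (h9 ()), map_add, map_smul]⟩, fun z => ?_⟩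
  rw [Set.forall_mem_insert, ← h5]
  refine ⟨fun h => ?_, fun h => by simp [add_mulVec, smul_mulVec, h]⟩
  have h10 := congrArg (· *ᵥ z) (h7 ζ 1)
  obtain ⟨n, hn⟩ := Nat.exists_eq_succ_of_ne_zero (h8.trans' one_pos).ne'
  have h11 : (ζ : KK) ^ 3 ^ (m * m' * 1) - ζ ≠ 0 := fun e => h8.ne' (hζ.pow_inj (by omega) (by omega)
    (Units.ext (by simpa using sub_eq_zero.1 e)))
  nth_rewrite 1 [hn] at h10
  rw [pow_succ, ← mulVec_mulVec, h, mulVec_zero, add_mulVec, smul_mulVec] at h10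
  rw [map_add, map_smul, add_mulVec, smul_mulVec] at h
  have h12 : ad KK t *ᵥ z = 0 := (smul_eq_zero.1 (by rw [sub_smul]; linear_combination (exp := 1) -h10 - h)).resolve_left h11
  exact ⟨h12, by simpa [h12] using h⟩

theorem cartan {x : I → KK} (h1 : Rt x) (h2 : SS x) : ∃ g ∈ SK.Γ, Fr g * g⁻¹ ∈ SK.N ∧ ∀ r, (g.1 *ᵥ x) (R.ei r) = 0 := by
  have h0 : ∀ x, ad KK x *ᵥ x = 0 := fun x => (comm_iff h3K).1 (.refl _)
  obtain ⟨T, hx, ⟨h4, h5⟩, h6⟩ := (fin_Rt.finite_subsets.subset (t := {T | (∀ t ∈ T, Rt t ∧ SS t) ∧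
    ∀ t ∈ T, ∀ t' ∈ T, ad KK t *ᵥ t' = 0}) fun T h t ht => (h.1 t ht).1).exists_le_maximal (a := {x}) (by simp [h0, h1, h2])
  let c : Submodule KK (I → KK) := ⨅ t ∈ T, LinearMap.ker (toLin' (ad KK t))
  have hc : ∀ z, z ∈ c ↔ ∀ t ∈ T, ad KK t *ᵥ z = 0 := by simp [c]
  have h7 : ∀ a ∈ c, ∀ z ∈ c, ad KK a *ᵥ z ∈ c := fun a ha z hz => (hc _).2 fun t ht => by
    rw [mulVec_mulVec, ((comm_iff h3K).2 ((hc _).1 ha t ht)).eq, ← mulVec_mulVec, (hc _).1 hz t ht, mulVec_zero]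
  obtain ⟨k, hk⟩ := engel ((toLinAlgEquiv' (R := KK)).toLinearMap.comp (ad KK)) c
    (c.toAddSubgroup ⊓ ((frobenius KK 3).toAddMonoidHom.compLeft I).eqLocus (.id _)) (fin_Rt.subset fun _ h => h.2)
    (fun a ha b hb => ⟨h7 a ha.1 b hb.1, (Rt.mul ha.2 b).trans (congrArg _ hb.2)⟩)
    (fun a b => by
      change toLinAlgEquiv' (ad KK (ad KK a *ᵥ b)) = toLinAlgEquiv' _ * toLinAlgEquiv' _ - toLinAlgEquiv' _ * toLinAlgEquiv' _
      rw [← jacobi h3K a b, map_sub, map_mul, map_mul]) (fun a ha => h7 a ha.1) fun a ha => by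
      obtain ⟨g, -, h, -, -, m, hm, e⟩ := jordan h3K lfK a
      generalize (g⁻¹).1 *ᵥ h = s at e
      have h8 : ∀ t ∈ T, Commute (ad KK t) (ad KK s) := fun t ht =>
        e 1 one_pos ▸ ((comm_iff h3K).2 ((hc _).1 ha.1 t ht)).pow_right _
      have h9 : s ∈ T := h6 (y := insert s T) ⟨Set.forall_mem_insert.2 ⟨⟨Rt.pow ha.2 (e 1 one_pos), m, hm, by
        rw [← e 1 one_pos, ← pow_mul, ← pow_add, ← mul_add_one, e 1 one_pos, e _ (by decide)]⟩, h4⟩, by
        rintro t (rfl | ht) t' (rfl | ht')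
        exacts [h0 _, (comm_iff h3K).1 (h8 _ ht').symm, (comm_iff h3K).1 (h8 _ ht), h5 _ ht _ ht']⟩
        (Set.subset_insert _ _) (.inl rfl)
      refine ⟨3 ^ (m * 1), fun z hz => ?_⟩
      change (toLinAlgEquiv' (ad KK a) ^ _) z = 0
      rw [← map_pow, e 1 one_pos]
      exact (hc _).1 hz s h9
  obtain ⟨y, ⟨m, hm, h8⟩, h9⟩ := generic (fin_Rt.subset fun t ht => (h4 t ht).1) (fun t ht => (h4 t ht).2) h5
  obtain ⟨g, hg, h, hh, -, m', -, e⟩ := jordan h3K lfK y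
  have hg' := Γ_Au h3K (Gs.Sys.G_le_Γ hg)
  have h10 : ∀ z, z ∈ c ↔ ∀ a, rh h (R.wt a) * (g.1 *ᵥ z) a = 0 := fun z => by
    have := e m hm
    rw [mul_comm, pow_per h8] at this
    rw [hc, ← h9, this, ← (vec_inj g).eq_iff, mulVec_mulVec, hg', ← mulVec_mulVec, mulVec_zero, mul_inv_vec, ad_tor h3K hh, funext_iff]
    simp only [mulVec_diagonal, Pi.zero_apply]
  have h11 : ∀ r, rh h (R.rt r) ≠ 0 := fun r hr => by
    obtain ⟨i, hi⟩ := exists_B h3K r
    have h12 := hk ((g⁻¹).1 *ᵥ Pi.single (hI i) 1) (Submodule.span_mono ?_ (span_rat (k := ZMod 3) _))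
      ((g⁻¹).1 *ᵥ Pi.single (R.ei r) 1) ((h10 _).2 fun a => by rw [mul_inv_vec]; by_cases e : a = R.ei r <;> simp [e, hr])
    · rw [LinearMap.comp_apply, AlgEquiv.toLinearMap_apply, ← map_pow, toLinAlgEquiv'_apply, ← (vec_inj g).eq_iff,
        mulVec_mulVec, ad_conj h3K hg', ← mulVec_mulVec, mul_inv_vec, mul_inv_vec,
        ad_tor h3K fun s => Pi.single_eq_of_ne (hI_ne i s).symm (1 : KK), diagonal_pow] at h12
      simpa [mulVec_diagonal, rh_single, hi] using congrFun h12 (R.ei r)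
    rintro _ ⟨ψ, rfl⟩
    refine ⟨(hc _).2 fun t ht => funext fun a => ?_, funext fun a =>
      RingHom.congr_fun (Subsingleton.elim ((frobenius KK 3).comp (algebraMap (ZMod 3) KK)) (algebraMap (ZMod 3) KK)) _⟩
    have h13 := congrFun ((hc _).1 ((h10 ((g⁻¹).1 *ᵥ Pi.single (hI i) 1)).2 fun a => by
      rw [mul_inv_vec]; by_cases e : a = hI i <;> simp [e, wt_inl, rh_zero]) t ht) a
    generalize (g⁻¹).1 *ᵥ Pi.single (hI i) 1 = z at h13 ⊢
    choose u hu using fun b => exists_F3 (t := ad KK t a b) (by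
      rw [← frobenius_def, ← Matrix.map_apply (f := frobenius KK 3), ad_map, (h4 t ht).1])
    simp only [mulVec, dotProduct, ← hu, ← Algebra.smul_def] at h13
    simpa [mulVec, dotProduct, ← hu] using congrArg (fun a => algebraMap _ KK (ψ a)) h13
  replace h10 : ∀ z, z ∈ c ↔ ∀ r, (g.1 *ᵥ z) (R.ei r) = 0 := fun z => (h10 z).trans
    ⟨fun h r => (mul_eq_zero.1 (h _)).resolve_left (h11 r), fun h a => by
      rcases cases_I a with ⟨i, rfl⟩ | ⟨r, rfl⟩ <;> simp [h, wt_inl, rh_zero]⟩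
  refine ⟨g, Gs.Sys.G_le_Γ hg, mem_N_of_tor h3K (mul_mem (Fr_Γ (Gs.Sys.G_le_Γ hg)) (inv_mem (Gs.Sys.G_le_Γ hg))) fun z => ?_,
    (h10 x).1 ((hc x).2 fun t ht => h5 t ht x (hx rfl))⟩
  obtain ⟨z', hz⟩ := (surjective_frobenius KK 3).comp_left ((g⁻¹).1 *ᵥ z)
  replace hz : frobenius KK 3 ∘ z' = _ := hz
  have h12 : z' ∈ c ↔ (g⁻¹).1 *ᵥ z ∈ c := by
    rw [hc, hc, ← hz]
    exact forall₂_congr fun t ht => by rw [← (h4 t ht).1.mul]; simp [funext_iff]
  rw [h10, h10] at h12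
  rw [Units.val_mul, ← mulVec_mulVec, ← hz, ← Fr_mul]
  simpa using h12

end Cfsg.Agent.H4.Fx
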