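import Cfsg.Agent.H4.FxF

/-!
A maximal subgroup of `E₈(3)` that fixes a line of the adjoint module contains a maximal torus.
-/

set_option autoImplicit false
set_option linter.unusedSectionVars false
set_option maxRecDepth 100000

namespace Cfsg.Agent.H4.Fx

open Matrix Subgroup Cfsg.Agent.Chv Cfsg.Lie Cfsg.Agent.Chv.E8 Cfsg.Agent.H1.E8 Cfsg.Agent.H6 Cfsg.Agent.H6.Gs
open Cfsg.Agent.H4.T8 (KK h3K lfK FF FF_mem FF_inj xMat_map map_h map_Γ)

attribute [local irreducible] S3 adE Fr FF ad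

theorem inv_line {g : GL I KK} {x : I → KK} {c : KK} (hc : c * c = 1) (h : g.1 *ᵥ x = c • x) : (g⁻¹).1 *ᵥ x = c • x := by
  rw [← (vec_inj g).eq_iff, mul_inv_vec, mulVec_smul, h, smul_smul, hc, one_smul]

/-- the stabiliser of a line -/
def Ln (x : I → KK) : Subgroup (GL I KK) where
  carrier := {g | ∃ c : KK, c * c = 1 ∧ g.1 *ᵥ x = c • x}
  one_mem' := ⟨1, by simp⟩
  mul_mem' := by
    rintro a b ⟨c, h1, h2⟩ ⟨d, h4, h5⟩
    exact ⟨d * c, by rw [mul_mul_mul_comm, h1, h4, mul_one], by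
      rw [Units.val_mul, ← mulVec_mulVec, h5, mulVec_smul, h2, smul_smul]⟩
  inv_mem' := fun ⟨c, h1, h2⟩ => ⟨c, h1, inv_line h1 h2⟩

/-- rational points of a maximal torus -/
noncomputable def Tw (g : GL I KK) : Subgroup (chevE8.group (ZMod 3)) := SK.H.comap ((MulAut.conj g).toMonoidHom.comp FF)

theorem mem_Tw {g : GL I KK} {a : chevE8.group (ZMod 3)} : a ∈ Tw g ↔ g * FF a * g⁻¹ ∈ SK.H := Iff.rfl

variable {H : Subgroup (chevE8.group (ZMod 3))} (hH : IsCoatom H) {x : I → KK} (h0 : x ≠ 0) (hx : Rt x)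
  (h : H ≤ (Ln x).comap FF)
include hH h0 hx h

theorem core_nil (hn : ∃ g ∈ SK.Γ, Ge ρ1 1 (g.1 *ᵥ x)) : ∃ g ∈ SK.Γ, Fr g * g⁻¹ ∈ SK.N ∧ Tw g ≤ H := by
  obtain ⟨g, hg, μ, h1, h2, h4⟩ := kempf SK hn
  obtain ⟨_, ⟨k, rfl⟩, h5⟩ := desc (P := R.P KK μ) (Gs.Sys.B_le_P h1) (fun p hp => ⟨fun a b e => hp.1 a b fun e' => e (by
    simp [Fr_val, e']), fun a b e => hp.2 a b fun e' => e (by rw [← map_inv, Fr_val, Matrix.map_apply, e', map_zero])⟩)
    (inv_mem hg) (by simpa using inv_mem (h4 _ (Fr_Γ hg) fun i e => h2 i fun e' => e (by rw [← hx, ← Fr_mul]; simp [e'])))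
  have h6 : ∀ a, (FF k)⁻¹ * FF a * FF k ∈ R.P KK μ ↔ a ∈ (R.P KK μ).comap ((MulAut.conj g).toMonoidHom.comp FF) := fun a => by
    rw [← (R.P KK μ).mul_mem_cancel_left (inv_mem h5), ← (R.P KK μ).mul_mem_cancel_right h5]
    simp [mul_assoc]
  refine ⟨_, inv_mem (FF_mem k), by simp [Fr_FF], fun a ha => ?_⟩
  rw [← (hH.le_iff.1 (show H ≤ (R.P KK μ).comap ((MulAut.conj g).toMonoidHom.comp FF) from fun a ha => ?_)).resolve_left
    fun e => h0 ?_, ← h6]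
  · simpa using Gs.Sys.B_le_P h1 (Gs.Sys.H_le_B (mem_Tw.1 ha))
  · obtain ⟨c, -, e⟩ := h ha
    exact h4 _ (mul_mem hg (FF_mem a)) fun i e' => h2 i fun e'' => e' (by
      rw [Units.val_mul, ← mulVec_mulVec, e, mulVec_smul]; simp [e''])
  have h7 : μ = 0 := funext fun i => by
    obtain ⟨a, ha⟩ := n_mem0 i
    have h7 := (h6 (k * a * k⁻¹)).2 (e ▸ mem_top _)
    simp only [map_mul, map_inv, ha, ← mul_assoc, inv_mul_cancel, one_mul, inv_mul_cancel_right] at h7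
    have := (SK.act_n i).toMon.pair_eq h7.1 (R.sim i)
    rw [show R.sp i (R.sim i) = R.neg (R.sim i) from R.s_sim i, RD.rt, R.rt_neg, pair_neg, pair_sim] at this
    exact (by linarith : μ i = 0)
  exact vec_inj g (funext fun i => of_not_not fun e => absurd (h2 i (by simpa using e)) (by simp [h7, pair]))

theorem core_ss (hs : SS x) : ∃ g ∈ SK.Γ, Fr g * g⁻¹ ∈ SK.N ∧ Tw g ≤ H := by
  obtain ⟨g, hg, h1, h2⟩ := cartan hx hs
  refine ⟨g, hg, h1, fun a ⟨χ, ha⟩ => ?_⟩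
  rw [← (hH.le_iff.1 h).resolve_left fun e => h0 (eq_zero_of_adE h3K fun r => ?_)]
  · refine ⟨1, one_mul 1, (vec_inj g).eq_iff.1 ?_⟩
    have : g * FF a = R.h χ * g := by simp [ha]
    rw [mulVec_mulVec, ← Units.val_mul, this, Units.val_mul, ← mulVec_mulVec, one_smul, R.h_val]
    ext b
    rcases cases_I b with ⟨i, rfl⟩ | ⟨r, rfl⟩ <;> simp [mulVec_diagonal, h2, wt_inl, ev_zero]
  obtain ⟨a, ha⟩ := x_mem0 r (one_pow 3)
  obtain ⟨c, h4, h5⟩ : a ∈ (Ln x).comap FF := e ▸ mem_top _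
  have h6 := inv_line h4 h5
  rw [ha, Gs.Sys.x_inv, ← h5, ha, x_val, x_val, ex, ex] at h6
  simp only [neg_smul, one_smul, neg_mul_neg, sub_mulVec, add_mulVec, neg_mulVec, sub_left_inj, add_right_inj] at h6
  exact (smul_eq_zero.1 (show (3 - 1 : KK) • (adE KK r *ᵥ x) = 0 by linear_combination (norm := module) -h6)).resolve_left (by simp [h3K])

theorem core : ∃ A : Subgroup H, IsMulCommutative A ∧ 120 ≤ Nat.card A := by
  obtain ⟨g, hg, h1, h2⟩ : ∃ g ∈ SK.Γ, Fr g * g⁻¹ ∈ SK.N ∧ Tw g ≤ H := by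
    obtain ⟨g, hg, t, -, h1, m, hm, e⟩ := jordan h3K lfK x
    have h2 := Rt.pow hx (e 1 one_pos)
    by_cases h4 : x - (g⁻¹).1 *ᵥ t = 0
    · exact core_ss hH h0 hx h ⟨_, mul_pos hm one_pos, by rw [e 1 one_pos, ← sub_eq_zero.1 h4]⟩
    refine core_nil hH h4 (funext fun i => (map_sub _ _ _).trans (congrArg₂ _ (congrFun hx i) (congrFun h2 i))) (fun a ha => ?_)
      ⟨g, Gs.Sys.G_le_Γ hg, by rwa [mulVec_sub, mul_inv_vec]⟩
    obtain ⟨c, h5, h6⟩ := h ha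
    have h7 := ad_conj h3K (Γ_Au h3K (FF_mem a)) x (3 ^ (m * 1))
    rw [e 1 one_pos, Γ_Au h3K (FF_mem a), Units.mul_left_inj, h6, map_smul, smul_pow, e 1 one_pos, mul_comm,
      pow_per (by rw [pow_one, pow_three, h5, mul_one]), ← map_smul] at h7
    exact ⟨c, h5, by rw [mulVec_sub, h6, ad_inj h3K h7, smul_sub]⟩
  refine ⟨(Tw g).subgroupOf H, ⟨⟨fun a b => Subtype.ext (Subtype.ext (FF_inj ((MulAut.conj g).injective ?_)))⟩⟩,
    (torus_card hg h1).trans_eq (Nat.card_congr (subgroupOfEquivOfLe h2).toEquiv).symm⟩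
  obtain ⟨χ, h4⟩ := a.2
  obtain ⟨ψ, h5⟩ := b.2
  simp only [coe_mul, map_mul]
  exact (congrArg₂ _ h4 h5).symm.trans ((T8.h_comm χ ψ).trans (congrArg₂ _ h5 h4))

end Cfsg.Agent.H4.Fx
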