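import Cfsg.Agent.H4.FxA
import Cfsg.Agent.H4.T8E

/-!
Fixed points of elements of order seven on the adjoint module.
-/

set_option autoImplicit false
set_option linter.unusedSectionVars false
set_option maxRecDepth 100000

namespace Cfsg.Agent.H4.Fx

open Matrix Subgroup Cfsg.Agent.Chv Cfsg.Lie Cfsg.Agent.Chv.E8 Cfsg.Agent.H1.E8 Cfsg.Agent.H6 Cfsg.Agent.H6.Gs
open Cfsg.Agent.H4.T8

/-- test -/
noncomputable def t7 (_ V : ℕ) : Bool := Bool.rec true (Nat.ble 25 (T8.cnt 7 1 0 V)) (inv 7 V)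

theorem c7 : enum 7 t7 = true := by decide +kernel

attribute [local irreducible] S3 adE

theorem fix_le {w : L ≃+ L} (hw : Iso w) (h7 : ∀ v, w^[7] v = v) {π : Equiv.Perm (Fin 240)} (h : ∀ r, R.rt (π r) = w (R.rt r))
    (hπ : π ≠ 1) : (Finset.univ.filter fun r => π r = r).card ≤ 9 := by
  classical
  have := Fact.mk (by norm_num : Nat.Prime 7)
  let e : (Fin 8 → ZMod 3) ≃ (L →ₗ[ℤ] ZMod 3) := ((Pi.basisFun ℤ (Fin 8)).constr ℤ).toEquiv
  have := Fintype.ofEquiv _ e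
  let f : (L →ₗ[ℤ] ZMod 3) →+ L →ₗ[ℤ] ZMod 3 := (LinearMap.lcomp ℤ _ w.toIntLinearEquiv.toLinearMap).toAddMonoidHom
  have h1 : Fintype.card (L →ₗ[ℤ] ZMod 3) = 3 ^ 8 := by rw [← Fintype.card_congr e]; simp
  have h2 := Equiv.Perm.card_fixedPoints_modEq (α := L →ₗ[ℤ] ZMod 3) (f := ⇑f) (p := 7) (n := 1) (funext fun φ => LinearMap.ext fun v =>
    congrArg φ (h7 v))
  let b : L → L →ₗ[ℤ] ZMod 3 := fun u => (AddMonoidHom.mk' (fun v => (B v u : ZMod 3)) fun _ _ => by simp).toIntLinearMap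
  have h4 := (f.eqLocus (.id _)).card_addSubgroup_dvd_card
  rw [Nat.card_eq_fintype_card (α := L →ₗ[ℤ] ZMod 3), h1, Nat.dvd_prime_pow Nat.prime_three] at h4
  obtain ⟨d, hd, h4⟩ := h4
  rw [h1, ← Nat.card_eq_fintype_card, show Nat.card (Function.fixedPoints f) = _ from h4] at h2
  have h5 : d ≠ 8 := fun e => hπ (Equiv.ext fun r => R.ext (sub_eq_zero.1 (key3 (K := ZMod 3) rfl (B_wt _ _) fun i => by
    have : b (al i) ∈ f.eqLocus (.id _) := (AddSubgroup.eq_top_of_card_eq _ (by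
      rw [h4, e, ← h1, Nat.card_eq_fintype_card])).ge trivial
    rw [B_sub_right, Int.cast_sub, sub_eq_zero, B_comm, B_comm (al i)]
    exact (congrArg (fun v => (B v (al i) : ZMod 3)) (h r)).trans (LinearMap.congr_fun this (R.rt r)))))
  have h6 := Nat.card_le_card_of_injective (α := {r // π r = r}) (β := f.eqLocus (.id _))
    (fun r => ⟨b (R.rt r), LinearMap.ext fun v => congrArg Int.cast (by
      change B (w v) _ = B v _
      rw [← hw v, ← h, r.2])⟩) fun r s e => Subtype.ext (R.ext (sub_eq_zero.1 (key3 (K := ZMod 3) rfl (B_wt _ _) fun i => by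
        rw [B_sub_right, Int.cast_sub, sub_eq_zero]
        exact LinearMap.congr_fun (congrArg Subtype.val e) (al i))))
  rw [Nat.card_eq_fintype_card, Fintype.card_subtype, h4] at h6
  interval_cases d <;> simp_all [Nat.ModEq]

open Classical in
theorem transv {π : Equiv.Perm (Fin 240)} (h7 : π ^ 7 = 1) (h : (Finset.univ.filter fun r => π r = r).card ≤ 9) :
    ∃ T : Finset (Fin 240), 33 ≤ T.card ∧ ∀ r ∈ T, ∀ s ∈ T, ∀ j < 7, s = (π ^ j) r → s = r ∧ j = 0 := by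
  have h8 : ∀ j < 7, ∀ s, (π ^ (7 - j)) ((π ^ j) s) = s := fun j hj s => by
    rw [← Equiv.Perm.mul_apply, ← pow_add, Nat.sub_add_cancel hj.le, h7, Equiv.Perm.one_apply]
  refine ⟨Finset.univ.filter fun r => π r ≠ r ∧ ∀ j, r ≤ (π ^ j) r, ?_, fun r hr s hs j hj e => ?_⟩
  · have h1 := Finset.card_filter_add_card_filter_not (s := Finset.univ) fun r => π r = r
    have h2 := (Finset.card_le_card (s := Finset.univ.filter fun r => ¬ π r = r) fun s hs => by
      obtain ⟨j, hj, h2⟩ := (Finset.range 7).exists_min_image (fun j => (π ^ j) s) ⟨0, by simp⟩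
      refine Finset.mem_image.2 ⟨(j, (π ^ j) s), Finset.mem_product.2 ⟨hj, Finset.mem_filter.2 ⟨Finset.mem_univ _,
        fun e => (Finset.mem_filter.1 hs).2 ((π ^ j).injective ?_), fun i => ?_⟩⟩, h8 j (Finset.mem_range.1 hj) s⟩
      · rw [← Equiv.Perm.mul_apply, ← pow_succ, pow_succ', Equiv.Perm.mul_apply, e]
      · rw [← Equiv.Perm.mul_apply, ← pow_add, pow_eq_pow_mod (i + j) h7]
        exact h2 _ (Finset.mem_range.2 (Nat.mod_lt _ (by decide)))).trans (Finset.card_image_le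
        (f := fun p : ℕ × Fin 240 => (π ^ (7 - p.1)) p.2)
        (s := Finset.range 7 ×ˢ Finset.univ.filter fun r => π r ≠ r ∧ ∀ j, r ≤ (π ^ j) r))
    rw [Finset.card_product, Finset.card_range] at h2
    rw [Finset.card_univ, Fintype.card_fin] at h1
    omega
  obtain ⟨-, h1, h2⟩ := Finset.mem_filter.1 hr
  have h4 : s = r := le_antisymm (((Finset.mem_filter.1 hs).2.2 (7 - j)).trans_eq (by rw [e, h8 j hj])) (e ▸ h2 j)
  refine ⟨h4, of_not_not fun h0 => h1 ?_⟩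
  have := Fact.mk (by norm_num : Nat.Prime 7)
  exact zpowers_le.2 (show π ^ j ∈ MulAction.stabilizer _ r from e.symm.trans h4) (mem_zpowers_pow_iff.2 (by
    rw [orderOf_eq_prime h7 fun e => h1 (by simp [e])]
    interval_cases j <;> simp_all))

theorem e7 (x : chevE8.group (ZMod 3)) (hx : x ^ 7 = 1) : 33 ≤ dm ⊤ (rho x) 1 := by
  obtain ⟨ζ, hζ⟩ := exists_prim (N := 7 ^ 2) (by decide)
  obtain ⟨c, -, -, hn⟩ := conj_N (S := S3 h3K) lfK (by norm_num) (sep (by decide)) hζ (one_mem _) (FF_mem x) (by simp) (k := 1)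
    (by rw [pow_one, ← map_pow, hx, map_one])
  obtain ⟨w, π, ha⟩ := Gs.Sys.exists_act hn
  by_cases hπ : π = 1
  · obtain ⟨ζ, hζ⟩ := exists_prim (N := 7) (by decide)
    obtain ⟨q, V, h1, h2, -, h3⟩ := kac (by decide) hζ hx (Gs.Sys.mem_H ha.toMon hn fun i => hπ ▸ R.pos_sim i) c7
    have h4 := h3 1 0 1 (by decide) (by simp)
    rw [t7, h2] at h1
    rw [pow_one, show ind 0 0 = 1 from rfl] at h4
    have := Nat.le_of_ble_eq_true h1
    omega
  obtain ⟨w', h1, h2⟩ := ha.toMon.pow 7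
  rw [conj_pow, ← map_pow, hx, map_one, mul_one, mul_inv_cancel, ← R.h.map_one] at h1
  have h3 := h1.perm_eq (mon_h 1)
  obtain ⟨T, h4, h5⟩ := transv h3 (fix_le (iso_of_mem hn ha.toMon) (fun v => by
    rw [← h2, h1.w_eq (h3 ▸ mon_h (1 : Chr 8 KK))]; rfl) ha.rt hπ)
  have h6 : (∑ j ∈ Finset.range 7, (c * FF x * c⁻¹).1 ^ j).submatrix (fun r : T => R.ei r) (fun r : T => R.ei r) = 1 := by
    ext s r
    rw [submatrix_apply, Matrix.sum_apply, Finset.sum_eq_single 0 (fun j hj h0 => of_not_not fun e => ?_) (by simp)]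
    · rw [pow_zero, one_apply, one_apply]
      exact if_congr (ei_inj.trans Subtype.ext_iff.symm) rfl rfl
    obtain ⟨w', h6, -⟩ := ha.toMon.pow j
    exact h0 (h5 _ r.2 _ s.2 j (Finset.mem_range.1 hj) (R.ext ((h6.mono _ _ (by rwa [Units.val_pow_eq_pow_val])).trans (h6.rt _).symm))).2
  have h7 := rank_submatrix_le (∑ j ∈ Finset.range 7, (c * FF x * c⁻¹).1 ^ j) (fun r : T => R.ei r) (fun r : T => R.ei r)
  rw [h6, rank_one, Fintype.card_coe, show ∑ j ∈ Finset.range 7, (c * FF x * c⁻¹).1 ^ j =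
    c.1 * (∑ j ∈ Finset.range 7, x.1.1 ^ j).map (algebraMap _ KK) * (c⁻¹).1 by
      rw [← RingHom.mapMatrix_apply, map_sum, Finset.mul_sum, Finset.sum_mul]
      exact Finset.sum_congr rfl fun j _ => by rw [← Units.val_pow_eq_pow_val, conj_pow, map_pow]; rfl,
    rank_mul_eq_left_of_isUnit_det _ _ ((isUnit_iff_isUnit_det _).1 c⁻¹.isUnit),
    rank_mul_eq_right_of_isUnit_det _ _ ((isUnit_iff_isUnit_det _).1 c.isUnit), rank_map] at h7
  refine h4.trans (h7.trans (Submodule.finrank_mono ?_))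
  rintro _ ⟨v, rfl⟩
  refine ⟨trivial, Module.End.mem_eigenspace_iff.2 ?_⟩
  change x.1.1 *ᵥ _ *ᵥ v = (1 : ZMod 3) • (_ *ᵥ v)
  rw [one_smul, mulVec_mulVec, ← sub_eq_zero, ← sub_mulVec, ← sub_one_mul, mul_geom_sum,
    show x.1.1 ^ 7 = 1 from congrArg (fun a => a.1.1) hx, sub_self, zero_mulVec]

end Cfsg.Agent.H4.Fx
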