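import Cfsg.Agent.H4.BmA

/-!
Fixed vectors of groups generated by minimal parabolic subgroups.
-/

set_option autoImplicit false
set_option linter.unusedSectionVars false

namespace Cfsg.Agent.H4.Bm

open Module BP T8

/-- possible traces -/
def poss (y z : ℤ) : List ℤ := (L8.filter fun p => p.2.1 = y ∧ p.2.2 = z ∧ p.1 ≠ 248).map (·.1)

theorem mem_poss {a b c : ℤ} (h : (a, b, c) ∈ L8) (ha : a ≠ 248) : a ∈ poss b c :=
  List.mem_map.2 ⟨_, List.mem_filter.2 ⟨h, by simpa using ha⟩, rfl⟩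

/-- a multiplicity is a natural number -/
abbrev Ok (m s : ℤ) : Prop := 0 ≤ s ∧ s % m = 0

/-- checks for a minimal parabolic subgroup -/
noncomputable def stepB (mu : ℕ → ℕ → ℕ) (I : ℕ) (vb ib : ℕ → Bool) (x y : ℕ) (zl : List ℕ) : Bool :=
  vb y && ib x && Nat.beq (mu x x) I && Nat.beq (mu y y) I && Nat.beq (mu y (mu x y)) (mu x (mu y x)) && zl.all fun z =>
    Nat.beq z (2 * x + 1) || (Nat.beq (z % 2) 0 && vb (z / 2) && ib (mu y (mu (z / 2) y)) && ib (mu y (mu x (mu (z / 2) (mu x y)))))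

variable {k V : Type*} [Field k] [AddCommGroup V] [Module k V] [FiniteDimensional k V] {G : Type*} [Group G]
  {mu : ℕ → ℕ → ℕ} {I : ℕ} {vb : ℕ → Bool} {Val : ℕ → Prop} {φ : ℕ → G} (M : Mdl mu I vb Val φ) (ρ : G →* End k V)
include M

theorem fix_prods {zs : List ℕ} (hz : ∀ z ∈ zs, Val z) {v : V} (hv : v ∈ fx ((zs.map (2 * ·)).map (op ρ φ))) :
    ∀ a ∈ prods mu I zs, ρ (φ a) v = v := fun a ha =>
  (prods_ind M (P := fun a => Val a ∧ ρ (φ a) v = v) ⟨M.val_e, by simp [M.φ_e]⟩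
    (fun a b ha hb => ⟨M.val_mu _ _ ha.1 hb.1, by simp [M.φ_mu _ _ ha.1 hb.1, ha.2, hb.2]⟩)
    (fun z h => ⟨hz z h, op_two ρ z ▸ mem_fx.1 hv _ (List.mem_map_of_mem (List.mem_map_of_mem h))⟩) a ha).2

theorem stepB_spec {B : Subgroup G} {ib : ℕ → Bool} (hi : ∀ a, ib a = true → Val a ∧ φ a ∈ B) {x y : ℕ} {zl : List ℕ}
    (h : stepB mu I vb ib x y zl = true) (U : Submodule k V) (hU : ∀ v ∈ U, ∀ g ∈ B, ρ g v = v) :
    finrank k U ≤ finrank k (fx (zl.map (op ρ φ))) + finrank k ↥(U ⊓ (ρ (φ y)).eigenspace 1) := by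
  simp only [stepB, Bool.and_eq_true, Bool.or_eq_true, List.all_eq_true, Nat.beq_eq] at h
  obtain ⟨⟨⟨⟨⟨hy, hx⟩, h1⟩, h2⟩, h3⟩, h4⟩ := h
  replace hy := M.vb _ hy
  obtain ⟨hx, hx'⟩ := hi _ hx
  replace h1 : ∀ v, ρ (φ x) (ρ (φ x) v) = v := fun v => by
    rw [← End.mul_apply, ← map_mul, ← M.φ_mu _ _ hx hx, h1, M.φ_e, map_one, End.one_apply]
  replace h2 : ∀ v, ρ (φ y) (ρ (φ y) v) = v := fun v => by
    rw [← End.mul_apply, ← map_mul, ← M.φ_mu _ _ hy hy, h2, M.φ_e, map_one, End.one_apply]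
  replace h3 := congrArg (fun a => ρ (φ a)) h3
  simp only [M.φ_mu _ _ hy (M.val_mu _ _ hx hy), M.φ_mu _ _ hx (M.val_mu _ _ hy hx), M.φ_mu _ _ hx hy, M.φ_mu _ _ hy hx,
    map_mul] at h3
  refine finrank_le_add _ _ _ (ρ (φ y) - ρ (φ x) * ρ (φ y)) (fun v hv => mem_fx.2 (List.forall_mem_map.2 fun z hz => ?_))
    fun v hv e => ⟨hv, ?_⟩
  · rcases h4 z hz with rfl | ⟨⟨⟨h5, h6⟩, h7⟩, h8⟩
    · simp [op, pow_succ, show (2 * x + 1) / 2 = x by omega, h1]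
    replace h6 := M.vb _ h6
    have h9 := congrArg (ρ (φ y)) (hU v hv _ (hi _ h7).2)
    have h10 := congrArg (fun w => ρ (φ x) (ρ (φ y) w)) (hU v hv _ (hi _ h8).2)
    simp only [M.φ_mu _ _ hy (M.val_mu _ _ hx (M.val_mu _ _ h6 (M.val_mu _ _ hx hy))), M.φ_mu _ _ hx (M.val_mu _ _ h6 (M.val_mu _ _ hx hy)),
      M.φ_mu _ _ h6 (M.val_mu _ _ hx hy), M.φ_mu _ _ hx hy, M.φ_mu _ _ hy (M.val_mu _ _ h6 hy), M.φ_mu _ _ h6 hy, map_mul,
      End.mul_apply, h1, h2] at h9 h10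
    simp [op, (Nat.even_iff.2 h5).neg_one_pow, h9, h10]
  · have h5 := LinearMap.congr_fun h3 v
    simp only [LinearMap.sub_apply, End.mul_apply, sub_eq_zero] at e
    simp only [End.mul_apply, ← e, h2, hU v hv _ hx'] at h5
    simpa using h5.symm

end Cfsg.Agent.H4.Bm
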