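import Cfsg.Agent.H4.LpA
import Cfsg.Agent.H4.T8F

/-!
Fixed vectors of groups generated by minimal parabolic subgroups, II.
-/

set_option autoImplicit false
set_option linter.unusedSectionVars false

namespace Cfsg.Agent.H4.Bm

open Module BP T8

theorem ok {m s s' : ℤ} {k n : ℕ} (h : s' = 2 ^ k * (n : ℤ)) (e : s = s' := by ring) (hm : m = 2 ^ k := by rfl) : Ok m s := by
  subst h e hm
  exact ⟨by positivity, Int.mul_emod_right ..⟩

variable {V : Type*} [AddCommGroup V] [Module (ZMod 3) V] [FiniteDimensional (ZMod 3) V] {G : Type*} [Group G]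
  {mu : ℕ → ℕ → ℕ} {I : ℕ} {vb : ℕ → Bool} {Val : ℕ → Prop} {φ : ℕ → G} (M : Mdl mu I vb Val φ) {ρ : G →* End (ZMod 3) V}
include M

theorem chain_fix {B : Subgroup G} {ib : ℕ → Bool} (hi : ∀ a, ib a = true → Val a ∧ φ a ∈ B) {xs ys : ℕ → ℕ}
    {zl : ℕ → List ℕ} {n : ℕ} (h : ∀ i < n, stepB mu I vb ib (xs i) (ys i) (zl i) = true) (U : Submodule (ZMod 3) V)
    (hU : ∀ v ∈ U, ∀ g ∈ B, ρ g v = v)
    (hn : ∑ i ∈ Finset.range n, finrank (ZMod 3) (fx ((zl i).map (op ρ φ))) < finrank (ZMod 3) U) :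
    ∃ v ∈ U, v ≠ 0 ∧ ∀ i < n, ρ (φ (ys i)) v = v := by
  induction n generalizing U with
  | zero => simpa using U.exists_mem_ne_zero_of_ne_bot fun e => by subst e; simp at hn
  | succ n ih =>
    rw [Finset.sum_range_succ] at hn
    obtain ⟨v, h1, h2, h3⟩ := ih (fun i hi => h i (by omega)) (U ⊓ (ρ (φ (ys n))).eigenspace 1) (fun v hv => hU v hv.1)
      (lt_of_add_lt_add_left ((add_comm _ _).trans_lt (hn.trans_le
        (stepB_spec M ρ hi (h n n.lt_succ_self) U hU))))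
    exact ⟨v, h1.1, h2, Nat.forall_lt_succ_right.2 ⟨h3, by simpa using h1.2⟩⟩

theorem mem_poss_rep (h : Fac ρ) {rep sq : ℕ → ℕ} (hr : ∀ j, Val (rep j)) (h0 : rep 0 = I) {n : ℕ}
    (hs : ∀ j < n, mu (rep j) (rep j) = rep (sq j) ∧ sq j < n ∧ sq (sq (sq j)) = 0) {j : ℕ} (hj : j < n)
    (h1 : φ (rep j) ≠ 1) : tau ⊤ (ρ (φ (rep j))) ∈ poss (tau ⊤ (ρ (φ (rep (sq j))))) (tau ⊤ (ρ (φ (rep (sq (sq j)))))) :=
  mem_poss (h.tri M (hr j) (hs j hj).1 (hs _ (hs j hj).2.1).1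
    ((hs _ (hs _ (hs j hj).2.1).2.1).1.trans ((congrArg rep (hs j hj).2.2).trans h0))) (h.tau_ne h1)

end Cfsg.Agent.H4.Bm
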