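import Cfsg.Agent.H4.Max2

/-! Maximal subgroups of `PGL₂(q)`, `q` odd. -/

set_option autoImplicit false
set_option linter.unusedSectionVars false

namespace Cfsg.Agent.H4.Max

open MulAction Matrix Cfsg.Agent.H4.Mob Cfsg.Agent.H4.MobCard Cfsg.Agent.H4.Bar Cfsg.Agent.H4.Pair
  Cfsg.Agent.H4.Dick Cfsg.Agent.H4.Quat Cfsg.Agent.H4.Subf

variable {F : Type*} [Field F] [Finite F]

theorem classify_top (h2 : (2 : F) ≠ 0) (h4 : 4 ≤ Nat.card F) {M : Subgroup (PG F)} (hM : IsCoatom M)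
    (hML : ¬ LS F ≤ M) :
    (∃ x : P1 F, M = stabilizer (PG F) x) ∨
    (∃ x y, IsPair x y ∧ M = Nor x y ∧ Nat.card (Tor x y) ≠ 4) ∨
    ((Nat.card F).Prime ∧ ¬ IsSquare (2 : F) ∧ Nonempty (M ≃* Equiv.Perm (Fin 4))) ∨
    ∃ (g : PG F) (E : Subfield F) (r : ℕ), r.Prime ∧ Odd r ∧ Nat.card F = Nat.card E ^ r ∧
      3 ≤ Nat.card E ∧ cj g M = PGsub E := by
  obtain ⟨p, _⟩ := CharP.exists F
  have ho := odd_of_two_ne h2
  have hL : ¬ M ≤ LS F := fun e => by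
    rcases hM.le_iff.1 e with h | h
    · have := index_LS_odd F ho
      rw [h] at this
      simp at this
    · exact hML h.le
  have hM' := mx_of_coatom_top hM hML
  rcases hM'.classify h4 p with ⟨x, e⟩ | ⟨x, y, hxy, e⟩ | ⟨-, -, -, -, ⟨e⟩⟩ |
    ⟨-, h1, h3, e⟩ | ⟨-, -, -, -, ⟨e⟩⟩ | ⟨g, E, r, hr, h', h3, e⟩
  · exact Or.inl ⟨x, by rwa [top_inf_eq] at e⟩
  · rw [top_inf_eq] at e
    refine Or.inr (Or.inl ⟨x, y, hxy, e, fun hT => ?_⟩)
    obtain ⟨a, b, hab, -⟩ := exists_ab (F := F)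
    have h5 : Nat.card F = 5 := by have := hxy.card; omega
    have := hM'.not_sylow (p := 2) (k := 3) Nat.prime_two
      (by rw [e, card_dihedral hxy.dihedral_top, hT]; rfl)
      (by rw [Subgroup.card_top, card_PG, h5]; norm_num) (B := N0 h2 hab) le_top
      (not_LS_le_of_card (card_N0_le h2 hab) h4 (by norm_num)) (by rw [card_N0]; norm_num)
    rw [card_N0] at this
    omega
  · exact absurd (A4_le_LS e) hL
  · exact Or.inr (Or.inr (Or.inl ⟨h1 ▸ char_prime (F := F) p, mt h3.2 hL, e⟩))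
  · exact absurd (A5_le_LS e) hL
  · rw [top_inf_eq] at e
    refine Or.inr (Or.inr (Or.inr ⟨g, E, r, hr, hr.odd_of_ne_two ?_, h', h3, e⟩))
    rintro rfl
    have := e.le.trans (PGsub_le_LS h2 h')
    rw [cj_le_iff, cj_normal] at this
    exact hL this

end Cfsg.Agent.H4.Max
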