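import Cfsg.Agent.H4.T8A1
import Cfsg.Agent.H4.T8A2

/-!
`PSL₂(32)` is not a subgroup of `E₈(3)`.
-/

set_option autoImplicit false
set_option maxRecDepth 100000

namespace Cfsg.Agent.H4.T8.L32

open BP Module Matrix Polynomial

/-- a bit -/
def β (a i : ℕ) : ZMod 2 := ((a / 2 ^ i : ℕ) : ZMod 2)

theorem c_add : allLt (fun a => allLt (fun b => Nat.blt (Nat.xor a b) 32 &&
    allLt (fun i => decide (β (Nat.xor a b) i = β a i + β b i)) 5) 32) 32 = true := by decide +kernel

theorem c_mul : allLt (fun a => allLt (fun b => Nat.blt (fm a b) 32 && decide (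
    β (fm a b) 0 = (β a 0 * β b 0) - (β a 1 * β b 4 + β a 2 * β b 3 + β a 3 * β b 2 + β a 4 * β b 1) + (β a 4 * β b 4) ∧
    β (fm a b) 1 = (β a 0 * β b 1 + β a 1 * β b 0) - (β a 2 * β b 4 + β a 3 * β b 3 + β a 4 * β b 2) ∧
    β (fm a b) 2 = (β a 0 * β b 2 + β a 1 * β b 1 + β a 2 * β b 0) - (β a 1 * β b 4 + β a 2 * β b 3 + β a 3 * β b 2 + β a 4 * β b 1) - (β a 3 * β b 4 + β a 4 * β b 3) + (β a 4 * β b 4) ∧
    β (fm a b) 3 = (β a 0 * β b 3 + β a 1 * β b 2 + β a 2 * β b 1 + β a 3 * β b 0) - (β a 2 * β b 4 + β a 3 * β b 3 + β a 4 * β b 2) - (β a 4 * β b 4) ∧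
    β (fm a b) 4 = (β a 0 * β b 4 + β a 1 * β b 3 + β a 2 * β b 2 + β a 3 * β b 1 + β a 4 * β b 0) - (β a 3 * β b 4 + β a 4 * β b 3))) 32) 32 = true := by decide +kernel

variable {F : Type*} [Field F] (f : ZMod 2 →+* F) (θ : F)

/-- the coded element -/
def t (a : ℕ) : F := f (β a 0) + f (β a 1) * θ + f (β a 2) * θ ^ 2 + f (β a 3) * θ ^ 3 + f (β a 4) * θ ^ 4

theorem t_zero : t f θ 0 = 0 := by simp [t, β]

theorem t_one : t f θ 1 = 1 := by simp [t, β]

/-- the coded matrix -/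
def T (a : ℕ) : Matrix (Fin 2) (Fin 2) F := toM (Equiv.refl _) (t f θ) 5 a

variable {θ} (hθ : θ ^ 5 + θ ^ 2 + 1 = 0)
include hθ

theorem cod : Cod (t f θ) 5 Nat.xor fm where
  zero := t_zero f θ
  add a ha b hb := by
    have h := allLt_spec (allLt_spec c_add a ha) b hb
    rw [Bool.and_eq_true, Nat.blt_eq] at h
    have h1 := fun i hi => of_decide_eq_true (allLt_spec h.2 i hi)
    refine ⟨h.1, ?_⟩
    rw [t, h1 0 (by decide), h1 1 (by decide), h1 2 (by decide), h1 3 (by decide), h1 4 (by decide)]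
    simp only [t, map_add]
    ring
  mul a ha b hb := by
    have h := allLt_spec (allLt_spec c_mul a ha) b hb
    rw [Bool.and_eq_true, Nat.blt_eq, decide_eq_true_eq] at h
    obtain ⟨h0, h1, h2, h3, h4, h5⟩ := h
    refine ⟨h0, ?_⟩
    rw [t, h1, h2, h3, h4, h5]
    simp only [t, map_add, map_sub, map_mul]
    linear_combination -((f (β a 1) * f (β b 4) + f (β a 2) * f (β b 3) + f (β a 3) * f (β b 2) + f (β a 4) * f (β b 1)) +
      (f (β a 2) * f (β b 4) + f (β a 3) * f (β b 3) + f (β a 4) * f (β b 2)) * θ +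
      (f (β a 3) * f (β b 4) + f (β a 4) * f (β b 3)) * θ ^ 2 + (f (β a 4) * f (β b 4)) * (θ ^ 3 - 1)) * hθ

omit hθ in
attribute [local irreducible] fm dg in
theorem m2_eq (a b : ℕ) : m2 a b = mm 5 2 Nat.xor fm a b := by
  have h : ∀ x i, dg 5 x i = Nat.land (Nat.shiftRight x (5 * i)) 31 := fun x i => by
    rw [dg]; exact (Nat.and_two_pow_sub_one_eq_mod _ 5).symm
  have h0 : ∀ x, Nat.xor 0 x = x := Nat.zero_xor
  simp only [m2, mm, force_eq]
  change _ = Nat.add (Nat.xor (Nat.xor 0 (fm (dg 5 a 0) (dg 5 b 0))) (fm (dg 5 a 1) (dg 5 b 2)))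
    (Nat.shiftLeft (Nat.add (Nat.xor (Nat.xor 0 (fm (dg 5 a 0) (dg 5 b 1))) (fm (dg 5 a 1) (dg 5 b 3)))
    (Nat.shiftLeft (Nat.add (Nat.xor (Nat.xor 0 (fm (dg 5 a 2) (dg 5 b 0))) (fm (dg 5 a 3) (dg 5 b 2)))
    (Nat.shiftLeft (Nat.add (Nat.xor (Nat.xor 0 (fm (dg 5 a 2) (dg 5 b 1))) (fm (dg 5 a 3) (dg 5 b 3))) 0) 5)) 5)) 5)
  simp only [h, h0]
  rfl

theorem T_mul (a b : ℕ) : T f θ (m2 a b) = T f θ a * T f θ b := by
  rw [m2_eq]; exact toM_mm _ (cod f hθ) a b

omit hθ in
theorem T_e : T f θ 32769 = 1 := by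
  ext i j
  fin_cases i <;> fin_cases j
  exacts [t_one f θ, t_zero f θ, t_zero f θ, t_one f θ]

theorem mdl : Mdl mu 32769 vb (PV SpecialLinearGroup.coeMonoidHom (T f θ))
    (Pφ SpecialLinearGroup.coeMonoidHom (QuotientGroup.mk' (Subgroup.center (SpecialLinearGroup (Fin 2) F))) (T f θ)) := by
  refine pmdl Subtype.val_injective (T_mul f hθ) (T_e f) (fun a h => ⟨⟨T f θ a, ?_⟩, rfl⟩)
    (fun _ => ⟨1, (T_e f).symm, map_one _⟩) _
  have h1 := (cod f hθ).mul _ (dg_lt 5 a 0) _ (dg_lt 5 a 3)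
  have h2 := (cod f hθ).mul _ (dg_lt 5 a 1) _ (dg_lt 5 a 2)
  have h3 := ((cod f hθ).add _ h1.1 _ h2.1).2
  have h4 := congrArg f (show (1 : ZMod 2) + 1 = 0 from rfl)
  rw [Nat.eq_of_beq_eq_true h, t_one, h1.2, h2.2] at h3
  rw [map_add, map_one, map_zero] at h4
  rw [det_fin_two]
  change t f θ (dg 5 a 0) * t f θ (dg 5 a 3) - t f θ (dg 5 a 1) * t f θ (dg 5 a 2) = 1
  linear_combination -h3 - t f θ (dg 5 a 1) * t f θ (dg 5 a 2) * h4

omit hθ in
theorem dm_three {V : Type*} [AddCommGroup V] [Module (ZMod 3) V] [FiniteDimensional (ZMod 3) V]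
    {g : End (ZMod 3) V} (h : g ^ 33 = 1) : dm ⊤ (g ^ 3) 1 ≤ 3 * dm ⊤ g 1 := by
  refine finrank_le_three _ _ (g ^ 11 - 1) (fun v hv => ⟨trivial, ?_⟩) (fun v hv e => ⟨trivial, ?_⟩) fun v _ => ?_
  · have := End.mem_eigenspace_iff.1 hv.2
    rw [one_smul] at this
    refine End.mem_eigenspace_iff.2 ?_
    rw [one_smul, ← End.mul_apply, mul_sub, ← pow_add, add_comm, pow_add, mul_one]
    simp [this]
  · have h1 := End.mem_eigenspace_iff.1 hv.2
    rw [one_smul] at h1
    rw [LinearMap.sub_apply, sub_eq_zero, End.one_apply] at e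
    have h2 : (g * g ^ 11) v = (g ^ 3 * (g ^ 3 * (g ^ 3 * g ^ 3))) v := by rw [← pow_succ', ← pow_add, ← pow_add, ← pow_add]
    simpa [e, h1] using h2
  · have h1 : (g ^ 11) ((g ^ 11) ((g ^ 11) v)) = v := by
      rw [← End.mul_apply, ← End.mul_apply, ← pow_add, ← pow_add, h, End.one_apply]
    simp only [LinearMap.sub_apply, End.one_apply, map_sub, h1]
    linear_combination (norm := abel) three ((g ^ 11) v) - three ((g ^ 11) ((g ^ 11) v))

omit hθ in
attribute [local irreducible] z1 z2 mu elsC op sop in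
theorem not_fac [Fintype F] (hF : Fintype.card F = 32) {V : Type*} [AddCommGroup V] [Module (ZMod 3) V]
    [FiniteDimensional (ZMod 3) V] (ρ : ProjectiveSpecialLinearGroup (Fin 2) F →* End (ZMod 3) V) : ¬ Fac ρ := fun h => by
  have : CharP F 2 := charP_of_card_eq_prime_pow (p := 2) (f := 5) hF
  obtain ⟨θ, hθ⟩ := exists_root (F := F) (X ^ 5 + X ^ 2 + 1)
    (X ^ 27 + X ^ 24 + X ^ 22 + X ^ 21 + X ^ 18 + X ^ 17 + X ^ 16 + X ^ 15 + X ^ 14 + X ^ 10 + X ^ 9 + X ^ 7 + X ^ 6 + X ^ 5 + X ^ 3 + X ^ 1)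
    (by monicity!) (lt_of_le_of_lt (show _ ≤ 27 by compute_degree) (by omega)) fun x => by
      simp only [hF, eval_add, eval_pow, eval_X, eval_one]
      linear_combination (1 * x ^ 1 + 1 * x ^ 3 + 1 * x ^ 5 + 1 * x ^ 6 + 1 * x ^ 7 + 1 * x ^ 8 + 1 * x ^ 9 + 1 * x ^ 10 + 1 * x ^ 11 + 1 * x ^ 12 + 1 * x ^ 14 + 1 * x ^ 15 + 1 * x ^ 16 + 1 * x ^ 17 + 1 * x ^ 18 + 1 * x ^ 19 + 1 * x ^ 20 + 1 * x ^ 21 + 1 * x ^ 22 + 1 * x ^ 23 + 1 * x ^ 24 + 1 * x ^ 26 + 1 * x ^ 27 + 1 * x ^ 29) * CharTwo.two_eq_zero (R := F)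
  simp only [eval_add, eval_pow, eval_X, eval_one] at hθ
  let f := ZMod.castHom (dvd_refl 2) F
  have M := mdl f hθ
  have hu := Pφ_ne (j := SpecialLinearGroup.coeMonoidHom) (π := QuotientGroup.mk' (Subgroup.center _)) Subtype.val_injective (T_mul f hθ)
    (fun s => (QuotientGroup.eq_one_iff s).1) (M.vb 32801 (by decide +kernel)) (M.vb 1056 (by decide +kernel)) fun e => by
      rw [show m2 32801 1056 = 1057 by decide +kernel, show m2 1056 32801 = 33824 by decide +kernel] at e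
      exact one_ne_zero ((t_one f θ).symm.trans ((congrFun (congrFun e 0) 0).trans (t_zero f θ)))
  revert M hu
  generalize PV SpecialLinearGroup.coeMonoidHom (T f θ) = Val
  generalize Pφ SpecialLinearGroup.coeMonoidHom (QuotientGroup.mk' (Subgroup.center (SpecialLinearGroup (Fin 2) F)))
    (T f θ) = φ
  intro M hu
  have hr : ∀ j < 8, _ := fun j hj => M.vb _ (allLt_spec (f := fun j => vb (rep j)) (by decide +kernel) j hj)
  have hv : ∀ s : Fin 32, Val (32769 + 32 * s) := fun s => M.vb _ (by revert s; decide +kernel)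
  have h1 := grpB_spec M ρ (by decide) hr c_z1
  have h2 := grpB_spec M ρ (by decide) hr c_z2
  have h3 := grpB_chain M ρ c_z1
  have h4 := grpB_chain M ρ c_z2
  have h5 := fun a ha => ((elsC_spec M ρ h3.1).1 a ha)
  have h6 := fun a ha => ((elsC_spec M ρ h4.1).1 a ha)
  have h7 := h.invol (by
    rw [← M.φ_mu 32801 32801 (hv 1) (hv 1), ← M.φ_e]; exact congrArg _ (by decide +kernel)) hu
  simp only [Finset.sum_range_succ, Finset.sum_range_zero, show rep 0 = 32769 from rfl, show rep 1 = 32801 from rfl,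
    M.φ_e, h.tau_one, List.getD_cons_succ, List.getD_cons_zero, show z1.length = 5 by decide +kernel,
    show z2.length = 5 by decide +kernel] at h1 h2
  rcases h7 with h7 | h7
  · have hz := fun i => pwN_spec M (M.vb 197664 (by decide +kernel)) i
    have h8 : φ 197664 ^ 33 = 1 := by rw [← (hz 33).2, ← M.φ_e]; exact congrArg _ (by decide +kernel)
    have h9 := h.e11 (φ 197664 ^ 3) (by rw [← pow_mul, h8])
    have h10 := dm_three (g := ρ (φ 197664)) (by rw [← map_pow, h8, map_one])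
    have h13 := fun r v => eq_zero_of_mem (by omega) (h3.2 r v)
    have h12 := finrank_le_one (⊤ ⊓ (ρ (φ 197664)).eigenspace 1) _ _ (fun v _ => h4.2 429986 v) fun v hv h0 => by
        have e1 := mem_eig.1 hv
        have hZ : ∀ i, Val (Z2 i) ∧ ρ (φ (Z2 i)) v = v := fun i => by
          rw [show Z2 i = pwN mu 32769 197664 (i % 33) from Nat.eq_of_beq_eq_true (allLt_spec (f := fun i =>
            Nat.beq (Nat.land (Nat.shiftRight tZ (Nat.mul 20 i)) 1048575) (pwN mu 32769 197664 i)) (n := 33)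
            (by decide +kernel) _ (Nat.mod_lt _ (by decide))), (hz _).2, map_pow]
          exact ⟨(hz _).1, pow_fix e1 _⟩
        have hc := fun l P N P' N' => cert M ρ three (n := 1024) (rp := rp2) (idx := idx2) (pt := pt2) (by decide +kernel)
          hZ (p := 1) (by decide) (by decide +kernel) (L := sd2) (l := l) (P := P) (N := N) (P' := P') (N' := N') (by
            simp only [sd2, List.forall_mem_cons, List.not_mem_nil, false_imp_iff, implies_true, and_true]
            exact ⟨⟨_, 429986, h6, by decide +kernel, h0⟩, ⟨_, 65538, h5, by decide +kernel, h13 _ _⟩,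
              ⟨_, 1179652, h5, by decide +kernel, h13 _ _⟩⟩)
        have := (hc _ _ _ _ _ c2_0).trans ((hc _ _ _ _ _ c2_1).trans ((hc _ _ _ _ _ c2_2).trans (hc _ _ _ _ _ c2_3)))
        have := (cv_one _ (p := 1) (by decide)).symm.trans (this.trans (cv_self ..))
        rwa [show rp2 1 = 32769 by decide +kernel, M.φ_e, map_one] at this
    rw [map_pow] at h9
    rw [← dm] at h12
    omega
  · have hy := M.vb 589826 (by decide +kernel)
    have h8 := (h.e31 (φ 589826) (by rw [← (pwN_spec M hy 31).2, ← M.φ_e]; exact congrArg _ (by decide +kernel))).resolve_left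
      fun e => hu (by
        have e1 := M.φ_mu _ _ hy (hv 23)
        have e2 := M.φ_mu _ _ (hv 22) hy
        have e3 := M.φ_mu _ _ (hv 23) (hv 1)
        rw [e, one_mul] at e1
        rw [e, mul_one, show mu (32769 + 32 * (22 : Fin 32)) 589826 = mu 589826 (32769 + 32 * (23 : Fin 32)) by decide +kernel,
          e1] at e2
        rw [show mu (32769 + 32 * (23 : Fin 32)) (32769 + 32 * (1 : Fin 32)) = 32769 + 32 * (22 : Fin 32) by decide +kernel,
          ← e2, left_eq_mul] at e3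
        exact e3)
    have h10 := finrank_le_two (fx (z1.map (op ρ φ))) (⊤ ⊓ (ρ (φ 589826)).eigenspace 1) _ _ _ (h4.2 1236902)
      (h4.2 627088) fun v hv h0 h0' => by
        have hZ : ∀ i, Val (Z1 i) ∧ ρ (φ (Z1 i)) v = v := fun i => by
          have := allLt_spec (f := fun i => (elsC mu 32769 z1).any (Nat.beq (2 * Nat.add 32769 (Nat.mul 32 i)))) (n := 32)
            (by decide +kernel) _ (Nat.mod_lt i (by decide))
          simp only [List.any_eq_true, Nat.beq_eq, exists_eq_right'] at this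
          have := elsC_fix M ρ h3.1 hv this
          rwa [op_two, Nat.mul_div_cancel_left _ two_pos] at this
        have hc := fun l P N P' N' => cert M ρ three (n := 1024) (rp := rp1) (idx := idx1) (pt := pt1) (by decide +kernel)
          hZ (p := 1) (by decide) (by decide +kernel) (L := sd1) (l := l) (P := P) (N := N) (P' := P') (N' := N') (by
            simp only [sd1, List.forall_mem_cons, List.not_mem_nil, false_imp_iff, implies_true, and_true]
            exact ⟨⟨_, 1236902, h6, by decide +kernel, h0⟩, ⟨_, 627088, h6, by decide +kernel, h0'⟩⟩)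
        have := (hc _ _ _ _ _ c1_0).trans ((hc _ _ _ _ _ c1_1).trans ((hc _ _ _ _ _ c1_2).trans (hc _ _ _ _ _ c1_3)))
        have := (cv_two _ (p := 2) (q := 1) (by decide) (by decide)).symm.trans (this.trans (cv_self ..))
        rw [show rp1 1 = 32769 by decide +kernel, M.φ_e, map_one, show rp1 2 = 589826 by decide +kernel, sub_eq_zero] at this
        exact mem_eig.2 this
    rw [← dm] at h10
    omega

end Cfsg.Agent.H4.T8.L32
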