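import Cfsg.Agent.H4.T8F

/-!
`PSL₂(41)` is not a subgroup of `E₈(3)`.
-/

set_option autoImplicit false

namespace Cfsg.Agent.H4.T8.L41

open Module Matrix

variable {F : Type*} [Field F]

/-- unipotent elements -/
def uu (t : F) : SpecialLinearGroup (Fin 2) F := ⟨!![1, t; 0, 1], by simp⟩

theorem uu_pow (n : ℕ) : uu (1 : F) ^ n = uu (n : F) := by
  induction n with
  | zero => rw [pow_zero]; exact Subtype.ext (by rw [Nat.cast_zero]; exact one_fin_two)
  | succ n ih => rw [pow_succ, ih]; exact Subtype.ext ((mul_fin_two ..).trans (by simp [uu, add_comm]))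

theorem not_fac [Fintype F] (hF : Fintype.card F = 41) {V : Type*} [AddCommGroup V] [Module (ZMod 3) V]
    [FiniteDimensional (ZMod 3) V] (ρ : ProjectiveSpecialLinearGroup (Fin 2) F →* End (ZMod 3) V) : ¬ Fac ρ := fun h => by
  have h41 : (41 : F) = 0 := by simpa [hF] using FiniteField.cast_card_eq_zero F
  let g : SpecialLinearGroup (Fin 2) F := ⟨!![6, 0; 0, 7], by simp; linear_combination h41⟩
  have h1 := h.e41 (QuotientGroup.mk (uu 1)) (QuotientGroup.mk g) (by
    rw [← QuotientGroup.mk_pow, uu_pow, Nat.cast_ofNat, h41, ← Nat.cast_zero, ← uu_pow, pow_zero]; rfl) (by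
    rw [mul_inv_eq_iff_eq_mul, ← QuotientGroup.mk_pow, uu_pow, ← QuotientGroup.mk_mul, ← QuotientGroup.mk_mul]
    exact congrArg _ (Subtype.ext (((mul_fin_two ..).trans (by
      simp [show (36 : F) * 7 = 6 by linear_combination 6 * h41])).trans (mul_fin_two ..).symm)))
  have h2 := congrArg Subtype.val (Subgroup.mem_center_iff.1 ((QuotientGroup.eq_one_iff _).1 h1) ⟨!![1, 0; 1, 1], by simp⟩)
  simpa using congrFun (congrFun (((mul_fin_two ..).symm.trans h2).trans (mul_fin_two ..)) 1) 1

end Cfsg.Agent.H4.T8.L41
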