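import Cfsg.Agent.H4.T8T
import Cfsg.Agent.H4.T8F

/-!
Eigenvalue multiplicities, fusion in the torus, lattice automorphisms.
-/

set_option autoImplicit false
set_option linter.unusedSectionVars false

namespace Cfsg.Agent.H4.T8

open Matrix Subgroup Polynomial Cfsg.Agent.Chv Cfsg.Agent.H6.Gs Cfsg.Agent.H6.TorS

section rank

variable {k K : Type*} [Field k] [Field K] {ι : Type} [Fintype ι] [DecidableEq ι]

open Classical in
theorem rank_of_diag {P M Q : Matrix ι ι K} {D : ι → K} (hP : IsUnit P.det) (hQ : IsUnit Q.det)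
    (h : P * M * Q = diagonal D) : M.rank = Fintype.card {i // D i ≠ 0} := by
  rw [← rank_diagonal, ← h, rank_mul_eq_left_of_isUnit_det _ _ hQ, rank_mul_eq_right_of_isUnit_det _ _ hP]

open Classical in
theorem rank_map (f : k →+* K) (M : Matrix ι ι k) : (M.map f).rank = M.rank := by
  obtain ⟨L, L', D, h⟩ := Pivot.exists_list_transvec_mul_mul_list_transvec_eq_diagonal M
  have h1 : ∀ L : List (TransvectionStruct ι k), IsUnit (L.map TransvectionStruct.toMatrix).prod.det := fun L => by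
    rw [TransvectionStruct.det_toMatrix_prod]; exact isUnit_one
  have h2 : ∀ P : Matrix ι ι k, IsUnit P.det → IsUnit (P.map f).det := fun P hP => by
    rw [← RingHom.mapMatrix_apply, ← RingHom.map_det]; exact hP.map f
  rw [rank_of_diag (h1 L) (h1 L') h, rank_of_diag (D := f ∘ D) (h2 _ (h1 L)) (h2 _ (h1 L'))
    (by rw [← Matrix.map_mul, ← Matrix.map_mul, h, diagonal_map (map_zero f)]; rfl)]
  exact Fintype.card_congr (Equiv.subtypeEquivRight fun i => (_root_.map_ne_zero f))

open Classical in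
theorem dm_diag (f : k →+* K) {A : Matrix ι ι k} {P : GL ι K} {d : ι → K}
    (h : P.1 * A.map f * (P⁻¹).1 = diagonal d) (c : k) :
    dm ⊤ (toLin' A) c = ∑ i, if d i = f c then 1 else 0 := by
  have h1 := (toLin' (A - c • 1)).finrank_range_add_finrank_ker
  have h2 : (A - c • 1).rank = Fintype.card {i // d i - f c ≠ 0} := by
    rw [← rank_map f]
    refine rank_of_diag ((isUnit_iff_isUnit_det _).1 P.isUnit) ((isUnit_iff_isUnit_det _).1 P⁻¹.isUnit) ?_
    rw [Matrix.map_sub _ (map_sub f), mul_sub, sub_mul, h, smul_one_eq_diagonal, diagonal_map (map_zero f),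
      ← smul_one_eq_diagonal, mul_smul_comm, mul_one, smul_mul_assoc, ← Units.val_mul, mul_inv_cancel, Units.val_one,
      smul_one_eq_diagonal, diagonal_sub]
  rw [Module.finrank_fintype_fun_eq_card, map_sub, map_smul, toLin'_one] at h1
  rw [rank, ← toLin'_apply', map_sub, map_smul, toLin'_one, Fintype.card_subtype_compl] at h2
  have h3 := Fintype.card_subtype_le fun i => d i - f c = 0
  rw [dm, top_inf_eq, Module.End.eigenspace_def, Finset.sum_boole, ← Fintype.card_subtype, Nat.cast_id]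
  simp only [sub_eq_zero] at h2 h3
  change Module.finrank k (LinearMap.ker (toLin' A - c • LinearMap.id)) = _
  omega

theorem frob_diag (f : k →+* K) (φ : K →+* K) (hφ : φ.comp f = f) {A : Matrix ι ι k} {P : GL ι K} {d : ι → K}
    (h : P.1 * A.map f * (P⁻¹).1 = diagonal d) : Finset.univ.val.map (φ ∘ d) = Finset.univ.val.map d := by
  have h1 := congrArg charpoly h
  rw [coe_units_inv, charpoly_units_conj, charpoly_map, charpoly_diagonal] at h1
  have h2 := congrArg (Polynomial.map φ) h1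
  rw [Polynomial.map_map, hφ, h1, Polynomial.map_prod] at h2
  simp only [Polynomial.map_sub, map_X, map_C] at h2
  have h3 : ∀ d : ι → K, (∏ i, (X - C (d i))).roots = Finset.univ.val.map d := fun d => by
    rw [← roots_multiset_prod_X_sub_C (Finset.univ.val.map d), Multiset.map_map]; rfl
  rw [← h3, ← h3, h2]; rfl

end rank

theorem lattice_zero {l n p e : ℕ} [Fact p.Prime] {w : Lam l ≃+ Lam l} (hn : 0 < n) (h : ∀ v, w^[n] v = v)
    {a : Lam l →+ ZMod p} {t : ZMod p} (ht : ∀ d, t ^ d = 1 → e ∣ d) (he : l < e.totient)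
    (ha : ∀ v, a (w v) = t * a v) : a = 0 := by
  let W : Module.End ℤ (Lam l) := w.toAddMonoidHom.toIntLinearMap
  let φ : Module.End ℤ (Lam l) →+* Matrix (Fin l) (Fin l) ℚ :=
    (Int.castRingHom ℚ).mapMatrix.comp (LinearMap.toMatrixAlgEquiv' (R := ℤ) (n := Fin l)).toRingEquiv.toRingHom
  have hφ : Function.Injective φ :=
    (Matrix.map_injective Int.cast_injective).comp (LinearMap.toMatrixAlgEquiv' (R := ℤ) (n := Fin l)).injective
  have h1 : W ^ n = 1 := LinearMap.ext fun v => (Module.End.pow_apply W _ v).trans (h v)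
  obtain ⟨u, u', h2⟩ : IsCoprime (∏ d ∈ n.divisors with ¬ d.totient ≤ l, cyclotomic d ℚ) (φ W).charpoly :=
    IsCoprime.prod_left fun d hd => (cyclotomic.irreducible_rat (Nat.pos_of_mem_divisors
      (Finset.mem_filter.1 hd).1)).coprime_iff_not_dvd.2 fun h => (Finset.mem_filter.1 hd).2 (by
        simpa [natDegree_cyclotomic] using natDegree_le_of_dvd h (φ W).charpoly_monic.ne_zero)
  have h3 := congrArg (aeval (φ W)) ((Finset.prod_filter_mul_prod_filter_not _ (fun d => d.totient ≤ l) _).trans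
    (prod_cyclotomic_eq_X_pow_sub_one hn ℚ))
  have h4 := congrArg (aeval (φ W)) (congrArg ((∏ d ∈ n.divisors with d.totient ≤ l, cyclotomic d ℚ) * ·) h2)
  rw [map_sub, map_pow, aeval_X, ← map_pow, h1, map_one, map_one, sub_self] at h3
  rw [mul_add, mul_left_comm, map_add, map_mul, h3, map_mul, map_mul, aeval_self_charpoly, mul_one] at h4
  have h5 : aeval W (∏ d ∈ n.divisors with d.totient ≤ l, cyclotomic d ℤ) = 0 := hφ (by
    have := aeval_algHom_apply φ.toIntAlgHom W (∏ d ∈ n.divisors with d.totient ≤ l, cyclotomic d ℤ)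
    rw [← aeval_map_algebraMap ℚ, Polynomial.map_prod] at this
    simp only [map_cyclotomic] at this
    exact this.symm.trans (h4.symm.trans (by simp)))
  have h6 : ∀ (q : ℤ[X]) v, a (aeval W q v) = aeval t q * a v := fun q v => by
    induction q using Polynomial.induction_on' with
    | add p q hp hq => simp [hp, hq, add_mul]
    | monomial m c =>
      have : ∀ v, a ((W ^ m) v) = t ^ m * a v := by
        induction m with
        | zero => simp
        | succ m ih => exact fun v => by rw [pow_succ, Module.End.mul_apply, ih, pow_succ, mul_assoc, ← ha]; rfl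
      rw [aeval_monomial, aeval_monomial, ← Algebra.smul_def, LinearMap.smul_apply, map_zsmul, this, mul_assoc,
        ← Algebra.smul_def]
  refine AddMonoidHom.ext fun v => ?_
  have h7 := h6 (∏ d ∈ n.divisors with d.totient ≤ l, cyclotomic d ℤ) v
  rw [h5, LinearMap.zero_apply, map_zero, map_prod] at h7
  refine (mul_eq_zero.1 h7.symm).resolve_left (Finset.prod_ne_zero_iff.2 fun d hd h0 => ?_)
  obtain ⟨q, hq⟩ := cyclotomic.dvd_X_pow_sub_one d ℤ
  have h8 := congrArg (aeval t) hq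
  rw [map_mul, h0, zero_mul, map_sub, map_pow, aeval_X, map_one, sub_eq_zero] at h8
  have := Nat.le_of_dvd (Nat.totient_pos.2 (Nat.pos_of_mem_divisors (Finset.mem_filter.1 hd).1))
    (Nat.totient_dvd_of_dvd (ht d h8))
  have := (Finset.mem_filter.1 hd).2
  omega

variable {l : ℕ} {K : Type*} [Field K] {ι Φ : Type} [Fintype ι] [DecidableEq ι] [Fintype Φ] {R : RD ι Φ l}
  {S : H6.Gs.Sys R K}

open H6.Gs.Sys

theorem diag_conj {b : GL ι K} (hb : b ∈ S.B) (χ : Chr l K) (a : ι) :
    ((b * R.h χ * b⁻¹ : GL ι K) : Matrix ι ι K) a a = ev χ (R.wt a) := by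
  obtain ⟨ψ, u, hu, rfl⟩ := mem_B hb
  have h1 : R.h ψ * u * R.h χ * (R.h ψ * u)⁻¹ =
      R.h χ * (R.h ψ * ((R.h χ)⁻¹ * u * (R.h χ)⁻¹⁻¹ * u⁻¹) * (R.h ψ)⁻¹) := by
    calc _ = R.h χ * R.h ψ * (R.h χ)⁻¹ * u * R.h χ * (R.h ψ * u)⁻¹ := by rw [h_comm χ, mul_inv_cancel_right]
      _ = _ := by group
  rw [h1]
  exact Chv.Sys.diag_hu χ (U_le_Q (μ := fun _ => 1) (fun _ => one_pos) (H_conj _ (h_mem ψ) _
    (mul_mem (H_conj _ (inv_mem (h_mem χ)) _ hu) (inv_mem hu)))) a

theorem fusion {z : GL ι K} (hz : z ∈ S.Γ) {χ χ' : Chr l K} (e : z * R.h χ * z⁻¹ = R.h χ') :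
    ∃ w : Lam l ≃+ Lam l, (∃ n, 0 < n ∧ ∀ v, w^[n] v = v) ∧ ∀ v, ev χ' (w v) = ev χ v := by
  obtain ⟨b, hb, n, hn, b', hb', rfl⟩ := bruhat hz
  obtain ⟨w, π, h⟩ := exists_act hn
  refine ⟨w, ⟨Nat.card (Equiv.Perm Φ), Nat.card_pos, fun v => ?_⟩, fun v => ?_⟩
  · obtain ⟨w', h1, h2⟩ := h.toMon.pow (Nat.card (Equiv.Perm Φ))
    rw [pow_card_eq_one'] at h1
    rw [← h2, h1.w_eq (mon_h (1 : Chr l K))]; rfl
  refine congrArg (ev · v) (chr_ext (χ := cmp χ' w.toAddMonoidHom) fun j => Units.ext ?_)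
  have h1 : n * (b' * R.h χ * b'⁻¹) * n⁻¹ = b⁻¹ * R.h χ' * b⁻¹⁻¹ := by rw [← e]; group
  have h2 := h.entry ((b' * R.h χ * b'⁻¹ : GL ι K) : Matrix ι ι K) (R.sim j) (R.sim j)
  rw [mul_right_comm, h.unit, one_mul, ← Units.val_mul, ← Units.val_mul, h1, diag_conj (inv_mem hb), diag_conj hb',
    ← RD.rt, h.rt, RD.rt, R.rt_sim] at h2
  exact h2

end Cfsg.Agent.H4.T8
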